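import Cfsg.Agent.H4.Knorr
import Cfsg.Agent.H3.BPLift

/-! Exterior algebra characters and the Brauer lift of modules for `p'`-groups. -/

set_option autoImplicit false
set_option linter.unusedSectionVars false
set_option linter.style.haveILetI false

namespace Cfsg.Agent.H4

open Cfsg Cfsg.Agent.H3 Cfsg.Agent.H5 Polynomial Module
open scoped ComplexConjugate

theorem isGen_avg_fst {A B : Type*} [Group A] [Fintype A] [Group B] [Fintype B] {θ : A × B → ℂ}
    (hθ : IsGeneralizedCharacter (A × B) θ) :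
    IsGeneralizedCharacter B fun b => (Nat.card A : ℂ)⁻¹ * ∑ a, θ (a, b) := by
  classical
  let e : A ≃ (MonoidHom.snd A B).ker :=
    ⟨fun a => ⟨(a, 1), rfl⟩, fun n => n.1.1, fun _ => rfl, fun n => Subtype.ext (Prod.ext rfl n.2.symm)⟩
  have := (isGeneralizedCharacter_cosetAvg (MonoidHom.snd A B).ker hθ).comp (MonoidHom.inr A B)
  refine (congrArg (IsGeneralizedCharacter B) (funext fun b => ?_)).mp this
  simp only [cosetAvg, ← Nat.card_congr e]
  congr 1
  exact (Fintype.sum_equiv e _ _ fun a => by simp [e]).symm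

section Ext
variable {V : Type*} [AddCommGroup V] [Module ℂ V] [FiniteDimensional ℂ V]

theorem trace_extMap {n : ℕ} (b : Basis (Fin n) ℂ V) (f : End ℂ V) (ε : Fin n → ℂ)
    (h : ∀ i, f (b i) = ε i • b i) :
    LinearMap.trace ℂ _ (ExteriorAlgebra.map f).toLinearMap = ∏ i, (1 + ε i) := by
  rw [trace_eq_sum_of_eigenbasis b.ExteriorAlgebra _ (fun s => ∏ i ∈ s, ε i), Finset.prod_one_add,
    Finset.powerset_univ]
  intro s
  rw [ExteriorAlgebra.basis_apply, AlgHom.toLinearMap_apply, ExteriorAlgebra.map_apply_ιMulti]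
  simp only [Function.comp_def, h]
  rw [AlternatingMap.map_smul_univ]
  congr 1
  exact Finset.prod_bij (fun i _ => s.orderEmbOfFin rfl i) (by simp) (by simp)
    (fun i hi => by
      obtain ⟨j, hj⟩ : i ∈ Set.range (s.orderEmbOfFin rfl) := by simpa using hi
      exact ⟨j, Finset.mem_univ _, hj⟩) fun _ _ => rfl

/-- Twisting a representation by a linear character of a second factor. -/
noncomputable def twistRep {Y C : Type*} [Group Y] [Group C] (σ : Representation ℂ Y V)
    (μ : C →* ℂ) : Representation ℂ (C × Y) V where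
  toFun q := μ q.1 • σ q.2
  map_one' := by simp
  map_mul' a b := by simp [mul_smul, smul_comm (μ a.1)]

theorem exists_gen_det {Y : Type*} [Group Y] [Fintype Y] (σ : Representation ℂ Y V) :
    ∃ Λ, IsGeneralizedCharacter Y Λ ∧ ∀ y {n : ℕ} (b : Basis (Fin n) ℂ V) (ε : Fin n → ℂ),
      (∀ i, σ y (b i) = ε i • b i) → Λ y = ∏ i, (1 - ε i) := by
  haveI : FiniteDimensional ℂ (ExteriorAlgebra ℂ V) :=
    Module.Finite.of_basis (finBasis ℂ V).ExteriorAlgebra
  let ρ := twistRep σ ((Int.castRingHom ℂ).toMonoidHom.comp (Units.coeHom ℤ))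
  let τ : Representation ℂ (ℤˣ × Y) (ExteriorAlgebra ℂ V) :=
    { toFun := fun q => (ExteriorAlgebra.map (ρ q)).toLinearMap
      map_one' := by rw [map_one, End.one_eq_id, ExteriorAlgebra.map_id]; rfl
      map_mul' := fun a b => by rw [map_mul, End.mul_eq_comp, ← ExteriorAlgebra.map_comp_map]; rfl }
  have h1 := (isCharacter_character τ).isGeneralizedCharacter
  have h2 := isGen_avg_fst h1
  refine ⟨_, (h2.add h2).sub (h1.comp (MonoidHom.inr _ _)), fun y n b ε h => ?_⟩
  have h3 : τ.character (-1, y) = ∏ i, (1 - ε i) := by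
    simp only [sub_eq_add_neg]
    exact trace_extMap b _ _ fun i => by simp [ρ, twistRep, h]
  simp only [Pi.sub_apply, Pi.add_apply, Nat.card_eq_fintype_card, Fintype.card_units_int,
    UnitsInt.univ, ← h3, MonoidHom.inr_apply]
  rw [Finset.sum_pair (by decide)]
  push_cast
  ring

end Ext

section Lift
variable {H κ : Type*} [Group H] [Fintype H] [DecidableEq H] [Fintype κ] [DecidableEq κ]

/-- Left translation on the first factor. -/
def trP (g : H) : Equiv.Perm (H × κ) := (Equiv.mulLeft g).prodCongr (Equiv.refl κ)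

variable (κ) in
/-- The permutation matrices of left translation. -/
def pmH (R : Type*) [CommRing R] : H →* Matrix (H × κ) (H × κ) R where
  toFun g := (trP g⁻¹).toPEquiv.toMatrix
  map_one' := by ext a b; simp [trP, Matrix.one_apply, PEquiv.toMatrix_apply]
  map_mul' g h := by
    rw [PEquiv.toMatrix_toPEquiv_mul]
    ext a b
    simp [trP, PEquiv.toMatrix_apply, Prod.ext_iff, mul_assoc]

theorem pmH_mul {R β : Type*} [CommRing R] (g : H) (Z : Matrix (H × κ) β R) (a : H × κ) (b : β) :
    (pmH κ R g * Z : Matrix (H × κ) β R) a b = Z (g⁻¹ * a.1, a.2) b :=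
  congrFun₂ (PEquiv.toMatrix_toPEquiv_mul _ Z) a b

theorem mul_pmH {R β : Type*} [CommRing R] (g : H) (Z : Matrix β (H × κ) R) (b : β) (a : H × κ) :
    (Z * pmH κ R g : Matrix β (H × κ) R) b a = Z b (g * a.1, a.2) := by
  refine (congrFun₂ (PEquiv.mul_toMatrix_toPEquiv Z (trP g⁻¹)) b a).trans ?_
  simp [trP, Prod.map]

theorem map_mul_aeval {R S Λ Λ' : Type*} [CommRing R] [CommRing S] [Ring Λ] [Algebra R Λ] [Ring Λ']
    [Algebra S Λ'] (f : R →+* S) (φ : Λ →+* Λ') (h : ∀ c x, φ (c • x) = f c • φ x) {z : Λ}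
    (hi : IsIdempotentElem (φ z)) (F : R[X]) : φ (z * aeval z F) = f (F.eval 1) • φ z := by
  induction F using Polynomial.induction_on' with
  | add f g hf hg => rw [map_add, mul_add, map_add, hf, hg, eval_add, map_add, add_smul]
  | monomial n c =>
    rw [aeval_monomial, ← Algebra.smul_def, mul_smul_comm, ← pow_succ', eval_monomial, one_pow,
      mul_one, h, map_pow, hi.pow_succ_eq]

variable {M : Ideal AlgInt} [hMm : M.IsMaximal]

theorem exists_lift_matrix (hH : (Nat.card H : Res M) ≠ 0) (ρ : H →* Matrix κ κ (Res M)) :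
    ∃ A : H →* Matrix (H × κ) (H × κ) (locRing M), ∀ g, (A g = 1 → ρ g = 1) ∧
      (X - 1) ^ Fintype.card κ * (A g).charpoly.map (resHom M) =
        (X - 1) ^ Fintype.card (H × κ) * (ρ g).charpoly := by
  let I : Matrix (H × κ) κ (Res M) := Matrix.of fun a j => ρ a.1⁻¹ a.2 j
  let J : Matrix κ (H × κ) (Res M) := Matrix.of fun i a => (Nat.card H : Res M)⁻¹ * ρ a.1 i a.2
  have hJI : J * I = 1 := by
    ext i j
    simp only [Matrix.mul_apply, Fintype.sum_prod_type, I, J, Matrix.of_apply, mul_assoc,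
      ← Finset.mul_sum]
    simp only [← Matrix.mul_apply, ← map_mul, mul_inv_cancel, map_one, Finset.sum_const,
      Finset.card_univ, nsmul_eq_mul, ← Nat.card_eq_fintype_card, inv_mul_cancel_left₀ hH]
  have hI : ∀ g, pmH κ (Res M) g * I = I * ρ g := fun g => by
    ext a j
    rw [pmH_mul]
    simp only [I, Matrix.of_apply, mul_inv_rev, inv_inv, map_mul, Matrix.mul_apply]
  have hJ : ∀ g, J * pmH κ (Res M) g = ρ g * J := fun g => by
    ext a j
    rw [mul_pmH]
    simp only [J, Matrix.of_apply, map_mul, Matrix.mul_apply, Finset.mul_sum, mul_left_comm]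
  let Z : Matrix (H × κ) (H × κ) (locRing M) := (I * J).map fun x => ⟨unred M x, unred_mem x⟩
  have hZ : ∀ g, pmH κ _ g * Z = Z * pmH κ _ g := fun g => by
    ext a b
    have h : pmH κ _ g * (I * J) = I * J * pmH κ _ g := by
      rw [← Matrix.mul_assoc, hI, Matrix.mul_assoc, Matrix.mul_assoc, hJ]
    have := congrFun₂ h a b
    rw [pmH_mul, mul_pmH] at this ⊢
    simp only [Z, Matrix.map_apply, this]
  let φ : Matrix (H × κ) (H × κ) (locRing M) →+* _ := (resHom M).mapMatrix
  have hφ : φ Z = I * J := by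
    ext a b
    exact (red_coe M _).symm.trans (red_unred _)
  have hφP : ∀ g, φ (pmH κ _ g) = pmH κ _ g := fun g => by
    ext a b
    simp [φ, pmH, PEquiv.toMatrix_apply, apply_ite (resHom M)]
  obtain ⟨F, h1, r, hr⟩ := BP.exists_fit Z.charpoly_monic
  have h2 : IsIdempotentElem (Z * aeval Z F) := by
    have := congrArg (aeval Z) hr
    rwa [map_mul _ Z.charpoly, Z.aeval_self_charpoly, zero_mul, map_sub, map_mul, map_mul, aeval_X,
      sub_eq_zero] at this
  have h3 : φ (Z * aeval Z F) = I * J := by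
    rw [map_mul_aeval (resHom M) φ (fun c x => by ext; simp [φ]) (by
      rw [hφ, IsIdempotentElem, Matrix.mul_assoc, ← Matrix.mul_assoc J, hJI, Matrix.one_mul]), h1,
      map_one, one_smul, hφ]
  have h4 : ∀ g, pmH κ _ g * (Z * aeval Z F) = Z * aeval Z F * pmH κ _ g := fun g => by
    rw [← mul_assoc, hZ, mul_assoc, BP.mul_aeval_swap (hZ g), mul_assoc]
  generalize Z * aeval Z F = E at h2 h3 h4
  let A : H →* Matrix (H × κ) (H × κ) (locRing M) :=
    { toFun := fun g => pmH κ _ g * E + (1 - E)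
      map_one' := by simp
      map_mul' := fun g h => by
        have e1 : E * (pmH κ _ h * E) = pmH κ _ h * E := by rw [← mul_assoc, ← h4, mul_assoc, h2.eq]
        simp only [map_mul, mul_add, add_mul, mul_sub, sub_mul, mul_assoc, e1, h2.eq, mul_one,
          one_mul]
        abel }
  have h5 : ∀ g, φ (A g) - 1 = I * ((ρ g - 1) * J) := fun g => by
    change φ (pmH κ _ g * E + (1 - E)) - 1 = _
    rw [map_add, map_mul, map_sub, map_one, h3, hφP, ← Matrix.mul_assoc, hI, Matrix.sub_mul,
      Matrix.mul_sub, Matrix.one_mul, Matrix.mul_assoc]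
    abel
  refine ⟨A, fun g => ⟨fun h => ?_, ?_⟩⟩
  · have := congrArg (fun T => J * T * I) (h5 g)
    simp only [h, map_one, sub_self, Matrix.mul_zero, Matrix.zero_mul, ← Matrix.mul_assoc, hJI,
      Matrix.one_mul] at this
    rw [Matrix.mul_assoc, hJI, Matrix.mul_one] at this
    exact sub_eq_zero.1 this.symm
  · have h6 := Matrix.charpoly_mul_comm' I ((ρ g - 1) * J)
    rw [← h5, Matrix.mul_assoc, hJI, Matrix.mul_one, ← map_one (Matrix.scalar κ),
      ← map_one (Matrix.scalar (H × κ)), Matrix.charpoly_sub_scalar, Matrix.charpoly_sub_scalar] at h6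
    have h7 := congrArg (fun q => q.comp (X - 1)) h6
    simp only [mul_comp, pow_comp, X_comp, comp_assoc, add_comp, one_comp, map_one, sub_add_cancel,
      comp_X] at h7
    rw [← Matrix.charpoly_map]
    exact h7

theorem charpoly_of_eigenbasis {K V ι : Type*} [Field K] [AddCommGroup V] [Module K V]
    [FiniteDimensional K V] [Fintype ι] (b : Basis ι K V) (f : End K V) (ε : ι → K)
    (h : ∀ i, f (b i) = ε i • b i) : f.charpoly = ∏ i, (X - C (ε i)) := by
  classical
  rw [← f.charpoly_toMatrix b, ← Matrix.charpoly_diagonal]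
  congr 1
  ext i j
  by_cases e : i = j <;> simp [LinearMap.toMatrix_apply, h, e]

theorem roots_prod_fin {K ι : Type*} [Field K] [Fintype ι] (x : ι → K) :
    (∏ i, (X - C (x i))).roots = Finset.univ.val.map x := by
  rw [← roots_multiset_prod_X_sub_C (Finset.univ.val.map x), Multiset.map_map]
  rfl

theorem prod_eq_of_red {p m n : ℕ} [Fact p.Prime] [CharP (Res M) p] (hm : ¬p ∣ m) {x y : Fin n → ℂ}
    (hx : ∀ i, x i ^ m = 1) (hy : ∀ i, y i ^ m = 1)
    (h : ∏ i, (X - C (red M (x i))) = ∏ i, (X - C (red M (y i)))) (f : ℂ → ℂ) :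
    ∏ i, f (x i) = ∏ i, f (y i) := by
  classical
  have hm0 : 0 < m := Nat.pos_of_ne_zero (by rintro rfl; exact hm (dvd_zero _))
  have h1 := congrArg roots h
  rw [roots_prod_fin, roots_prod_fin] at h1
  let g : Res M → ℂ := fun r => if h : ∃ z : ℂ, z ^ m = 1 ∧ red M z = r then h.choose else 0
  have hg : ∀ z : ℂ, z ^ m = 1 → g (red M z) = z := fun z hz => by
    have h2 : ∃ w : ℂ, w ^ m = 1 ∧ red M w = red M z := ⟨z, hz, rfl⟩
    obtain ⟨h3, h4⟩ := h2.choose_spec
    have h5 : red M z ≠ 0 := fun e => by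
      have := red_pow (mem_locRing_of_isIntegral M (isIntegral_of_pow_eq_one hm0 hz)) m
      rw [hz, e, zero_pow hm0.ne', red_one] at this
      exact one_ne_zero this
    simp only [g, dif_pos h2]
    refine (div_eq_one_iff_eq (ne_zero_of_red_ne_zero h5)).1 (eq_one_of_red_eq_one (M := M) hm
      (by rw [div_pow, h3, hz, div_one]) ?_)
    rw [red_div (mem_locRing_of_isIntegral M (isIntegral_of_pow_eq_one hm0 h3)) h5, h4, div_self h5]
  have h2 := congrArg (fun s => (s.map (f ∘ g)).prod) h1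
  simp only [Multiset.map_map, Function.comp_def, hg _ (hx _), hg _ (hy _)] at h2
  exact h2

end Lift

theorem exists_brauer_lift {p : ℕ} [hp : Fact p.Prime] {H : Type*} [Group H] [Finite H]
    (hH : ¬p ∣ Nat.card H) {U : Type*} [AddCommGroup U] [Module (ZMod p) U] [Finite U]
    (ρ : Representation (ZMod p) H U) (hsd : ∀ h, (ρ h⁻¹).charpoly = (ρ h).charpoly) :
    ∃ (n : ℕ) (σ : Representation ℂ H (Fin n → ℂ)), ∀ h, ∃ (d : ℕ) (b : Basis (Fin d) ℂ (Fin n → ℂ))
      (ε : Fin d → ℂ), (∀ i, ε i ^ Nat.card H = 1) ∧ (∀ i, σ h (b i) = ε i • b i) ∧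
      (∀ f : ℂ → ℂ, ∏ i, f (ε i)⁻¹ = ∏ i, f (ε i)) ∧ (∀ f : ℂ → ℂ, ∏ i, f (ε i ^ p) = ∏ i, f (ε i)) ∧
      p ^ Nat.card {i // ε i ≠ 1} ≤ Nat.card (LinearMap.range (ρ h - 1)) ∧
      ((∀ i, ε i = 1) → ρ h = 1) := by
  classical
  obtain ⟨M, hM⟩ := exists_isPModular p
  haveI := hM.2.1
  haveI := charP_res hM
  haveI := Fintype.ofFinite H
  let c := finBasis (ZMod p) U
  let ι := ZMod.castHom (dvd_refl p) (Res M)
  let ρ' : H →* Matrix _ _ (Res M) := (ι.mapMatrix.toMonoidHom.comp
    (LinearMap.toMatrixAlgEquiv c).toMonoidHom).comp ρ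
  have hρ : ∀ h, (ρ' h).charpoly = (ρ h).charpoly.map ι := fun h => by
    rw [← (ρ h).charpoly_toMatrix c, ← Matrix.charpoly_map]; rfl
  obtain ⟨A, hA⟩ := exists_lift_matrix ((CharP.cast_eq_zero_iff _ p _).not.2 hH) ρ'
  let σ : Representation ℂ H _ := (Matrix.toLinAlgEquiv'.toMonoidHom.comp
    (locRing M).subtype.mapMatrix.toMonoidHom).comp A
  obtain ⟨τ, ⟨e⟩⟩ := exists_rep_fin σ
  refine ⟨_, τ, fun h => ?_⟩
  obtain ⟨b, ε, h1, h2⟩ := exists_eigenbasis σ h _ Nat.card_pos pow_card_eq_one'
  have hz : ∀ (j : ℤ) i, (ε i ^ j) ^ Nat.card H = 1 := fun j i => by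
    rw [← zpow_natCast, ← zpow_mul, mul_comm, zpow_mul, zpow_natCast, h1, one_zpow]
  have hm : ∀ (j : ℤ) i, ε i ^ j ∈ locRing M := fun j i =>
    mem_locRing_of_isIntegral M (isIntegral_of_pow_eq_one Nat.card_pos (hz j i))
  have h3 : ∀ j : ℤ, (A (h ^ j)).charpoly.map (resHom M) = ∏ i, (X - C (red M (ε i ^ j))) := fun j => by
    have : (A (h ^ j)).charpoly = ∏ i, (X - C ⟨ε i ^ j, hm j i⟩) := by
      apply map_injective (locRing M).subtype Subtype.val_injective
      rw [← Matrix.charpoly_map, ← Matrix.charpoly_toLin']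
      refine (charpoly_of_eigenbasis b _ _ (h2 j)).trans ?_
      simp [Polynomial.map_prod]
    simp [this, Polynomial.map_prod, red_of_mem (hm j _)]
  have h4 := fun j : ℤ => (hA (h ^ j)).2
  simp only [h3, hρ] at h4
  have h0 : ∀ k, ((X : (Res M)[X]) - 1) ^ k ≠ 0 := fun k => pow_ne_zero _ (X_sub_C_ne_zero 1)
  have h5 := h4 1
  simp only [zpow_one] at h5
  have hd : finrank ℂ (H × Fin (finrank (ZMod p) U) → ℂ) = Fintype.card (H × Fin (finrank (ZMod p) U)) :=
    finrank_fintype_fun_eq_card ℂ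
  refine ⟨_, b.map e.toLinearEquiv, ε, h1, fun i => ?_, fun f => ?_, fun f => ?_, ?_, fun h6 => ?_⟩
  · have := e.toIntertwiningMap.isIntertwining _ _ h (b i)
    rw [show σ h (b i) = _ by simpa using h2 1 i, map_smul] at this
    exact this.symm
  · refine prod_eq_of_red (M := M) hH (by simpa using hz (-1)) h1 (mul_left_cancel₀ (h0 _) (Eq.trans ?_ h5.symm)) f
    rw [← hsd]
    simpa using h4 (-1)
  · refine prod_eq_of_red (M := M) hH (by simpa using hz p) h1 (mul_left_cancel₀ (h0 _) (Eq.trans ?_ h5.symm)) f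
    have h6 := congrArg (map (frobenius (Res M) p)) h5
    rw [Polynomial.map_mul, Polynomial.map_mul, map_map, Subsingleton.elim (RingHom.comp _ ι) ι] at h6
    simpa [Polynomial.map_prod, frobenius_def, fun i => red_pow (show ε i ∈ locRing M by
      simpa using hm 1 i) p] using h6
  · have h6 := congrArg (fun q => q.roots.count 1) h5
    have h7 := (ρ h).finrank_eigenspace_le 1
    rw [eq_rootMultiplicity_map ι.injective, map_one, ← count_roots, End.eigenspace_def, one_smul] at h7
    have h8 := (ρ h - 1).finrank_range_add_finrank_ker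
    rw [roots_mul (mul_ne_zero (h0 _) (monic_prod_of_monic _ _ fun _ _ => monic_X_sub_C _).ne_zero),
      roots_mul (mul_ne_zero (h0 _) ((ρ h).charpoly_monic.map _).ne_zero), ← C_1, roots_pow,
      roots_pow, roots_X_sub_C, roots_prod_fin] at h6
    simp only [Multiset.count_add, Multiset.count_nsmul, Multiset.count_singleton_self, mul_one,
      Fintype.card_fin, Multiset.count_map] at h6
    have h9 : Nat.card {i // ε i ≠ 1} + (Finset.univ.val.filter fun i => 1 = red M (ε i)).card =
        finrank ℂ (H × Fin (finrank (ZMod p) U) → ℂ) := by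
      rw [Nat.card_eq_fintype_card, Fintype.card_subtype, add_comm]
      refine Eq.trans ?_ ((Finset.card_filter_add_card_filter_not (fun i => ε i = 1)).trans
        (Finset.card_fin _))
      congr 1
      exact congrArg Multiset.card (Multiset.filter_congr fun i _ =>
        ⟨fun e => eq_one_of_red_eq_one hH (h1 i) e.symm, fun e => by rw [e, red_one]⟩)
    rw [Module.natCard_eq_pow_finrank (K := ZMod p) (V := LinearMap.range _), Nat.card_zmod]
    exact Nat.pow_le_pow_right hp.out.pos (by omega)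
  · have h7 : σ h = 1 := b.ext fun i => by simpa [h6] using h2 1 i
    have h8 := (hA h).1 (Matrix.map_injective Subtype.val_injective
      ((Matrix.toLinAlgEquiv'.injective (h7.trans (map_one _).symm)).trans
        (map_one (locRing M).subtype.mapMatrix).symm))
    exact (LinearMap.toMatrixAlgEquiv c).injective (Matrix.map_injective ι.injective
      (h8.trans ((map_one ρ').symm.trans (by simp [ρ']))))

end Cfsg.Agent.H4
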