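import Cfsg.Agent.H1.FocTv
import Cfsg.Agent.H7.Crit

/-! Bicyclic `2`-groups: Itô's theorem, Blackburn's criterion, the basic structure. -/

set_option autoImplicit false
set_option linter.unusedSectionVars false
set_option linter.style.haveILetI false

namespace Cfsg.Agent.H4.Bc

open Subgroup Cfsg.Agent.H8
open scoped commutatorElement

universe u

variable {G : Type u} [Group G]

/-- elements commuting with `t` modulo the normal subgroup `N` -/
def cm (N : Subgroup G) [hN : N.Normal] (t : G) : Subgroup G where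
  carrier := {s | ⁅s, t⁆ ∈ N}
  one_mem' := by simp
  mul_mem' := fun {a b} ha hb => by
    have e : ⁅a * b, t⁆ = a * ⁅b, t⁆ * a⁻¹ * ⁅a, t⁆ := by simp only [commutatorElement_def]; group
    exact (congrArg (· ∈ N) e).mpr (N.mul_mem (hN.conj_mem _ hb a) ha)
  inv_mem' := fun {a} ha => by
    have e : ⁅a⁻¹, t⁆ = a⁻¹ * ⁅a, t⁆⁻¹ * a := by simp only [commutatorElement_def]; group
    exact (congrArg (· ∈ N) e).mpr (hN.conj_mem' _ (N.inv_mem ha) a)

theorem mem_cm {N : Subgroup G} [N.Normal] {s t : G} : s ∈ cm N t ↔ ⁅s, t⁆ ∈ N := Iff.rfl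

theorem comm_symm {N : Subgroup G} {s t : G} (h : ⁅s, t⁆ ∈ N) : ⁅t, s⁆ ∈ N := by
  rw [← commutatorElement_inv]; exact N.inv_mem h

theorem self_mem_cm {N : Subgroup G} [N.Normal] (t : G) : t ∈ cm N t := by simp [mem_cm]

theorem cD (s t : G) : ⁅s, t⁆ ∈ commutator G := commutator_mem_commutator (mem_top s) (mem_top t)

def Gen2 (g h : G) : Prop := ∀ K : Subgroup G, g ∈ K → h ∈ K → ∀ s, s ∈ K

theorem Gen2.symm {g h : G} (H : Gen2 g h) : Gen2 h g := fun K a b => H K b a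

theorem Gen2.comm_le {g h : G} (H : Gen2 g h) {K : Subgroup G} [K.Normal] (hK : ⁅g, h⁆ ∈ K) :
    commutator G ≤ K := commutator_le.2 fun s _ t _ =>
  H (cm K t) (comm_symm (H (cm K g) (self_mem_cm g) (comm_symm hK) t))
    (comm_symm (H (cm K h) hK (self_mem_cm h) t)) s

theorem Gen2.normal {g h : G} (H : Gen2 g h) {K : Subgroup G} [Finite K]
    (h1 : ∀ s ∈ K, g * s * g⁻¹ ∈ K) (h2 : ∀ s ∈ K, h * s * h⁻¹ ∈ K) : K.Normal :=
  normalizer_eq_top_iff.1 (eq_top_iff.2 fun s _ =>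
    H _ (Fus.mem_normalizer_of_finite h1) (Fus.mem_normalizer_of_finite h2) s)

theorem Gen2.normal_zpowers [Finite G] {g h s : G} (H : Gen2 g h) (h1 : g * s * g⁻¹ ∈ zpowers s)
    (h2 : h * s * h⁻¹ ∈ zpowers s) : (zpowers s).Normal :=
  H.normal (by rintro _ ⟨k, rfl⟩; rw [← conj_zpow]; exact zpow_mem h1 k)
    (by rintro _ ⟨k, rfl⟩; rw [← conj_zpow]; exact zpow_mem h2 k)

def Bic (x y : G) : Prop := ∀ g : G, ∃ i j : ℤ, g = x ^ i * y ^ j

theorem Bic.gen {x y : G} (h : Bic x y) : Gen2 x y := fun K hx hy s => by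
  obtain ⟨i, j, rfl⟩ := h s
  exact K.mul_mem (K.zpow_mem hx i) (K.zpow_mem hy j)

theorem Bic.symm {x y : G} (h : Bic x y) : Bic y x := fun g => by
  obtain ⟨i, j, e⟩ := h g⁻¹
  exact ⟨-j, -i, by rw [← inv_inv g, e]; group⟩

/-- Itô -/
theorem Bic.ito {x y : G} (h : Bic x y) :
    ∀ s ∈ commutator G, ∀ t ∈ commutator G, s * t = t * s := by
  have key : ∀ i j k l : ℤ, ∃ m n : ℤ,
      y ^ l * x ^ k * ⁅x ^ i, y ^ j⁆ * (y ^ l * x ^ k)⁻¹ = ⁅x ^ m, y ^ n⁆ ∧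
      x ^ k * y ^ l * ⁅x ^ i, y ^ j⁆ * (x ^ k * y ^ l)⁻¹ = ⁅x ^ m, y ^ n⁆ := fun i j k l => by
    obtain ⟨n, n', e1⟩ := h.symm (x ^ k * y ^ j * (x ^ k)⁻¹)
    obtain ⟨m, m', e2⟩ := h (y ^ l * x ^ i * (y ^ l)⁻¹)
    have a1 : ∀ r : ℤ, x ^ k * ⁅x ^ r, y ^ j⁆ * (x ^ k)⁻¹ = ⁅x ^ r, y ^ n⁆ := fun r => by
      calc _ = x ^ r * (x ^ k * y ^ j * (x ^ k)⁻¹) * (x ^ r)⁻¹ * (x ^ k * y ^ j * (x ^ k)⁻¹)⁻¹ := by
            rw [commutatorElement_def]; group
        _ = _ := by rw [e1, commutatorElement_def]; group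
    have a2 : ∀ r : ℤ, y ^ l * ⁅x ^ i, y ^ r⁆ * (y ^ l)⁻¹ = ⁅x ^ m, y ^ r⁆ := fun r => by
      calc _ = (y ^ l * x ^ i * (y ^ l)⁻¹) * y ^ r * (y ^ l * x ^ i * (y ^ l)⁻¹)⁻¹ * (y ^ r)⁻¹ := by
            rw [commutatorElement_def]; group
        _ = _ := by rw [e2, commutatorElement_def]; group
    exact ⟨m, n, by rw [← a2, ← a1]; group, by rw [← a1, ← a2]; group⟩
  let C : Set G := {s | ∃ i j : ℤ, s = ⁅x ^ i, y ^ j⁆}
  have hn : (closure C).Normal := ⟨fun s hs g => by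
    have : (closure C).map (MulAut.conj g).toMonoidHom ≤ closure C := by
      rw [MonoidHom.map_closure]
      refine closure_mono ?_
      rintro _ ⟨_, ⟨i, j, rfl⟩, rfl⟩
      obtain ⟨k, l, rfl⟩ := h g
      obtain ⟨m, n, -, e⟩ := key i j k l
      exact ⟨m, n, e⟩
    exact this ⟨s, hs, rfl⟩⟩
  have hD : commutator G ≤ closure C := h.gen.comm_le (subset_closure ⟨1, 1, by simp⟩)
  have hc : ∀ s ∈ C, ∀ t ∈ C, s * t = t * s := by
    rintro _ ⟨i, j, rfl⟩ _ ⟨k, l, rfl⟩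
    obtain ⟨m, n, e1, e2⟩ := key i j (-k) (-l)
    have e := e1.trans e2.symm
    rw [commutatorElement_def (x ^ k)]
    calc _ = (y ^ (-l) * x ^ (-k))⁻¹ * (y ^ (-l) * x ^ (-k) * ⁅x ^ i, y ^ j⁆ *
          (y ^ (-l) * x ^ (-k))⁻¹) * (x ^ (-k) * y ^ (-l)) := by group
      _ = _ := by rw [e]; group
  intro s hs t ht
  have h1 : closure C ≤ centralizer C := (closure_le _).2 fun s hs t ht => (hc t ht s hs)
  have h2 : closure C ≤ centralizer {s} := (closure_le _).2 fun t ht =>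
    mem_centralizer_singleton_iff.2 (h1 (hD hs) t ht)
  exact (mem_centralizer_singleton_iff.1 (h2 (hD ht))).symm

/-- `Φ(G') γ₃(G)` -/
def R0 (G : Type u) [Group G] : Subgroup G :=
  closure {s | ∃ d ∈ commutator G, s = d ^ 2 ∨ ∃ y : G, s = ⁅y, d⁆}

theorem sq_mem_R0 {d : G} (hd : d ∈ commutator G) : d ^ 2 ∈ R0 G := subset_closure ⟨d, hd, Or.inl rfl⟩

theorem comm_mem_R0 {d : G} (y : G) (hd : d ∈ commutator G) : ⁅y, d⁆ ∈ R0 G :=
  subset_closure ⟨d, hd, Or.inr ⟨y, rfl⟩⟩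

theorem R0_le {K : Subgroup G} (h : ∀ d ∈ commutator G, d ^ 2 ∈ K ∧ ∀ y : G, ⁅y, d⁆ ∈ K) : R0 G ≤ K :=
  (closure_le _).2 (by
    rintro _ ⟨d, hd, rfl | ⟨y, rfl⟩⟩
    exacts [(h d hd).1, (h d hd).2 y])

theorem R0_le_D : R0 G ≤ commutator G := R0_le fun _ hd => ⟨pow_mem hd 2, fun _ => cD _ _⟩

instance normal_R0 : (R0 G).Normal := ⟨fun s hs g => by
  rw [show g * s * g⁻¹ = ⁅g, s⁆ * s by simp [commutatorElement_def]]
  exact mul_mem (comm_mem_R0 g (R0_le_D hs)) hs⟩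

theorem map_mem_D {H : Type*} [Group H] (f : G →* H) {s : G} (hs : s ∈ commutator G) :
    f s ∈ commutator H :=
  (commutator_le.2 fun a _ b _ => by
    rw [mem_comap, map_commutatorElement]; exact commutator_mem_commutator (mem_top _) (mem_top _) :
    commutator G ≤ (commutator H).comap f) hs

theorem map_mem_R0 {H : Type u} [Group H] (f : G →* H) {s : G} (hs : s ∈ R0 G) : f s ∈ R0 H :=
  (R0_le fun d hd => ⟨by rw [mem_comap, map_pow]; exact sq_mem_R0 (map_mem_D f hd), fun y => by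
    rw [mem_comap, map_commutatorElement]; exact comm_mem_R0 _ (map_mem_D f hd)⟩ :
    R0 G ≤ (R0 H).comap f) hs

theorem comm_sq_left (s y : G) : ⁅s ^ 2, y⁆ = ⁅s, ⁅s, y⁆⁆ * ⁅s, y⁆ ^ 2 := by
  simp only [commutatorElement_def, sq]; group

theorem comm_sq_mem_R0 (s y : G) : ⁅s ^ 2, y⁆ ∈ R0 G :=
  comm_sq_left s y ▸ mul_mem (comm_mem_R0 _ (cD _ _)) (sq_mem_R0 (cD _ _))

theorem conj_mem_zpowers {w d : G} [hn : (zpowers w).Normal] (hd : d ∈ zpowers w) (y : G) :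
    y * d * y⁻¹ ∈ zpowers d := by
  obtain ⟨k, rfl⟩ := hd
  obtain ⟨r, hr⟩ := hn.conj_mem w (mem_zpowers w) y
  exact ⟨r, by simp only [← conj_zpow, ← show w ^ r = _ from hr, ← zpow_mul, mul_comm]⟩

theorem normal_of_mem_zpowers {w d : G} [(zpowers w).Normal] (hd : d ∈ zpowers w) :
    (zpowers d).Normal := ⟨by
  rintro _ ⟨k, rfl⟩ y
  rw [← conj_zpow]; exact zpow_mem (conj_mem_zpowers hd y) k⟩

theorem sq_mem_sq {w d : G} (hd : d ∈ zpowers w) : d ^ 2 ∈ zpowers (w ^ 2) := by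
  obtain ⟨k, rfl⟩ := hd
  exact ⟨k, by simp only; group⟩

theorem mem_sup_D {s g : G} :
    g ∈ zpowers s ⊔ commutator G ↔ Abelianization.of g ∈ zpowers (Abelianization.of s) := by
  refine ⟨fun h => (sup_le (zpowers_le.2 (mem_zpowers _)) fun d hd => ?_ :
    _ ≤ (zpowers (Abelianization.of s)).comap Abelianization.of) h, fun ⟨k, hk⟩ => ?_⟩
  · rw [← Abelianization.ker_of] at hd
    rw [mem_comap, MonoidHom.mem_ker.1 hd]; exact one_mem _
  · have := mul_mem_sup (zpow_mem (mem_zpowers s) k)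
      (QuotientGroup.eq.1 ((map_zpow Abelianization.of s k).trans hk))
    rwa [mul_inv_cancel_left] at this

instance normal_sup_D (K : Subgroup G) : (K ⊔ commutator G).Normal := ⟨fun s hs g => by
  rw [show g * s * g⁻¹ = ⁅g, s⁆ * s by simp [commutatorElement_def]]
  exact mul_mem (mem_sup_right (cD g s)) hs⟩

theorem of_eq_one {g : G} : Abelianization.of g = 1 ↔ g ∈ commutator G := QuotientGroup.eq_one_iff g

theorem meta_of_injective {H : Type*} [Group H] (h : IsMetacyclic H) (f : G →* H)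
    (hf : Function.Injective f) : IsMetacyclic G := by
  obtain ⟨N, _, _, _⟩ := h
  refine ⟨N.comap f, inferInstance, isCyclic_of_injective (f.subgroupComap N)
    fun a b e => Subtype.ext (hf (congrArg Subtype.val e)),
    isCyclic_of_injective (QuotientGroup.map _ N f le_rfl) ?_⟩
  refine (injective_iff_map_eq_one _).2 fun s hs => ?_
  obtain ⟨s, rfl⟩ := QuotientGroup.mk_surjective s
  exact (QuotientGroup.eq_one_iff s).2 ((QuotientGroup.eq_one_iff (f s)).1 hs)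

theorem meta_le {H K : Subgroup G} (h : IsMetacyclic H) (hK : K ≤ H) : IsMetacyclic K :=
  meta_of_injective h (inclusion hK) (inclusion_injective hK)

variable [Finite G]

theorem comm_mem_sq (hG : IsPGroup 2 G) {w d : G} [(zpowers w).Normal] (hd : d ∈ zpowers w) (y : G) :
    ⁅y, d⁆ ∈ zpowers (d ^ 2) := by
  obtain ⟨k, hk⟩ := inv_mul_conj_mem_zpowers_pow hG (conj_mem_zpowers hd y)
  refine ⟨k, ?_⟩
  have : Commute d ((d ^ 2) ^ k) := ((Commute.refl d).pow_right 2).zpow_right k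
  calc (d ^ 2) ^ k = d * (d ^ 2) ^ k * d⁻¹ := by rw [this.eq, mul_inv_cancel_right]
    _ = _ := by rw [show (d ^ 2) ^ k = _ from hk, commutatorElement_def]; group

theorem mem_of_odd (hG : IsPGroup 2 G) {K : Subgroup G} {s : G} {j : ℤ} (hj : Odd j) (h : s ^ j ∈ K) :
    s ∈ K := by
  obtain ⟨k, hk⟩ := hG s
  exact mem_of_zpow_mem_of_not_dvd (p := 2) (by simpa [← even_iff_two_dvd] using hj) h
    (hk ▸ K.one_mem)

theorem eq_one_of_mem_sq (hG : IsPGroup 2 G) {s : G} (h : s ∈ zpowers (s ^ 2)) : s = 1 := by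
  obtain ⟨k, hk⟩ := h
  refine mem_bot.1 (mem_of_odd hG (j := 2 * k - 1) (by simp) (mem_bot.2 ?_))
  rw [zpow_sub, zpow_mul, zpow_ofNat, show (s ^ 2) ^ k = s from hk, zpow_one, mul_inv_cancel]

theorem top_of_sup_D (hG : IsPGroup 2 G) {K : Subgroup G} (h : ∀ s, s ∈ K ⊔ commutator G) : K = ⊤ :=
  frattini_nongenerating (eq_top_iff.2 fun s _ => sup_le_sup_left (commutator_le_frattini' hG) K (h s))

/-- Blackburn's criterion -/
theorem black (hG : IsPGroup 2 G) {g h : G} (gen : Gen2 g h) (hc : ⁅h, g⁆ ∈ zpowers g ⊔ R0 G) :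
    ⁅h, g⁆ ∈ zpowers g := by
  induction hn : Nat.card G using Nat.strong_induction_on generalizing G with
  | _ n ih =>
  by_cases h0 : R0 G ≤ ⊥
  · rwa [le_bot_iff.1 h0, sup_bot_eq] at hc
  obtain ⟨z, hz, z1, z2, zc⟩ := Fus.exists_central_mod (p := 2) (Q := ⊤) (A := ⊥) (B := R0 G)
    (hG.to_subgroup _) le_top le_normalizer_of_normal le_normalizer_of_normal h0
  have zc' : ∀ s, Commute s z := fun s => by
    have := mem_bot.1 (zc s (mem_top s))
    rw [inv_mul_eq_one, eq_mul_inv_iff_mul_eq] at this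
    exact this.symm
  haveI : (zpowers z).Normal := gen.normal_zpowers (by rw [(zc' g).eq]; simp) (by rw [(zc' h).eq]; simp)
  let π := QuotientGroup.mk' (zpowers z)
  have h1 : ⁅π h, π g⁆ ∈ zpowers (π g) := by
    refine ih _ ?_ (hG.to_quotient _) (fun K a b s => ?_) ?_ rfl
    · rw [← hn, ← index_eq_card]
      refine lt_of_le_of_ne (Nat.le_of_dvd Nat.card_pos (index_dvd_card _)) fun e => z1 ?_
      have := (zpowers z).card_mul_index
      rw [e, mul_eq_right₀ Nat.card_pos.ne', card_eq_one] at this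
      exact this ▸ mem_zpowers z
    · obtain ⟨s, rfl⟩ := QuotientGroup.mk'_surjective _ s
      exact gen (K.comap π) a b s
    · obtain ⟨_, ⟨k, rfl⟩, r, hr, e⟩ := mem_sup_of_normal_right.1 hc
      rw [← map_commutatorElement, ← e, map_mul, map_zpow]
      exact mul_mem_sup ⟨k, rfl⟩ (map_mem_R0 π hr)
  obtain ⟨j, hj⟩ := h1
  obtain ⟨ε, hε⟩ : (g ^ j)⁻¹ * ⁅h, g⁆ ∈ zpowers z :=
    QuotientGroup.eq.1 ((map_zpow π g j).trans (hj.trans (map_commutatorElement π h g).symm))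
  have e1 : ⁅h, g⁆ = g ^ j * z ^ ε := by rw [show z ^ ε = _ from hε, mul_inv_cancel_left]
  have mc : ∀ s, Commute s (z ^ ε) := fun s => (zc' s).zpow_right ε
  have m2 : (z ^ ε) ^ (2 : ℤ) = 1 := by
    rw [← zpow_mul, mul_comm, zpow_mul, zpow_ofNat, mem_bot.1 z2, one_zpow]
  rcases Int.even_or_odd' j with ⟨s, rfl | rfl⟩
  · have e2 : h * g * h⁻¹ = g ^ (2 * s + 1) * z ^ ε := by
      rw [zpow_add_one, mul_assoc (g ^ (2 * s)), (mc g).eq, ← mul_assoc, ← e1, commutatorElement_def]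
      group
    haveI : (zpowers ⁅h, g⁆).Normal := gen.normal_zpowers
      (by rw [e1, ← mul_assoc, mul_assoc _ _ g⁻¹, ← (mc g⁻¹).eq]; convert mem_zpowers _ using 1; group)
      ⟨2 * s + 1, by
        have : h * ⁅h, g⁆ * h⁻¹ = (h * g * h⁻¹) ^ (2 * s) * z ^ ε := by
          rw [e1, conj_zpow, mul_assoc _ h⁻¹, (mc h⁻¹).eq]; group
        show _ ^ _ = _
        rw [this, e2, e1, (mc _).mul_zpow, (mc _).mul_zpow, zpow_add_one (z ^ ε), zpow_mul (z ^ ε), m2,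
          ← zpow_mul, ← zpow_mul, mul_comm (2 * s + 1)]
        simp⟩
    have h2 : R0 G ≤ zpowers (⁅h, g⁆ ^ 2) := R0_le fun d hd => by
      have hd' := gen.symm.comm_le (mem_zpowers ⁅h, g⁆) hd
      exact ⟨sq_mem_sq hd', fun y => zpowers_le.2 (sq_mem_sq hd') (comm_mem_sq hG hd' y)⟩
    have h3 : ⁅h, g⁆ ^ 2 ∈ zpowers g := by
      rw [e1, ← zpow_ofNat, (mc _).mul_zpow, m2, mul_one]
      exact zpow_mem (zpow_mem (mem_zpowers g) _) _
    rw [e1]
    exact mul_mem (zpow_mem (mem_zpowers g) _) (zpow_mem (zpowers_le.2 h3 (h2 hz)) _)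
  · have h2 : g ∈ commutator G := mem_of_odd hG (odd_two_mul_add_one s)
      ((mul_mem_cancel_right (zpow_mem (R0_le_D hz) ε)).1 (e1 ▸ cD h g))
    obtain ⟨k, rfl⟩ : g ∈ zpowers h := (top_of_sup_D hG (K := zpowers h)
      (gen _ (mem_sup_right h2) (mem_sup_left (mem_zpowers h)))).ge (mem_top g)
    rw [commutatorElement_eq_one_iff_commute.2 ((Commute.refl h).zpow_right k)]
    exact one_mem _

theorem meta_of (hG : IsPGroup 2 G) {g h : G} (gen : Gen2 g h) (hc : ⁅h, g⁆ ∈ zpowers g ⊔ R0 G) :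
    IsMetacyclic G := by
  haveI : (zpowers g).Normal := gen.normal_zpowers (by simp) (by
    simpa [commutatorElement_def] using mul_mem (black hG gen hc) (mem_zpowers g))
  refine ⟨zpowers g, this, isCyclic_zpowers g, isCyclic_iff_exists_zpowers_eq_top.2
    ⟨h, eq_top_iff.2 fun s _ => ?_⟩⟩
  obtain ⟨s, rfl⟩ := QuotientGroup.mk'_surjective _ s
  refine gen ((zpowers (h : G ⧸ zpowers g)).comap (QuotientGroup.mk' _)) ?_ (mem_zpowers _) s
  rw [mem_comap, QuotientGroup.mk'_apply, (QuotientGroup.eq_one_iff g).2 (mem_zpowers g)]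
  exact one_mem _

theorem exists_two_pow (i j : ℤ) (h : ¬ (i = 0 ∧ j = 0)) :
    ∃ (k : ℕ) (i' j' : ℤ), (Odd i' ∨ Odd j') ∧ i = i' * 2 ^ k ∧ j = j' * 2 ^ k := by
  induction hn : i.natAbs + j.natAbs using Nat.strong_induction_on generalizing i j with
  | _ n ih =>
  by_cases ho : Odd i ∨ Odd j
  · exact ⟨0, i, j, ho, by simp, by simp⟩
  simp only [not_or, Int.not_odd_iff_even] at ho
  obtain ⟨⟨i, rfl⟩, ⟨j, rfl⟩⟩ := ho
  obtain ⟨k, i', j', h1, rfl, rfl⟩ := ih _ (by omega) i j (by omega) rfl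
  exact ⟨k + 1, i', j', h1, by ring, by ring⟩

theorem Bic.exists_a (hG : IsPGroup 2 G) {x y : G} (hb : Bic x y) (hm : ¬ IsMetacyclic G) :
    ∃ i j : ℤ, Odd i ∧ Odd j ∧ (x ^ i * y ^ j) ^ 2 ∈ R0 G := by
  let π := QuotientGroup.mk' (R0 G)
  have π1 : ∀ s, π s = 1 ↔ s ∈ R0 G := fun s => QuotientGroup.eq_one_iff s
  have cen : ∀ s t, ⁅s, t⁆ ∈ R0 G → Commute (π s) (π t) := fun s t h =>
    commutatorElement_eq_one_iff_commute.1 ((map_commutatorElement π s t).symm.trans ((π1 _).2 h))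
  haveI : (zpowers (π ⁅x, y⁆)).Normal := ⟨by
    rintro _ ⟨k, rfl⟩ s
    obtain ⟨s, rfl⟩ := QuotientGroup.mk'_surjective _ s
    rw [((cen s _ (comm_mem_R0 s (cD x y))).zpow_right k).eq, mul_inv_cancel_right]
    exact ⟨k, rfl⟩⟩
  have hD : ∀ s t, π ⁅s, t⁆ ∈ zpowers (π ⁅x, y⁆) := fun s t =>
    hb.gen.comm_le (K := (zpowers (π ⁅x, y⁆)).comap π) (mem_zpowers _) (cD s t)
  have key : ∀ i j : ℤ, Odd i ∨ Odd j → π ⁅x, y⁆ ∉ zpowers (π (x ^ i * y ^ j)) := fun i j ho h => by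
    have : ∀ s, Gen2 (x ^ i * y ^ j) s → False := fun s hs => hm (meta_of hG hs (by
      obtain ⟨k, hk⟩ := zpowers_le.2 h (hD s (x ^ i * y ^ j))
      have := mul_mem_sup (zpow_mem (mem_zpowers (x ^ i * y ^ j)) k)
        (QuotientGroup.eq.1 ((map_zpow π _ k).trans hk))
      rwa [mul_inv_cancel_left] at this))
    rcases ho with ho | ho
    · exact this y fun K a b => hb.gen K (mem_of_odd hG ho
        ((mul_mem_cancel_right (zpow_mem b j)).1 a)) b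
    · exact this x fun K a b => hb.gen K b (mem_of_odd hG ho
        ((mul_mem_cancel_left (zpow_mem b i)).1 a))
  obtain ⟨i0, j0, e⟩ := hb ⁅x, y⁆
  obtain ⟨k, i, j, ho, rfl, rfl⟩ := exists_two_pow i0 j0 (by
    rintro ⟨rfl, rfl⟩
    exact key 1 0 (Or.inl odd_one) (by rw [e]; simp))
  have h1 := Fus.mul_pow_of_comm (x := π (x ^ i)) (y := π (y ^ j)) (c := π ⁅y ^ j, x ^ i⁆)
    (by simp only [← map_mul, commutatorElement_def]; group)
    (cen _ _ (comm_symm (comm_mem_R0 _ (cD _ _)))) (cen _ _ (comm_symm (comm_mem_R0 _ (cD _ _))))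
    (2 ^ k)
  rw [← map_mul, ← map_pow π (x ^ i), ← map_pow π (y ^ j), ← map_mul, ← zpow_natCast (x ^ i),
    ← zpow_natCast (y ^ j), ← zpow_mul, ← zpow_mul] at h1
  push_cast at h1
  rw [← e] at h1
  have c2 : ∀ s t, π ⁅s, t⁆ ^ 2 = 1 := fun s t => (map_pow π _ 2).symm.trans
    ((π1 _).2 (sq_mem_R0 (cD s t)))
  have h2 : π ⁅y ^ j, x ^ i⁆ ^ (2 ^ k).choose 2 ≠ 1 := fun h => key i j ho (by
    rw [h, mul_one] at h1
    exact h1 ▸ pow_mem (mem_zpowers _) _)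
  obtain rfl : k = 1 := by
    rcases k with _ | _ | k
    · simp at h2
    · rfl
    · obtain ⟨l, hl⟩ := prime_dvd_choose_two (p := 2) (j := k + 2) (by omega) (Or.inr (by omega))
      exact absurd (by rw [hl, pow_mul, c2, one_pow]) h2
  simp only [pow_one, Nat.choose_self] at h1 h2
  refine ⟨i, j, ?_, ?_, (π1 _).1 ?_⟩
  · by_contra hi
    obtain ⟨i, rfl⟩ := Int.not_odd_iff_even.1 hi
    exact h2 ((π1 _).2 (comm_symm (by rw [zpow_add, ← sq]; exact comm_sq_mem_R0 _ _)))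
  · by_contra hj
    obtain ⟨j, rfl⟩ := Int.not_odd_iff_even.1 hj
    exact h2 ((π1 _).2 (by rw [zpow_add, ← sq]; exact comm_sq_mem_R0 _ _))
  · obtain ⟨l, hl⟩ := hD (y ^ j) (x ^ i)
    rw [map_pow, h1, ← hl]
    rcases Int.even_or_odd' l with ⟨l, rfl | rfl⟩
    · exact absurd (by rw [← hl]; simp only [zpow_mul, zpow_ofNat, c2, one_zpow]) h2
    · simp only [zpow_add_one, zpow_mul, zpow_ofNat, c2, one_zpow, one_mul, ← sq]

theorem not_mem_of_gen (hG : IsPGroup 2 G) {g h : G} (gen : Gen2 g h) (hm : ¬ IsMetacyclic G) :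
    h ∉ zpowers g ⊔ commutator G := fun H => hm (meta_of hG gen (mem_sup_left
  ((top_of_sup_D hG (gen _ (mem_sup_left (mem_zpowers g)) H)).ge (mem_top _))))

theorem sq_not_mem (hG : IsPGroup 2 G) {a x : G} (gen : Gen2 a x) (ha : a ^ 2 ∈ R0 G)
    (hm : ¬ IsMetacyclic G) : x ^ 2 ∉ commutator G := fun H => by
  have c : ∀ s, ⁅s, ⁅x, a⁆⁆ ∈ R0 G := fun s => comm_mem_R0 s (cD _ _)
  haveI : (zpowers ⁅x, a⁆ ⊔ R0 G).Normal := ⟨fun s hs g => by
    rw [show g * s * g⁻¹ = ⁅g, s⁆ * s by simp [commutatorElement_def]]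
    exact mul_mem (mem_sup_right (comm_mem_R0 g ((sup_le (zpowers_le.2 (cD x a)) R0_le_D :) hs))) hs⟩
  obtain ⟨_, ⟨k, rfl⟩, r, hr, e⟩ := mem_sup_of_normal_right.1
    (gen.symm.comm_le (mem_sup_left (mem_zpowers _) : _ ∈ zpowers ⁅x, a⁆ ⊔ R0 G) H)
  have w2 := mem_sup_right (S := zpowers x) (sq_mem_R0 (cD x a))
  rcases Int.even_or_odd k with ⟨k, rfl⟩ | hk
  · refine hm (meta_of hG (g := a * x) (h := x)
      (fun K u v => gen K ((mul_mem_cancel_right v).1 u) v) ?_)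
    have x2 : x ^ 2 ∈ R0 G := e ▸ mul_mem (by
      simp only [← two_mul, zpow_mul, zpow_ofNat]; exact zpow_mem (sq_mem_R0 (cD x a)) k) hr
    rw [show ⁅x, a * x⁆ = ⁅a, ⁅x, a⁆⁆⁻¹ * (a * x) ^ 2 * (x ^ 2)⁻¹ * (a ^ 2)⁻¹ by
      simp only [commutatorElement_def, sq]; group]
    exact mul_mem (mul_mem (mul_mem (mem_sup_right (inv_mem (comm_mem_R0 _ (cD _ _))))
      (mem_sup_left (pow_mem (mem_zpowers _) 2))) (mem_sup_right (inv_mem x2)))
      (mem_sup_right (inv_mem ha))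
  · refine hm (meta_of hG gen.symm (comm_symm (mem_of_odd hG hk ?_)))
    rw [show ⁅x, a⁆ ^ k = _ from eq_mul_inv_of_mul_eq e]
    exact mul_mem (mem_sup_left (pow_mem (mem_zpowers x) 2)) (mem_sup_right (inv_mem hr))

theorem sq_mem_sup (hG : IsPGroup 2 G) {x y : G} {i j : ℤ} (hj : Odd j)
    (ha : (x ^ i * y ^ j) ^ 2 ∈ R0 G) : y ^ 2 ∈ zpowers (x ^ 2) ⊔ commutator G :=
  mem_of_odd hG hj (mem_sup_D.2 ⟨-i, by
    have := of_eq_one.2 (R0_le_D ha)
    simp only [map_pow, map_mul, map_zpow, mul_pow] at this ⊢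
    rw [← eq_inv_iff_mul_eq_one] at this
    rw [zpow_neg, inv_eq_iff_eq_inv, ← zpow_ofNat, ← zpow_ofNat, zpow_comm, zpow_ofNat, this,
      zpow_comm, zpow_ofNat]⟩)

theorem Bic.meta_sup (hG : IsPGroup 2 G) {x y : G} (hb : Bic x y) (hm : ¬ IsMetacyclic G) {i j : ℤ}
    (hj : Odd j) (ha : (x ^ i * y ^ j) ^ 2 ∈ R0 G) :
    IsMetacyclic ↥(zpowers x ⊔ commutator G) := by
  by_contra hn
  have h2 : x ^ 2 ∉ commutator G := sq_not_mem hG (fun K u v => hb.gen K v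
    (mem_of_odd hG hj ((mul_mem_cancel_left (zpow_mem v i)).1 u))) ha hm
  have h3 := sq_mem_sup hG hj ha
  have h4 : y ^ 2 ∈ zpowers x ⊔ commutator G :=
    sup_le_sup_right (zpowers_le.2 (pow_mem (mem_zpowers x) 2)) _ h3
  have hx : x ∈ zpowers x ⊔ commutator G := mem_sup_left (mem_zpowers x)
  obtain ⟨k, l, hk, -, h5⟩ := Bic.exists_a (hG.to_subgroup _) (x := ⟨x, hx⟩) (y := ⟨y ^ 2, h4⟩)
    (fun g => by
      obtain ⟨k, l, e⟩ := hb g
      rcases Int.even_or_odd' l with ⟨l, rfl | rfl⟩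
      · exact ⟨k, l, Subtype.ext (by simp [e, zpow_mul, zpow_ofNat])⟩
      · exact absurd (mem_of_odd hG (odd_two_mul_add_one l)
          ((mul_mem_cancel_left (zpow_mem hx k)).1 (e ▸ g.2))) (not_mem_of_gen hG hb.gen hm)) hn
  obtain ⟨s, hs⟩ := mem_sup_D.1 h3
  refine h2 (mem_of_odd hG (j := k + 2 * (s * l)) (hk.add_even (even_two_mul _)) (of_eq_one.1 ?_))
  have := of_eq_one.2 (R0_le_D (map_mem_R0 (Subgroup.subtype _) h5))
  simp only [map_pow, map_mul, map_zpow, coe_subtype] at this hs ⊢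
  rw [← this, ← hs]; group

structure Bi (a x : G) : Prop where
  pg : IsPGroup 2 G
  gen : Gen2 a x
  sq : a ^ 2 ∈ R0 G
  ab : ∀ s ∈ commutator G, ∀ t ∈ commutator G, s * t = t * s
  nm : ¬ IsMetacyclic G
  m1 : IsMetacyclic ↥(zpowers x ⊔ commutator G)
  m2 : IsMetacyclic ↥(zpowers (a * x) ⊔ commutator G)

theorem Bic.bi (hG : IsPGroup 2 G) {x y : G} (hb : Bic x y) (hm : ¬ IsMetacyclic G) : ∃ a, Bi a x := by
  obtain ⟨i, j, hi, hj, ha⟩ := hb.exists_a hG hm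
  have ha' : (y ^ (-j) * x ^ (-i)) ^ 2 ∈ R0 G := by
    rw [show y ^ (-j) * x ^ (-i) = (x ^ i * y ^ j)⁻¹ by group, inv_pow]; exact inv_mem ha
  refine ⟨_, hG, fun K u v => hb.gen K v
    (mem_of_odd hG hj ((mul_mem_cancel_left (zpow_mem v i)).1 u)), ha, hb.ito, hm,
    hb.meta_sup hG hm hj ha, meta_le (hb.symm.meta_sup hG hm hi.neg ha')
    (sup_le (zpowers_le.2 ?_) le_sup_right)⟩
  obtain ⟨t, rfl⟩ := hi
  rw [show x ^ (2 * t + 1) * y ^ j * x = (x ^ 2) ^ (t + 1) * (x⁻¹ * y ^ j * x) by group]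
  exact mul_mem (zpow_mem (sup_le_sup_right (zpowers_le.2 (pow_mem (mem_zpowers y) 2)) _
    (sq_mem_sup hG (odd_two_mul_add_one t).neg ha')) _)
    ((normal_sup_D _).conj_mem' _ (mem_sup_left (zpow_mem (mem_zpowers y) j)) x)

theorem Bi.swap {a x : G} (h : Bi a x) : Bi a (a * x) :=
  ⟨h.pg, fun K u v => h.gen K u ((mul_mem_cancel_left u).1 v), h.sq, h.ab, h.nm, h.m2,
    meta_le h.m1 (sup_le (zpowers_le.2 (by
      rw [← mul_assoc, ← pow_two]
      exact mul_mem (mem_sup_right (R0_le_D h.sq)) (mem_sup_left (mem_zpowers x)))) le_sup_right)⟩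

end Cfsg.Agent.H4.Bc
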