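import Cfsg.Agent.H4.Bic1

/-! Bicyclic `2`-groups: the action on the derived subgroup. -/

set_option autoImplicit false
set_option linter.unusedSectionVars false
set_option linter.style.haveILetI false

namespace Cfsg.Agent.H4.Bc

open Subgroup Cfsg.Agent.H8
open scoped commutatorElement

universe u

variable {G : Type u} [Group G] {a x g y d d' s n : G}

def Phi (x : G) : Subgroup G := zpowers (x ^ 2) ⊔ commutator G

def M3 (a x : G) : Subgroup G := zpowers a ⊔ Phi x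

def D2 (G : Type u) [Group G] : Subgroup G := normalClosure {s | ∃ d ∈ commutator G, s = d ^ 2}

def W1 (G : Type u) [Group G] : Subgroup G := normalClosure {d | d ∈ commutator G ∧ d ^ 2 = 1}

instance normal_Phi (x : G) : (Phi x).Normal := normal_sup_D _

instance normal_D2 : (D2 G).Normal := normalClosure_normal

instance normal_W1 : (W1 G).Normal := normalClosure_normal

theorem D_le_Phi : commutator G ≤ Phi x := le_sup_right

theorem sq_mem_Phi : x ^ 2 ∈ Phi x := mem_sup_left (mem_zpowers _)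

theorem Phi_le_M3 : Phi x ≤ M3 a x := le_sup_right

theorem conj_D (hd : d ∈ commutator G) (g : G) : g * d * g⁻¹ ∈ commutator G :=
  (inferInstance : (commutator G).Normal).conj_mem d hd g

theorem sq_mem_D2 (hd : d ∈ commutator G) : d ^ 2 ∈ D2 G := subset_normalClosure ⟨d, hd, rfl⟩

theorem D2_le_R0 : D2 G ≤ R0 G := normalClosure_le_normal (by rintro _ ⟨d, hd, rfl⟩; exact sq_mem_R0 hd)

theorem W1_le_D : W1 G ≤ commutator G := normalClosure_le_normal fun _ h => h.1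

theorem mem_Phi : g ∈ Phi x ↔ ∃ k : ℤ, Abelianization.of g = Abelianization.of x ^ (2 * k) := by
  rw [Phi, mem_sup_D]
  exact exists_congr fun k => by simp only [map_pow, zpow_mul, zpow_ofNat, eq_comm]

theorem comm_eq (g d : G) : g * d * g⁻¹ = ⁅g, d⁆ * d := by simp [commutatorElement_def]

theorem comm_mul_left (g y d : G) : ⁅g * y, d⁆ = g * ⁅y, d⁆ * g⁻¹ * ⁅g, d⁆ := by
  simp only [commutatorElement_def]; group

variable [Finite G]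

namespace Bi

variable (h : Bi a x)
include h

theorem cm (hd : d ∈ commutator G) (hd' : d' ∈ commutator G) : Commute d d' := h.ab d hd d' hd'

theorem cj (hd : d ∈ commutator G) (hd' : d' ∈ commutator G) : d * d' * d⁻¹ = d' := by
  rw [h.ab d hd d' hd', mul_inv_cancel_right]

theorem mem_D2 : s ∈ D2 G ↔ ∃ d ∈ commutator G, s = d ^ 2 := by
  refine ⟨fun hs => ?_, fun ⟨d, hd, e⟩ => e ▸ sq_mem_D2 hd⟩
  let K : Subgroup G :=
    { carrier := {s | ∃ d ∈ commutator G, s = d ^ 2}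
      one_mem' := ⟨1, one_mem _, by simp⟩
      mul_mem' := by
        rintro _ _ ⟨d, hd, rfl⟩ ⟨d', hd', rfl⟩
        exact ⟨_, mul_mem hd hd', ((h.cm hd hd').mul_pow 2).symm⟩
      inv_mem' := by rintro _ ⟨d, hd, rfl⟩; exact ⟨_, inv_mem hd, (inv_pow d 2).symm⟩ }
  haveI : K.Normal := ⟨by rintro _ ⟨d, hd, rfl⟩ g; exact ⟨_, conj_D hd g, conj_pow.symm⟩⟩
  exact normalClosure_le_normal (N := K) (fun _ h => h) hs

theorem mem_W1 : d ∈ W1 G ↔ d ∈ commutator G ∧ d ^ 2 = 1 := by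
  refine ⟨fun hs => ?_, fun h => subset_normalClosure h⟩
  let K : Subgroup G :=
    { carrier := {d | d ∈ commutator G ∧ d ^ 2 = 1}
      one_mem' := ⟨one_mem _, by simp⟩
      mul_mem' := fun hd hd' => ⟨mul_mem hd.1 hd'.1, by
        rw [(h.cm hd.1 hd'.1).mul_pow, hd.2, hd'.2, one_mul]⟩
      inv_mem' := fun hd => ⟨inv_mem hd.1, by rw [inv_pow, hd.2, inv_one]⟩ }
  haveI : K.Normal := ⟨fun d hd g => ⟨conj_D hd.1 g, by rw [conj_pow, hd.2]; simp⟩⟩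
  exact normalClosure_le_normal (N := K) (fun _ h => h) hs

/-- `d ↦ ⁅g, d⁆` on the derived subgroup -/
def Th (g : G) : commutator G →* G := MonoidHom.mk' (fun d => ⁅g, (d : G)⁆) fun d d' => by
  rw [← h.cj d.2 (cD g d'), coe_mul]
  simp only [commutatorElement_def]; group

theorem T_mul (g : G) (hd : d ∈ commutator G) (hd' : d' ∈ commutator G) :
    ⁅g, d * d'⁆ = ⁅g, d⁆ * ⁅g, d'⁆ := (h.Th g).map_mul ⟨d, hd⟩ ⟨d', hd'⟩

theorem T_zpow (g : G) (hd : d ∈ commutator G) (k : ℤ) : ⁅g, d ^ k⁆ = ⁅g, d⁆ ^ k :=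
  (h.Th g).map_zpow ⟨d, hd⟩ k

theorem T_pow (g : G) (hd : d ∈ commutator G) (k : ℕ) : ⁅g, d ^ k⁆ = ⁅g, d⁆ ^ k :=
  (h.Th g).map_pow ⟨d, hd⟩ k

theorem T_inv (g : G) (hd : d ∈ commutator G) : ⁅g, d⁻¹⁆ = ⁅g, d⁆⁻¹ := (h.Th g).map_inv ⟨d, hd⟩

theorem conj_conj (g y : G) (hd : d ∈ commutator G) :
    y * (g * d * g⁻¹) * y⁻¹ = g * (y * d * y⁻¹) * g⁻¹ := by
  rw [← h.cj (cD y g) (conj_D (conj_D hd y) g), commutatorElement_def]; group

theorem conj_T (g y : G) (hd : d ∈ commutator G) : y * ⁅g, d⁆ * y⁻¹ = ⁅g, y * d * y⁻¹⁆ := by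
  rw [commutatorElement_def g (y * d * y⁻¹), ← h.conj_conj g y hd, commutatorElement_def]; group

theorem D_le {K : Subgroup G} (hw : ⁅x, a⁆ ∈ K)
    (hc : ∀ g, ∀ s ∈ commutator G, s ∈ K → g * s * g⁻¹ ∈ K) : commutator G ≤ K := by
  haveI : (K ⊓ commutator G).Normal := ⟨fun s hs g => ⟨hc g s hs.2 hs.1, conj_D hs.2 g⟩⟩
  exact (h.gen.symm.comm_le (K := K ⊓ commutator G) ⟨hw, cD x a⟩).trans inf_le_left

theorem normal_e : (zpowers ⁅x, ⁅x, a⁆⁆).Normal := by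
  obtain ⟨u, v, hn, huv⟩ := exists_gen_of_isMetacyclic h.m1
  have h1 := commutator_le_of_gen huv (zpowers u) (by
    simpa [commutatorElement_def, mul_assoc] using mul_mem (mem_zpowers u)
      (hn.conj_mem _ (inv_mem (mem_zpowers u)) v))
  have h2 : (h.Th x).range ≤ zpowers (u : G) := by
    rintro _ ⟨d, rfl⟩
    exact mem_zpowers_coe.1 (h1 (cD ⟨x, mem_sup_left (mem_zpowers x)⟩ ⟨d, mem_sup_right d.2⟩))
  haveI := isCyclic_zpowers (u : G)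
  obtain ⟨f, hf⟩ := (isCyclic_iff_exists_zpowers_eq_top).1 (isCyclic_of_le h2)
  have h3 : (h.Th x).range = zpowers (f : G) := by
    refine le_antisymm (fun s hs => mem_zpowers_coe.1 (hf.ge (mem_top ⟨s, hs⟩))) (zpowers_le.2 f.2)
  haveI : (zpowers (f : G)).Normal := h3 ▸ ⟨by
    rintro _ ⟨d, rfl⟩ g
    exact ⟨⟨_, conj_D d.2 g⟩, (h.conj_T x g d.2).symm⟩⟩
  exact normal_of_mem_zpowers (w := (f : G)) (h3.le ⟨⟨_, cD x a⟩, rfl⟩)

theorem T_mem (hd : d ∈ commutator G) : ⁅x, d⁆ ∈ zpowers ⁅x, ⁅x, a⁆⁆ :=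
  haveI := h.normal_e
  comm_symm (mem_cm.1 (h.D_le (mem_cm.2 (comm_symm (mem_zpowers _))) (fun g _ hs h1 =>
    mem_cm.2 (comm_symm (h.conj_T x g hs ▸ this.conj_mem _ (comm_symm (mem_cm.1 h1)) g))) hd))

theorem normal_T (hd : d ∈ commutator G) : (zpowers (⁅x, d⁆ ^ 2)).Normal :=
  haveI := h.normal_e
  normal_of_mem_zpowers (pow_mem (h.T_mem hd) 2)

theorem T_R0 (hd : d ∈ R0 G) : ⁅x, d⁆ ∈ zpowers (⁅x, ⁅x, a⁆⁆ ^ 2) := by
  haveI := h.normal_e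
  haveI := h.normal_T (cD x a)
  refine comm_symm (mem_cm.1 (R0_le (fun d hd => ⟨mem_cm.2 (comm_symm ?_),
    fun y => mem_cm.2 (comm_symm ?_)⟩) hd))
  · rw [h.T_pow x hd]; exact sq_mem_sq (h.T_mem hd)
  · rw [commutatorElement_def y, h.T_mul x (conj_D hd y) (inv_mem hd), h.T_inv x hd, ← h.conj_T x y hd]
    exact zpowers_le.2 (sq_mem_sq (h.T_mem hd)) (comm_mem_sq h.pg (h.T_mem hd) y)

theorem phi_act (hg : g ∈ Phi x) (hd : d ∈ commutator G) : ⁅g, d⁆ ∈ zpowers (⁅x, d⁆ ^ 2) := by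
  haveI := h.normal_e
  haveI := h.normal_T hd
  refine (sup_le (zpowers_le.2 ?_) fun s hs => ?_ : Phi x ≤ Bc.cm (zpowers (⁅x, d⁆ ^ 2)) d) hg
  · rw [mem_cm, comm_sq_left]
    exact mul_mem (comm_mem_sq h.pg (h.T_mem hd) x) (mem_zpowers _)
  · rw [mem_cm, commutatorElement_eq_one_iff_commute.2 (h.cm hs hd)]; exact one_mem _

/-- elements of `aΦ` act almost by inversion -/
theorem a_act (hg : a⁻¹ * g ∈ Phi x) :
    ∃ j : ℤ, ∀ d ∈ commutator G, ⁅g, d⁆ = (d⁻¹ * ⁅x, d⁆ ^ j) ^ 2 := by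
  haveI := h.normal_T (cD x a)
  obtain ⟨j, hj⟩ : g * ⁅x, a⁆ * g⁻¹ * ⁅x, a⁆ ∈ zpowers (⁅x, ⁅x, a⁆⁆ ^ 2) := by
    have h1 := mul_mem (this.conj_mem _ (h.phi_act hg (cD x a)) a)
      (this.conj_mem' _ (h.T_R0 h.sq) ⁅x, a⁆)
    convert h1 using 1
    simp only [commutatorElement_def, pow_two]; group
  have c : ∀ d : commutator G, d.1⁻¹ * ⁅x, d.1⁆ ^ j ∈ commutator G := fun d =>
    mul_mem (inv_mem d.2) (zpow_mem (cD _ _) j)
  let ψ : commutator G →* G := MonoidHom.mk' (fun d => (d.1⁻¹ * ⁅x, d.1⁆ ^ j) ^ 2) fun d d' => by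
    rw [← (h.cm (c d) (c d')).mul_pow, coe_mul, h.T_mul x d.2 d'.2, (h.cm (cD _ _) (cD _ _)).mul_zpow,
      h.ab _ d.2 _ d'.2, mul_inv_rev, mul_assoc, mul_assoc, ← mul_assoc (d'.1⁻¹),
      h.ab _ (inv_mem d'.2) _ (zpow_mem (cD _ _) j), mul_assoc]
  refine ⟨j, fun d hd => ?_⟩
  suffices H : commutator G ≤ ((h.Th g).eqLocus ψ).map (commutator G).subtype by
    obtain ⟨d, h1, rfl⟩ := H hd
    exact h1
  refine h.D_le ⟨⟨_, cD x a⟩, ?_, rfl⟩ ?_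
  · show ⁅g, ⁅x, a⁆⁆ = (⁅x, a⁆⁻¹ * ⁅x, ⁅x, a⁆⁆ ^ j) ^ 2
    rw [(h.cm (inv_mem (cD _ _)) (zpow_mem (cD _ _) j)).mul_pow, ← zpow_ofNat (_ ^ j), zpow_comm,
      zpow_ofNat, show (_ ^ 2) ^ j = _ from hj, h.ab _ (pow_mem (inv_mem (cD _ _)) 2) _
        (mul_mem (conj_D (cD _ _) g) (cD _ _)), commutatorElement_def g]
    generalize ⁅x, a⁆ = w
    group
  · rintro y _ - ⟨d, h1, rfl⟩
    refine ⟨⟨_, conj_D d.2 y⟩, ?_, rfl⟩
    show ⁅g, y * d * y⁻¹⁆ = ((y * d * y⁻¹)⁻¹ * ⁅x, y * d * y⁻¹⁆ ^ j) ^ 2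
    rw [← h.conj_T g y d.2, ← h.conj_T x y d.2, show ⁅g, d.1⁆ = _ from h1, conj_zpow]
    show y * (d.1⁻¹ * ⁅x, d.1⁆ ^ j) ^ 2 * y⁻¹ = _
    simp only [pow_two]; group

theorem eq_one_of_T (hd : d ∈ commutator G) (h1 : d ∈ zpowers ⁅x, d⁆) : d = 1 :=
  haveI := h.normal_e
  eq_one_of_mem_sq h.pg (zpowers_le.2 (comm_mem_sq h.pg (zpowers_le.2 (h.T_mem hd) h1) x) h1)

/-- `C_D(g) ≤ W` -/
theorem cent_a (hg : a⁻¹ * g ∈ Phi x) (hd : d ∈ commutator G) (hc : ⁅g, d⁆ = 1) : d ^ 2 = 1 := by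
  obtain ⟨j, hj⟩ := h.a_act hg
  refine h.eq_one_of_T (pow_mem hd 2) ⟨j, ?_⟩
  rw [hj d hd, (h.cm (inv_mem hd) (zpow_mem (cD _ _) j)).mul_pow, inv_pow, inv_mul_eq_one] at hc
  show ⁅x, d ^ 2⁆ ^ j = _
  rw [h.T_pow x hd, hc, ← zpow_ofNat, zpow_comm, zpow_ofNat]

/-- `[g, D] = D²` -/
theorem surj_D2 (hg : a⁻¹ * g ∈ Phi x) (hs : s ∈ D2 G) : ∃ d ∈ commutator G, ⁅g, d⁆ = s := by
  obtain ⟨j, hj⟩ := h.a_act hg
  obtain ⟨d, hd, rfl⟩ := h.mem_D2.1 hs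
  obtain ⟨t, ht⟩ := Finite.surjective_of_injective (f := fun t : commutator G =>
    (⟨t.1⁻¹ * ⁅x, t.1⁆ ^ j, mul_mem (inv_mem t.2) (zpow_mem (cD _ _) j)⟩ : commutator G))
    (fun t t' e => Subtype.ext (eq_of_mul_inv_eq_one (h.eq_one_of_T (mul_mem t.2 (inv_mem t'.2))
      ⟨j, by
        have e' : t.1⁻¹ * ⁅x, t.1⁆ ^ j = t'.1⁻¹ * ⁅x, t'.1⁆ ^ j := congrArg Subtype.val e
        simp only [h.T_mul x t.2 (inv_mem t'.2), h.T_inv x t'.2]
        rw [(h.cm (cD _ _) (inv_mem (cD _ _))).mul_zpow, inv_mul_eq_iff_eq_mul.1 e', inv_zpow,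
          ← mul_assoc, mul_inv_cancel_right]⟩))) ⟨d, hd⟩
  exact ⟨t, t.2, by rw [hj _ t.2, show t.1⁻¹ * _ = d from congrArg Subtype.val ht]⟩

theorem a_not_mem : a ∉ Phi x := fun e => not_mem_of_gen h.pg h.gen.symm h.nm
  (sup_le_sup_right (zpowers_le.2 (pow_mem (mem_zpowers x) 2)) _ e)

theorem a2 : a ^ 2 ∈ Phi x := D_le_Phi (R0_le_D h.sq)

theorem mem_M3 : g ∈ M3 a x ↔ g ∈ Phi x ∨ a⁻¹ * g ∈ Phi x := by
  refine ⟨fun hg => ?_, fun hg => hg.elim (fun hg => Phi_le_M3 hg) fun hg => by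
    simpa [M3] using mul_mem_sup (mem_zpowers a) hg⟩
  obtain ⟨_, ⟨k, rfl⟩, t, ht, rfl⟩ := mem_sup_of_normal_right.1 hg
  have := fun k : ℤ => mul_mem (zpow_mem h.a2 k) ht
  rcases Int.even_or_odd' k with ⟨k, rfl | rfl⟩
  · exact Or.inl (by convert this k using 1; group)
  · exact Or.inr (by convert this k using 1; group)

theorem ap_mul (hg : a⁻¹ * g ∈ Phi x) (hy : a⁻¹ * y ∈ Phi x) : g * y ∈ Phi x := by
  convert mul_mem (mul_mem h.a2 ((normal_Phi x).conj_mem' _ hg a)) hy using 1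
  group

theorem ap_not (hg : a⁻¹ * g ∈ Phi x) : g ∉ Phi x := fun e =>
  h.a_not_mem (by simpa using (mul_mem_cancel_right e).1 hg)

theorem ap_of (hg : g ∈ M3 a x) (h1 : g ∉ Phi x) : a⁻¹ * g ∈ Phi x := (h.mem_M3.1 hg).resolve_left h1

theorem dec (g : G) : ∃ j : ℤ, Abelianization.of g = Abelianization.of x ^ j ∨
    Abelianization.of g = Abelianization.of a * Abelianization.of x ^ j := by
  obtain ⟨_, ⟨k, rfl⟩, t, ht, rfl⟩ := mem_sup_of_normal_right.1 (h.gen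
    (zpowers a ⊔ (zpowers x ⊔ commutator G)) (mem_sup_left (mem_zpowers a))
    (mem_sup_right (mem_sup_left (mem_zpowers x))) g)
  obtain ⟨j, hj⟩ := mem_sup_D.1 ht
  have := of_eq_one.2 (R0_le_D h.sq)
  rw [map_pow] at this
  refine ⟨j, ?_⟩
  rcases Int.even_or_odd' k with ⟨k, rfl | rfl⟩ <;>
    simp [zpow_add_one, zpow_mul, zpow_ofNat, this, ← hj]

theorem aa : Abelianization.of a * Abelianization.of a = 1 := by
  rw [← map_mul, ← pow_two]; exact of_eq_one.2 (R0_le_D h.sq)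

theorem aodd {j : ℤ} (hj : Odd j) : Abelianization.of a ^ j = Abelianization.of a := by
  obtain ⟨k, rfl⟩ := hj
  rw [zpow_add_one, zpow_mul, zpow_ofNat, pow_two, h.aa, one_zpow, one_mul]

theorem change0 {j : ℤ} (hj : Odd j) (e : Abelianization.of s = Abelianization.of x ^ j) : Bi a s := by
  refine ⟨h.pg, fun K u v t => (top_of_sup_D h.pg (h.gen _ (mem_sup_left u) ?_)).ge (mem_top t),
    h.sq, h.ab,
    h.nm, meta_le h.m1 (sup_le (zpowers_le.2 (mem_sup_D.2 ⟨j, e.symm⟩)) le_sup_right),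
    meta_le h.m2 (sup_le (zpowers_le.2 (mem_sup_D.2 ⟨j, ?_⟩)) le_sup_right)⟩
  · exact mem_of_odd h.pg hj (sup_le_sup_right (zpowers_le.2 v) _
      (mem_sup_D.2 ⟨1, by simp [e]⟩))
  · simp only [map_mul, e, mul_zpow, h.aodd hj]

theorem odd_dec (hs : s ∉ M3 a x) : ∃ j : ℤ, Odd j ∧ (Abelianization.of s = Abelianization.of x ^ j ∨
    Abelianization.of s = Abelianization.of a * Abelianization.of x ^ j) := by
  obtain ⟨j, hj⟩ := h.dec s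
  refine ⟨j, Int.not_even_iff_odd.1 ?_, hj⟩
  rintro ⟨k, rfl⟩
  exact hs (h.mem_M3.2 (hj.imp (fun e => mem_Phi.2 ⟨k, by rw [e, two_mul]⟩) fun e =>
    mem_Phi.2 ⟨k, by simp [e, two_mul]⟩))

theorem change (hs : s ∉ M3 a x) : Bi a s := by
  obtain ⟨j, hj, e | e⟩ := h.odd_dec hs
  · exact h.change0 hj e
  · exact h.swap.change0 hj (by simp only [map_mul, e, mul_zpow, h.aodd hj])

theorem gen_ap (hg : a⁻¹ * g ∈ Phi x) : Gen2 g x := fun K u v t =>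
  (top_of_sup_D h.pg (h.gen _ (by
    simpa using mul_mem (mem_sup_left u) (inv_mem (sup_le_sup_right (zpowers_le.2 (pow_mem v 2)) _ hg)))
    (mem_sup_left v))).ge (mem_top t)

theorem x_not_mem : x ∉ M3 a x := fun e => (h.mem_M3.1 e).elim
  (fun e => by
    obtain ⟨k, hk⟩ := mem_Phi.1 e
    refine sq_not_mem h.pg h.gen h.sq h.nm (pow_mem (mem_of_odd h.pg (j := 2 * k - 1) (by simp)
      (of_eq_one.1 ?_)) 2)
    rw [map_zpow, zpow_sub_one, ← hk, mul_inv_cancel])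
  fun e => h.nm (meta_of h.pg (h.gen_ap e) (by simp [one_mem]))

theorem Phi_le (hy : y ∉ M3 a x) : Phi x ≤ Phi y := by
  obtain ⟨j, hj, e⟩ := h.odd_dec hy
  refine sup_le (zpowers_le.2 (mem_of_odd h.pg hj (mem_Phi.2 ⟨1, ?_⟩))) D_le_Phi
  rw [map_zpow, map_pow, ← zpow_ofNat, zpow_comm, mul_one]
  rcases e with e | e
  · rw [e]
  · rw [e, mul_zpow, zpow_ofNat, zpow_ofNat, pow_two (Abelianization.of a), h.aa, one_mul]

theorem comm_not_mem (hg : a⁻¹ * g ∈ Phi x) (hy : y ∉ M3 a x) : ⁅y, g⁆ ∉ R0 G := fun e =>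
  h.nm (meta_of h.pg ((h.change hy).gen_ap (h.Phi_le hy hg)) (mem_sup_right e))

theorem mem_M3_of (hg : a⁻¹ * g ∈ Phi x) (hy : ⁅y, g⁆ ∈ R0 G) : y ∈ M3 a x :=
  by_contra fun e => h.comm_not_mem hg e hy

theorem w_not_mem : ⁅x, a⁆ ∉ R0 G := h.comm_not_mem (by simp [one_mem]) h.x_not_mem

theorem M3_D2 (hy : y ∈ M3 a x) (hd : d ∈ commutator G) : ⁅y, d⁆ ∈ D2 G := by
  rcases h.mem_M3.1 hy with e | e
  · exact zpowers_le.2 (sq_mem_D2 (cD _ _)) (h.phi_act e hd)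
  · obtain ⟨j, hj⟩ := h.a_act e
    exact hj d hd ▸ sq_mem_D2 (mul_mem (inv_mem hd) (zpow_mem (cD _ _) j))

theorem M3_W (hy : y ∈ M3 a x) (hd : d ∈ commutator G) (h2 : d ^ 2 = 1) : ⁅y, d⁆ = 1 := by
  have e2 : ⁅x, d⁆ ^ 2 = 1 := by rw [← h.T_pow x hd, h2, commutatorElement_one_right]
  rcases h.mem_M3.1 hy with e | e
  · simpa [e2] using h.phi_act e hd
  · obtain ⟨j, hj⟩ := h.a_act e
    rw [hj d hd, (h.cm (inv_mem hd) (zpow_mem (cD _ _) j)).mul_pow, inv_pow, h2, ← zpow_ofNat (_ ^ j),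
      zpow_comm, zpow_ofNat, e2, one_zpow, inv_one, one_mul]

theorem R0_cases (hd : d ∈ R0 G) : d ∈ D2 G ∨ ⁅x, ⁅x, a⁆⁆⁻¹ * d ∈ D2 G := by
  haveI := h.normal_e
  obtain ⟨_, ⟨k, rfl⟩, t, ht, rfl⟩ := mem_sup_of_normal_right.1 (R0_le
    (K := zpowers ⁅x, ⁅x, a⁆⁆ ⊔ D2 G) (fun d hd => ⟨mem_sup_right (sq_mem_D2 hd), fun y => mem_cm.1
      (h.gen _ (mem_cm.2 (mem_sup_right (h.M3_D2 (mem_sup_left (mem_zpowers a)) hd)))
      (mem_cm.2 (mem_sup_left (h.T_mem hd))) y)⟩) hd)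
  have := fun k : ℤ => mul_mem (zpow_mem (sq_mem_D2 (cD x ⁅x, a⁆)) k) ht
  generalize ⁅x, ⁅x, a⁆⁆ = e at this ⊢
  rcases Int.even_or_odd' k with ⟨k, rfl | rfl⟩
  · exact Or.inl (by convert this k using 1; group)
  · exact Or.inr (by convert this k using 1; group)

theorem D_cases (hs : s ∈ commutator G) (h1 : s ∉ R0 G) (hd : d ∈ commutator G) :
    d ∈ R0 G ∨ s⁻¹ * d ∈ R0 G := by
  have key : ∀ d ∈ commutator G, d ∈ R0 G ∨ ⁅x, a⁆⁻¹ * d ∈ R0 G := fun d hd => by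
    obtain ⟨_, ⟨k, rfl⟩, t, ht, rfl⟩ := mem_sup_of_normal_right.1 (h.D_le
      (K := zpowers ⁅x, a⁆ ⊔ R0 G) (mem_sup_left (mem_zpowers _)) (fun g s hs h1 =>
        comm_eq g s ▸ mul_mem (mem_sup_right (comm_mem_R0 g hs)) h1) hd)
    have := fun k : ℤ => mul_mem (zpow_mem (sq_mem_R0 (cD x a)) k) ht
    generalize ⁅x, a⁆ = e at this ⊢
    rcases Int.even_or_odd' k with ⟨k, rfl | rfl⟩
    · exact Or.inl (by convert this k using 1; group)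
    · exact Or.inr (by convert this k using 1; group)
  refine (key d hd).imp_right fun e => ?_
  convert mul_mem (inv_mem ((key s hs).resolve_left h1)) e using 1
  group

theorem T_not (hs : s ∈ commutator G) (h1 : s ∉ R0 G) :
    ⁅x, ⁅x, a⁆⁆⁻¹ * ⁅x, s⁆ ∈ zpowers (⁅x, ⁅x, a⁆⁆ ^ 2) := by
  have := h.T_R0 ((h.D_cases (cD x a) h.w_not_mem hs).resolve_left h1)
  rwa [h.T_mul x (inv_mem (cD _ _)) hs, h.T_inv x (cD _ _)] at this

/-- every element of `D` is a commutator with `g ∈ aΦ` -/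
theorem surj (hg : a⁻¹ * g ∈ Phi x) (hd : d ∈ commutator G) : ∃ n : G, ⁅n, g⁆ = d := by
  have k1 : ∀ n d : G, d ∈ commutator G → ⁅n, g⁆⁻¹ * d ∈ D2 G → ∃ n : G, ⁅n, g⁆ = d := fun n d hd e => by
    obtain ⟨t, ht, e⟩ := h.surj_D2 hg (inv_mem e)
    exact ⟨t * n, by rw [comm_mul_left, h.cj ht (cD _ _), ← commutatorElement_inv g t, e]; group⟩
  have h1 := h.comm_not_mem hg h.x_not_mem
  have h2 : ⁅x, ⁅x, a⁆⁆⁻¹ * ⁅x, ⁅x, g⁆⁆ ∈ D2 G :=
    zpowers_le.2 (sq_mem_D2 (cD _ _)) (h.T_not (cD _ _) h1)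
  have h3 : ⁅x ^ 2, g⁆⁻¹ * ⁅x, ⁅x, a⁆⁆ ∈ D2 G := by
    simpa [comm_sq_left, mul_assoc] using inv_mem (mul_mem h2 (sq_mem_D2 (cD x g)))
  have k2 : ∀ d ∈ R0 G, ∃ n ∈ Phi x, ⁅n, g⁆⁻¹ * d ∈ D2 G := fun d hd =>
    (h.R0_cases hd).elim (fun e => ⟨1, one_mem _, by simpa using e⟩) fun e =>
      ⟨_, sq_mem_Phi, by convert mul_mem h3 e using 1; group⟩
  rcases h.D_cases (cD x g) h1 hd with e | e
  · obtain ⟨n, -, e⟩ := k2 d e
    exact k1 n d hd e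
  · obtain ⟨n, hn, e⟩ := k2 _ e
    refine k1 (n * x) d hd ?_
    convert mul_mem e (normal_D2.conj_mem' _ (inv_mem (h.M3_D2 (Phi_le_M3 hn) (cD x g))) d) using 1
    group

/-- commutativity modulo `V` of the centraliser of `g` modulo `V` -/
theorem ab_mod (hg : a⁻¹ * g ∈ Phi x) {V : Subgroup G} [V.Normal]
    (hV : ∀ y d : G, d ∈ commutator G → ⁅y, g⁆ ∈ V → ⁅d, g⁆ ∈ V → ⁅y, d⁆ ∈ V) {y' : G} (hy : ⁅y, g⁆ ∈ V)
    (hy' : ⁅y', g⁆ ∈ V) : ⁅y, y'⁆ ∈ V := by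
  obtain ⟨t, ht, H⟩ := exists_gen_subgroup (N := zpowers g ⊔ commutator G) (b := x) (fun s => by
    obtain ⟨t, ht, _, ⟨k, rfl⟩, rfl⟩ := mem_sup_of_normal_left.1 (h.gen_ap hg
      ((zpowers g ⊔ commutator G) ⊔ zpowers x) (mem_sup_left (mem_sup_left (mem_zpowers g)))
      (mem_sup_right (mem_zpowers x)) s)
    exact ⟨k, by simpa using ht⟩) (Bc.cm V g)
  have k1 : ∀ y ∈ Bc.cm V g, ∀ s ∈ Bc.cm V g, s ∈ zpowers g ⊔ commutator G → s ∈ Bc.cm V y := by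
    intro y hy s hs h1
    obtain ⟨_, ⟨k, rfl⟩, d, hd, rfl⟩ := mem_sup_of_normal_right.1 h1
    exact mul_mem (zpow_mem (mem_cm.2 (comm_symm hy)) k) (mem_cm.2 (comm_symm (hV y d hd hy
      ((mul_mem_cancel_left (zpow_mem (self_mem_cm g) k)).1 hs))))
  have k2 : ∀ y ∈ Bc.cm V g, t ∈ Bc.cm V y → ∀ s ∈ Bc.cm V g, s ∈ Bc.cm V y := fun y hy h1 s hs => by
    obtain ⟨k, hk⟩ := H s hs
    simpa using mul_mem (k1 y hy _ (mul_mem hs (inv_mem (zpow_mem ht k))) hk) (zpow_mem h1 k)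
  exact k2 y' hy' (mem_cm.2 (comm_symm (k2 t ht (self_mem_cm t) y' hy'))) y hy

theorem eq_one_of_sq (H : ∀ d ∈ commutator G, ∃ s ∈ commutator G, d ^ 2 = s ^ 4)
    (hd : d ∈ commutator G) : d ^ 2 = 1 := by
  have key : ∀ k : ℕ, ∃ s ∈ commutator G, d ^ 2 = s ^ 2 ^ (k + 1) := fun k => by
    induction k with
    | zero => exact ⟨d, hd, rfl⟩
    | succ k ih =>
      obtain ⟨s, hs, e⟩ := ih
      obtain ⟨t, ht, e'⟩ := H s hs
      exact ⟨t, ht, by rw [e, pow_succ', pow_mul, e', ← pow_mul]; congr 1; ring⟩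
  obtain ⟨n, hn⟩ := IsPGroup.iff_card.1 h.pg
  obtain ⟨s, -, e⟩ := key n
  rw [e, pow_succ, pow_mul, ← hn, pow_card_eq_one', one_pow]

theorem all_of_not_R0 (hs : s ∈ commutator G) (h1 : s ∉ R0 G) (h2 : s ^ 2 = 1)
    (hd : d ∈ commutator G) : d ^ 2 = 1 := by
  have e2 : ⁅x, ⁅x, a⁆⁆ ^ 2 = 1 := by
    refine eq_one_of_mem_sq h.pg ?_
    have := sq_mem_sq (h.T_not hs h1)
    rwa [(h.cm (inv_mem (cD _ _)) (cD _ _)).mul_pow, ← h.T_pow x hs, h2, commutatorElement_one_right,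
      mul_one, inv_pow, inv_mem_iff] at this
  have k1 : ∀ u d, u ∈ commutator G → u ^ 2 = 1 → d ∈ commutator G →
      (∃ s ∈ commutator G, (u⁻¹ * d) ^ 2 = s ^ 4) → ∃ s ∈ commutator G, d ^ 2 = s ^ 4 :=
    fun u d hu u2 hd e => by rwa [(h.cm (inv_mem hu) hd).mul_pow, inv_pow, u2, inv_one, one_mul] at e
  have k2 : ∀ d ∈ D2 G, ∃ s ∈ commutator G, d ^ 2 = s ^ 4 := fun d hd => by
    obtain ⟨t, ht, rfl⟩ := h.mem_D2.1 hd
    exact ⟨t, ht, by rw [← pow_mul]⟩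
  have k3 : ∀ d ∈ R0 G, ∃ s ∈ commutator G, d ^ 2 = s ^ 4 := fun d hd =>
    (h.R0_cases hd).elim (k2 d) fun e => k1 _ d (cD _ _) e2 (R0_le_D hd) (k2 _ e)
  exact h.eq_one_of_sq (fun d hd => (h.D_cases hs h1 hd).elim (k3 d) fun e =>
    k1 s d hs h2 hd (k3 _ e)) hd

section NC
variable (nc : ¬ IsCyclic (commutator G))
include nc

theorem e_not_mem : ⁅x, ⁅x, a⁆⁆ ∉ D2 G := fun e => nc (by
  have h1 : R0 G ≤ D2 G := fun d hd => (h.R0_cases hd).elim id (mul_mem_cancel_left (inv_mem e)).1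
  refine isCyclic_iff_exists_zpowers_eq_top.2 ⟨⟨_, cD x a⟩, frattini_nongenerating
    (eq_top_iff.2 fun d _ => ?_)⟩
  have h2 : ∀ d : commutator G, d.1 ∈ R0 G → d ∈ frattini (commutator G) := fun d hd => by
    obtain ⟨t, ht, e⟩ := h.mem_D2.1 (h1 hd)
    exact (Subtype.ext e : d = ⟨t, ht⟩ ^ 2) ▸ pow_mem_frattini (h.pg.to_subgroup _) _
  rcases h.D_cases (cD x a) h.w_not_mem d.2 with e | e
  · exact mem_sup_right (h2 d e)
  · simpa using mul_mem_sup (mem_zpowers (⟨_, cD x a⟩ : commutator G)) (h2 (⟨_, cD x a⟩⁻¹ * d) e))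

theorem e_ne : ⁅x, ⁅x, a⁆⁆ ≠ 1 := fun e => h.e_not_mem nc (e ▸ one_mem _)

theorem mem_R0_of_T (hd : d ∈ commutator G) (h1 : ⁅x, d⁆ ∈ zpowers (⁅x, ⁅x, a⁆⁆ ^ 2)) : d ∈ R0 G :=
  by_contra fun e => h.e_ne nc (eq_one_of_mem_sq h.pg
    (inv_mem_iff.1 ((mul_mem_cancel_right h1).1 (h.T_not hd e))))

/-- (F) -/
theorem mem_D_of_sq (hg : g ∈ Phi x) (h2 : g ^ 2 ∈ D2 G) : g ∈ commutator G := by
  by_contra hn
  have hP := h.pg.to_subgroup (zpowers g ⊔ commutator G)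
  obtain ⟨u, v, -, huv⟩ := exists_gen_of_isMetacyclic (meta_le h.m1 (sup_le (zpowers_le.2
    (sup_le_sup_right (zpowers_le.2 (pow_mem (mem_zpowers x) 2)) _ hg)) le_sup_right :
      zpowers g ⊔ commutator G ≤ _))
  have c : ∀ s ∈ zpowers g ⊔ commutator G, ∀ t ∈ zpowers g ⊔ commutator G, ⁅s, t⁆ ∈ D2 G := by
    have c1 : ∀ s ∈ zpowers g ⊔ commutator G, ∀ t ∈ commutator G, ⁅s, t⁆ ∈ D2 G := fun s hs t ht =>
      h.M3_D2 (Phi_le_M3 (sup_le (zpowers_le.2 hg) D_le_Phi hs)) ht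
    intro s hs t ht
    refine (sup_le (zpowers_le.2 ?_) fun s hs => comm_symm (c1 t ht s hs) : _ ≤ Bc.cm (D2 G) t) hs
    exact comm_symm (mem_cm.1 ((sup_le (zpowers_le.2 (self_mem_cm g)) fun s hs => comm_symm
      (c1 g (mem_sup_left (mem_zpowers g)) s hs) : _ ≤ Bc.cm (D2 G) g) ht))
  have h3 : (D2 G).relIndex (zpowers g ⊔ commutator G) ∣ 2 ^ 2 :=
    (index_dvd_of_le (frattini_le_of_pow_comm (p := 2) (N := (D2 G).subgroupOf _) (fun s => ?_)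
      fun s t => c s s.2 t t.2)).trans (index_frattini_dvd_of_gen hP huv)
  · have h4 := (relIndex_dvd_of_between h.pg (D2_le_R0.trans R0_le_D) le_sup_right h3
      (fun e => h.e_not_mem nc (e (cD _ _))) fun e => hn (e (mem_sup_left (mem_zpowers g)))).1
    rw [← relIndex_mul_relIndex _ _ _ D2_le_R0 R0_le_D] at h4
    rcases (Nat.dvd_prime Nat.prime_two).1 ((Nat.dvd_mul_right _ _).trans h4) with e | e
    · exact h.e_not_mem nc (relIndex_eq_one.1 e (comm_mem_R0 _ (cD _ _)))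
    · rw [e] at h4
      exact h.w_not_mem (relIndex_eq_one.1 (Nat.dvd_one.1 (Nat.dvd_of_mul_dvd_mul_left two_pos h4))
        (cD _ _))
  · obtain ⟨_, ⟨k, rfl⟩, d, hd, e⟩ := mem_sup_of_normal_right.1 s.2
    rw [mem_subgroupOf, coe_pow, ← e, show (g ^ k * d) ^ 2 = (g ^ 2) ^ k * ⁅(g ^ k)⁻¹, d⁆ * d ^ 2 by
      simp only [commutatorElement_def, pow_two (_ * _), pow_two d]; group]
    exact mul_mem (mul_mem (zpow_mem h2 k) (c _ (mem_sup_left (inv_mem ⟨k, rfl⟩)) d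
      (mem_sup_right hd))) (sq_mem_D2 hd)

theorem mem_W1_of_sq (hg : g ∈ Phi x) (h2 : g ^ 2 = 1) : g ∈ W1 G :=
  h.mem_W1.2 ⟨h.mem_D_of_sq nc hg (h2 ▸ one_mem _), h2⟩

theorem two_inv : ∃ u ∈ W1 G, ∃ v ∈ W1 G, u ≠ 1 ∧ v ≠ 1 ∧ u * v ≠ 1 := by
  by_contra hn
  push Not at hn
  haveI : IsMulCommutative (commutator G) := ⟨⟨fun s t => Subtype.ext (h.ab _ s.2 _ t.2)⟩⟩
  refine nc (H2.isCyclic_of_comm_of_unique (h.pg.to_subgroup _) fun u v hu hv => ?_)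
  by_cases e : v = 1
  · exact e ▸ one_mem _
  rw [eq_inv_of_mul_eq_one_right (Subtype.ext (hn u (h.mem_W1.2 ⟨u.2, congrArg Subtype.val
    (hu ▸ pow_orderOf_eq_one u : u ^ 2 = 1)⟩) v (h.mem_W1.2 ⟨v.2, congrArg Subtype.val hv⟩)
    (fun e => by simp [(Subtype.ext e : u = 1)] at hu) fun e' => e (Subtype.ext e')) : u * v = 1)]
  exact inv_mem (mem_zpowers u)

end NC

end Bi

end Cfsg.Agent.H4.Bc
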