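import Cfsg.Agent.H4.Bic2
import Cfsg.Agent.H1.Rank2
import Cfsg.Agent.H2.Quat
import Cfsg.Agent.L.Transport

/-! Bicyclic `2`-groups with non-cyclic derived subgroup have no essential subgroups. -/

set_option autoImplicit false
set_option linter.unusedSectionVars false
set_option linter.style.haveILetI false

namespace Cfsg.Agent.H4.Bc

open Subgroup Cfsg.Agent.H8 Equiv Cfsg.Fus Cfsg.FusionSystem
open scoped commutatorElement

universe u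

variable {G : Type u} [Group G] [Finite G] {a x g y d b : G} {F : FusionSystem (⊤ : Subgroup G)}
  {Q : Subgroup G} {σ : Perm G}

theorem ci (q g : G) : q⁻¹ * cj g q = ⁅q⁻¹, g⁆ := by
  simp only [cj_apply, commutatorElement_def]; group

theorem norm_of (hc : ∀ q ∈ Q, ⁅q, g⁆ ∈ Q) : g ∈ normalizer (Q : Set G) :=
  mem_normalizer_of_finite fun q hq => by
    rw [comm_eq]; exact mul_mem (comm_symm (hc q hq)) hq

theorem Bi.c1 {d' : G} (h : Bi a x) (hd : d ∈ commutator G) (hd' : d' ∈ commutator G) : ⁅d, d'⁆ = 1 :=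
  commutatorElement_eq_one_iff_mul_comm.2 (h.ab d hd d' hd')

structure Es (a x : G) (F : FusionSystem (⊤ : Subgroup G)) (Q : Subgroup G) : Prop where
  bi : Bi a x
  nc : ¬ IsCyclic (commutator G)
  ess : F.IsEssential 2 Q
  ne : Q ≠ ⊤

namespace Es

variable (h : Es a x F Q)
include h

theorem pT : IsPGroup 2 (⊤ : Subgroup G) := h.bi.pg.to_subgroup ⊤

theorem op (hg : cj g ∈ F.opStab 2 Q) : g ∈ Q :=
  h.ess.isCentric.mem_of_cj_mem_opStab (h.ess.isRadical h.pT) (mem_top g) hg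

theorem of_fix {A : Subgroup G} (hA : A ≤ Q) (hi : F.AInv Q A) (h1 : ∀ v ∈ A, ⁅g, v⁆ = 1)
    (h2 : ∀ q ∈ Q, ⁅q, g⁆ ∈ A) : g ∈ Q :=
  h.op ((F.iso_cj le_top (mem_top g) (norm_of fun q hq => hA (h2 q hq))).mem_opStab_of_fix h.pT hA hi
    (fun v hv => by rw [cj_apply, comm_eq, h1 v hv, one_mul])
    fun q hq => ci q g ▸ h2 _ (inv_mem hq))

theorem of_cent (h2 : ∀ q ∈ Q, ⁅q, g⁆ = 1) : g ∈ Q :=
  h.of_fix bot_le (H1.aInv_bot F Q) (fun v hv => by simp [mem_bot.1 hv]) h2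

theorem of_two {A : Subgroup G} (hA : A ≤ Q) (hi : F.AInv Q A)
    (h1 : ∀ v ∈ A, ⁅v, g⁆ ∈ H1.phiF Q) (h2 : ∀ q ∈ Q, ⁅q, g⁆ ∈ A) : g ∈ Q :=
  h.op (H1.mem_opStab_two h.pT (F.iso_cj le_top (mem_top g) (norm_of fun q hq => hA (h2 q hq))) hi
    (fun q hq => ci q g ▸ h2 _ (inv_mem hq)) fun q hq _ => ci q g ▸ h1 _ (inv_mem hq))

theorem exists_t (hD : ¬ commutator G ≤ Q) :
    ∃ t ∈ commutator G, t ∉ Q ∧ t ^ 2 ∈ Q ∧ ∀ g : G, ⁅g, t⁆ ∈ Q := by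
  obtain ⟨t, ht, h1, h2, h3⟩ := Fus.exists_central_mod (A := Q.normalCore) (B := commutator G) h.pT
    le_top (normalizer_eq_top _).ge (normalizer_eq_top _).ge fun e => hD (e.trans Q.normalCore_le)
  have h4 : ∀ g : G, ⁅g, t⁆ ∈ Q := fun g => by
    have := Q.normalCore_le (Q.normalCore_normal.conj_mem _ (h3 g (mem_top g)) t)
    convert this using 1
    simp only [commutatorElement_def]; group
  refine ⟨t, ht, fun e => h1 fun g => ?_, Q.normalCore_le h2, h4⟩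
  rw [comm_eq]; exact mul_mem (h4 g) e

theorem not_mem : x ∉ Q := fun hx => by
  have hQp := h.bi.pg.to_subgroup Q
  have h1 : Q ≤ zpowers x ⊔ commutator G := fun q hq => by
    obtain ⟨j, e | e⟩ := h.bi.dec q
    · exact mem_sup_D.2 ⟨j, e.symm⟩
    · refine absurd (eq_top_iff.2 fun s _ => h.bi.gen_ap (g := q * (x ^ j)⁻¹) (D_le_Phi (of_eq_one.1 ?_))
        Q (mul_mem hq (inv_mem (zpow_mem hx j))) hx s) h.ne
      simp [e]
  obtain ⟨u, v, hn, huv⟩ := exists_gen_of_isMetacyclic (meta_le h.bi.m1 h1)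
  have hE := essAut_of_isEssential h.ess
  have hN := noFlag_of_not_stab hQp (index_frattini_dvd_of_gen hQp huv) hE.not_stab
  have hu : u ∉ frattini Q := fun e => hE.not_isCyclic hQp (isCyclic_of_mem_frattini huv e)
  have h2 := sq_not_mem h.bi.pg h.bi.gen h.bi.sq h.bi.nm
  rcases hN.comm_or_quaternion hQp huv hu with hc | ⟨-, -, e, -⟩
  · have hc' : ∀ s ∈ Q, ∀ t ∈ Q, ⁅s, t⁆ = 1 := fun s hs t ht =>
      commutatorElement_eq_one_iff_mul_comm.2 (congrArg Subtype.val (hc ⟨s, hs⟩ ⟨t, ht⟩))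
    obtain ⟨t, ht, t1, t2, t3⟩ := h.exists_t fun e => h.bi.e_ne h.nc (hc' _ hx _ (e (cD x a)))
    obtain ⟨q, hq, hq'⟩ : ∃ q ∈ Q, ⁅q, t⁆ ∉ H1.phiF Q := by
      by_contra! H
      exact t1 (h.of_two le_rfl (H1.aInv_self F Q) H fun q _ => t3 q)
    have := hN.pow_eq_one hc (n := 2) (x := ⟨_, t3 q⟩) (fun e => hq' (mem_map_of_mem _ e))
      (Subtype.ext (by simpa [← h.bi.T_pow q ht] using hc' _ hq _ t2)) ⟨x, hx⟩
    exact h2 ((show x ^ 2 = 1 from congrArg Subtype.val this) ▸ one_mem _)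
  · refine h2 (map_mem_D Q.subtype (hN.pow_mem (commutator Q) (quot_commutator_mul_pow 2) hu ?_ ⟨x, hx⟩))
    have := inv_mem (cD v u)
    rwa [commutatorElement_def, e, ← mul_inv_rev, inv_inv, ← pow_two] at this

theorem le_M3 : Q ≤ M3 a x := fun s hs => by
  by_contra H
  exact Es.not_mem ⟨h.bi.change H, h.nc, h.ess, h.ne⟩ hs

theorem cW (hy : y ∈ Q) (hd : d ∈ W1 G) : ⁅y, d⁆ = 1 :=
  h.bi.M3_W (h.le_M3 hy) (h.bi.mem_W1.1 hd).1 (h.bi.mem_W1.1 hd).2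

theorem W_le : W1 G ≤ Q := fun _ hd => h.of_cent fun _ hq => h.cW hq hd

theorem gamma : ∃ σ b, F.Iso Q Q σ ∧ b ∈ Q ∧ b ∈ commutator G ∧ a⁻¹ * σ b ∈ Phi x := by
  by_contra! H
  let T : Subgroup G :=
    { carrier := {q | q ∈ Q ∧ ∀ σ, F.Iso Q Q σ → σ q ∈ Phi x}
      one_mem' := ⟨one_mem _, fun σ hσ => hσ.homOn.map_one.symm ▸ one_mem _⟩
      mul_mem' := fun h1 h2 => ⟨mul_mem h1.1 h2.1, fun σ hσ =>
        hσ.homOn.map_mul h1.1 h2.1 ▸ mul_mem (h1.2 σ hσ) (h2.2 σ hσ)⟩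
      inv_mem' := fun h1 => ⟨inv_mem h1.1, fun σ hσ => hσ.homOn.map_inv h1.1 ▸ inv_mem (h1.2 σ hσ)⟩ }
  have hT : T ≤ Q := fun _ h1 => h1.1
  have hP : T ≤ Phi x := fun _ h1 => h1.2 1 (F.iso_one le_top)
  have hi : F.AInv Q T := fun τ hτ q hq => ⟨hτ.mem hq.1, fun σ hσ => hq.2 _ (hτ.trans hσ)⟩
  have hD : ∀ b ∈ Q, b ∈ commutator G → b ∈ T := fun b h1 h2 => ⟨h1, fun σ hσ => by
    by_contra H'
    exact H σ b hσ h1 h2 (h.bi.ap_of (h.le_M3 (hσ.mem h1)) H')⟩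
  have hs : ∀ s ∈ Q, zpowers (s ^ 2) ≤ H1.phiF Q := fun s hs =>
    zpowers_le.2 (H1.pow_mem_phiF h.pT le_top hs)
  by_cases h1 : commutator G ≤ Q
  swap
  · obtain ⟨t, ht, t1, -, t3⟩ := h.exists_t h1
    exact t1 (h.of_two hT hi (fun v hv => hs _ (t3 x) (h.bi.phi_act (hP hv) ht))
      fun q _ => hD _ (t3 q) (cD _ _))
  by_cases h2 : ∀ q ∈ Q, q ∈ Phi x → q ∈ commutator G
  · refine sq_not_mem h.bi.pg h.bi.gen h.bi.sq h.bi.nm (h2 _ (h.of_two hT hi (fun v hv => ?_)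
      fun q _ => hD _ (h1 (cD _ _)) (cD _ _)) sq_mem_Phi)
    exact comm_symm (hs _ (h1 (cD _ _)) (h.bi.phi_act sq_mem_Phi (h2 _ (hT hv) (hP hv))))
  push Not at h2
  obtain ⟨q, hq, hq1, hq2⟩ := h2
  obtain ⟨k, h3, h4⟩ := H2.exists_pow_notMem_pow_mem h.bi.pg hq2
  have h5 := pow_mem hq (2 ^ k)
  have h6 := pow_mem hq1 (2 ^ k)
  generalize q ^ 2 ^ k = r at h3 h4 h5 h6
  haveI := h.bi.normal_e
  have h7 : ∀ v ∈ Phi x, ⁅v, x⁆ ∈ zpowers ⁅x, ⁅x, a⁆⁆ := fun v hv =>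
    mem_cm.1 ((sup_le (zpowers_le.2 (pow_mem (self_mem_cm x) 2)) fun d hd =>
      mem_cm.2 (comm_symm (h.bi.T_mem hd)) : Phi x ≤ Bc.cm _ x) hv)
  have h8 : r ^ 2 ∈ R0 G := h.bi.mem_R0_of_T h.nc h4 (comm_symm (by
    rw [comm_sq_left]
    exact mul_mem (zpowers_le.2 (sq_mem_sq (h7 r h6)) (comm_mem_sq h.bi.pg (h7 r h6) r))
      (sq_mem_sq (h7 r h6))))
  have h9 : D2 G ≤ H1.phiF Q := fun s hs' => by
    obtain ⟨d, hd, rfl⟩ := h.bi.mem_D2.1 hs'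
    exact hs d (h1 hd) (mem_zpowers _)
  rcases h.bi.R0_cases h8 with e | e
  · exact h3 (h.bi.mem_D_of_sq h.nc h6 e)
  have h10 := (inv_mem_iff.1 ((mul_mem_cancel_right (hs r h5 (mem_zpowers _))).1 (h9 e)))
  exact h.not_mem (h.of_two hT hi (fun v hv => zpowers_le.2 h10 (h7 v (hP hv)))
    fun q _ => hD _ (h1 (cD _ _)) (cD _ _))

/-- the common step of case `β` -/
theorem key (hσ : F.Iso Q Q σ) (hb : b ∈ Q) (hb' : b ∈ commutator G) (hg : a⁻¹ * σ b ∈ Phi x)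
    (hd : d ∈ Q) (hd' : d ∈ commutator G) (h1 : σ d ∈ Phi x) (h2 : σ (d ^ 2) ∈ D2 G) : d ^ 2 = 1 := by
  rw [hσ.homOn.map_pow hd] at h2
  have := h.bi.cent_a hg (h.bi.mem_D_of_sq h.nc h1 h2) (by
    rw [← hσ.homOn.map_commutator hb hd, h.bi.c1 hb' hd', hσ.homOn.map_one])
  rw [← hσ.homOn.map_pow hd, ← hσ.homOn.map_one] at this
  exact σ.injective this

theorem cU (hy : y ∈ M3 a x) (hd : d ∈ commutator G) (h4 : (d ^ 2) ^ 2 = 1) : ⁅y, d⁆ ∈ W1 G :=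
  h.bi.mem_W1.2 ⟨cD _ _, by rw [← h.bi.T_pow y hd, h.bi.M3_W hy (pow_mem hd 2) h4]⟩

theorem beta : ¬ F.AInv Q (W1 G) := fun hi => by
  have hU : ∀ d ∈ commutator G, (d ^ 2) ^ 2 = 1 → d ∈ Q := fun d hd h4 =>
    h.of_fix h.W_le hi (fun v hv => h.bi.c1 hd (W1_le_D hv))
      fun q hq => h.cU (h.le_M3 hq) hd h4
  have hW : ∀ {σ b}, F.Iso Q Q σ → b ∈ commutator G → a⁻¹ * σ b ∈ Phi x → b ^ 2 ≠ 1 :=
    fun hσ hb hg e => h.bi.ap_not hg (D_le_Phi (W1_le_D (hi _ hσ _ (h.bi.mem_W1.2 ⟨hb, e⟩))))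
  obtain ⟨σ, b, hσ, hb, hb', hg⟩ := h.gamma
  have hR : W1 G ≤ R0 G := fun v hv => by
    by_contra H
    exact hW hσ hb' hg (h.bi.all_of_not_R0 (W1_le_D hv) H (h.bi.mem_W1.1 hv).2 hb')
  obtain ⟨u, hu, hu4, hu'⟩ : ∃ u ∈ commutator G, (u ^ 2) ^ 2 = 1 ∧ a⁻¹ * σ u ∈ Phi x := by
    obtain ⟨k, h3, h4⟩ := H2.exists_pow_notMem_pow_mem h.bi.pg (H := W1 G) (g := b)
      fun e => hW hσ hb' hg (h.bi.mem_W1.1 e).2
    have h5 := pow_mem hb' (2 ^ k)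
    generalize b ^ 2 ^ k = r at h3 h4 h5
    have h6 := (h.bi.mem_W1.1 h4).2
    obtain ⟨r', hr', e⟩ := hσ.exists_eq (hU r h5 h6)
    have h7 : ⁅b, r'⁆ ∈ W1 G := by
      have := hi _ hσ.symm _ (h.cU (h.le_M3 (hσ.mem hb)) h5 h6)
      rwa [← e, ← hσ.homOn.map_commutator hb hr', Perm.coe_inv, symm_apply_apply] at this
    obtain ⟨u, hu, e'⟩ := h.bi.mem_D2.1 (comm_symm (h.bi.M3_D2 (h.le_M3 hr') hb'))
    have h8 := (h.bi.mem_W1.1 (e' ▸ h7)).2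
    refine ⟨u, hu, h8, h.bi.ap_of (h.le_M3 (hσ.mem (hU u hu h8))) fun H => h3 (h.bi.mem_W1.2 ⟨h5, ?_⟩)⟩
    have h9 : σ (u ^ 2) = ⁅σ b, r⁆ := by rw [← e', hσ.homOn.map_commutator hb hr', e]
    refine h.bi.cent_a hg h5 ?_
    rw [← h9, h.key hσ hb hb' hg (hU u hu h8) hu H (h9 ▸ h.bi.M3_D2 (h.le_M3 (hσ.mem hb)) h5),
      hσ.homOn.map_one]
  have huQ := hU u hu hu4
  have h1 : ∀ q ∈ Q, ⁅q, σ u⁆ ∈ W1 G := fun q hq => by
    obtain ⟨r, hr, rfl⟩ := hσ.exists_eq hq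
    exact hσ.homOn.map_commutator hr huQ ▸ hi _ hσ _ (h.cU (h.le_M3 hr) hu hu4)
  have h2 : ∀ n, ⁅n, σ u⁆ ∈ W1 G → n ∈ Q := fun n hn =>
    h.of_fix h.W_le hi (fun v hv => h.bi.M3_W (h.bi.mem_M3_of hu' (hR hn)) (W1_le_D hv)
      (h.bi.mem_W1.1 hv).2) fun q hq => h.bi.ab_mod hu' (fun y d hd hy e =>
        h.cU (h.bi.mem_M3_of hu' (hR hy)) hd (h.bi.cent_a hu' (pow_mem hd 2) (by
          rw [h.bi.T_pow _ hd, (h.bi.mem_W1.1 (comm_symm e)).2]))) (h1 q hq) hn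
  have h3 : W1 G ≤ D2 G := fun v hv => by
    obtain ⟨n, hn⟩ := h.bi.surj hu' (W1_le_D (hi _ hσ _ hv))
    obtain ⟨n, hn', rfl⟩ := hσ.exists_eq (h2 n (hn ▸ hi _ hσ _ hv))
    rw [← hσ.homOn.map_commutator hn' huQ] at hn
    exact σ.injective hn ▸ h.bi.M3_D2 (h.le_M3 hn') hu
  have h4 : ∀ d ∈ commutator G, d ^ 2 ∈ W1 G → σ d ∈ Phi x → d ^ 2 = 1 := fun d hd e e' =>
    h.key hσ huQ hu hu' (hU d hd (h.bi.mem_W1.1 e).2) hd e' (h3 (hi _ hσ _ e))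
  obtain ⟨v, hv, v', hv', n1, n2, n3⟩ := h.bi.two_inv h.nc
  obtain ⟨d, hd, rfl⟩ := h.bi.mem_D2.1 (h3 hv)
  obtain ⟨d', hd', rfl⟩ := h.bi.mem_D2.1 (h3 hv')
  have q1 := hU d hd (h.bi.mem_W1.1 hv).2
  have q2 := hU d' hd' (h.bi.mem_W1.1 hv').2
  rw [← (h.bi.cm hd hd').mul_pow] at n3
  refine n3 (h4 _ (mul_mem hd hd') ((h.bi.cm hd hd').mul_pow 2 ▸ mul_mem hv hv') ?_)
  rw [hσ.homOn.map_mul q1 q2]
  exact h.bi.ap_mul (h.bi.ap_of (h.le_M3 (hσ.mem q1)) fun e => n1 (h4 d hd hv e))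
    (h.bi.ap_of (h.le_M3 (hσ.mem q2)) fun e => n2 (h4 d' hd' hv' e))

theorem alpha : F.AInv Q (W1 G) := fun τ hτ v hv => by
  by_contra H
  have hvQ := h.W_le hv
  have hp := hτ.mem hvQ
  have p2 : τ v ^ 2 = 1 := by
    rw [← hτ.homOn.map_pow hvQ, (h.bi.mem_W1.1 hv).2, hτ.homOn.map_one]
  have hp' := h.bi.ap_of (h.le_M3 hp) fun e => H (h.bi.mem_W1_of_sq h.nc e p2)
  have ab : ∀ {p y y' : G}, a⁻¹ * p ∈ Phi x → ⁅y, p⁆ = 1 → ⁅y', p⁆ = 1 → ⁅y, y'⁆ = 1 :=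
    fun hg hy hy' => h.bi.ab_mod hg (V := ⊥) (fun y d hd e e' => h.bi.M3_W
      (h.bi.mem_M3_of hg (mem_bot.1 e ▸ one_mem _)) hd (h.bi.cent_a hg hd (comm_symm e'))) hy hy'
  have c1 : ∀ q ∈ Q, ⁅q, τ v⁆ = 1 := fun q hq => by
    obtain ⟨r, hr, rfl⟩ := hτ.exists_eq hq
    rw [← hτ.homOn.map_commutator hr hvQ, h.cW hr hv, hτ.homOn.map_one]
  generalize τ v = p at H hp p2 hp' c1
  have hc : ∀ q ∈ Q, ∀ r ∈ Q, Commute q r := fun q hq r hr =>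
    commutatorElement_eq_one_iff_commute.1 (ab hp' (c1 q hq) (c1 r hr))
  have nn : ∀ n, ⁅n, p⁆ ∈ W1 G → n ∈ normalizer (Q : Set G) := fun n hn =>
    mem_normalizer_of_finite fun q hq => h.of_cent fun r hr => by
      have h1 : n * p * n⁻¹ ∈ Q := comm_eq n p ▸ mul_mem (h.W_le hn) hp
      have h2 : a⁻¹ * (n * p * n⁻¹) ∈ Phi x := by
        have := mul_mem hp' (D_le_Phi (cD p⁻¹ n))
        convert this using 1
        simp only [commutatorElement_def]; group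
      refine ab h2 (commutatorElement_eq_one_iff_commute.2 (hc _ hr _ h1)) ?_
      rw [← conjugate_commutatorElement, c1 q hq, mul_one, mul_inv_cancel]
  let C : ℕ → Subgroup G := fun i =>
    { carrier := {q | q ∈ Q ∧ q ^ 2 ^ i = 1}
      one_mem' := ⟨one_mem _, one_pow _⟩
      mul_mem' := fun h1 h2 => ⟨mul_mem h1.1 h2.1, by rw [(hc _ h1.1 _ h2.1).mul_pow, h1.2, h2.2, one_mul]⟩
      inv_mem' := fun h1 => ⟨inv_mem h1.1, by rw [inv_pow, h1.2, inv_one]⟩ }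
  have iC : ∀ i, F.AInv Q (C i) := fun i σ hσ q hq => ⟨hσ.mem hq.1, by
    rw [← hσ.homOn.map_pow hq.1, hq.2, hσ.homOn.map_one]⟩
  have sec : H1.FSec F 2 Q (C 1) ⊥ := by
    refine ⟨h.ess, fun _ e => e.1, bot_le, iC 1, H1.aInv_bot F Q, fun e he q hq => ?_, fun σ hσ H => ?_⟩
    · rw [(hc e he q hq.1).eq]; simp
    obtain ⟨n, hn⟩ := h.bi.pg.exists_card_eq
    refine (h.ess.isRadical h.pT).opStab_eq ▸ hσ.mem_opStab_of_chain h.pT (C := C) (n := n)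
      (fun _ _ _ e => e.1) (eq_bot_iff.2 fun q e => by simpa using e.2)
      (le_antisymm (fun _ e => e.1) fun q e => ⟨e, hn ▸ pow_card_eq_one'⟩) (fun σ hσ i _ => iC i σ hσ)
      fun i _ q hq => ⟨mul_mem (inv_mem hq.1) (hσ.mem hq.1), ?_⟩
    rw [(hc _ (inv_mem hq.1) _ (hσ.mem hq.1)).mul_pow, inv_pow, ← hσ.homOn.map_pow hq.1]
    exact H _ ⟨pow_mem hq.1 _, by rw [← pow_mul, ← pow_add]; exact hq.2⟩
  obtain ⟨k, h3, h4⟩ := H2.exists_pow_notMem_pow_mem h.bi.pg (H := ⊥) (h.bi.e_ne h.nc)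
  have h5 := pow_mem (comm_mem_R0 x (cD x a)) (2 ^ k)
  generalize ⁅x, ⁅x, a⁆⁆ ^ 2 ^ k = u at h3 h4 h5
  have hu := h.bi.mem_W1.2 ⟨R0_le_D h5, h4⟩
  obtain ⟨n, hn⟩ := h.bi.surj hp' (R0_le_D h5)
  have cn : ∀ w ∈ W1 G, ⁅n, w⁆ = 1 := fun w hw =>
    h.bi.M3_W (h.bi.mem_M3_of hp' (hn ▸ h5)) (W1_le_D hw) (h.bi.mem_W1.1 hw).2
  have cn' : ∀ w ∈ W1 G, n * w * n⁻¹ = w := fun w hw => by rw [comm_eq, cn w hw, one_mul]
  have np : n * p * n⁻¹ = p * u := by rw [comm_eq, hn, (hc _ (h.W_le hu) _ hp).eq]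
  obtain ⟨_, _, t⟩ := sec.exists_qTv h.pT (mem_top n) (nn n (hn ▸ hu)) (fun e => h3 (hn ▸ c1 n e))
    (b := u) ⟨h.W_le hu, h4⟩ h4 (by simp [cn' u hu]) fun q hq => mem_sup_right (by
      rcases h.bi.mem_M3.1 (h.le_M3 hq.1) with e | e
      · simp [cn' q (h.bi.mem_W1_of_sq h.nc e hq.2)]
      · have := cn' _ (h.bi.mem_W1_of_sq h.nc (h.bi.ap_mul e hp') (by
          rw [(hc _ hq.1 _ hp).mul_pow, p2, mul_one]; exact hq.2))
        rw [← conj_mul, np, eq_comm, ← mul_inv_eq_iff_eq_mul] at this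
        rw [← this]
        simp [mul_assoc, (hc _ hp _ (h.W_le hu)).eq])
  have hz : ∀ w ∈ W1 G, w ≠ 1 → w = u := fun w hw h1 => by
    obtain ⟨m, hm⟩ := h.bi.surj hp' (W1_le_D hw)
    obtain ⟨k, hk⟩ := t.norm m (mem_top m) (nn m (hm ▸ hw))
    obtain ⟨j, rfl | rfl⟩ := Int.even_or_odd' k
    · refine absurd (hm ▸ c1 m ?_) h1
      simpa [zpow_mul] using mul_mem (zpow_mem t.gp j) hk
    · have : n⁻¹ * m ∈ Q := by
        convert mul_mem (zpow_mem t.gp j) hk using 1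
        group
      rw [← hm, ← mul_inv_cancel_left n m, comm_mul_left, c1 _ this, hn]; simp
  obtain ⟨v, hv, v', hv', n1, n2, n3⟩ := h.bi.two_inv h.nc
  exact n3 (by rw [hz v hv n1, hz v' hv' n2, ← pow_two]; exact h4)

theorem false : False := h.beta h.alpha

end Es

/-- `⇒`: every saturated fusion system is inner -/
theorem eq_inner {Ω : Type u} [Group Ω] {S : Subgroup Ω} [Finite S] {x y : S} (hS : IsPGroup 2 S)
    (hb : Bic x y) (hm : ¬ IsMetacyclic S) (nc : ¬ IsCyclic (commutator S)) {F : FusionSystem S}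
    (hF : F.IsSaturated 2) : F = innerFusionSystem S := by
  obtain ⟨a, h⟩ := hb.bi hS hm
  refine hF.eq_inner_of_essential hS ?_
  rintro P (rfl | hP)
  · have hi : (frattini P).index ∣ 2 ^ 2 := index_frattini_dvd_of_gen hS (x := x) (y := y) fun g => by
      obtain ⟨i, j, rfl⟩ := hb g
      exact ⟨j, by simp⟩
    refine isPMod_stab_iff.2 (by_contra fun H => sq_not_mem hS h.gen h.sq hm
      (NoFlag.pow_mem (A := F.autGroup P) (fun M hM => by_contra fun H' => H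
        (stab_two_of_rank_two hS hi hM (fun e => H' (.inl e)) fun e => H' (.inr e))) _
        (quot_commutator_mul_pow 2) (fun e => ?_) (R0_le_D h.sq) x))
    refine not_mem_of_gen hS h.gen.symm hm (mem_sup_left ((frattini_nongenerating
      (K := zpowers x) (eq_top_iff.2 fun s _ => ?_)).ge (mem_top a)))
    exact h.gen _ (mem_sup_right e) (mem_sup_left (mem_zpowers x)) s
  · obtain ⟨F', t⟩ := (L.pIso_subtype S).symm.exists_transp le_rfl F (L.pIso_subtype S).symm.img_self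
    have h1 := t.isEssential hP
    exact (Es.false ⟨h, nc, h1, (h1.lt (t.isSaturated hF) (hS.to_subgroup ⊤)).ne⟩).elim

end Cfsg.Agent.H4.Bc
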