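import Cfsg.Agent.H4.Bic3
import Cfsg.Agent.H7.BCGLO

/-! A saturated fusion system generated by the automorphisms of one subgroup. -/

set_option autoImplicit false
set_option linter.unusedSectionVars false
set_option linter.style.haveILetI false

namespace Cfsg.Agent.H4.Bc

open Subgroup Cfsg.Agent.H8 Equiv Cfsg.Fus Cfsg.FusionSystem
open scoped commutatorElement

universe u

variable {G : Type u} [Group G] [Finite G] {P Q Z : Subgroup G} {A : Subgroup (Perm G)} {σ : Perm G}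

inductive Wd (Q : Subgroup G) (A : Subgroup (Perm G)) : Subgroup G → Perm G → Prop
  | inn (g : G) : Wd Q A ⊤ (cj g)
  | aut {τ : Perm G} : τ ∈ A → Wd Q A Q τ
  | mono {P R : Subgroup G} {σ τ : Perm G} : Wd Q A R τ → P ≤ R → (∀ x ∈ P, σ x = τ x) → Wd Q A P σ
  | mul {P R : Subgroup G} {σ τ : Perm G} : Wd Q A P σ → Wd Q A R τ → (∀ x ∈ P, σ x ∈ R) →
      Wd Q A P (τ * σ)

theorem Wd.homOn (hA : A ≤ autStab Q) (h : Wd Q A P σ) : HomOn σ P := by
  induction h with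
  | inn g => exact homOn_cj g ⊤
  | aut h => exact (hA h).1
  | mono _ h1 h2 ih => exact (ih.mono h1).congr h2
  | mul _ _ h ih1 ih2 => exact ih1.perm_mul ih2 h

theorem Wd.inv (hA : A ≤ autStab Q) (h : Wd Q A P σ) : Wd Q A (img σ P) σ⁻¹ := by
  induction h with
  | inn g => exact (Wd.inn g⁻¹).mono le_top fun x _ => by simp
  | aut h => exact (Wd.aut (inv_mem h)).mono (img_le_iff.2 fun x hx => ((hA h).2 x).2 hx) fun _ _ => rfl
  | @mono P R σ τ h0 h1 h2 ih =>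
    refine ih.mono (img_congr h2 ▸ img_mono τ h1) fun y hy => ?_
    obtain ⟨x, hx, rfl⟩ := (((h0.homOn hA).mono h1).congr h2).mem_img.1 hy
    rw [perm_inv_apply_self, h2 x hx, perm_inv_apply_self]
  | @mul P R σ τ h1 h2 h ih1 ih2 =>
    rw [mul_inv_rev, (h1.homOn hA).img_perm_mul]
    refine (ih2.mono (img_mono τ (img_le_iff.2 h)) fun _ _ => rfl).mul ih1 fun y hy => ?_
    exact ((h2.homOn hA).mono (img_le_iff.2 h)).mem_img_perm.1 hy

def wdSys (hA : A ≤ autStab Q) : FusionSystem (⊤ : Subgroup G) := PermData.toSystem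
  { M := Wd Q A
    congr := fun h1 h2 => h1.mono le_rfl h2
    homOn := Wd.homOn hA
    le := fun _ => le_top
    mem := fun _ _ _ => mem_top _
    conj := fun hP _ => (Wd.inn _).mono hP fun _ _ => rfl
    mul := Wd.mul
    inv := Wd.inv hA }

theorem isMap_wd {hA : A ≤ autStab Q} : (wdSys hA).IsMap P σ ↔ Wd Q A P σ := PermData.isMap_toSystem _

theorem Wd.fix (hZ : Z ≤ center G) (hA : A ≤ fixP Z) (h : Wd Q A P σ) : ∀ z ∈ P, z ∈ Z → σ z = z := by
  induction h with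
  | inn g => exact fun z _ hz => by rw [cj_apply, mem_center_iff.1 (hZ hz) g, mul_inv_cancel_right]
  | aut h => exact fun z _ hz => hA h z hz
  | mono _ h1 h2 ih => exact fun z hz hz' => (h2 z hz).trans (ih z (h1 hz) hz')
  | mul _ _ h ih1 ih2 =>
    exact fun z hz hz' => by rw [Perm.mul_apply, ih1 z hz hz', ih2 z (ih1 z hz hz' ▸ h z hz) hz']

theorem Wd.inner (h : Wd Q A P σ) : ∀ P' ≤ P, (∀ g : G, ∃ x ∈ P', g * x * g⁻¹ ∉ Q) →
    ∃ g : G, ∀ x ∈ P', σ x = g * x * g⁻¹ := by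
  induction h with
  | inn g => exact fun _ _ _ => ⟨g, fun _ _ => rfl⟩
  | aut h => exact fun P' h1 h2 => let ⟨x, hx, h3⟩ := h2 1; absurd (by simpa using h1 hx) h3
  | mono _ h1 h2 ih =>
    exact fun P' h3 h4 => (ih P' (h3.trans h1) h4).imp fun g hg x hx => (h2 x (h3 hx)).trans (hg x hx)
  | @mul P R σ τ _ _ h ih1 ih2 =>
    intro P' h1 h2
    obtain ⟨g, hg⟩ := ih1 P' h1 h2
    obtain ⟨k, hk⟩ := ih2 (img σ P') (img_le_iff.2 fun x hx => h x (h1 hx)) fun k =>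
      let ⟨x, hx, h3⟩ := h2 (k * g)
      ⟨_, mem_img_of_mem σ hx, by rw [hg x hx]; simpa [mul_assoc] using h3⟩
    exact ⟨k * g, fun x hx => by rw [Perm.mul_apply, hk _ (mem_img_of_mem σ hx), hg x hx]; group⟩

theorem Wd.form (hA : A ≤ autStab Q) (hI : innS ⊤ Q ≤ A) (h : Wd Q A P σ) :
    ∀ g : G, (∀ x ∈ Q, g * x * g⁻¹ ∈ P) →
      ∃ k : G, ∃ τ ∈ A, ∀ x ∈ Q, σ (g * x * g⁻¹) = k * τ x * k⁻¹ := by
  induction h with
  | inn k => exact fun g _ => ⟨k * g, 1, one_mem _, fun x _ => by simp [mul_assoc]⟩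
  | aut h =>
    exact fun g hg => ⟨1, _, mul_mem h (hI (cj_mem_innS (mem_top g) (mem_normalizer_of_finite hg))),
      fun x _ => by simp⟩
  | mono _ h1 h2 ih =>
    exact fun g hg => (ih g fun x hx => h1 (hg x hx)).imp fun k => Exists.imp fun τ h3 =>
      ⟨h3.1, fun x hx => (h2 _ (hg x hx)).trans (h3.2 x hx)⟩
  | @mul P R σ τ _ _ h ih1 ih2 =>
    intro g hg
    obtain ⟨k, ρ, h1, h2⟩ := ih1 g hg
    obtain ⟨k', ρ', h3, h4⟩ := ih2 k fun y hy => by
      have h5 := ((hA (inv_mem h1)).2 y).2 hy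
      have h6 := h _ (hg _ h5)
      rwa [h2 _ h5, perm_apply_inv_self] at h6
    exact ⟨k', _, mul_mem h3 h1, fun x hx => by
      rw [Perm.mul_apply, h2 x hx, h4 _ (((hA h1).2 x).2 hx), Perm.mul_apply]⟩

theorem Wd.gen {hA : A ≤ autStab Q} (h : Wd Q A P σ) :
    (wdSys hA).Gen (fun R => R = ⊤ ∨ R = Q) P σ := by
  induction h with
  | inn g => exact .base (.inl rfl) ((wdSys hA).iso_cj le_rfl (mem_top g) (le_normalizer (mem_top g)))
  | aut h => exact .base (.inr rfl) ((isMap_wd.2 (.aut h)).iso_of_setStab (hA h).2)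
  | mono _ h1 h2 ih => exact ih.mono h1 h2
  | mul _ _ h ih1 ih2 => exact ih1.mul ih2 h

theorem exists_sat (hG : IsPGroup 2 G) (hA : A ≤ autStab Q) (hI : innS ⊤ Q ≤ A) (hZ : Z ≤ center G)
    (hf : A ≤ fixP Z) (hc : ∀ q ∈ Q, ∀ r ∈ Q, ⁅q, r⁆ ∈ Z) (hQ : Q ≠ ⊤)
    (ti : ∀ σ ∈ A, ∀ g ∈ normalizer (Q : Set G), g ∉ Q → σ * cj g * σ⁻¹ ∈ innS ⊤ Q → σ ∈ innS ⊤ Q)
    (hne : ¬ A ≤ innS ⊤ Q) :
    ∃ F : FusionSystem (⊤ : Subgroup G), F.IsSaturated 2 ∧ F ≠ innerFusionSystem ⊤ := by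
  have hT : IsPGroup 2 (⊤ : Subgroup G) := hG.to_subgroup ⊤
  refine ⟨wdSys hA, isSaturated_of_gen hT (ℋ := fun P => ¬ ∃ P', (wdSys hA).IsConj P P' ∧ P' < Q) ?_
    (fun P R h1 h2 ⟨P', h3, h4⟩ => h1 ⟨P', h2.trans h3, h4⟩) (fun P hP => ?_)
    (fun P σ h => (isMap_wd.1 h).gen) fun P h1 h2 => ?_, fun e => hne fun τ hτ => ?_⟩
  · rintro R hR ⟨P', h1, h2⟩
    refine (card_lt_of_lt_of_finite (h2.trans_le (?_ : Q ≤ R))).ne h1.card_eq.symm
    rcases hR with rfl | rfl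
    exacts [le_top, le_rfl]
  · by_cases H : ∀ g : G, ∃ x ∈ P, g * x * g⁻¹ ∉ Q
    · have key : ∀ {P' σ}, (wdSys hA).Iso P P' σ → ∃ g : G, ∀ x ∈ P, σ x = g * x * g⁻¹ :=
        fun h => (isMap_wd.1 h.isMap).inner P le_rfl H
      refine satAt_of_fa_rec (isFullyAutomized_of_normalizer hT le_top fun σ hσ _ _ =>
        let ⟨g, hg⟩ := key hσ; mem_innS_of_setStab hσ.mem_setStab (mem_top g) hg)
        (isReceptive_of_perm le_top fun R σ hσ => ?_)
      obtain ⟨g, hg⟩ := key hσ.symm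
      refine ⟨cj g⁻¹, (wdSys hA).isMap_cj le_top (mem_top _), fun x hx => ?_⟩
      have := hg _ (hσ.mem hx)
      rw [perm_inv_apply_self] at this
      rw [cj_apply, eq_comm, ← mul_inv_eq_iff_eq_mul, ← inv_mul_eq_iff_eq_mul, inv_inv, ← mul_assoc]
      exact this.symm
    push Not at H
    obtain ⟨g, hg⟩ := H
    have h1 := ((wdSys hA).isMap_cj (P := P) le_top (mem_top g)).isConj
    rw [((img_le_iff (f := cj g)).2 hg).eq_or_lt.resolve_right fun e => hP ⟨_, h1, e⟩] at h1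
    have key : ∀ {R σ}, (wdSys hA).Iso Q R σ → ∃ k : G, ∃ τ ∈ A, ∀ x ∈ Q, σ x = k * τ x * k⁻¹ :=
      fun h => by simpa using (isMap_wd.1 h.isMap).form hA hI 1 (by simp)
    refine (satAt_of_fa_rec (isFullyAutomized_of_normalizer hT le_top fun σ hσ _ hn => ?_)
      (isReceptive_of_perm le_top fun R σ hσ => ?_)).of_isConj h1.symm
    · obtain ⟨k, τ, h2, h3⟩ := key hσ
      obtain ⟨n, hn1, hn2⟩ := SetLike.exists_of_lt (lt_normalizerIn hT (lt_top_iff_ne_top.2 hQ))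
      have hk : k ∈ normalizer (Q : Set G) := mem_normalizer_of_finite fun y hy => by
        have h5 := ((hA (inv_mem h2)).2 y).2 hy
        have h6 := hσ.mem h5
        rwa [h3 _ h5, perm_apply_inv_self] at h6
      exact ti σ (mem_of_congr ((fixP_le_innS ⊤ Q).trans hI)
        (mul_mem (hI (cj_mem_innS (mem_top k) hk)) h2) h3) n hn1.2 hn2
        (conj_mem_of_mem_normalizer hn (cj_mem_innS (mem_top n) hn1.2))
    by_cases hE : extF ⊤ R σ ≤ R
    · exact ⟨σ, hσ.isMap.mono hE, fun _ _ => rfl⟩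
    obtain ⟨n, hn1, hn2⟩ := SetLike.not_le_iff_exists.1 hE
    obtain ⟨-, hn3, hn4⟩ := hσ.mem_extF_iff.1 hn1
    obtain ⟨k, τ, h2, h3⟩ := key hσ.symm
    have h4 : (wdSys hA).Iso R Q (cj k)⁻¹ := by
      have := ((isMap_wd.2 (.aut (inv_mem h2))).iso_of_setStab (hA (inv_mem h2)).2).trans hσ.symm
      exact (this.congr fun x hx => by
        rw [Perm.mul_apply, h3 _ (((hA (inv_mem h2)).2 x).2 hx), perm_apply_inv_self, cj_apply]).symm
    have h5 : ∀ x ∈ R, σ x = τ⁻¹ (k⁻¹ * x * k) := fun x hx => by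
      have := h3 _ (hσ.mem hx)
      rw [perm_inv_apply_self] at this
      rw [eq_comm, Perm.inv_eq_iff_eq, inv_mul_eq_iff_eq_mul.2 (this.trans (mul_assoc _ _ _))]; simp
    have h6 : k⁻¹ * n * k ∈ normalizer (Q : Set G) := by
      have := (h4.conj ((wdSys hA).iso_cj le_top (mem_top n) hn3)).mem_setStab
      rwa [← map_inv, ← map_inv, ← map_mul, ← map_mul, inv_inv, cj_mem_setStab] at this
    have h7 := ti _ (inv_mem h2) _ h6 (fun e => hn2 (by simpa [mul_assoc] using h4.symm.mem e))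
      (mem_of_congr (fixP_le_innS ⊤ Q) hn4 fun x hx => by
        simp only [Perm.mul_apply, cj_apply]
        rw [h5 _ (conj_mem_of_mem_normalizer hn3 (hσ.inv_mem hx)), h3 x hx]
        simp [mul_assoc])
    obtain ⟨m, -, -, h8⟩ := mem_innS.1 h7
    exact ⟨cj (m * k⁻¹), (wdSys hA).isMap_cj le_top (mem_top _), fun x hx => by
      rw [h5 x hx, h8 (k⁻¹ * x * k) (cj_inv_apply k x ▸ h4.mem hx), cj_apply]; group⟩
  · obtain ⟨P', h3, h4⟩ := not_not.1 h2
    have h5 : Z ≤ P' := fun z hz => (h1.of_isConj h3).centralizerIn_le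
      ⟨mem_top z, fun y _ => mem_center_iff.1 (hZ hz) y⟩
    refine ⟨P', h3, fun H => h4.not_ge fun g hg => H (mem_pStar.2 ⟨mem_top g, ?_⟩)⟩
    have h6 := (wdSys hA).iso_cj le_top (mem_top g) (norm_of fun q hq => h5 (hc q (h4.le hq) g hg))
    have h7 : ∀ τ, (wdSys hA).Iso P' P' τ → ∀ z ∈ Z, τ z = z := fun τ hτ z hz =>
      (isMap_wd.1 hτ.isMap).fix hZ hf z (h5 hz) hz
    exact h6.mem_opStab_of_fix hT h5 (fun τ hτ z hz => (h7 τ hτ z hz).symm ▸ hz) (h7 _ h6)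
      fun q hq => ci q g ▸ hc _ (inv_mem (h4.le hq)) g hg
  · obtain ⟨g, -, hg⟩ := eq_inner_iff.1 e Q τ (isMap_wd.2 (.aut hτ))
    exact mem_innS_of_setStab (hA hτ).2 (mem_top g) hg

end Cfsg.Agent.H4.Bc
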