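import Cfsg.Agent.H4.Bic4

/-! The automorphism group of `C * ⟨p, q⟩` used to build a saturated fusion system. -/

set_option autoImplicit false
set_option linter.unusedSectionVars false
set_option linter.style.haveILetI false

namespace Cfsg.Agent.H4.Bc

open Subgroup Cfsg.Agent.H8 Equiv Cfsg.Fus Cfsg.FusionSystem
open scoped commutatorElement

universe u

variable {G : Type u} [Group G] [Finite G] {N C : Subgroup G} {σ : Perm G} {g y y' p q z t : G}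
  {f f' : G → G}

theorem mem_ad (hy : y ∈ normalizer (N : Set G)) (h2 : y * y ∈ N) :
    g ∈ N ⊔ zpowers y ↔ g ∈ N ∨ g * y⁻¹ ∈ N := by
  refine ⟨fun h => ?_, fun h => h.elim mem_sup_left fun h => by
    simpa using mul_mem (mem_sup_left h) (mem_sup_right (mem_zpowers y))⟩
  obtain ⟨n, hn, k, rfl⟩ := (H1.mem_sup_zpowers hy).1 h
  obtain ⟨j, rfl | rfl⟩ := Int.even_or_odd' k
  · exact .inl (mul_mem hn (by simpa [zpow_mul, pow_two] using zpow_mem h2 j))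
  · exact .inr (by simpa [zpow_add, zpow_mul, pow_two, mul_assoc] using mul_mem hn (zpow_mem h2 j))

theorem eqOn_ad (hf : HomOn f (N ⊔ zpowers y)) (hf' : HomOn f' (N ⊔ zpowers y))
    (h1 : ∀ n ∈ N, f n = f' n) (h2 : f y = f' y) : ∀ x ∈ N ⊔ zpowers y, f x = f' x :=
  hf.eqOn_sup hf' h1 (by
    rintro _ ⟨k, rfl⟩
    rw [hf.map_zpow (mem_sup_right (mem_zpowers y)), hf'.map_zpow (mem_sup_right (mem_zpowers y)), h2])

theorem maps_ad {K : Subgroup G} (hf : HomOn f (N ⊔ zpowers y)) (h1 : ∀ n ∈ N, f n ∈ K) (h2 : f y ∈ K) :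
    ∀ x ∈ N ⊔ zpowers y, f x ∈ K :=
  hf.mapsTo_sup h1 (by
    rintro _ ⟨k, rfl⟩
    exact hf.map_zpow (mem_sup_right (mem_zpowers y)) k ▸ zpow_mem h2 k)

theorem ext_ad (hf : HomOn f N) (hy : y ∈ normalizer (N : Set G)) (h2 : y * y ∈ N) (hn : y ∉ N)
    (e1 : ∀ n ∈ N, f (y * n * y⁻¹) = y' * f n * y'⁻¹) (e2 : f (y * y) = y' * y') :
    ∃ f', HomOn f' (N ⊔ zpowers y) ∧ (∀ n ∈ N, f' n = f n) ∧ f' y = y' := by
  classical
  have h3 : ∀ n ∈ N, n * y ∉ N := fun n h e => hn ((mul_mem_cancel_left h).1 e)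
  have h4 := fun n => conj_mem_of_mem_normalizer (x := n) hy
  have d : ∀ x ∈ N ⊔ zpowers y, ∃ n ∈ N, n = x ∨ n * y = x := fun x hx =>
    ((mem_ad hy h2).1 hx).elim (fun h => ⟨x, h, .inl rfl⟩) fun h => ⟨_, h, .inr (by simp)⟩
  let F : G → G := fun x => if x ∈ N then f x else f (x * y⁻¹) * y'
  have F1 : ∀ n ∈ N, F n = f n := fun n h => if_pos h
  have F2 : ∀ n ∈ N, F (n * y) = f n * y' := fun n h => (if_neg (h3 n h)).trans (by simp)
  refine ⟨F, fun a' ha' b' hb' => ?_, F1, by simpa [hf.map_one] using F2 1 (one_mem N)⟩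
  obtain ⟨a, ha, rfl | rfl⟩ := d a' ha' <;> obtain ⟨b, hb, rfl | rfl⟩ := d b' hb'
  · rw [F1 _ (mul_mem ha hb), F1 a ha, F1 b hb, hf.map_mul ha hb]
  · rw [← mul_assoc, F2 _ (mul_mem ha hb), F1 a ha, F2 b hb, hf.map_mul ha hb, mul_assoc]
  · rw [show a * y * b = a * (y * b * y⁻¹) * y by group, F2 _ (mul_mem ha (h4 b hb)), F2 a ha, F1 b hb,
      hf.map_mul ha (h4 b hb), e1 b hb]
    group
  · rw [show a * y * (b * y) = a * (y * b * y⁻¹) * (y * y) by group,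
      F1 _ (mul_mem (mul_mem ha (h4 b hb)) h2), F2 a ha, F2 b hb,
      hf.map_mul (mul_mem ha (h4 b hb)) h2, hf.map_mul ha (h4 b hb), e1 b hb, e2]
    group

/-- `C ⟨p, q⟩` -/
abbrev QQ (C : Subgroup G) (p q : G) : Subgroup G := C ⊔ zpowers p ⊔ zpowers q

theorem l1 (h : g ∈ C) : g ∈ QQ C p q := mem_sup_left (mem_sup_left h)
theorem l2 : p ∈ QQ C p q := mem_sup_left (mem_sup_right (mem_zpowers p))
theorem l3 : q ∈ QQ C p q := mem_sup_right (mem_zpowers q)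

theorem QQ_le {K : Subgroup G} (h1 : C ≤ K) (h2 : p ∈ K) (h3 : q ∈ K) : QQ C p q ≤ K :=
  sup_le (sup_le h1 (zpowers_le.2 h2)) (zpowers_le.2 h3)

structure AL (C : Subgroup G) (p q z t : G) : Prop where
  pg : IsPGroup 2 G
  zC : z ∈ C
  zc : z ∈ center G
  z2 : z * z = 1
  p2 : p * p = z
  q2 : q * q = z
  pq : ⁅p, q⁆ = z
  ab : ∀ c ∈ C, ∀ d ∈ C, Commute c d
  cp : ∀ c ∈ C, Commute c p
  cq : ∀ c ∈ C, Commute c q
  ct : ∀ c ∈ C, Commute c t
  pn : p ∉ C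
  qn : q ∉ C ⊔ zpowers p
  tq : ⁅t, q⁆ = p
  tp : ⁅t, p⁆ ∈ zpowers z
  norm : ∀ g ∈ normalizer (QQ C p q : Set G), g ∈ QQ C p q ∨ t⁻¹ * g ∈ QQ C p q

theorem cm_symm [N.Normal] (h : g ∈ cm N y) : y ∈ cm N g := mem_cm.2 (comm_symm (mem_cm.1 h))

theorem cj_of {c : G} (h : Commute c g) : g * c * g⁻¹ = c := by rw [← h.eq, mul_inv_cancel_right]

namespace AL

variable (h : AL C p q z t)
include h

theorem ZC : zpowers z ≤ C := zpowers_le.2 h.zC

theorem cz (g : G) : g * z * g⁻¹ = z := by rw [mem_center_iff.1 h.zc g, mul_inv_cancel_right]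

theorem nZ : (zpowers z).Normal := ⟨by rintro _ ⟨k, rfl⟩ g; rw [← conj_zpow, h.cz]; exact ⟨k, rfl⟩⟩

theorem cases {w : G} (hw : w ∈ zpowers z) : w = 1 ∨ w = z := by
  simpa [mul_inv_eq_one] using (mem_ad (N := ⊥) (y := z) (g := w) ((normalizer_eq_top ⊥).ge (mem_top z)) h.z2).1 (mem_sup_right hw)

theorem pqp : p * q * p⁻¹ = z * q := by rw [comm_eq, h.pq]

theorem qpq : q * p * q⁻¹ = z * p := by
  rw [comm_eq, ← commutatorElement_inv, h.pq, inv_eq_of_mul_eq_one_right h.z2]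

theorem com : ∀ r ∈ QQ C p q, ∀ s ∈ QQ C p q, ⁅r, s⁆ ∈ zpowers z := by
  haveI := h.nZ
  have e : ∀ {c d : G}, Commute c d → ⁅c, d⁆ ∈ zpowers z := fun hc =>
    commutatorElement_eq_one_iff_commute.2 hc ▸ one_mem _
  have e1 : ⁅p, q⁆ ∈ zpowers z := h.pq ▸ mem_zpowers z
  have e' : ∀ {c d : G}, Commute c d → c ∈ Bc.cm (zpowers z) d := fun hc => mem_cm.2 (e hc)
  have a1 : ∀ c ∈ C, QQ C p q ≤ Bc.cm (zpowers z) c := fun c hc =>
    QQ_le (fun d hd => e' (h.ab d hd c hc)) (e' (h.cp c hc).symm) (e' (h.cq c hc).symm)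
  have a2 : QQ C p q ≤ Bc.cm (zpowers z) p :=
    QQ_le (fun d hd => e' (h.cp d hd)) (self_mem_cm p) (mem_cm.2 (comm_symm e1))
  have a3 : QQ C p q ≤ Bc.cm (zpowers z) q :=
    QQ_le (fun d hd => e' (h.cq d hd)) (mem_cm.2 e1) (self_mem_cm q)
  exact fun r hr s hs => mem_cm.1
    (QQ_le (fun c hc => cm_symm (a1 c hc hs)) (cm_symm (a2 hs)) (cm_symm (a3 hs)) hr)

theorem ofN {K : Subgroup G} (h1 : QQ C p q ≤ K) (h2 : t ∈ K) : normalizer (QQ C p q : Set G) ≤ K :=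
  fun g hg => (h.norm g hg).elim (fun e => h1 e) fun e => (mul_mem_cancel_left (inv_mem h2)).1 (h1 e)

theorem nq {K : Subgroup G} (h1 : zpowers z ≤ K) (h2 : K ≤ QQ C p q) (hg : g ∈ QQ C p q) :
    g ∈ normalizer (K : Set G) := norm_of fun r hr => h1 (h.com r (h2 hr) g hg)

theorem cj_mem (hg : g ∈ normalizer (QQ C p q : Set G)) :
    cj g ∈ autStab (QQ C p q) ⊓ fixP C ⊓ setStab (QQ (zpowers z) p q) := by
  refine ⟨⟨cj_mem_autStab.2 hg, cj_mem_fixP.2 (h.ofN (K := centralizer C) (QQ_le (fun c hc d hd => h.ab d hd c hc) h.cp h.cq)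
    h.ct hg)⟩, cj_mem_setStab.2 (h.ofN (fun r => h.nq (fun _ => l1) (QQ_le (fun _ e => l1 (h.ZC e)) l2 l3))
      (mem_normalizer_of_finite (maps_ad (homOn_cj t _) (maps_ad (homOn_cj t _) (fun n hn =>
        l1 (h.nZ.conj_mem n hn t)) ?_) ?_)) hg)⟩
  · rw [comm_eq]; exact mul_mem (l1 h.tp) l2
  · rw [comm_eq, h.tq]; exact mul_mem l2 l3

theorem tN : t ∈ normalizer (QQ C p q : Set G) := by
  refine mem_normalizer_of_finite (maps_ad (homOn_cj t _) (maps_ad (homOn_cj t _) (fun c hc =>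
    (cj_of (h.ct c hc)).symm ▸ l1 hc) ?_) ?_)
  · rw [comm_eq]; exact mul_mem (l1 (h.ZC h.tp)) l2
  · rw [comm_eq, h.tq]; exact mul_mem l2 l3

theorem fixZ {w : G} (hσ : σ ∈ fixP C) (hw : σ w ∈ zpowers z) : w ∈ zpowers z :=
  σ.injective (hσ _ (h.ZC hw)) ▸ hw

theorem inn_p (hσ : σ ∈ innS ⊤ (QQ C p q)) : σ p * p⁻¹ ∈ zpowers z := by
  haveI := h.nZ
  obtain ⟨g, -, hg, e⟩ := mem_innS.1 hσ
  exact e p l2 ▸ h.ofN (K := Bc.cm (zpowers z) p) (fun r hr => h.com r hr p l2) h.tp hg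

theorem mem_inn (h1 : σ ∈ autStab (QQ C p q)) (h2 : σ ∈ fixP C) (hp : σ p * p⁻¹ ∈ zpowers z)
    (hq : σ q * q⁻¹ ∈ zpowers z) : σ ∈ innS ⊤ (QQ C p q) := by
  have key : ∀ g ∈ QQ C p q, σ p = g * p * g⁻¹ → σ q = g * q * g⁻¹ → σ ∈ innS ⊤ (QQ C p q) :=
    fun g hg e1 e2 => mem_innS_of_setStab h1.2 (mem_top g) (eqOn_ad h1.1 (homOn_cj g _)
      (eqOn_ad (h1.1.mono le_sup_left) (homOn_cj g _) (fun c hc => (h2 c hc).trans
        ((h.cj_mem (le_normalizer hg)).1.2 c hc).symm) e1) e2)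
  rcases h.cases hp with e1 | e1 <;> rcases h.cases hq with e2 | e2 <;>
    rw [mul_inv_eq_iff_eq_mul] at e1 e2
  · exact key 1 (one_mem _) (by simpa using e1) (by simpa using e2)
  · exact key p l2 (by simpa using e1) (e2.trans h.pqp.symm)
  · exact key q l3 (e1.trans h.qpq.symm) (by simpa using e2)
  · refine key (p * q) (mul_mem l2 l3) ?_ ?_
    · rw [e1, show p * q * p * (p * q)⁻¹ = p * (q * p * q⁻¹) * p⁻¹ by group, h.qpq, ← h.p2]; group
    · rw [e2, ← h.pqp]; group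

theorem exists_sat :
    ∃ F : FusionSystem (⊤ : Subgroup G), F.IsSaturated 2 ∧ F ≠ innerFusionSystem ⊤ := by
  haveI := h.nZ
  have np : p ∈ normalizer (zpowers z : Set G) := (normalizer_eq_top _).ge (mem_top p)
  have p2 : p * p ∈ zpowers z := h.p2 ▸ mem_zpowers z
  have q2 : q * q ∈ zpowers z := h.q2 ▸ mem_zpowers z
  have EQ : QQ (zpowers z) p q ≤ QQ C p q := QQ_le (fun _ e => l1 (h.ZC e)) l2 l3
  have nq := h.nq (K := zpowers z ⊔ zpowers p) le_sup_left (le_sup_left.trans EQ) l3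
  have hI : innS ⊤ (QQ C p q) ≤ autStab (QQ C p q) ⊓ fixP C ⊓ setStab (QQ (zpowers z) p q) :=
    fun σ hσ => let ⟨g, _, hg, e⟩ := mem_innS.1 hσ
      mem_of_congr (le_inf (le_inf (fixP_le_autStab _) (fixP_anti fun _ => l1))
        (fixP_le_setStab_of_le EQ)) (h.cj_mem hg) e
  have tn : ∀ r ∈ QQ C p q, ⁅t * r, q⁆ ∉ zpowers z := fun r hr e => h.pn (h.ZC (by
    rw [comm_mul_left, h.tq] at e
    exact (mul_mem_cancel_left (h.nZ.conj_mem _ (h.com r hr q l3) t)).1 e))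
  refine Bc.exists_sat h.pg (inf_le_left.trans inf_le_left) hI (zpowers_le.2 h.zc)
    (fun σ hσ => fixP_anti h.ZC hσ.1.2) h.com (fun e => tn 1 (one_mem _) (h.com _ (e.ge (mem_top _)) q l3))
    (fun σ hσ g hg hg' H => ?_) fun H => ?_
  · have s1 := (inv_mem hσ).2
    have y1 : σ⁻¹ p ∈ QQ (zpowers z) p q := (s1 p).2 l2
    have y2 : ⁅g, σ⁻¹ p⁆ ∈ zpowers z := by
      refine h.fixZ hσ.1.2 ?_
      rw [commutatorElement_def, hσ.1.1.1.map_mul (conj_mem_of_mem_normalizer hg (EQ y1))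
        (inv_mem (EQ y1)), hσ.1.1.1.map_inv (EQ y1), perm_apply_inv_self]
      exact h.inn_p H
    have y3 : σ⁻¹ p ∈ zpowers z ⊔ zpowers p := ((mem_ad nq (mem_sup_left q2)).1 y1).resolve_right fun e => by
      have e1 := (sup_le (fun w hw => mem_cm.2 (by
        rw [commutatorElement_eq_one_iff_mul_comm.2 (mem_center_iff.1 (zpowers_le.2 h.zc hw) g).symm]
        exact one_mem _)) (zpowers_le.2 (cm_symm (h.ofN (K := Bc.cm (zpowers z) p)
          (fun r hr => h.com r hr p l2) h.tp hg))) : _ ≤ Bc.cm (zpowers z) g) e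
      refine tn _ ((h.norm g hg).resolve_left hg') ?_
      rw [mul_inv_cancel_left]
      exact comm_symm (mem_cm.1 (inv_mem_iff.1 ((mul_mem_cancel_left (mem_cm.2 (comm_symm y2))).1 e1)))
    have y4 : σ⁻¹ p * p⁻¹ ∈ zpowers z := ((mem_ad np p2).1 y3).resolve_left fun e =>
      h.pn (h.ZC (h.fixZ (inv_mem hσ).1.2 e))
    refine inv_mem_iff.1 ?_
    have a1 := (inv_mem hσ).1
    generalize σ⁻¹ = τ at s1 y4 a1
    have y5 : τ q * q⁻¹ ∈ zpowers z ⊔ zpowers p :=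
      ((mem_ad nq (mem_sup_left q2)).1 ((s1 q).2 l3)).resolve_left fun e => h.qn (by
        rcases (mem_ad np p2).1 e with e | e
        · exact mem_sup_left (h.ZC (h.fixZ a1.2 e))
        refine (mul_mem_cancel_right (inv_mem (mem_sup_right (mem_zpowers p)))).1
          (mem_sup_left (h.ZC (h.fixZ a1.2 ?_)))
        rw [a1.1.1.map_mul l3 (inv_mem l2), a1.1.1.map_inv l2]
        simpa [mul_assoc] using mul_mem e (inv_mem y4))
    rcases (mem_ad np p2).1 y5 with e | e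
    · exact h.mem_inn a1.1 a1.2 y4 e
    have a2 := (Subgroup.inv_mem _ (h.cj_mem h.tN)).1
    refine (mul_mem_cancel_left (inv_mem (cj_mem_innS (mem_top t) h.tN))).1
      (h.mem_inn (mul_mem a2.1 a1.1) (mul_mem a2.2 a1.2) ?_ ?_)
    · have := h.nZ.conj_mem' _ (mul_mem y4 (comm_symm h.tp)) t
      rw [Perm.mul_apply, cj_inv_apply]
      convert this using 1
      simp only [commutatorElement_def]; group
    · have := h.nZ.conj_mem' _ e t
      rw [Perm.mul_apply, cj_inv_apply]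
      convert this using 1
      simp only [← h.tq, commutatorElement_def]; group
  · obtain ⟨f, f1, f2, f3⟩ := ext_ad (y := p) (y' := q) (homOn_id C)
      (mem_normalizer_of_finite fun c hc => (cj_of (h.cp c hc)).symm ▸ hc) (h.ZC p2) h.pn
      (fun c hc => by rw [cj_of (h.cp c hc), cj_of (h.cq c hc)]) (h.p2.trans h.q2.symm)
    have mp : p ∈ C ⊔ zpowers p := mem_sup_right (mem_zpowers p)
    have nq' := h.nq (K := C ⊔ zpowers p) (h.ZC.trans le_sup_left) le_sup_left l3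
    obtain ⟨s, s1, s2, s3⟩ := ext_ad (y := q) (y' := p) f1 nq' (mem_sup_left (h.ZC q2)) h.qn
      (eqOn_ad ((homOn_cj q _).comp f1 fun _ => conj_mem_of_mem_normalizer nq')
        (f1.comp (homOn_cj p ⊤) fun _ _ => mem_top _)
        (fun c hc => by simp [cj_of (h.cp c hc), cj_of (h.cq c hc), f2 c hc])
        (by simp [h.qpq, f1.map_mul (mem_sup_left h.zC) mp, f2 z h.zC, f3, h.pqp]))
      (by rw [f2 _ (h.ZC q2), h.p2, h.q2])
    have s4 : ∀ c ∈ C, s c = c := fun c hc => (s2 c (mem_sup_left hc)).trans (f2 c hc)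
    have s5 : s p = q := (s2 p mp).trans f3
    have s6 : ∀ K ≤ C, ∀ x ∈ QQ K p q, s x ∈ QQ K p q := fun K hK =>
      have e := s1.mono (QQ_le (fun _ e => l1 (hK e)) l2 l3 : QQ K p q ≤ _)
      maps_ad e (maps_ad (e.mono le_sup_left) (fun c hc => (s4 c (hK hc)).symm ▸ l1 hc) (s5 ▸ l3)) (s3 ▸ l2)
    have s7 := s1.comp s1 (s6 C le_rfl)
    have s8 := eqOn_ad s7 (homOn_id _) (eqOn_ad (s7.mono le_sup_left) (homOn_id _)
      (fun c hc => by simp [s4 c hc]) (by simp [s3, s5])) (by simp [s3, s5])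
    obtain ⟨σ, hσ⟩ := exists_perm_of_injOn (f := s) (P := QQ C p q) fun x hx y hy e =>
      (s8 x hx).symm.trans ((congrArg s e).trans (s8 y hy))
    have := h.inn_p (@H σ ⟨⟨⟨s1.congr hσ, mem_setStab_of_finite fun x hx => hσ x hx ▸ s6 C le_rfl x hx⟩,
      fun c hc => (hσ c (l1 hc)).trans (s4 c hc)⟩,
      mem_setStab_of_finite fun x hx => hσ x (EQ hx) ▸ s6 _ h.ZC x hx⟩)
    rw [hσ p l2, s5] at this
    exact h.qn ((mul_mem_cancel_right (inv_mem mp)).1 (mem_sup_left (h.ZC this)))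

end AL

end Cfsg.Agent.H4.Bc
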