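import Cfsg.Agent.H4.Bic5

/-! Bicyclic `2`-groups with cyclic derived subgroup carry a non-inner saturated fusion system. -/

set_option autoImplicit false
set_option linter.unusedSectionVars false
set_option linter.style.haveILetI false

namespace Cfsg.Agent.H4.Bc

open Subgroup Cfsg.Agent.H8 Equiv Cfsg.Fus Cfsg.FusionSystem
open scoped commutatorElement

universe u

variable {G : Type u} [Group G] [Finite G] {C : Subgroup G} {a x g y d p q : G}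

theorem c1 : ⁅g, y⁆ = 1 ↔ Commute g y := commutatorElement_eq_one_iff_commute

theorem comm_inv_mul (t g q : G) : ⁅t⁻¹ * g, q⁆ = t⁻¹ * (⁅g, q⁆ * ⁅t, q⁆⁻¹) * t := by
  simp only [commutatorElement_def]; group

namespace Bi

variable (h : Bi a x) (hc : IsCyclic (commutator G))
include h hc

theorem comm_sq (hd : d ∈ commutator G) (y : G) : ⁅y, d⁆ ∈ zpowers (d ^ 2) := by
  obtain ⟨v, hv⟩ := (Subgroup.isCyclic_iff_exists_zpowers_eq_top _).1 hc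
  haveI : (zpowers v).Normal := hv ▸ inferInstance
  exact comm_mem_sq h.pg (hv.ge hd) y

theorem R0_D2 (hd : d ∈ R0 G) : ∃ s ∈ commutator G, d = s ^ 2 :=
  h.mem_D2.1 (R0_le (fun _ hs => ⟨sq_mem_D2 hs, fun y => zpowers_le.2 (sq_mem_D2 hs) (h.comm_sq hc hs y)⟩) hd)

theorem cen (hd : d ∈ commutator G) (h2 : d ^ 2 = 1) (y : G) : Commute y d :=
  Bc.c1.1 (by simpa [h2] using h.comm_sq hc hd y)

theorem tot (hp : p ∈ commutator G) (hd : d ∈ commutator G) : d ∈ zpowers p ∨ p ∈ zpowers (d ^ 2) := by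
  obtain ⟨k, hk⟩ := h.pg d
  obtain ⟨l, hl⟩ := h.pg p
  refine (mem_zpowers_total (u := (⟨d, hd⟩ : commutator G)) (v := ⟨p, hp⟩) (Subtype.ext hk)
    (Subtype.ext hl)).elim (fun e => .inl (mem_zpowers_coe.1 e)) fun e => ?_
  obtain ⟨j, rfl⟩ := mem_zpowers_coe.1 e
  exact (Int.even_or_odd j).symm.imp (fun e => mem_of_odd h.pg e (mem_zpowers _))
    fun e => zpow_mem_zpowers_pow (p := 2) e.two_dvd

theorem gen_D (hp : p ∈ commutator G) (h1 : p ∉ R0 G) (hd : d ∈ commutator G) : d ∈ zpowers p :=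
  (h.tot hc hp hd).resolve_right fun e => h1 (zpowers_le.2 (sq_mem_R0 hd) e)

theorem root (hp : p ∈ commutator G) (h1 : p ≠ 1) (hd : d ∈ commutator G)
    (h2 : d ^ 2 ∈ zpowers (p ^ 2)) : d ∈ zpowers p :=
  (h.tot hc hp hd).resolve_right fun e => h1 (eq_one_of_mem_sq h.pg (zpowers_le.2 h2 e))

theorem phi8 (hd : d ∈ commutator G) (h8 : d ^ 8 = 1) (hy : y ∈ Phi x) : Commute y d := by
  refine mem_centralizer_singleton_iff.1 ((sup_le (zpowers_le.2 (mem_centralizer_singleton_iff.2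
    (Bc.c1.1 ?_))) fun s hs => mem_centralizer_singleton_iff.2 (h.ab s hs d hd) :
      Phi x ≤ centralizer {d}) hy)
  obtain ⟨k, hk⟩ := h.comm_sq hc hd x
  obtain ⟨m, hm⟩ := Int.even_mul_succ_self k
  rw [comm_sq_left]
  nth_rewrite 1 [← hk]
  rw [h.T_zpow x (pow_mem hd 2), h.T_pow x hd, ← hk, show ((((d ^ 2) ^ k) ^ 2) ^ k * ((d ^ 2) ^ k) ^ 2)
    = d ^ (4 * (k * (k + 1))) by group, hm, show d ^ (4 * (m + m)) = (d ^ 8) ^ m by group, h8, one_zpow]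

variable (hq : a⁻¹ * q ∈ Phi x) (q2 : q ^ 2 ∈ commutator G)
include hq q2

theorem q4 : (q ^ 2) ^ 2 = 1 := h.cent_a hq q2 (Bc.c1.2 ((Commute.refl q).pow_right 2))

theorem inverts (hd : d ∈ commutator G) : ⁅d, q⁆ = d ^ 2 := by
  obtain ⟨k, rfl⟩ := h.gen_D hc (cD x q) (h.comm_not_mem hq h.x_not_mem) hd
  have e : q * ⁅x, q⁆ * q⁻¹ = ⁅x, q⁆⁻¹ := by
    rw [eq_inv_iff_mul_eq_one, h.ab _ (conj_D (cD x q) q) _ (cD x q),
      ← Bc.c1.2 (h.cen hc q2 (h.q4 hc hq q2) x)]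
    simp only [commutatorElement_def, pow_two]; group
  generalize ⁅x, q⁆ = w at e
  rw [commutatorElement_def, show w ^ k * q * (w ^ k)⁻¹ * q⁻¹ = w ^ k * (q * w * q⁻¹) ^ (-k) by
    rw [conj_zpow]; group, e]
  group

theorem cent4 (h4 : ∀ d ∈ commutator G, (d ^ 2) ^ 2 = 1) (hy : y ∈ Phi x) (hy' : Commute y q) :
    Commute y x := by
  obtain ⟨k, hk⟩ := mem_Phi.1 hy
  have h1 : y * (x ^ (2 * k))⁻¹ ∈ commutator G := of_eq_one.1 (by simp [hk])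
  suffices H : Commute x (y * (x ^ (2 * k))⁻¹) by
    simpa using (H.mul_right ((Commute.refl x).zpow_right (2 * k))).symm
  have w := cD x q
  obtain ⟨j, hj⟩ := mem_zpowers_iff.1 (h.comm_sq hc w x)
  obtain ⟨i, rfl | rfl⟩ := Int.even_or_odd' j
  · obtain ⟨l, hl⟩ := h.gen_D hc w (h.comm_not_mem hq h.x_not_mem) h1
    refine hl ▸ (Bc.c1.1 ?_).zpow_right l
    rw [← hj, zpow_mul, zpow_ofNat, h4 _ w, one_zpow]
  · have h2 : Commute (x ^ 2) q := Bc.c1.1 (by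
      rw [comm_sq_left, ← hj, zpow_add, zpow_mul, zpow_ofNat, h4 _ w, one_zpow, one_mul, zpow_one,
        ← pow_two, h4 _ w])
    refine h.cen hc h1 ?_ x
    rw [← h.inverts hc hq q2 h1, Bc.c1, zpow_mul, zpow_ofNat]
    exact hy'.mul_left (h2.zpow_left k).inv_left

theorem exists_t (hp : p ∈ commutator G) (p4 : (p ^ 2) ^ 2 = 1) :
    ∃ t, ⁅t, q⁆ = p ∧ ∀ y ∈ Phi x, Commute y q → Commute y t := by
  by_cases h1 : p ∈ R0 G
  · obtain ⟨t, ht, rfl⟩ := h.R0_D2 hc h1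
    exact ⟨t, h.inverts hc hq q2 ht, fun y hy _ => h.phi8 hc ht (by rw [← p4]; group) hy⟩
  have h4 : ∀ d ∈ commutator G, (d ^ 2) ^ 2 = 1 := fun d hd => by
    obtain ⟨k, rfl⟩ := h.gen_D hc hp h1 hd
    rw [show ((p ^ k) ^ 2) ^ 2 = ((p ^ 2) ^ 2) ^ k by group, p4, one_zpow]
  obtain ⟨d, hd, e⟩ := h.R0_D2 hc
    ((h.D_cases (cD x q) (h.comm_not_mem hq h.x_not_mem) hp).resolve_left h1)
  refine ⟨d * x, ?_, fun y hy hy' => (h.phi8 hc hd ?_ hy).mul_right (h.cent4 hc hq q2 h4 hy hy')⟩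
  · rw [comm_mul_left, h.cj hd (cD x q), h.inverts hc hq q2 hd, ← e, mul_inv_cancel_left]
  · rw [show d ^ 8 = ((d ^ 2) ^ 2) ^ 2 by group, h4 d hd, one_pow]

theorem sat_of (hp : p ∈ commutator G) (p1 : p ≠ 1) (e : q ^ 2 = p ^ 2)
    (hC : ∀ c ∈ C, c ∈ Phi x ∧ Commute c q) (zC : p ^ 2 ∈ C) (pC : p ∉ C)
    (hC' : ∀ y ∈ Phi x, Commute y q → y ∈ C ⊔ zpowers p) :
    ∃ F : FusionSystem (⊤ : Subgroup G), F.IsSaturated 2 ∧ F ≠ innerFusionSystem ⊤ := by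
  have p4 := e ▸ h.q4 hc hq q2
  obtain ⟨t, t1, t2⟩ := h.exists_t hc hq q2 hp p4
  have zc := h.cen hc (pow_mem hp 2) p4
  have pq := h.inverts hc hq q2 hp
  haveI nZ : (zpowers (p ^ 2)).Normal :=
    ⟨by rintro _ ⟨k, rfl⟩ g; rw [← conj_zpow, cj_of (zc g).symm]; exact ⟨k, rfl⟩⟩
  have zz : p ^ 2 * p ^ 2 = 1 := (pow_two _).symm.trans p4
  have a1 : ∀ g, ⁅g, q⁆ = 1 → g ∈ QQ C p q := fun g hg => by
    rcases h.mem_M3.1 (h.mem_M3_of hq (hg ▸ one_mem _)) with e | e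
    · exact mem_sup_left (hC' g e (Bc.c1.1 hg))
    · exact (mul_mem_cancel_right l3).1
        (mem_sup_left (hC' _ (h.ap_mul e hq) ((Bc.c1.1 hg).mul_left (Commute.refl q))))
  have a2 : ∀ g, ⁅g, q⁆ ∈ zpowers (p ^ 2) → g ∈ QQ C p q := fun g hg => by
    rcases (mem_ad (N := ⊥) ((normalizer_eq_top ⊥).ge (mem_top _)) zz).1 (mem_sup_right hg) with e | e
    · exact a1 g e
    · exact (mul_mem_cancel_left (inv_mem l2)).1 (a1 _ (by rw [comm_inv_mul, pq, mem_bot.1 e]; simp))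
  have a3 : QQ C p q ≤ Bc.cm (zpowers (p ^ 2)) q := QQ_le (fun c hc => mem_cm.2
    (Bc.c1.2 (hC c hc).2 ▸ one_mem _)) (mem_cm.2 (pq ▸ mem_zpowers _)) (self_mem_cm q)
  refine AL.exists_sat (C := C) (p := p) (q := q) (t := t) ⟨h.pg, zC, mem_center_iff.2 zc, zz,
    (pow_two p).symm, (pow_two q).symm.trans e, pq, fun c h1 d h2 => Bc.c1.1 (h.ab_mod hq (V := ⊥)
      (fun y d hd e e' => h.M3_W (h.mem_M3_of hq (mem_bot.1 e ▸ one_mem _)) hd
        (h.cent_a hq hd (comm_symm e'))) (Bc.c1.2 (hC c h1).2) (Bc.c1.2 (hC d h2).2)),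
    fun c h1 => h.phi8 hc hp (by rw [show p ^ 8 = ((p ^ 2) ^ 2) ^ 2 by group, p4, one_pow]) (hC c h1).1,
    fun c h1 => (hC c h1).2, fun c h1 => t2 c (hC c h1).1 (hC c h1).2, pC,
    fun e => h.ap_not hq (sup_le (fun c h1 => (hC c h1).1) (zpowers_le.2 (D_le_Phi hp)) e), t1,
    h.comm_sq hc hp t, fun g hg => ?_⟩
  have b1 := mem_cm.1 (a3 (mul_mem (conj_mem_of_mem_normalizer hg l3) (inv_mem l3)))
  rw [← commutatorElement_def, h.inverts hc hq q2 (cD g q)] at b1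
  refine ((mem_ad ((normalizer_eq_top _).ge (mem_top p)) (pow_two p ▸ mem_zpowers _)).1
    (mem_sup_right (h.root hc hp p1 (cD g q) b1))).imp (a2 g) fun e => a2 _ ?_
  rw [comm_inv_mul, t1]
  exact nZ.conj_mem' _ e t

omit q2 in
theorem sat_quat (q2 : q ^ 2 ∈ R0 G) (q1 : q ^ 2 ≠ 1) :
    ∃ F : FusionSystem (⊤ : Subgroup G), F.IsSaturated 2 ∧ F ≠ innerFusionSystem ⊤ := by
  obtain ⟨p, hp, e⟩ := h.R0_D2 hc q2
  refine h.sat_of hc hq (R0_le_D q2) (C := Phi x ⊓ centralizer {q}) hp (fun e' => q1 (by simp [e, e'])) e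
    (fun c h1 => ⟨h1.1, mem_centralizer_singleton_iff.1 h1.2⟩) ⟨D_le_Phi (pow_mem hp 2),
      mem_centralizer_singleton_iff.2 (e ▸ (Commute.refl q).pow_left 2)⟩ (fun e' => q1 ?_)
    fun y h1 h2 => mem_sup_left ⟨h1, mem_centralizer_singleton_iff.2 h2⟩
  rw [e, ← h.inverts hc hq (R0_le_D q2) hp]
  exact Bc.c1.2 (mem_centralizer_singleton_iff.1 e'.2)

omit hq q2 in
theorem sat : ∃ F : FusionSystem (⊤ : Subgroup G), F.IsSaturated 2 ∧ F ≠ innerFusionSystem ⊤ := by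
  have ha : a⁻¹ * a ∈ Phi x := by simp
  by_cases a1 : a ^ 2 = 1
  swap
  · exact h.sat_quat hc ha h.sq a1
  have a2 := R0_le_D h.sq
  obtain ⟨k, z1, z2⟩ := H2.exists_pow_notMem_pow_mem h.pg (H := ⊥) (g := ⁅x, a⁆)
    fun e => h.w_not_mem (mem_bot.1 e ▸ one_mem _)
  have hz := pow_mem (cD x a) (2 ^ k)
  generalize ⁅x, a⁆ ^ 2 ^ k = z at z1 z2 hz
  rw [mem_bot] at z1 z2
  obtain ⟨d, hd, e⟩ := h.R0_D2 hc (comm_sq_mem_R0 x a)
  have c1 : Commute (d⁻¹ * x ^ 2) a := Bc.c1.1 (by rw [comm_inv_mul, e, h.inverts hc ha a2 hd]; simp)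
  have c2 : d⁻¹ * x ^ 2 ∈ Phi x := mul_mem (D_le_Phi (inv_mem hd)) sq_mem_Phi
  have c3 : Abelianization.of (d⁻¹ * x ^ 2) = Abelianization.of x ^ 2 := by simp [of_eq_one.2 hd]
  generalize d⁻¹ * x ^ 2 = c at c1 c2 c3
  by_cases zc : z ∈ zpowers c
  · obtain ⟨j, rfl⟩ := mem_zpowers_iff.1 zc
    obtain ⟨m, rfl⟩ := (Int.even_or_odd j).resolve_right fun e =>
      sq_not_mem h.pg h.gen h.sq h.nm (of_eq_one.1 (by
        rw [map_pow, ← c3, of_eq_one.2 (mem_of_odd h.pg e hz)]))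
    have hq : a⁻¹ * (a * c ^ m) ∈ Phi x := by simpa using zpow_mem c2 m
    have e : (a * c ^ m) ^ 2 = c ^ (m + m) := by
      rw [(c1.zpow_left m).symm.mul_pow, a1]; group
    refine h.sat_quat hc hq (e ▸ by_contra fun H => h.nm (meta_of h.pg (h.gen_ap hq) (mem_sup_left ?_)))
      (e ▸ z1)
    exact zpowers_le.2 (e ▸ pow_mem (mem_zpowers _) 2) (h.gen_D hc hz H (cD _ _))
  refine h.sat_of hc ha a2 (C := zpowers c) hz z1 (a1.trans z2.symm) ?_ (z2 ▸ one_mem _) zc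
    fun y hy hy' => ?_
  · rintro _ ⟨j, rfl⟩
    exact ⟨zpow_mem c2 j, c1.zpow_left j⟩
  obtain ⟨j, hj⟩ := mem_Phi.1 hy
  have h1 : (c ^ j)⁻¹ * y ∈ commutator G := of_eq_one.1 (by simp [hj, c3, zpow_mul])
  refine (mul_mem_cancel_left (mem_sup_left (inv_mem (zpow_mem (mem_zpowers c) j)))).1
    (mem_sup_right (h.root hc hz z1 h1 ?_))
  rw [← h.inverts hc ha a2 h1, Bc.c1.2 ((c1.zpow_left j).inv_left.mul_left hy')]
  exact one_mem _

end Bi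

theorem s5217 {Ω : Type u} [Group Ω] {S : Subgroup Ω} [Finite S] (hS : IsPGroup 2 S) {x y : S}
    (hb : Bic x y) (hm : ¬ IsMetacyclic S) :
    (∃ F : FusionSystem S, F.IsSaturated 2 ∧ F ≠ innerFusionSystem S) ↔ IsCyclic (commutator S) := by
  refine ⟨fun ⟨F, h1, h2⟩ => by_contra fun nc => h2 (eq_inner hS hb hm nc h1), fun hc => ?_⟩
  obtain ⟨a, h⟩ := hb.bi hS hm
  obtain ⟨F, h1, h2⟩ := h.sat hc
  obtain ⟨F', t⟩ := (L.pIso_subtype S).exists_transp le_rfl F (L.pIso_subtype S).img_self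
  refine ⟨F', t.isSaturated h1, fun e => h2 (t.symm.unique ?_)⟩
  exact e ▸ (L.pIso_subtype S).symm.transp_inner le_rfl (L.pIso_subtype S).symm.img_self

end Cfsg.Agent.H4.Bc
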