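import Cfsg.Agent.H4.Degree
import Cfsg.Agent.H3.Integral
import Cfsg.Agent.H8.Tate
import Cfsg.Agent.H2.PComp
import Cfsg.Agent.L.GroupFusion

/-! Extending characters from Sylow normalizers. -/

set_option autoImplicit false
set_option linter.unusedSectionVars false
set_option linter.style.haveILetI false

namespace Cfsg.Agent.H4

open Cfsg Cfsg.Agent.H3 Subgroup Cfsg.Agent.L
open scoped commutatorElement

variable {G : Type*} [Group G] [Finite G] {p : ℕ} [Fact p.Prime]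

/-- Tate's theorem: a group whose focal subgroup is the derived subgroup of the Sylow subgroup is
`p`-nilpotent. -/
theorem hasNormalPComplement_of_focal {P R : Subgroup G} (h : IsSylowIn p P R)
    (hf : ∀ x ∈ P, ∀ r ∈ R, r * x * r⁻¹ ∈ P → x⁻¹ * (r * x * r⁻¹) ∈ ⁅P, P⁆) :
    HasNormalPComplement p R := by
  have h1 := H8.eq_inner_of_focal_le_commutator (isSaturated_ofSubgroup h) h.isPGroup
    (FusionSystem.focalSubgroup_le_iff.2 fun Q f hQ x hx => by
      obtain ⟨h1, h2, g, hg, h3⟩ := FusionSystem.isMap_ofSubgroup.1 hQ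
      have := h2 x hx
      rw [h3 x hx] at this ⊢
      exact hf x (h1 hx) g hg this)
  refine H2.hasNormalPComplement_of_controls_fusion h.toSylow fun x hx g hg => ?_
  have h2 := FusionSystem.isMap_ofSubgroup_cj (hTH := h.le) (P := zpowers (x : G))
    (zpowers_le.2 hx) g.2 fun y hy => by
      obtain ⟨k, rfl⟩ := mem_zpowers_iff.1 hy
      rw [← conj_zpow]
      exact zpow_mem hg k
  rw [h1, FusionSystem.isMap_inner] at h2
  obtain ⟨-, u, hu, h3⟩ := h2
  exact ⟨⟨u, h.le hu⟩, hu, Subtype.ext (h3 x (mem_zpowers _)).symm⟩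

theorem exists_normal_inf_eq {N : Subgroup G} (ext : IrrCharacter N → G → ℂ) (D : Subgroup N)
    [D.Normal] (h : ∀ θ : IrrCharacter N, (∀ n ∈ D, θ.1 n = θ.1 1) →
      IsCharacter G (ext θ) ∧ ∀ x : N, ext θ x = θ.1 x) :
    (⨅ θ : {θ : IrrCharacter N // ∀ n ∈ D, θ.1 n = θ.1 1}, charKer (ext θ.1)).Normal ∧
      ∀ x : N, (x : G) ∈ (⨅ θ : {θ : IrrCharacter N // ∀ n ∈ D, θ.1 n = θ.1 1}, charKer (ext θ.1)) ↔
        x ∈ D := by
  refine ⟨normal_iInf_normal fun θ => (h θ.1 θ.2).1.normal_charKer, fun x => ?_⟩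
  have h1 : ∀ θ : {θ : IrrCharacter N // ∀ n ∈ D, θ.1 n = θ.1 1},
      (x : G) ∈ charKer (ext θ.1) ↔ θ.1.1 x = θ.1.1 1 := fun θ => by
    rw [(h θ.1 θ.2).1.mem_charKer, (h θ.1 θ.2).2, ← (h θ.1 θ.2).2 1]
    rfl
  simp only [mem_iInf, h1]
  exact ⟨fun h => mem_of_forall_irr D fun χ hχ hD => h ⟨⟨χ, hχ⟩, hD⟩, fun hx θ => θ.2 x hx⟩

theorem exists_complement_of_extend (P : Sylow p G)
    (h : ∀ θ : IrrCharacter (normalizer ((P : Subgroup G) : Set G)), ¬ p ∣ charDegree θ.1 →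
      ∃ χ : IrrCharacter G, ∀ x : normalizer ((P : Subgroup G) : Set G), χ.1 x = θ.1 x) :
    ∃ K : Subgroup G, K.Normal ∧ K ⊔ normalizer ((P : Subgroup G) : Set G) = ⊤ ∧
      K ⊓ normalizer ((P : Subgroup G) : Set G) = ⊥ := by
  classical
  set N := normalizer ((P : Subgroup G) : Set G) with hN
  have hPN : (P : Subgroup G) ≤ N := le_normalizer
  let P₀ : Subgroup N := (P : Subgroup G).subgroupOf N
  haveI hP₀ : P₀.Normal := normal_in_normalizer
  let D : Subgroup N := ⁅P₀, P₀⁆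
  have hD : ∀ x : N, x ∈ D ↔ (x : G) ∈ ⁅(P : Subgroup G), (P : Subgroup G)⁆ := fun x => by
    conv_rhs => rw [← map_subgroupOf_eq_of_le hPN, ← map_commutator]
    exact (mem_map_iff_mem N.subtype_injective).symm
  have hDP : D ≤ P₀ := commutator_le_left _ _
  have h1 : ∀ θ : IrrCharacter N, ∃ χ : G → ℂ, (∀ n ∈ D, θ.1 n = θ.1 1) →
      IsCharacter G χ ∧ ∀ x : N, χ x = θ.1 x := by
    intro θ
    by_cases hθ : ∀ n ∈ D, θ.1 n = θ.1 1
    · obtain ⟨θ', h1, h2⟩ := θ.2.exists_quotient D hθ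
      haveI := hP₀.map _ (QuotientGroup.mk'_surjective D)
      have h3 := degree_dvd_index_of_abelian_normal h1 (P₀.map (QuotientGroup.mk' D)) (by
        rintro _ ⟨a, ha, rfl⟩ _ ⟨b, hb, rfl⟩
        rw [← commutatorElement_eq_one_iff_mul_comm, ← map_commutatorElement]
        exact (QuotientGroup.eq_one_iff _).2 (commutator_mem_commutator ha hb))
        ((h2 1).trans θ.2.cast_charDegree.symm)
      obtain ⟨χ, hχ⟩ := h θ fun e => (P.subtype hPN).not_dvd_index
        ((e.trans h3).trans (index_map_dvd _ (QuotientGroup.mk'_surjective D)))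
      exact ⟨χ, fun _ => ⟨χ.2.isCharacter, hχ⟩⟩
    · exact ⟨0, fun h => absurd h hθ⟩
  choose ext hext using h1
  obtain ⟨hL, hL'⟩ := exists_normal_inf_eq ext D hext
  obtain ⟨hR, hR'⟩ := exists_normal_inf_eq ext P₀ fun θ hθ => hext θ fun n hn => hθ n (hDP hn)
  have hLR : (⨅ θ : {θ : IrrCharacter N // ∀ n ∈ D, θ.1 n = θ.1 1}, charKer (ext θ.1)) ≤
      ⨅ θ : {θ : IrrCharacter N // ∀ n ∈ P₀, θ.1 n = θ.1 1}, charKer (ext θ.1) :=
    le_iInf fun θ => iInf_le_of_le ⟨θ.1, fun n hn => θ.2 n (hDP hn)⟩ le_rfl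
  generalize (⨅ θ : {θ : IrrCharacter N // ∀ n ∈ D, θ.1 n = θ.1 1}, charKer (ext θ.1)) = L at *
  generalize (⨅ θ : {θ : IrrCharacter N // ∀ n ∈ P₀, θ.1 n = θ.1 1}, charKer (ext θ.1)) = R at *
  have hPR : (P : Subgroup G) ≤ R := fun x hx => (hR' ⟨x, hPN hx⟩).2 hx
  have hS := (isSylowIn_top P).of_le hPR le_top
  let π := QuotientGroup.mk' L
  have hπ : ∀ a ∈ P, ∀ b ∈ P, π a * π b = π b * π a := fun a ha b hb => by
    rw [← commutatorElement_eq_one_iff_mul_comm, ← map_commutatorElement]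
    exact (QuotientGroup.eq_one_iff _).2 ((hL' (⁅⟨a, hPN ha⟩, ⟨b, hPN hb⟩⁆)).2
      (commutator_mem_commutator ha hb))
  have hC : HasNormalPComplement p R := hasNormalPComplement_of_focal hS fun x hx r hr hy => by
    let C := R ⊓ (centralizer {π (r * x * r⁻¹)}).comap π
    have h1 : IsSylowIn p (P : Subgroup G) C := hS.of_le (le_inf hPR fun a ha =>
      mem_centralizer_singleton_iff.2 (hπ a ha _ hy)) inf_le_left
    obtain ⟨c, hc, h2⟩ := h1.exists_conj_mem (P.2.map (MulAut.conj r).toMonoidHom) (by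
      rintro _ ⟨a, ha, rfl⟩
      refine ⟨hR.conj_mem _ (hPR ha) r, mem_centralizer_singleton_iff.2 ?_⟩
      have := (Commute.conj_iff (π r)).2 (hπ a ha x hx)
      simpa using this.eq)
    have h3 : c * r ∈ N := mem_normalizer_of_conj_mem fun a ha => by
      simpa [mul_assoc] using h2 _ ⟨a, ha, rfl⟩
    have h4 : c * r ∈ P := (hR' ⟨_, h3⟩).1 (mul_mem hc.1 hr)
    refine (hD ⟨_, hPN (mul_mem (inv_mem hx) hy)⟩).1 ((hL' _).1 ((QuotientGroup.eq_one_iff _).1 ?_))
    change π (x⁻¹ * (r * x * r⁻¹)) = 1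
    have h5 : π c * π (r * x * r⁻¹) = π (r * x * r⁻¹) * π c := mem_centralizer_singleton_iff.1 hc.2
    have h6 := hπ _ h4 x hx
    rw [map_mul, map_inv, inv_mul_eq_one, ← mul_left_inj (π c), ← h5, ← mul_left_inj (π r),
      mul_assoc, ← map_mul, ← h6]
    simp [mul_assoc]
  have hc := H2.isComplement'_pResidual hC hS.toSylow
  refine ⟨(pResidual p R).map R.subtype, inferInstance, ?_, ?_⟩
  · have h1 := congrArg (Subgroup.map R.subtype) hc.sup_eq_top
    rw [Subgroup.map_sup, IsSylowIn.coe_toSylow, map_subgroupOf_eq_of_le hPR,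
      ← MonoidHom.range_eq_map, range_subtype] at h1
    rw [eq_top_iff, ← P.normalizer_sup_eq_top' hPR]
    exact sup_le le_sup_right (h1.ge.trans (sup_le_sup_left hPN _))
  · rw [eq_bot_iff]
    rintro _ ⟨⟨x, hx, rfl⟩, h2⟩
    rw [Subgroup.disjoint_def.1 hc.disjoint hx ((hR' ⟨_, h2⟩).1 x.2)]
    exact one_mem _

end Cfsg.Agent.H4
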