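import Cfsg.Agent.H4.AmGm
import Cfsg.Agent.H3.FS

/-! Frobenius–Schur indicators of Clifford-induced characters; counting constituents. -/

set_option autoImplicit false

namespace Cfsg.Agent.H4

open Cfsg Cfsg.Agent.H3
open scoped ComplexConjugate TensorProduct

theorem sum_rep_eq_zero_of_sum_char {N V : Type*} [Group N] [Fintype N] [AddCommGroup V]
    [Module ℂ V] [FiniteDimensional ℂ V] (ρ : Representation ℂ N V)
    (h : ∑ n, ρ.character n = 0) : ∑ n, ρ n = 0 := by
  let _ : Invertible (Nat.card N : ℂ) := invertibleOfNonzero natCard_ne_zero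
  have h1 := ρ.card_inv_mul_sum_char_eq_finrank
  rw [h, mul_zero, eq_comm, Nat.cast_eq_zero, Submodule.finrank_eq_zero] at h1
  apply LinearMap.ext
  intro v
  have : (∑ n, ρ n) v ∈ ρ.invariants := by
    intro m
    rw [← Module.End.mul_apply, Finset.mul_sum]
    congr 1
    exact Fintype.sum_equiv (Equiv.mulLeft m) _ _ (fun n => by simp)
  rw [h1] at this
  exact this

theorem sum_trace_mul_mul_eq_zero {N V : Type*} [Group N] [Fintype N] [AddCommGroup V]
    [Module ℂ V] [FiniteDimensional ℂ V] (A B : Representation ℂ N V)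
    (h : ∑ n, A.character n * B.character n = 0) (M : Module.End ℂ V) :
    ∑ n, LinearMap.trace ℂ V (M * A n * B n) = 0 := by
  have h1 := sum_rep_eq_zero_of_sum_char (A.tprod B) (by simpa using h)
  have h2 : ∀ n, LinearMap.trace ℂ V (M * A n * B n) = LinearMap.trace ℂ _
      (TensorProduct.map M 1 * (A.tprod B n) * (TensorProduct.comm ℂ V V).toLinearMap) := by
    intro n
    rw [← trace_map_mul_comm, Representation.tprod_apply, ← TensorProduct.map_mul, one_mul]
  simp only [h2]
  rw [← map_sum, ← Finset.sum_mul, ← Finset.mul_sum, h1, mul_zero, zero_mul, map_zero]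

variable {G : Type*} [Group G] [Fintype G]

theorem card_mul_fsInd_indFun (I : Subgroup G) (ψ : I → ℂ) :
    (Nat.card I : ℂ) * fsInd (indFun I ψ) = ∑ g, extendByZero I ψ (g * g) := by
  have h1 : (Nat.card I : ℂ) ≠ 0 := natCard_ne_zero
  have h2 : (Nat.card G : ℂ) ≠ 0 := natCard_ne_zero
  simp only [fsInd, indFun, ← Finset.mul_sum]
  rw [Finset.sum_comm]
  have : ∀ x : G, ∑ g, extendByZero I ψ (x⁻¹ * (g * g) * x) = ∑ g, extendByZero I ψ (g * g) :=
    fun x => Fintype.sum_equiv (MulAut.conj x⁻¹).toEquiv _ _ (fun g => by simp [mul_assoc])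
  simp only [this, Finset.sum_const, Finset.card_univ, nsmul_eq_mul, ← Nat.card_eq_fintype_card]
  field_simp

/-- The indicator of a character induced from an extension of a real character to its inertia
group. -/
theorem fsInd_indFun_of_extension (N : Subgroup G) [hN : N.Normal] {φ : N → ℂ}
    (hφ : IsIrrCharacter N φ) (hreal : ∀ n, conj (φ n) = φ n) (I : Subgroup G) [Fintype I]
    (hI : inertia N φ ≤ I) (hNI : N ≤ I) {ψ : I → ℂ} (hψ : IsCharacter I ψ)
    (hext : ∀ n : N, ψ (Subgroup.inclusion hNI n) = φ n) :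
    fsInd (indFun I ψ) = fsInd ψ := by
  classical
  have := Fintype.ofFinite N
  have h1 : (Nat.card I : ℂ) ≠ 0 := natCard_ne_zero
  apply mul_left_cancel₀ h1
  rw [card_mul_fsInd_indFun, fsInd, mul_inv_cancel_left₀ h1,
    ← Finset.sum_filter_add_sum_filter_not _ (fun g => g ∈ I),
    Finset.sum_subtype (p := fun g => g ∈ I) _ (by simp)]
  have h2 : ∑ g ∈ Finset.univ.filter (fun g => ¬ g ∈ I), extendByZero I ψ (g * g) = 0 := by
    apply mul_left_cancel₀ (natCard_ne_zero (G := N))
    have h3 : ∀ n : N, ∑ g ∈ Finset.univ.filter (fun g => ¬ g ∈ I), extendByZero I ψ (g * g) =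
        ∑ g ∈ Finset.univ.filter (fun g => ¬ g ∈ I), extendByZero I ψ (g * n * (g * n)) :=
      fun n => (Finset.sum_equiv (Equiv.mulRight (n : G)) (fun g => by
        simp [I.mul_mem_cancel_right (hNI n.2)]) (fun _ _ => rfl)).symm
    rw [mul_zero, Nat.card_eq_fintype_card, ← nsmul_eq_mul, ← Finset.card_univ, ← Finset.sum_const,
      Finset.sum_congr rfl fun n _ => h3 n, Finset.sum_comm]
    refine Finset.sum_eq_zero fun g hg => ?_
    have hg' : g ∉ I := (Finset.mem_filter.1 hg).2
    have e : ∀ n : N, g * n * (g * n) = g * g * (g⁻¹ * n * g⁻¹⁻¹) * n := fun n => by group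
    by_cases h4 : g * g ∈ I
    · obtain ⟨d, ρ, rfl⟩ := hψ
      have h5 := sum_trace_mul_mul_eq_zero
        (ρ.comp ((Subgroup.inclusion hNI).comp (MulAut.conjNormal g⁻¹ : MulAut N).toMonoidHom))
        (ρ.comp (Subgroup.inclusion hNI)) (by
          have h6 := (isIrr_conjFun N hφ g⁻¹).classInner_of_ne hφ
            (fun h => hg' (I.inv_mem_iff.1 (hI h)))
          simp only [classInner, hreal, mul_eq_zero, inv_eq_zero, natCard_ne_zero, false_or] at h6
          rw [← h6]
          refine Finset.sum_congr rfl fun n _ => ?_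
          rw [← hext, conjFun_apply, ← hext]
          rfl) (ρ ⟨g * g, h4⟩)
      rw [← h5]
      refine Finset.sum_congr rfl fun n _ => ?_
      rw [ebz_of_mem I _ (e n ▸ mul_mem (mul_mem h4 (hNI (hN.conj_mem _ n.2 _))) (hNI n.2))]
      simp only [MonoidHom.coe_comp, Function.comp_apply, ← map_mul, Representation.character]
      congr 2
      exact Subtype.ext (e n)
    · refine Finset.sum_eq_zero fun n _ => ebz_of_not_mem _ _ ?_
      rw [e, I.mul_mem_cancel_right (hNI n.2), I.mul_mem_cancel_right (hNI (hN.conj_mem _ n.2 _))]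
      exact h4
  rw [h2, add_zero]
  exact Finset.sum_congr rfl fun g _ => ebz_coe I ψ (g * g)

/-- The number of distinct irreducible constituents is at most the degree. -/
theorem card_le_of_constituents {θ : G → ℂ} (hθ : IsCharacter G θ) {d : ℕ} (hd : θ 1 = d)
    (S : Finset (IrrCharacter G)) (hS : ∀ χ ∈ S, classInner θ χ ≠ 0) : S.card ≤ d := by
  have h1 := hθ.isClassFunction.apply_eq_sum_irr 1
  choose m hm using fun χ : IrrCharacter G => hθ.exists_nat_classInner χ.2.isCharacter
  simp only [hm, ← cast_irrDeg, hd] at h1 hS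
  have h2 : d = ∑ χ, m χ * irrDeg χ := by exact_mod_cast h1
  rw [h2, Finset.card_eq_sum_ones]
  refine (Finset.sum_le_sum fun χ hχ => ?_).trans
    (Finset.sum_le_sum_of_subset (Finset.subset_univ S))
  exact Nat.mul_pos (Nat.pos_of_ne_zero fun h => hS χ hχ (by rw [h, Nat.cast_zero])) (irrDeg_pos χ)

omit [Fintype G] in
/-- The product of an irreducible character with a linear character is irreducible. -/
theorem isIrr_linear_mul [Finite G] {lam χ : G → ℂ} (hl : IsCharacter G lam) (h1 : lam 1 = 1)
    (hχ : IsIrrCharacter G χ) : IsIrrCharacter G (lam * χ) := by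
  have := Fintype.ofFinite G
  refine (hl.mul hχ.isCharacter).isIrrCharacter ?_
  rw [← hχ.classInner_self]
  simp only [classInner, Pi.mul_apply, map_mul]
  congr 1
  refine Finset.sum_congr rfl fun g _ => ?_
  have := ofReal_norm_sq (lam g)
  rw [norm_linear_char hl h1, one_pow, Complex.ofReal_one] at this
  linear_combination (-χ g * conj (χ g)) * this

end Cfsg.Agent.H4
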