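import Cfsg.Agent.H4.Extend
import Cfsg.Agent.H4.BrauerPerm
import Cfsg.Agent.H5.GA

/-! The relative Glauberman correspondence: congruences. -/

set_option autoImplicit false
set_option linter.unusedSectionVars false
set_option linter.style.haveILetI false

namespace Cfsg.Agent.H4

open Cfsg Cfsg.Agent.H3 Cfsg.Agent.H5 Subgroup
open scoped ComplexConjugate

/-- Invariance of a function under an action. -/
def AInv (A : Type*) {K : Type*} [SMul A K] (f : K → ℂ) : Prop := ∀ (a : A) k, f (a • k) = f k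

/-- The setting of the relative Glauberman correspondence. -/
structure GS (p : ℕ) (A : Type*) {K C : Type*} [Group A] [Group K] [Group C]
    [MulDistribMulAction A K] [MulDistribMulAction A C] (Q : Subgroup K) (i : C →* K) : Prop where
  pgrp : IsPGroup p A
  normal : Q.Normal
  inv : ∀ a : A, ∀ q ∈ Q, a • q ∈ Q
  idx : ¬ p ∣ Q.index
  inj : Function.Injective i
  smul : ∀ (a : A) c, i (a • c) = a • i c
  range : ∀ k, k ∈ i.range ↔ ∀ a : A, a • k * k⁻¹ ∈ Q

variable {p : ℕ} [Fact p.Prime] {M : Ideal AlgInt} [M.IsMaximal] [CharP (Res M) p]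
  {A K C : Type*} [Group A] [Group K] [Group C] [MulDistribMulAction A K]
  [MulDistribMulAction A C] [Fintype K] [Fintype C] {Q : Subgroup K} {i : C →* K}

theorem sum_eq_card_mul (Q : Subgroup K) [hQ : Q.Normal] [Fintype (K ⧸ Q)] {F : K → ℂ}
    (h : ∀ q ∈ Q, ∀ k, F (q * k) = F k) : ∑ k, F k = Nat.card Q * ∑ x : K ⧸ Q, F x.out := by
  haveI := Fintype.ofFinite Q
  rw [sum_eq_sum_cosets Q, Finset.mul_sum]
  refine Finset.sum_congr rfl fun x _ => ?_
  rw [Finset.sum_congr rfl fun (a : Q) _ => show F (x.out * a) = F x.out by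
    rw [← h _ (hQ.conj_mem _ a.2 x.out) x.out, inv_mul_cancel_right], Finset.sum_const,
    Finset.card_univ, nsmul_eq_mul, Nat.card_eq_fintype_card]

theorem sum_comp_eq (hi : Function.Injective i) (F : K → ℂ) [DecidablePred (· ∈ i.range)] :
    ∑ c, F (i c) = ∑ k, if k ∈ i.range then F k else 0 := by
  rw [← Finset.sum_filter]
  exact Finset.sum_bij (fun c _ => i c) (fun c _ => by simp) (fun _ _ _ _ e => hi e)
    (fun k hk => by simpa using hk) fun _ _ => rfl

theorem res_smul_eq_zero (x : Res M) : p • x = 0 := by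
  rw [nsmul_eq_mul, CharP.cast_eq_zero, zero_mul]

namespace GS

theorem le_range (h : GS p A Q i) : Q ≤ i.range := fun q hq =>
  (h.range q).2 fun a => mul_mem (h.inv a q hq) (inv_mem hq)

theorem idx_comap (h : GS p A Q i) : ¬ p ∣ (Q.comap i).index := fun k => by
  haveI := h.normal
  rw [index_comap] at k
  exact h.idx (k.trans (relIndex_dvd_index_of_normal _ _))

theorem card_comap (h : GS p A Q i) : Nat.card (Q.comap i) = Nat.card Q := by
  rw [← card_map_of_injective h.inj, map_comap_eq_self h.le_range]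

theorem red_sum_out (h : GS p A Q i) [Fintype (K ⧸ Q)] [DecidablePred (· ∈ i.range)] {F : K → ℂ}
    (h0 : ∀ k, F k ∈ locRing M) (h1 : ∀ q ∈ Q, ∀ k, F (q * k) = F k) (h2 : AInv A F) :
    red M (∑ x : K ⧸ Q, F x.out) =
      red M (∑ x : K ⧸ Q, if x.out ∈ i.range then F x.out else 0) := by
  classical
  haveI := h.normal
  haveI : MulAction.QuotientAction A Q := ⟨fun a x y k => by
    rw [← smul_inv', ← smul_mul']; exact h.inv a _ k⟩
  have h3 : ∀ x y : K, (x : K ⧸ Q) = y → F x = F y := fun x y e => by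
    rw [← h1 _ ((Normal.mem_comm_iff h.normal).1 (QuotientGroup.eq.1 e)) x, inv_mul_cancel_right]
  rw [red_sum _ fun x _ => h0 _, red_sum _ fun x _ => by split_ifs; exacts [h0 _, zero_mem _],
    sum_eq_sum_fixedPoints h.pgrp res_smul_eq_zero _ fun a x => by
      rw [h3 _ (a • x.out) (by rw [MulAction.Quotient.coe_smul_out, QuotientGroup.out_eq']), h2],
    Finset.sum_filter]
  refine Finset.sum_congr rfl fun x _ => ?_
  rw [apply_ite (red M), red_zero]
  refine if_congr ?_ rfl rfl
  rw [h.range, MulAction.mem_fixedPoints]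
  refine forall_congr' fun a => ?_
  rw [← MulAction.Quotient.coe_smul_out, eq_comm]
  conv_lhs => lhs; rw [← x.out_eq']
  rw [QuotientGroup.eq, Normal.mem_comm_iff h.normal]

theorem avg_mem (Q : Subgroup K) [Q.Normal] (hQ : ¬ p ∣ Q.index) {F : K → ℂ}
    (h0 : ∀ k, F k ∈ locRing M) (h1 : ∀ q ∈ Q, ∀ k, F (q * k) = F k) :
    (Nat.card K : ℂ)⁻¹ * ∑ k, F k ∈ locRing M := by
  haveI := Fintype.ofFinite (K ⧸ Q)
  rw [sum_eq_card_mul Q h1, ← Q.index_mul_card, Nat.cast_mul, mul_inv, mul_assoc,
    inv_mul_cancel_left₀ (natCard_ne_zero_C Q)]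
  exact mul_mem (inv_natCast_mem hQ) (sum_mem fun _ _ => h0 _)

theorem red_avg (h : GS p A Q i) {F : K → ℂ} (h0 : ∀ k, F k ∈ locRing M)
    (h1 : ∀ q ∈ Q, ∀ k, F (q * k) = F k) (h2 : AInv A F) :
    red M ((Nat.card K : ℂ)⁻¹ * ∑ k, F k) = red M ((Nat.card C : ℂ)⁻¹ * ∑ c, F (i c)) := by
  classical
  haveI := h.normal
  haveI := Fintype.ofFinite (K ⧸ Q)
  have key : ∀ F : K → ℂ, (∀ q ∈ Q, ∀ k, F (q * k) = F k) → ∑ c, F (i c) =
      Nat.card Q * ∑ x : K ⧸ Q, if x.out ∈ i.range then F x.out else 0 := fun F h1 => by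
    rw [sum_comp_eq h.inj, sum_eq_card_mul Q fun q hq k => by
      rw [h1 q hq, if_congr (mul_mem_cancel_left (h.le_range hq)) rfl rfl]]
  have e1 := key (fun _ => 1) fun _ _ _ => rfl
  rw [Finset.sum_const, Finset.card_univ, nsmul_eq_mul, mul_one, ← Nat.card_eq_fintype_card,
    ← (Q.comap i).card_mul_index, h.card_comap, Nat.cast_mul,
    mul_right_inj' (natCard_ne_zero_C Q)] at e1
  have e2 := h.red_sum_out (M := M) (F := fun _ => 1) (fun _ => one_mem _) (fun _ _ _ => rfl)
    fun _ _ => rfl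
  rw [← e1, Finset.sum_const, Finset.card_univ, nsmul_eq_mul, mul_one, ← Nat.card_eq_fintype_card,
    ← Q.index_eq_card] at e2
  rw [key F h1, sum_eq_card_mul Q h1, ← Q.index_mul_card, ← (Q.comap i).index_mul_card,
    h.card_comap, Nat.cast_mul, Nat.cast_mul, mul_inv, mul_inv, mul_assoc, mul_assoc,
    inv_mul_cancel_left₀ (natCard_ne_zero_C Q), inv_mul_cancel_left₀ (natCard_ne_zero_C Q),
    red_mul (inv_natCast_mem h.idx) (sum_mem fun _ _ => h0 _),
    red_mul (inv_natCast_mem h.idx_comap) (sum_mem fun _ _ => by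
      split_ifs; exacts [h0 _, zero_mem _]), h.red_sum_out h0 h1 h2,
    red_inv (red_natCast_ne_zero h.idx), red_inv (red_natCast_ne_zero h.idx_comap), e2]

theorem sum_cosetAvg_comp (h : GS p A Q i) [Fintype Q] (f : K → ℂ) :
    ∑ c, cosetAvg Q f (i c) = ∑ c, f (i c) := by
  simp only [cosetAvg, ← Finset.mul_sum]
  rw [Finset.sum_comm, Finset.sum_congr rfl fun (q : Q) _ => show ∑ c, f (q * i c) = ∑ c, f (i c) by
    obtain ⟨d, hd⟩ := h.le_range q.2
    exact Fintype.sum_equiv (Equiv.mulLeft d) _ _ fun c => by simp [hd], Finset.sum_const,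
    Finset.card_univ, nsmul_eq_mul, ← Nat.card_eq_fintype_card,
    inv_mul_cancel_left₀ (natCard_ne_zero_C Q)]

theorem aInv_cosetAvg (h : GS p A Q i) [Fintype Q] {f : K → ℂ} (hf : AInv A f) :
    AInv A (cosetAvg Q f) := fun a k => by
  simp only [cosetAvg]
  congr 1
  refine (Fintype.sum_bijective (fun q : Q => (⟨a • q, h.inv a q q.2⟩ : Q))
    (Finite.injective_iff_bijective.1 fun x y e =>
      Subtype.ext (MulAction.injective a (congrArg Subtype.val e))) _ _ fun q => ?_).symm
  rw [← smul_mul', hf]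

/-- Row congruence. -/
theorem red_rows (h : GS p A Q i) {α β : K → ℂ} (hα : IsCharacter K α) (hβ : IsCharacter K β)
    (h1 : AInv A α) (h2 : AInv A β) :
    red M (classInner α β) = red M (classInner (fun c => α (i c)) fun c => β (i c)) := by
  haveI := h.normal
  haveI := Fintype.ofFinite Q
  have := h.red_avg (M := M) (F := cosetAvg Q (α * fun g => conj (β g)))
    (fun k => mem_locRing_of_isIntegral M ((isCharacter_cosetAvg Q (hα.mul hβ.conj)).isIntegral k))
    (fun q hq k => cosetAvg_mul Q _ hq k)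
    (h.aInv_cosetAvg fun a k => by rw [Pi.mul_apply, Pi.mul_apply, h1, h2])
  rwa [sum_cosetAvg, h.sum_cosetAvg_comp] at this

end GS

/-- The restriction of `j` to the preimage of `T`. -/
def comapHom (j : C →* K) (T : Subgroup K) : T.comap j →* T :=
  (j.comp (T.comap j).subtype).codRestrict T fun d => d.2

theorem avg_ebz (j : C →* K) (T : Subgroup K) [Fintype (T.comap j)] (ψ : T → ℂ) (ξ : C → ℂ) :
    (Nat.card C : ℂ)⁻¹ * ∑ c, extendByZero T ψ (j c) * conj (ξ c) = ((T.comap j).index : ℂ)⁻¹ *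
      classInner (fun d => ψ (comapHom j T d)) fun d => ξ d := by
  have : ∀ c, extendByZero T ψ (j c) =
      extendByZero (T.comap j) (fun d => ψ (comapHom j T d)) c := fun c => by
    by_cases hc : c ∈ T.comap j
    · rw [ebz_of_mem _ _ hc, ebz_of_mem _ _ (show j c ∈ T from hc)]; rfl
    · rw [ebz_of_not_mem _ _ hc, ebz_of_not_mem _ _ (show j c ∉ T from hc)]
  simp only [this]
  rw [sum_ebz_mul, classInner, ← (T.comap j).index_mul_card, Nat.cast_mul, mul_inv, mul_assoc]

theorem classInner_mem {G : Type*} [Group G] [Fintype G] {α β : G → ℂ} (hα : IsCharacter G α)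
    (hβ : IsCharacter G β) : classInner α β ∈ locRing M := by
  obtain ⟨n, hn⟩ := hα.exists_nat_classInner hβ
  rw [hn]; exact natCast_mem _ n

theorem conj_classInner_char {G : Type*} [Group G] [Fintype G] {α β : G → ℂ}
    (hα : IsCharacter G α) (hβ : IsCharacter G β) : conj (classInner α β) = classInner α β := by
  obtain ⟨n, hn⟩ := hα.exists_nat_classInner hβ
  rw [hn, map_natCast]

/-- Mackey congruence. -/
theorem GS.red_mackey (h : GS p A Q i) {T : Subgroup K} [Fintype (T.comap i)] (hQ : Q ≤ T)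
    (hT : ∀ a : A, ∀ t ∈ T, a • t ∈ T) {ψ : T → ℂ} {ξ : C → ℂ} (hψ : IsCharacter T ψ)
    (hξ : IsCharacter C ξ) (h1 : AInv A (extendByZero T ψ)) (h2 : AInv A ξ) :
    red M (classInner (fun c => indFun T ψ (i c)) ξ) =
      red M (classInner (fun d => ψ (comapHom i T d)) fun d => ξ d) := by
  classical
  haveI := h.normal
  let F : K → ℂ := fun k =>
    (Nat.card C : ℂ)⁻¹ * ∑ c, extendByZero T ψ (k * i c * k⁻¹) * conj (ξ c)
  have hT1 : ¬ p ∣ T.index := fun k => h.idx (k.trans (index_dvd_of_le hQ))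
  have hT2 : ¬ p ∣ (T.comap i).index := fun k =>
    h.idx_comap (k.trans (index_dvd_of_le (comap_mono hQ)))
  have h0 : ∀ k, F k ∈ locRing M := fun k => by
    let j := (MulAut.conj k).toMonoidHom.comp i
    haveI := Fintype.ofFinite (T.comap j)
    have := avg_ebz j T ψ ξ
    change F k = _ at this
    rw [this]
    refine mul_mem (inv_natCast_mem (p := p) fun e => h.idx_comap (e.trans (index_dvd_of_le
      fun c hc => hQ (h.normal.conj_mem _ hc k)))) (classInner_mem (hψ.comp (comapHom j T))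
        (hξ.restrict _))
  have h3 : ∀ q ∈ Q, ∀ k, F (q * k) = F k := fun q hq k => by
    simp only [F]
    congr 1
    refine Finset.sum_congr rfl fun c _ => ?_
    rw [← ebz_conj_mem T hψ.isClassFunction (hQ hq) (k * i c * k⁻¹)]
    congr 2
    group
  have e := h.red_avg (M := M) h0 h3 fun a k => by
    simp only [F]
    congr 1
    refine (Fintype.sum_equiv (MulAction.toPerm a) _ _ fun c => ?_).symm
    rw [MulAction.toPerm_apply, h.smul, ← smul_inv', ← smul_mul', ← smul_mul', h1, h2]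
  have e1 : ∀ c, F (i c) = F 1 := fun d => by
    simp only [F]
    congr 1
    refine Fintype.sum_equiv (MulAut.conj d).toEquiv _ _ fun c => ?_
    simp only [MulEquiv.toEquiv_eq_coe, EquivLike.coe_coe, MulAut.conj_apply, map_mul, map_inv,
      one_mul, inv_one, mul_one, hξ.isClassFunction c d]
  have e2 : F 1 = _ := (by simp only [F, one_mul, inv_one, mul_one] : F 1 = _).trans
    (avg_ebz i T ψ ξ)
  simp only [e1, Finset.sum_const, Finset.card_univ, nsmul_eq_mul, ← Nat.card_eq_fintype_card,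
    inv_mul_cancel_left₀ (natCard_ne_zero_C C)] at e
  have e3 : classInner (fun c => indFun T ψ (i c)) ξ =
      T.index * ((Nat.card K : ℂ)⁻¹ * ∑ k, F k) := by
    simp only [F, classInner, indFun_apply', ← Finset.mul_sum, mul_assoc, Finset.sum_mul]
    rw [Finset.sum_comm, ← T.index_mul_card, Nat.cast_mul, mul_inv, mul_assoc,
      mul_inv_cancel_left₀ (Nat.cast_ne_zero.2 T.index_ne_zero_of_finite), mul_left_comm]
  have e4 := h.red_avg (M := M) (F := extendByZero T fun _ => 1)
    (fun k => by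
      by_cases hk : k ∈ T
      · rw [ebz_of_mem _ _ hk]; exact one_mem _
      · rw [ebz_of_not_mem _ _ hk]; exact zero_mem _)
    (fun q hq k => by
      by_cases hk : k ∈ T
      · rw [ebz_of_mem _ _ hk, ebz_of_mem _ _ (mul_mem (hQ hq) hk)]
      · rw [ebz_of_not_mem _ _ hk, ebz_of_not_mem _ _ (mt (mul_mem_cancel_left (hQ hq)).1 hk)])
    (fun a k => by
      by_cases hk : k ∈ T
      · rw [ebz_of_mem _ _ hk, ebz_of_mem _ _ (hT a k hk)]
      · rw [ebz_of_not_mem _ _ hk, ebz_of_not_mem _ _ fun e => hk (by simpa using hT a⁻¹ _ e)])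
  have e5 := avg_ebz i T (fun _ => 1) fun _ => 1
  haveI := Fintype.ofFinite T
  simp only [map_one, mul_one] at e5
  rw [e5, sum_ebz, (isIrrCharacter_one' (G := T.comap i)).classInner_self, mul_one,
    Finset.sum_const, Finset.card_univ, nsmul_eq_mul, mul_one, ← Nat.card_eq_fintype_card,
    ← T.index_mul_card, Nat.cast_mul, mul_inv, inv_mul_cancel_right₀ (natCard_ne_zero_C T)] at e4
  rw [e3, red_mul (natCast_mem _ _) (GS.avg_mem Q h.idx h0 h3), e, e2,
    red_mul (inv_natCast_mem hT2) (classInner_mem (hψ.comp (comapHom i T)) (hξ.restrict _)), ← e4,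
    red_inv (red_natCast_ne_zero hT1), mul_inv_cancel_left₀ (red_natCast_ne_zero hT1)]

/-- The action on irreducible characters. -/
@[reducible] def irrAct (A K : Type*) [Group A] [Group K] [MulDistribMulAction A K] :
    MulAction A (IrrCharacter K) where
  smul a χ := irrCompAut (MulDistribMulAction.toMulEquiv K a⁻¹) χ
  one_smul χ := Subtype.ext (funext fun k => by
    change (χ : K → ℂ) ((1 : A)⁻¹ • k) = _
    rw [inv_one, one_smul])
  mul_smul a b χ := Subtype.ext (funext fun k => by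
    change (χ : K → ℂ) ((a * b)⁻¹ • k) = (χ : K → ℂ) (b⁻¹ • a⁻¹ • k)
    rw [mul_inv_rev, mul_smul])

/-- The invariant irreducible characters. -/
noncomputable def invIrr (A K : Type*) [Group K] [Finite K] [SMul A K] : Finset (IrrCharacter K) := by
  classical exact Finset.univ.filter fun χ => AInv A (χ : K → ℂ)

theorem mem_invIrr {χ : IrrCharacter K} : χ ∈ invIrr A K ↔ AInv A (χ : K → ℂ) := by
  simp [invIrr]

theorem sum_irr_eq_sum_inv (hA : IsPGroup p A) (m : IrrCharacter K → Res M)
    (h : ∀ (a : A) χ, m (irrCompAut (MulDistribMulAction.toMulEquiv K a) χ) = m χ) :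
    ∑ χ, m χ = ∑ χ ∈ invIrr A K, m χ := by
  classical
  letI := irrAct A K
  rw [sum_eq_sum_fixedPoints hA res_smul_eq_zero m fun a χ => h a⁻¹ χ]
  refine Finset.sum_congr (Finset.ext fun χ => ?_) fun _ _ => rfl
  rw [mem_invIrr, Finset.mem_filter_univ]
  refine ⟨fun k a x => ?_, fun k a => ?_⟩
  · have := congrFun (congrArg Subtype.val (k a⁻¹)) x
    change (χ : K → ℂ) (a⁻¹⁻¹ • x) = _ at this
    rwa [inv_inv] at this
  · exact Subtype.ext (funext fun x => k a⁻¹ x)

theorem classInner_compAut {α : K → ℂ} (hα : AInv A α) (a : A) (χ : IrrCharacter K) :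
    classInner α (irrCompAut (MulDistribMulAction.toMulEquiv K a) χ) = classInner α χ := by
  rw [← classInner_comp_mulEquiv (MulDistribMulAction.toMulEquiv K a) α χ]
  congr 1
  exact funext fun k => (hα a k).symm

theorem exists_inv_irr (hA : IsPGroup p A) (S : Finset (IrrCharacter K)) (hS : ¬ p ∣ S.card)
    (h : ∀ (a : A) χ, irrCompAut (MulDistribMulAction.toMulEquiv K a) χ ∈ S ↔ χ ∈ S) :
    ∃ χ ∈ S, AInv A (χ : K → ℂ) := by
  classical
  obtain ⟨M, hM⟩ := exists_isPModular p
  haveI := hM.2.1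
  haveI := charP_res hM
  have := sum_irr_eq_sum_inv (M := M) hA (fun χ => if χ ∈ S then 1 else 0) fun a χ => by
    simp only [h]
  rw [Finset.sum_boole, Finset.filter_mem_eq_inter, Finset.univ_inter] at this
  obtain ⟨χ, h1, h2⟩ := Finset.exists_ne_zero_of_sum_ne_zero
    (this ▸ mt (CharP.cast_eq_zero_iff (Res M) p _).1 hS)
  exact ⟨χ, by_contra fun k => h2 (if_neg k), mem_invIrr.1 h1⟩

/-- Parseval's formula modulo `p`. -/
theorem red_parseval (hA : IsPGroup p A) {α β : K → ℂ} (hα : IsCharacter K α)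
    (hβ : IsCharacter K β) (h1 : AInv A α) (h2 : AInv A β) :
    red M (classInner α β) = ∑ χ ∈ invIrr A K,
      red M (classInner α χ) * red M (classInner β χ) := by
  rw [hα.isClassFunction.classInner_eq_sum, ← sum_irr_eq_sum_inv hA _ fun a χ => by
    rw [classInner_compAut h1, classInner_compAut h2]]
  simp only [conj_classInner_char hβ (IsIrrCharacter.isCharacter (Subtype.prop _))]
  rw [red_sum _ fun χ _ => mul_mem (classInner_mem hα χ.2.isCharacter)
    (classInner_mem hβ χ.2.isCharacter)]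
  exact Finset.sum_congr rfl fun χ _ => red_mul (classInner_mem hα χ.2.isCharacter)
    (classInner_mem hβ χ.2.isCharacter)

theorem aInv_indFun {T : Subgroup K} {ψ : T → ℂ} (h : AInv A (extendByZero T ψ)) :
    AInv A (indFun T ψ) := fun a k => by
  rw [indFun_apply', indFun_apply']
  congr 1
  refine (Fintype.sum_equiv (MulAction.toPerm a) _ _ fun c => ?_).symm
  rw [MulAction.toPerm_apply, ← smul_inv', ← smul_mul', ← smul_mul', h]

/-- Column congruence. -/
theorem GS.red_cols (h : GS p A Q i) {ξ η : C → ℂ} (hξ : IsCharacter C ξ) (hη : IsCharacter C η)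
    (h1 : AInv A ξ) (h2 : AInv A η) :
    red M (classInner ξ η) = ∑ χ ∈ invIrr A K,
      red M (classInner (fun c => (χ : K → ℂ) (i c)) ξ) *
        red M (classInner (fun c => (χ : K → ℂ) (i c)) η) := by
  haveI := Fintype.ofFinite i.range
  haveI := Fintype.ofFinite (i.range.comap i)
  let e := MonoidHom.ofInjective h.inj
  have hT : ∀ a : A, ∀ t ∈ i.range, a • t ∈ i.range := by
    rintro a _ ⟨c, rfl⟩; exact ⟨_, h.smul a c⟩
  have he : ∀ c (k : i c ∈ i.range), e.symm ⟨i c, k⟩ = c := fun c _ => e.symm_apply_apply c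
  have k1 : ∀ {ξ : C → ℂ}, AInv A ξ → AInv A (extendByZero i.range fun t => ξ (e.symm t)) :=
    fun {ξ} h1 a k => by
      by_cases hk : k ∈ i.range
      · obtain ⟨c, rfl⟩ := hk
        rw [← h.smul, ebz_of_mem _ _ (MonoidHom.mem_range.2 ⟨_, rfl⟩),
          ebz_of_mem _ _ (MonoidHom.mem_range.2 ⟨_, rfl⟩), he, he, h1]
      · rw [ebz_of_not_mem _ _ hk, ebz_of_not_mem _ _ fun e => hk (by simpa using hT a⁻¹ _ e)]
  have k2 : ∀ {ξ : C → ℂ} {χ : K → ℂ}, IsClassFunction K χ →
      classInner (indFun i.range fun t => ξ (e.symm t)) χ = classInner ξ fun c => χ (i c) :=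
    fun {ξ χ} hχ => by
      rw [frobenius_recip _ _ hχ, ← classInner_comp_mulEquiv e]
      simp only [MulEquiv.symm_apply_apply]
      rfl
  have c1 := isCharacter_indFun _ (hξ.comp e.symm.toMonoidHom)
  have c2 := isCharacter_indFun _ (hη.comp e.symm.toMonoidHom)
  have k3 := h.red_mackey (M := M) h.le_range hT (hξ.comp e.symm.toMonoidHom) hη (k1 h1) h2
  have k4 := red_parseval (M := M) h.pgrp c1 c2 (aInv_indFun (k1 h1)) (aInv_indFun (k1 h2))
  have he' : ∀ d, e.symm (comapHom i i.range d) = (i.range.comap i).subtype d := fun d => he _ _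
  simp only [MulEquiv.toMonoidHom_eq_coe, MonoidHom.coe_coe, he'] at k3 k4 c1 c2
  replace k3 := k3.trans (congrArg _ (classInner_comp_of_surjective (i.range.comap i).subtype
    (fun c => ⟨⟨c, c, rfl⟩, rfl⟩) ξ η))
  rw [← k3, ← conj_classInner_char (c1.comp i) hη, classInner_star, ← k2 c1.isClassFunction,
    ← classInner_star, conj_classInner_char c1 c2, k4]
  refine Finset.sum_congr rfl fun χ _ => ?_
  rw [k2 χ.2.isClassFunction, k2 χ.2.isClassFunction, ← classInner_star,
    conj_classInner_char (χ.2.isCharacter.comp i) hξ, ← classInner_star _ η,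
    conj_classInner_char (χ.2.isCharacter.comp i) hη]

end Cfsg.Agent.H4
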