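import Cfsg.Agent.H4.Glaub

/-! The relative Glauberman correspondence. -/

set_option autoImplicit false
set_option linter.unusedSectionVars false
set_option linter.style.haveILetI false

namespace Cfsg.Agent.H4

open Cfsg Cfsg.Agent.H3 Cfsg.Agent.H5 Subgroup
open scoped ComplexConjugate

variable {p : ℕ} [Fact p.Prime] {M : Ideal AlgInt} [M.IsMaximal] [CharP (Res M) p]
  {A K C : Type*} [Group A] [Group K] [Group C] [MulDistribMulAction A K]
  [MulDistribMulAction A C] [Fintype K] [Fintype C] {Q : Subgroup K} {i : C →* K}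

theorem GS.aInv_comp (h : GS p A Q i) {χ : K → ℂ} (hχ : AInv A χ) : AInv A fun c => χ (i c) :=
  fun a c => by simp only [h.smul, hχ a]

theorem GS.aInv_of_const (h : GS p A Q i) {γ : C → ℂ}
    (hγ : ∀ n ∈ Q.comap i, ∀ x, γ (n * x) = γ x) : AInv A γ := fun a c => by
  rw [← hγ (a • c * c⁻¹) (by
    rw [mem_comap, map_mul, map_inv, h.smul]; exact (h.range _).1 ⟨c, rfl⟩ a) c, inv_mul_cancel_right]

theorem GS.red_disj (h : GS p A Q i) {β β' : K → ℂ} {γ : C → ℂ} (hβ : IsIrrCharacter K β)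
    (hβ' : IsIrrCharacter K β') (hne : β ≠ β') (h1 : AInv A β) (h2 : AInv A β')
    (h3 : ∀ q ∈ Q, ∀ x, β (q * x) = β x) (hγ : IsIrrCharacter C γ)
    (h4 : ∀ n ∈ Q.comap i, ∀ x, γ (n * x) = γ x) :
    red M (classInner (fun c => β (i c)) γ) * red M (classInner (fun c => β' (i c)) γ) = 0 := by
  classical
  haveI := h.normal
  haveI := Fintype.ofFinite Q
  let F : K → ℂ := fun k => (Nat.card C : ℂ)⁻¹ * ∑ c, β (k * i c) * conj (γ c)
  have f1 : ∀ q ∈ Q, ∀ k, F (q * k) = F k := fun q hq k => by simp only [F, mul_assoc, h3 q hq]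
  have f2 : ∀ k, F k ∈ locRing M := fun k => GS.avg_mem (Q.comap i) h.idx_comap
    (fun c => mem_locRing_of_isIntegral M ((hβ.isCharacter.isIntegral _).mul
      (hγ.isCharacter.conj.isIntegral c))) fun n hn c => by
      rw [h4 n hn, ← h3 _ (h.normal.conj_mem _ hn k) (k * i c), map_mul]
      congr 2
      group
  have f3 : AInv A F := fun a k => by
    simp only [F]
    congr 1
    refine (Fintype.sum_equiv (MulAction.toPerm a) _ _ fun c => ?_).symm
    rw [MulAction.toPerm_apply, h.smul, ← smul_mul', h1, h.aInv_of_const h4]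
  have f4 : ∀ d, F (i d) = classInner (fun c => β (i c)) γ / γ 1 * γ d := fun d => by
    have := hγ.conj.sum_mul_apply_mul (hβ.isCharacter.comp i).isClassFunction d⁻¹
    rw [hγ.isCharacter.apply_inv, Complex.conj_conj, omega, ← hγ.cast_charDegree,
      map_natCast, hγ.cast_charDegree, ← Equiv.sum_comp (Equiv.mulLeft d)] at this
    simp only [Equiv.coe_mulLeft, hγ.isClassFunction _ d, map_mul] at this
    simp only [F, this, classInner]
    ring
  have e := h.red_avg (M := M) (F := cosetAvg Q ((fun k => conj (β' k)) * F)) (fun k => by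
      rw [cosetAvg_mul_of_inv Q _ f1]
      exact mul_mem (mem_locRing_of_isIntegral M
        ((isCharacter_cosetAvg Q hβ'.isCharacter.conj).isIntegral k)) (f2 k))
    (fun q hq k => cosetAvg_mul Q _ hq k)
    (h.aInv_cosetAvg fun a k => by rw [Pi.mul_apply, Pi.mul_apply, h2, f3])
  rw [sum_cosetAvg, h.sum_cosetAvg_comp] at e
  have e1 : ∑ k, ((fun k => conj (β' k)) * F) k = 0 := by
    simp only [F, Pi.mul_apply, Finset.mul_sum]
    rw [Finset.sum_comm]
    refine Finset.sum_eq_zero fun c _ => ?_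
    have := hβ.sum_conj_mul_apply_mul hβ' (i c)
    rw [if_neg hne] at this
    calc _ = (Nat.card C : ℂ)⁻¹ * (∑ k, conj (β' k) * β (k * i c)) * conj (γ c) := by
          rw [Finset.mul_sum, Finset.sum_mul]; exact Finset.sum_congr rfl fun k _ => by ring
      _ = 0 := by rw [this, mul_zero, zero_mul]
  have e2 : (Nat.card C : ℂ)⁻¹ * ∑ c, ((fun k => conj (β' k)) * F) (i c) =
      classInner (fun c => β (i c)) γ * classInner (fun c => β' (i c)) γ / γ 1 := by
    rw [← conj_classInner_char (hβ'.isCharacter.comp i) hγ.isCharacter, classInner_star,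
      mul_div_right_comm, classInner.eq_1 γ, mul_left_comm, Finset.mul_sum _ _ (_ / _)]
    congr 1
    exact Finset.sum_congr rfl fun c _ => by rw [Pi.mul_apply, f4]; ring
  have c1 := classInner_mem (M := M) (hβ.isCharacter.comp i) hγ.isCharacter
  have c2 := classInner_mem (M := M) (hβ'.isCharacter.comp i) hγ.isCharacter
  obtain ⟨g, hg, hg'⟩ := hγ.exists_quotient (Q.comap i) fun n hn => by
    rw [← h4 n hn 1, mul_one]
  have d1 : red M (γ 1) ≠ 0 := by
    rw [← hg', QuotientGroup.mk_one, ← hg.cast_charDegree]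
    exact red_natCast_ne_zero fun k => h.idx_comap (k.trans hg.charDegree_dvd_card)
  rw [e1, e2, mul_zero, red_zero, red_div (mul_mem c1 c2) d1, red_mul c1 c2, eq_comm,
    div_eq_zero_iff] at e
  exact e.resolve_right d1

theorem GS.uniq_const (h : GS p A Q i) {β : K → ℂ} {γ γ' : C → ℂ} (hβ : IsIrrCharacter K β)
    (h1 : AInv A β) (h3 : ∀ q ∈ Q, ∀ x, β (q * x) = β x) (hγ : IsIrrCharacter C γ)
    (hγ' : IsIrrCharacter C γ') (h4 : ∀ n ∈ Q.comap i, ∀ x, γ (n * x) = γ x)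
    (h5 : ∀ n ∈ Q.comap i, ∀ x, γ' (n * x) = γ' x)
    (r1 : red M (classInner (fun c => β (i c)) γ) ≠ 0)
    (r2 : red M (classInner (fun c => β (i c)) γ') ≠ 0) : γ = γ' := by
  by_contra hne
  have := h.red_cols (M := M) hγ.isCharacter hγ'.isCharacter (h.aInv_of_const h4)
    (h.aInv_of_const h5)
  rw [hγ.classInner_of_ne hγ' hne, red_zero, Finset.sum_eq_single ⟨β, hβ⟩ (fun χ hχ k => by
    rw [(mul_eq_zero.1 (h.red_disj hβ χ.2 (fun e => k (Subtype.ext e.symm)) h1 (mem_invIrr.1 hχ)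
      h3 hγ h4)).resolve_left r1, zero_mul]) fun k => absurd (mem_invIrr.2 h1) k] at this
  exact mul_ne_zero r1 r2 this.symm

theorem over_of_constituent {N D : Type*} [Group N] [Group D] [Fintype N] [Fintype D] (f : N →* D)
    {α η : D → ℂ} (hα : IsCharacter D α) (hη : IsIrrCharacter D η) (h : classInner α η ≠ 0)
    {θ : N → ℂ} (hθ : IsIrrCharacter N θ) {m : ℂ} (e : (fun n => α (f n)) = m • θ) :
    classInner (fun n => η (f n)) θ ≠ 0 := by
  obtain ⟨φ, hφ, h1⟩ := exists_irr_under f hη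
  have := classInner_comp_ne_zero_of_constituent f hα hη h hφ.isCharacter h1
  rw [e, classInner_smul_left] at this
  by_cases k : θ = φ
  · rwa [k]
  · exact absurd (hθ.classInner_of_ne hφ k) (right_ne_zero_of_mul this)

theorem exists_inv_extension (hA : IsPGroup p A) [Q.Normal] (hi : ¬ p ∣ Q.index)
    (hinv : ∀ a : A, ∀ q ∈ Q, a • q ∈ Q) {χ : K → ℂ} (hχ : IsIrrCharacter K χ)
    (h : IsIrrCharacter Q fun n : Q => χ n) (h1 : ∀ a : A, ∀ q ∈ Q, χ (a • q) = χ q) :
    ∃ ψ, IsIrrCharacter K ψ ∧ AInv A ψ ∧ (fun n : Q => ψ n) = fun n : Q => χ n := by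
  classical
  haveI := Fintype.ofFinite Q
  refine (exists_inv_irr hA (Finset.univ.filter fun ψ : IrrCharacter K =>
    (fun n : Q => (ψ : K → ℂ) n) = fun n : Q => χ n) (fun k => hi (k.trans ?_))
    fun a ψ => ?_).elim fun ψ k => ⟨ψ, ψ.2, k.2, (Finset.mem_filter.1 k.1).2⟩
  · have c : ∀ lam : K ⧸ Q →* ℂˣ, ∀ n ∈ Q, ∀ x, (lam (n * x : K) : ℂ) = lam (x : K) :=
      fun lam n hn x => by rw [QuotientGroup.mk_mul, (QuotientGroup.eq_one_iff n).2 hn, one_mul]
    rw [← Nat.card_eq_finsetCard, ← Nat.card_eq_of_bijective (fun lam : K ⧸ Q →* ℂˣ =>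
      (⟨⟨χ * fun k : K => (lam (k : K ⧸ Q) : ℂ), gallagher_irr Q hχ.isCharacter h
        (isIrrCharacter_unitsHom (lam.comp (QuotientGroup.mk' Q))) (c lam)⟩,
        Finset.mem_filter.2 ⟨Finset.mem_univ _, funext fun n => by
          simp [(QuotientGroup.eq_one_iff (n : K)).2 n.2]⟩⟩ :
        Finset.univ.filter fun ψ : IrrCharacter K =>
          (fun n : Q => (ψ : K → ℂ) n) = fun n : Q => χ n)) ⟨?_, ?_⟩,
      card_unitsHom_eq_index_commutator]
    · exact index_dvd_card _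
    · intro l m e
      have := gallagher_inj Q hχ.isCharacter h (c l) (c m) (congrArg (fun x => x.1.1) e)
      exact MonoidHom.ext fun x => by
        obtain ⟨x, rfl⟩ := QuotientGroup.mk_surjective x
        exact Units.ext (congrFun this x)
    · rintro ⟨ψ, hψ⟩
      have e := (Finset.mem_filter.1 hψ).2
      obtain ⟨β, b1, b2, b3⟩ := gallagher_surj Q hχ.isCharacter h ψ.2
        (by rw [e, h.classInner_self]; exact one_ne_zero)
      have b4 : β 1 = 1 := by
        have := congrFun e 1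
        simp only [b3, OneMemClass.coe_one, Pi.mul_apply] at this
        exact (mul_eq_left₀ hχ.apply_one_ne_zero).1 this
      obtain ⟨lam, rfl⟩ := b1.isCharacter.exists_unitsHom b4
      exact ⟨QuotientGroup.lift Q lam fun n hn => Units.ext (by simpa using b2 n hn 1),
        Subtype.ext (Subtype.ext b3.symm)⟩
  · simp only [Finset.mem_filter, Finset.mem_univ, true_and, funext_iff]
    refine ⟨fun k n => ?_, fun k n => (k ⟨_, hinv a n n.2⟩).trans (h1 a n n.2)⟩
    have := k ⟨_, hinv a⁻¹ n n.2⟩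
    change (ψ : K → ℂ) (a • a⁻¹ • (n : K)) = χ (a⁻¹ • (n : K)) at this
    rwa [smul_inv_smul, h1 _ _ n.2] at this

theorem GS.comapHom_surjective (h : GS p A Q i) : Function.Surjective (comapHom i Q) := fun q => by
  obtain ⟨c, hc⟩ := h.le_range q.2
  exact ⟨⟨c, by rw [mem_comap, hc]; exact q.2⟩, Subtype.ext hc⟩

theorem GS.uniq_of_invariant [Q.Normal] [Fintype Q] (h : GS p A Q i)
    (hc : (Nat.card Q).Coprime Q.index) {θ : Q → ℂ} (hθ : IsIrrCharacter Q θ)
    (t1 : ∀ g, conjFun Q θ g = θ) (t2 : ∀ (a : A) (q : Q), θ ⟨a • q, h.inv a q q.2⟩ = θ q)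
    {ψ : K → ℂ} (hψ : IsIrrCharacter K ψ) (h1 : AInv A ψ)
    (h2 : classInner (fun n : Q => ψ n) θ ≠ 0) {η η' : C → ℂ} (hη : IsIrrCharacter C η)
    (hη' : IsIrrCharacter C η') (r1 : red M (classInner (fun c => ψ (i c)) η) ≠ 0)
    (r2 : red M (classInner (fun c => ψ (i c)) η') ≠ 0) : η = η' := by
  haveI := Fintype.ofFinite (Q.comap i)
  obtain ⟨χ₀, c1, rfl⟩ := exists_extension_of_coprime Q hc hθ t1
  obtain ⟨χ, hχ, c2, c3⟩ := exists_inv_extension h.pgrp h.idx h.inv c1 hθ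
    fun a q hq => t2 a ⟨q, hq⟩
  rw [← c3] at hθ h2
  obtain ⟨β, b1, b2, rfl⟩ := gallagher_surj Q hχ.isCharacter hθ hψ h2
  have b3 : AInv A β := fun a k => congrFun (gallagher_inj Q hχ.isCharacter hθ
    (β := fun k => β (a • k)) (fun n hn x => by rw [smul_mul', b2 _ (h.inv a n hn)]) b2
    (funext fun x => by rw [← h1 a x, Pi.mul_apply, Pi.mul_apply, c2])) k
  have n1 : IsIrrCharacter (Q.comap i) fun n => χ (i n) :=
    hθ.comp_of_surjective (comapHom i Q) h.comapHom_surjective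
  have key : ∀ {η : C → ℂ}, IsIrrCharacter C η →
      red M (classInner (fun c => (χ * β) (i c)) η) ≠ 0 → ∃ γ, IsIrrCharacter C γ ∧
        (∀ n ∈ Q.comap i, ∀ x, γ (n * x) = γ x) ∧ η = (fun c => χ (i c)) * γ ∧
        red M (classInner (fun c => β (i c)) γ) ≠ 0 := fun {η} hη r => by
    obtain ⟨γ, g1, g2, rfl⟩ := gallagher_surj (Q.comap i) (hχ.isCharacter.comp i) n1 hη
      (over_of_constituent (Q.comap i).subtype (hψ.isCharacter.comp i) hη
        (ne_zero_of_red_ne_zero r) n1 (m := β 1) (funext fun n => by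
          rw [← b2 (i n) n.2 1, mul_one]; exact mul_comm _ _))
    refine ⟨γ, g1, g2, rfl, ?_⟩
    rwa [← classInner_mul_of_res (Q.comap i) (hχ.isCharacter.comp i) n1
      (fun n hn x => by rw [map_mul, b2 _ hn]) g2]
  obtain ⟨γ, g1, g2, rfl, g3⟩ := key hη r1
  obtain ⟨γ', g1', g2', rfl, g3'⟩ := key hη' r2
  rw [h.uniq_const b1 b3 b2 g1 g1' g2 g2' g3 g3']

/-- The action on an invariant subgroup. -/
@[reducible] def subAct (T : Subgroup K) (hT : ∀ a : A, ∀ t ∈ T, a • t ∈ T) :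
    MulDistribMulAction A T where
  smul a t := ⟨a • t, hT a t t.2⟩
  one_smul t := Subtype.ext (one_smul A (t : K))
  mul_smul a b t := Subtype.ext (mul_smul a b (t : K))
  smul_mul a s t := Subtype.ext (smul_mul' a (s : K) t)
  smul_one a := Subtype.ext (smul_one a)

theorem GS.uniq (h : GS p A Q i) (hc : (Nat.card Q).Coprime Q.index) {χ : K → ℂ}
    (hχ : IsIrrCharacter K χ) (h1 : AInv A χ) {ξ ξ' : C → ℂ} (hξ : IsIrrCharacter C ξ)
    (hξ' : IsIrrCharacter C ξ') (x1 : AInv A ξ) (x2 : AInv A ξ')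
    (r1 : red M (classInner (fun c => χ (i c)) ξ) ≠ 0)
    (r2 : red M (classInner (fun c => χ (i c)) ξ') ≠ 0) : ξ = ξ' := by
  classical
  haveI := h.normal
  haveI := Fintype.ofFinite Q
  letI := subAct Q h.inv
  obtain ⟨θ₀, s1, s2⟩ := exists_irr_under Q.subtype hχ
  have s3 : ∀ θ : IrrCharacter Q, θ ∈ conjIrr Q θ₀ ↔ classInner (fun n : Q => χ n) θ ≠ 0 :=
    fun θ => (mem_conjIrr Q θ₀ θ).trans ⟨by
      rintro ⟨g, e⟩; rwa [← e, classInner_res_conjFun Q hχ.isClassFunction],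
      exists_conjFun_eq_of_constituents Q hχ s1 θ.2 s2⟩
  obtain ⟨⟨θ, hθ⟩, t0, t2⟩ := exists_inv_irr h.pgrp (conjIrr Q θ₀) (by
    rw [card_conjIrr Q s1]
    exact fun k => h.idx (k.trans (index_dvd_of_le (le_inertia Q s1.isClassFunction)))) fun a θ => by
      rw [s3, s3, classInner_compAut (α := fun n : Q => χ n) fun a q => h1 a q]
  rw [s3] at t0
  change AInv A θ at t2
  set T := inertia Q θ with hTdef
  have hQT : Q ≤ T := le_inertia Q hθ.isClassFunction
  have hT : ∀ a : A, ∀ t ∈ T, a • t ∈ T := fun a t ht => funext fun q => by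
    rw [← t2 a⁻¹ q, ← congrFun ht (a⁻¹ • q), conjFun_apply, conjFun_apply, ← t2 a⁻¹]
    congr 1
    apply Subtype.ext
    change a⁻¹ • (a • t * q * (a • t)⁻¹) = t * a⁻¹ • (q : K) * t⁻¹
    rw [smul_mul', smul_mul', smul_inv', inv_smul_smul]
  have hD : ∀ a : A, ∀ d ∈ T.comap i, a • d ∈ T.comap i := fun a d hd => by
    rw [mem_comap, h.smul]; exact hT a _ hd
  letI := subAct T hT
  letI := subAct (T.comap i) hD
  haveI := Fintype.ofFinite T
  haveI := Fintype.ofFinite (T.comap i)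
  haveI := Fintype.ofFinite (Q.subgroupOf T)
  haveI := Fintype.ofFinite (Q.comap i)
  obtain ⟨ψ, p1, p2, rfl⟩ := clifford_corr_exists Q hθ T rfl hQT hχ t0
  have p3 : ∀ (a : A) k, extendByZero T (fun t => ψ (a • t)) k = extendByZero T ψ (a • k) :=
    fun a k => by
      by_cases hk : k ∈ T
      · rw [ebz_of_mem _ _ hk, ebz_of_mem _ _ (hT a k hk)]; rfl
      · rw [ebz_of_not_mem _ _ hk, ebz_of_not_mem _ _ fun e => hk (by simpa using hT a⁻¹ _ e)]
  have p4 : AInv A ψ := fun a => congrFun (clifford_corr_inj Q hθ T rfl hQT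
    (p1.comp_mulEquiv (MulDistribMulAction.toMulEquiv T a)) p1 (by
      rw [← classInner_comp_mulEquiv (MulDistribMulAction.toMulEquiv Q a)] at p2
      simp only [MulDistribMulAction.toMulEquiv_apply, t2 a] at p2
      exact p2) p2 (funext fun k => by
      rw [← h1 a k, indFun_apply', indFun_apply']
      congr 1
      refine Fintype.sum_equiv (MulAction.toPerm a) _ _ fun c => ?_
      rw [MulAction.toPerm_apply, ← smul_inv', ← smul_mul', ← smul_mul', ← p3]))
  have p5 : AInv A (extendByZero T ψ) := fun a k => by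
    rw [← p3]; congr 1; exact funext (p4 a)
  have g : GS p A (Q.subgroupOf T) (comapHom i T) :=
    { pgrp := h.pgrp
      normal := inferInstance
      inv := fun a q hq => h.inv a q hq
      idx := fun k => h.idx (k.trans (relIndex_dvd_index_of_normal Q T))
      inj := fun a b e => Subtype.ext (h.inj (congrArg Subtype.val e))
      smul := fun a c => Subtype.ext (h.smul a c)
      range := fun k => ⟨by rintro ⟨c, rfl⟩; exact (h.range _).1 ⟨c, rfl⟩, fun e => by
        obtain ⟨c, hc⟩ := (h.range k).2 e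
        exact ⟨⟨c, by rw [mem_comap, hc]; exact k.2⟩, Subtype.ext hc⟩⟩ }
  let e := subgroupOfEquivOfLe hQT
  have n1 : IsIrrCharacter (Q.comap i) fun n => θ (comapHom i Q n) :=
    hθ.comp_of_surjective (comapHom i Q) h.comapHom_surjective
  have n2 : T.comap i = inertia (Q.comap i) fun n => θ (comapHom i Q n) := by
    ext c
    rw [mem_comap, mem_inertia, mem_inertia, funext_iff, funext_iff,
      h.comapHom_surjective.forall]
    refine forall_congr' fun n => ?_
    rw [conjFun_apply, conjFun_apply]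
    congr! 2
    exact Subtype.ext (by
      change i c * i n * (i c)⁻¹ = i (c * n * c⁻¹)
      rw [map_mul, map_mul, map_inv])
  have key : ∀ {ξ : C → ℂ}, IsIrrCharacter C ξ → AInv A ξ →
      red M (classInner (fun c => indFun T ψ (i c)) ξ) ≠ 0 → ∃ η, IsIrrCharacter (T.comap i) η ∧
        red M (classInner (fun d => ψ (comapHom i T d)) η) ≠ 0 ∧ ξ = indFun (T.comap i) η :=
    fun {ξ} hξ x r => by
      rw [h.red_mackey hQT hT p1.isCharacter hξ.isCharacter p5 x, red_parseval h.pgrp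
        (p1.isCharacter.comp _) (hξ.isCharacter.restrict _) (g.aInv_comp p4) fun a d => x a d] at r
      obtain ⟨η, -, k⟩ := Finset.exists_ne_zero_of_sum_ne_zero r
      refine ⟨η, η.2, left_ne_zero_of_mul k, ?_⟩
      have k1 := (clifford_corr_irr (Q.comap i) n1 _ n2 (comap_mono hQT) η.2
        (over_of_constituent _ (p1.isCharacter.comp _) η.2
          (ne_zero_of_red_ne_zero (left_ne_zero_of_mul k)) n1 (funext fun n =>
            congrFun (res_eq_smul_of_le_inertia Q hθ T hQT le_rfl p1 p2) (comapHom i Q n)))).1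
      by_contra hne
      refine ne_zero_of_red_ne_zero (right_ne_zero_of_mul k) ?_
      rw [← frobenius_recip' _ _ hξ.isClassFunction, hξ.classInner_of_ne k1 hne]
  obtain ⟨η, e1, e2, rfl⟩ := key hξ x1 r1
  obtain ⟨η', e1', e2', rfl⟩ := key hξ' x2 r2
  rw [g.uniq_of_invariant (θ := fun n => θ (e n)) (by
      rw [Nat.card_congr e.toEquiv]
      exact hc.coprime_dvd_right (relIndex_dvd_index_of_normal Q T)) (hθ.comp_mulEquiv e)
    (fun t => funext fun n => congrFun t.2 (e n)) (fun a q => t2 a (e q)) p1 p4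
    (by rwa [← classInner_comp_mulEquiv e] at p2) e1 e1' e2 e2']

theorem GS.red_rows' (h : GS p A Q i) {χ ψ : K → ℂ} (hχ : IsCharacter K χ) (hψ : IsCharacter K ψ)
    (h1 : AInv A χ) (h2 : AInv A ψ) : red M (classInner χ ψ) = ∑ ξ ∈ invIrr A C,
      red M (classInner (fun c => χ (i c)) ξ) * red M (classInner (fun c => ψ (i c)) ξ) := by
  rw [h.red_rows hχ hψ h1 h2, red_parseval h.pgrp (hχ.comp i) (hψ.comp i) (h.aInv_comp h1)
    (h.aInv_comp h2)]

theorem zmod_of_sq {m : ℕ} (h : (m : Res M) * m = 1) : (m : ZMod p) = 1 ∨ (m : ZMod p) = -1 := by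
  rw [← mul_self_eq_one_iff, ← (ZMod.castHom (dvd_refl p) (Res M)).injective.eq_iff]
  simpa using h

/-- The relative Glauberman correspondence. -/
theorem GS.exists_corr (h : GS p A Q i) (hc : (Nat.card Q).Coprime Q.index) :
    ∃ f : {χ : IrrCharacter K // AInv A (χ : K → ℂ)} → {ξ : IrrCharacter C // AInv A (ξ : C → ℂ)},
      Function.Bijective f ∧ ∀ χ, (∀ ξ : {ξ : IrrCharacter C // AInv A (ξ : C → ℂ)}, ∃ m : ℕ,
        classInner (fun c => (χ.1 : K → ℂ) (i c)) ξ.1 = m ∧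
        (ξ = f χ → (m : ZMod p) = 1 ∨ (m : ZMod p) = -1) ∧ (ξ ≠ f χ → p ∣ m)) ∧
      ((charDegree ((f χ).1 : C → ℂ) : ZMod p) = charDegree (χ.1 : K → ℂ) ∨
        (charDegree ((f χ).1 : C → ℂ) : ZMod p) = -charDegree (χ.1 : K → ℂ)) := by
  obtain ⟨M, hM⟩ := exists_isPModular p
  haveI := hM.2.1
  haveI := charP_res hM
  have e1 : ∀ χ : {χ : IrrCharacter K // AInv A (χ : K → ℂ)},
      ∃ ξ : {ξ : IrrCharacter C // AInv A (ξ : C → ℂ)},
      red M (classInner (fun c => (χ.1 : K → ℂ) (i c)) ξ.1) ≠ 0 := fun χ => by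
    have := h.red_rows' (M := M) χ.1.2.isCharacter χ.1.2.isCharacter χ.2 χ.2
    rw [χ.1.2.classInner_self, red_one] at this
    obtain ⟨ξ, k1, k2⟩ := Finset.exists_ne_zero_of_sum_ne_zero (this ▸ one_ne_zero)
    exact ⟨⟨ξ, mem_invIrr.1 k1⟩, left_ne_zero_of_mul k2⟩
  choose f hf using e1
  have e2 : ∀ χ ξ, ξ ∈ invIrr A C → ξ ≠ (f χ).1 →
      red M (classInner (fun c => (χ.1 : K → ℂ) (i c)) ξ) = 0 := fun χ ξ k1 k2 => by
    by_contra k
    exact k2 (Subtype.ext (h.uniq hc χ.1.2 χ.2 ξ.2 (f χ).1.2 (mem_invIrr.1 k1) (f χ).2 k (hf χ)))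
  have e3 : ∀ χ ψ : {χ : IrrCharacter K // AInv A (χ : K → ℂ)}, red M (classInner (χ.1 : K → ℂ) ψ.1) =
      red M (classInner (fun c => (χ.1 : K → ℂ) (i c)) (f χ).1) *
        red M (classInner (fun c => (ψ.1 : K → ℂ) (i c)) (f χ).1) :=
    fun χ ψ => by
      rw [h.red_rows' χ.1.2.isCharacter ψ.1.2.isCharacter χ.2 ψ.2, Finset.sum_eq_single (f χ).1
        (fun ξ k1 k2 => by rw [e2 χ ξ k1 k2, zero_mul]) fun k => absurd (mem_invIrr.2 (f χ).2) k]
  have e4 : ∀ χ (m : ℕ), classInner (fun c => (χ.1 : K → ℂ) (i c)) (f χ).1 = m →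
      (m : ZMod p) = 1 ∨ (m : ZMod p) = -1 := fun χ m hm => by
    have := e3 χ χ
    rw [χ.1.2.classInner_self, red_one, hm, red_natCast] at this
    exact zmod_of_sq this.symm
  refine ⟨f, ⟨fun χ ψ e => ?_, fun ξ => ?_⟩, fun χ => ⟨fun ξ => ?_, ?_⟩⟩
  · by_contra hne
    have := e3 χ ψ
    rw [χ.1.2.classInner_of_ne ψ.1.2 fun k => hne (Subtype.ext (Subtype.ext k)), red_zero] at this
    exact mul_ne_zero (hf χ) (e ▸ hf ψ) this.symm
  · have := h.red_cols (M := M) ξ.1.2.isCharacter ξ.1.2.isCharacter ξ.2 ξ.2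
    rw [ξ.1.2.classInner_self, red_one] at this
    obtain ⟨χ, k1, k2⟩ := Finset.exists_ne_zero_of_sum_ne_zero (this ▸ one_ne_zero)
    refine ⟨⟨χ, mem_invIrr.1 k1⟩, Subtype.ext (by_contra fun k => ?_)⟩
    exact left_ne_zero_of_mul k2 (e2 ⟨χ, mem_invIrr.1 k1⟩ ξ.1 (mem_invIrr.2 ξ.2) (Ne.symm k))
  · obtain ⟨m, hm⟩ := (χ.1.2.isCharacter.comp i).exists_nat_classInner ξ.1.2.isCharacter
    refine ⟨m, hm, fun e => e4 χ m (e ▸ hm), fun e => ?_⟩
    have := e2 χ ξ.1 (mem_invIrr.2 ξ.2) fun k => e (Subtype.ext k)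
    rwa [hm, red_natCast_eq_zero_iff (p := p)] at this
  · obtain ⟨m, hm⟩ := (χ.1.2.isCharacter.comp i).exists_nat_classInner (f χ).1.2.isCharacter
    have c : ∀ ξ : IrrCharacter C, classInner (fun c => (χ.1 : K → ℂ) (i c)) ξ ∈ locRing M :=
      fun ξ => classInner_mem (χ.1.2.isCharacter.comp i) ξ.2.isCharacter
    have d : ∀ ξ : IrrCharacter C, (ξ : C → ℂ) 1 ∈ locRing M := fun ξ =>
      mem_locRing_of_isIntegral M (ξ.2.isCharacter.isIntegral 1)
    have := congrArg (red M) ((χ.1.2.isCharacter.comp i).isClassFunction.apply_eq_sum_irr 1)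
    rw [red_sum _ fun ξ _ => mul_mem (c ξ) (d ξ), sum_irr_eq_sum_inv h.pgrp _ fun a ξ => by
      rw [classInner_compAut (h.aInv_comp χ.2)]; simp [irrCompAut],
      Finset.sum_eq_single (f χ).1 (fun ξ k1 k2 => by
        rw [red_mul (c ξ) (d ξ), e2 χ ξ k1 k2, zero_mul])
      (fun k => absurd (mem_invIrr.2 (f χ).2) k), hm, map_one, ← χ.1.2.cast_charDegree,
      ← (f χ).1.2.cast_charDegree, ← Nat.cast_mul, red_natCast, red_natCast,
      ← map_natCast (ZMod.castHom (dvd_refl p) (Res M)),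
      ← map_natCast (ZMod.castHom (dvd_refl p) (Res M)),
      (ZMod.castHom (dvd_refl p) (Res M)).injective.eq_iff, Nat.cast_mul] at this
    rcases e4 χ m hm with k | k
    · exact Or.inl (by rw [this, k, one_mul])
    · exact Or.inr (by rw [this, k, neg_one_mul, neg_neg])

theorem GS.exists_corr' (h : GS p A Q i) (hc : (Nat.card Q).Coprime Q.index)
    (pK : IrrCharacter K → Prop) (pC : IrrCharacter C → Prop)
    (h1 : ∀ χ : IrrCharacter K, AInv A (χ : K → ℂ) ↔ pK χ)
    (h2 : ∀ χ : IrrCharacter C, AInv A (χ : C → ℂ) ↔ pC χ) :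
    ∃ f : {χ // pK χ} → {ξ // pC ξ}, Function.Bijective f ∧ ∀ χ, (∀ ξ : {ξ // pC ξ}, ∃ m : ℕ,
        classInner (fun c => (χ.1 : K → ℂ) (i c)) ξ.1 = m ∧
        (ξ = f χ → (m : ZMod p) = 1 ∨ (m : ZMod p) = -1) ∧ (ξ ≠ f χ → p ∣ m)) ∧
      ((charDegree ((f χ).1 : C → ℂ) : ZMod p) = charDegree (χ.1 : K → ℂ) ∨
        (charDegree ((f χ).1 : C → ℂ) : ZMod p) = -charDegree (χ.1 : K → ℂ)) := by
  obtain rfl : (fun χ : IrrCharacter K => AInv A (χ : K → ℂ)) = pK := funext fun χ => propext (h1 χ)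
  obtain rfl : (fun χ : IrrCharacter C => AInv A (χ : C → ℂ)) = pC := funext fun χ => propext (h2 χ)
  exact h.exists_corr hc

/-- Conjugation action of a subgroup on a subgroup it normalises. -/
@[reducible] def normAct {G : Type*} [Group G] (P H : Subgroup G)
    (h : ∀ x ∈ P, ∀ k ∈ H, x * k * x⁻¹ ∈ H) : MulDistribMulAction P H where
  smul a t := ⟨a * t * (a : G)⁻¹, h a a.2 t t.2⟩
  one_smul t := Subtype.ext (by change (1 : G) * t * 1⁻¹ = t; simp)
  mul_smul a b t := Subtype.ext (by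
    change (a * b : G) * t * (a * b : G)⁻¹ = a * (b * t * (b : G)⁻¹) * (a : G)⁻¹; group)
  smul_mul a s t := Subtype.ext (by
    change (a : G) * (s * t) * (a : G)⁻¹ = a * s * (a : G)⁻¹ * (a * t * (a : G)⁻¹); group)
  smul_one a := Subtype.ext (by change (a : G) * 1 * (a : G)⁻¹ = 1; simp)

theorem aInv_normAct {G : Type*} [Group G] (P H : Subgroup G)
    (h : ∀ x ∈ P, ∀ k ∈ H, x * k * x⁻¹ ∈ H) (f : H → ℂ) :
    @AInv P H (normAct P H h).toSMul f ↔
      ∀ x ∈ P, ∀ k k' : H, (k' : G) = x * k * x⁻¹ → f k' = f k :=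
  ⟨fun e x hx k _ e' => (congrArg f (Subtype.ext e')).trans (e ⟨x, hx⟩ k),
    fun e a k => e a a.2 k _ rfl⟩

end Cfsg.Agent.H4
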