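import Cfsg.Agent.H4.Glaub2
import Cfsg.Agent.H1.SchurZ
import Cfsg.Agent.H3.FS

/-! Real characters and classes under coprime action of a `p`-group. -/

set_option autoImplicit false
set_option linter.unusedSectionVars false
set_option linter.style.haveILetI false

namespace Cfsg.Agent.H4

open Cfsg Cfsg.Agent.H3 Subgroup
open scoped ComplexConjugate

/-- A group as a set acted on by conjugation. -/
def ConjX (G : Type*) := G

instance instMulActionConjX {G : Type*} [Group G] : MulAction G (ConjX G) where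
  smul g := fun x : G => g * x * g⁻¹
  one_smul := fun x : G => show (1 : G) * x * 1⁻¹ = x by simp
  mul_smul a b := fun x : G => show a * b * x * (a * b)⁻¹ = a * (b * x * b⁻¹) * a⁻¹ by group

variable {G : Type*} [Group G] [Finite G] {p : ℕ} [Fact p.Prime] {P K : Subgroup G}

theorem coprime_of_pgroup (hP : IsPGroup p P) (hK : ¬ p ∣ Nat.card K) :
    (Nat.card P).Coprime (Nat.card K) := by
  obtain ⟨n, hn⟩ := hP.exists_card_eq
  rw [hn]
  exact ((Nat.Prime.coprime_iff_not_dvd Fact.out).2 hK).pow_left n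

theorem exists_fixed_conj (hP : IsPGroup p P) (hK : ¬ p ∣ Nat.card K)
    (hPK : P ≤ normalizer (K : Set G)) (k : K)
    (h : ∀ x ∈ P, ∀ k' : K, (k' : G) = x * k * x⁻¹ → IsConj k k') :
    ∃ k' : K, IsConj k k' ∧ ∀ x ∈ P, x * (k' : G) * x⁻¹ = k' := by
  haveI := hP.isNilpotent
  obtain ⟨g, hg, e⟩ := H1.glauberman_exists (X := ConjX G) (x := (k : G)) hPK
    (coprime_of_pgroup hP hK) (Or.inl inferInstance) fun a ha => by
      obtain ⟨c, hc⟩ := isConj_iff.1 (h a ha ⟨_, (mem_normalizer_iff.1 (hPK ha) k).1 k.2⟩ rfl)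
      exact ⟨c, c.2, (congrArg Subtype.val hc).symm⟩
  exact ⟨⟨g, hg⟩ * k * ⟨g, hg⟩⁻¹, isConj_iff.2 ⟨_, rfl⟩, e⟩

theorem isConj_of_isConj_inclusion (hP : IsPGroup p P) (hK : ¬ p ∣ Nat.card K)
    (hPK : P ≤ normalizer (K : Set G)) {a b : (K ⊓ centralizer (P : Set G) : Subgroup G)}
    (h : IsConj (inclusion inf_le_left a : K) (inclusion inf_le_left b)) : IsConj a b := by
  haveI := hP.isNilpotent
  obtain ⟨k, hk⟩ := isConj_iff.1 h
  have hk' : (k : G) * a * (k : G)⁻¹ = b := congrArg Subtype.val hk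
  obtain ⟨c, hc, e⟩ := H1.glauberman_conj (X := ConjX G) (x := (a : G)) hPK
    (coprime_of_pgroup hP hK) (Or.inl inferInstance) k.2
    (fun x hx => (mul_inv_eq_of_eq_mul (a.2.2 x hx) : x * a * x⁻¹ = a)) fun x hx => by
      change x * (k * a * (k : G)⁻¹ : G) * x⁻¹ = k * a * (k : G)⁻¹
      rw [hk']; exact mul_inv_eq_of_eq_mul (b.2.2 x hx)
  exact isConj_iff.2 ⟨⟨c, hc⟩, Subtype.ext (Eq.trans e hk')⟩

theorem card_real_inv (hP : IsPGroup p P) (hK : ¬ p ∣ Nat.card K)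
    (hPK : P ≤ normalizer (K : Set G)) :
    Nat.card {θ : IrrCharacter K // (∀ k : K, ((θ : K → ℂ) k).im = 0) ∧
      ∀ x ∈ P, ∀ k k' : K, (k' : G) = x * (k : G) * x⁻¹ → (θ : K → ℂ) k' = (θ : K → ℂ) k} =
    Nat.card {c : ConjClasses K // (∀ k : K, ConjClasses.mk k = c → IsConj k k⁻¹) ∧
      ∀ k : K, ConjClasses.mk k = c → ∀ x ∈ P, ∀ k' : K, (k' : G) = x * (k : G) * x⁻¹ →
        ConjClasses.mk k' = c} := by
  set C := K ⊓ centralizer (P : Set G)
  haveI := Fintype.ofFinite K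
  haveI := Fintype.ofFinite C
  have h1 : ∀ x ∈ P, ∀ k ∈ K, x * k * x⁻¹ ∈ K := fun x hx k hk =>
    (mem_normalizer_iff.1 (hPK hx) k).1 hk
  have h0 : ∀ x ∈ P, ∀ k ∈ C, x * k * x⁻¹ = k := fun x hx k hk => mul_inv_eq_of_eq_mul (hk.2 x hx)
  have h2 : ∀ x ∈ P, ∀ k ∈ C, x * k * x⁻¹ ∈ C := fun x hx k hk => (h0 x hx k hk).symm ▸ hk
  letI := normAct P K h1
  letI := normAct P C h2
  let i : C →* K := inclusion inf_le_left
  have g : GS p P (⊥ : Subgroup K) i :=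
    { pgrp := hP
      normal := inferInstance
      inv := fun x q hq => by rw [mem_bot.1 hq, smul_one]; exact one_mem _
      idx := by rwa [index_bot]
      inj := inclusion_injective _
      smul := fun _ _ => rfl
      range := fun k => ⟨by
        rintro ⟨c, rfl⟩ x
        exact mem_bot.2 (mul_inv_eq_one.2 (Subtype.ext (h0 x x.2 c c.2))), fun e =>
        ⟨⟨k, k.2, fun x hx => mul_inv_eq_iff_eq_mul.1
          (congrArg Subtype.val (mul_inv_eq_one.1 (mem_bot.1 (e ⟨x, hx⟩))))⟩, rfl⟩⟩ }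
  obtain ⟨f, hf, hf'⟩ := g.exists_corr' (by simp) _ (fun _ => True)
    (fun χ => aInv_normAct P K h1 _) fun χ => iff_true_intro fun a c =>
      congrArg _ (Subtype.ext (h0 a a.2 c c.2))
  have key : ∀ χ, (∀ k : K, ((χ.1 : K → ℂ) k).im = 0) ↔ ∀ c : C, (((f χ).1 : C → ℂ) c).im = 0 := by
    intro χ
    have e : f ⟨⟨_, χ.1.2.conj⟩, fun x hx k k' e => congrArg conj (χ.2 x hx k k' e)⟩ =
        ⟨⟨_, (f χ).1.2.conj⟩, trivial⟩ := by
      obtain ⟨m, m1, m2, -⟩ := (hf' χ).1 (f χ)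
      obtain ⟨n, n1, -, n2⟩ := (hf' ⟨⟨_, χ.1.2.conj⟩,
        fun x hx k k' e => congrArg conj (χ.2 x hx k k' e)⟩).1 ⟨⟨_, (f χ).1.2.conj⟩, trivial⟩
      have : (n : ℂ) = m := by
        rw [← n1, ← map_natCast (starRingEnd ℂ) m, ← m1]
        simp [classInner]
      rw [Nat.cast_inj] at this
      by_contra k
      have := (ZMod.natCast_eq_zero_iff _ _).2 (this ▸ n2 (Ne.symm k))
      rcases m2 rfl with k | k <;> simp [this] at k
    simp only [← Complex.conj_eq_iff_im]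
    exact ⟨fun k => congrFun (congrArg (·.1.1) (e.symm.trans
        (congrArg f (Subtype.ext (Subtype.ext (funext k)))))),
      fun k => congrFun (congrArg (·.1.1) (hf.1 (e.trans (Subtype.ext (Subtype.ext (funext k))))))⟩
  refine (Nat.card_eq_of_bijective (fun θ => (⟨(f ⟨θ.1, θ.2.2⟩).1, (key _).1 θ.2.1⟩ :
    {ξ : IrrCharacter C // ∀ c, ((ξ : C → ℂ) c).im = 0})) ⟨fun a b e => ?_, fun ξ => ?_⟩).trans
    (card_real_irr_eq_card_real_classes.trans (Nat.card_eq_of_bijective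
      (fun c => ⟨ConjClasses.map i c.1, ?_, ?_⟩) ⟨fun a b e => ?_, fun c => ?_⟩))
  · exact Subtype.ext (congrArg (·.1) (hf.1 (a₁ := ⟨a.1, a.2.2⟩) (a₂ := ⟨b.1, b.2.2⟩)
      (Subtype.ext (Subtype.ext_iff.1 e :))))
  · obtain ⟨χ, e⟩ := hf.2 ⟨ξ.1, trivial⟩
    exact ⟨⟨χ.1, (key χ).2 (e ▸ ξ.2), χ.2⟩, Subtype.ext (Subtype.ext_iff.1 e :)⟩
  · obtain ⟨c, hc⟩ := c
    obtain ⟨c, rfl⟩ := ConjClasses.mk_surjective c
    intro k hk
    have e : IsConj k (i c) := ConjClasses.mk_eq_mk_iff_isConj.1 hk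
    exact e.trans ((map_inv i c ▸ i.map_isConj (hc c rfl)).trans (by
      obtain ⟨u, hu⟩ := isConj_iff.1 e.symm
      exact isConj_iff.2 ⟨u, by rw [← hu]; group⟩))
  · obtain ⟨c, hc⟩ := c
    obtain ⟨c, rfl⟩ := ConjClasses.mk_surjective c
    intro k hk x hx k' hk'
    obtain ⟨u, hu⟩ := isConj_iff.1 (ConjClasses.mk_eq_mk_iff_isConj.1 hk)
    have hu' : (u : G) * k * (u : G)⁻¹ = c := congrArg Subtype.val hu
    refine ConjClasses.mk_eq_mk_iff_isConj.2 (isConj_iff.2 ⟨⟨_, h1 x hx u u.2⟩, Subtype.ext ?_⟩)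
    change x * u * x⁻¹ * k' * (x * u * x⁻¹)⁻¹ = c
    rw [hk', ← h0 x hx c c.2, ← hu']
    group
  · obtain ⟨a, ha⟩ := a
    obtain ⟨b, hb⟩ := b
    obtain ⟨a, rfl⟩ := ConjClasses.mk_surjective a
    obtain ⟨b, rfl⟩ := ConjClasses.mk_surjective b
    exact Subtype.ext (ConjClasses.mk_eq_mk_iff_isConj.2 (isConj_of_isConj_inclusion hP hK hPK
      (ConjClasses.mk_eq_mk_iff_isConj.1 (congrArg Subtype.val e))))
  · obtain ⟨c, hc⟩ := c
    obtain ⟨k, rfl⟩ := ConjClasses.mk_surjective c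
    obtain ⟨k', e1, e2⟩ := exists_fixed_conj hP hK hPK k fun x hx k' e =>
      (ConjClasses.mk_eq_mk_iff_isConj.1 (hc.2 k rfl x hx k' e)).symm
    let d : C := ⟨k', k'.2, fun x hx => mul_inv_eq_iff_eq_mul.1 (e2 x hx)⟩
    refine ⟨⟨ConjClasses.mk d, fun c hc' => isConj_of_isConj_inclusion hP hK hPK ?_⟩,
      Subtype.ext (ConjClasses.mk_eq_mk_iff_isConj.2 e1.symm)⟩
    rw [map_inv]
    exact hc.1 _ (ConjClasses.mk_eq_mk_iff_isConj.2
      ((i.map_isConj (ConjClasses.mk_eq_mk_iff_isConj.1 hc')).trans e1.symm))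

end Cfsg.Agent.H4
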