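import Mathlib
import Cfsg.Agent.H4.P4Fus
import Cfsg.Prelude.Def_Spor_J2

/-! Quaternion matrices for the Hall-Janko group; a simplicity criterion through a central
quotient. -/

set_option autoImplicit false
set_option maxHeartbeats 400000
set_option linter.unusedSectionVars false
set_option linter.style.haveILetI false
set_option linter.unusedSimpArgs false
set_option linter.unnecessarySeqFocus false

namespace Cfsg.Agent.H4

open Subgroup Cfsg.Agent.L

theorem isSimple_of_central_le {G G' : Type*} [Group G] [Group G'] [Finite G] {p : ℕ}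
    [Fact p.Prime] (π : G →* G') (hπ : Function.Surjective π) {S R : Subgroup G}
    (hS : IsSylowIn p S ⊤) (hk : π.ker ≤ S) (hne : ¬ S ≤ π.ker)
    (hsc : ∀ T ≤ S, π.ker ≤ T → (∀ x ∈ T, ∀ g : G, g * x * g⁻¹ ∈ S → g * x * g⁻¹ ∈ T) →
      T ≤ π.ker ∨ S ≤ T)
    (hR : R ≤ S) (hc : ∀ x, (∀ r ∈ R, x * r * x⁻¹ * r⁻¹ ∈ π.ker) → x ∈ R)
    (hN : normalizer (S : Set G) ≤
      closure {g : G | g ∈ normalizer (R : Set G) ∧ ∃ k : ℕ, g ^ p ^ k = 1})
    (P : Sylow p G') : (groupFusionSystem (P : Subgroup G')).IsSimple p := by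
  haveI : Finite G' := Finite.of_surjective π hπ
  have hS' : IsSylowIn p (S.map π) ⊤ := by
    have := hS.map π
    rwa [Subgroup.map_top_of_surjective π hπ] at this
  have hmem : ∀ x, π x ∈ S.map π → x ∈ S := fun x hx => by
    have : x ∈ (S.map π).comap π := hx
    rwa [comap_map_eq, sup_eq_left.2 hk] at this
  refine isSimple_group_of_sylow hS' (isSylowIn_top P) (isSimple_group hS' ?_ ?_ fun E hE => ?_)
  · exact fun h => hne ((Subgroup.map_eq_bot_iff _).1 h)
  · intro T hT h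
    have e : (T.comap π).map π = T := map_comap_eq_self_of_surjective hπ T
    rcases hsc (T.comap π) (fun x hx => hmem x (hT hx)) (fun x hx => by
        change π x ∈ T
        rw [(MonoidHom.mem_ker).1 hx]; exact one_mem _) (fun x hx g hg => by
      have := h (π x) hx (π g) ⟨_, hg, by simp⟩
      simpa using this) with h1 | h1
    · left; rw [← e]; exact (Subgroup.map_eq_bot_iff _).2 h1
    · right; exact le_antisymm hT (map_le_iff_le_comap.2 h1)
  · intro g hg
    obtain ⟨g, rfl⟩ := hπ g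
    have h1 : g ∈ normalizer (S : Set G) := H6.mem_normalizer_of_forall fun s hs =>
      hmem _ (by simpa using H6.conj_mem_of_mem_normalizer hg (mem_map_of_mem π hs))
    refine mem_autInN_top hS' hE.1 (R := R.map π) (H5.Cl.isCentric_of_pElt hS'.isPGroup
      (map_mono hR) fun x hx _ => ?_) hg ?_
    · obtain ⟨x, rfl⟩ := hπ x
      refine mem_map_of_mem π (hc x fun r hr => ?_)
      have := hx _ (mem_map_of_mem π hr)
      simp only [MonoidHom.mem_ker, map_mul, map_inv]
      rw [← this]; group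
    · have h2 := mem_map_of_mem π (hN h1)
      rw [MonoidHom.map_closure] at h2
      refine closure_mono ?_ h2
      rintro _ ⟨y, ⟨hy, k, hk⟩, rfl⟩
      refine ⟨H6.mem_normalizer_of_forall ?_, k, by rw [← map_pow, hk, map_one]⟩
      rintro _ ⟨r, hr, rfl⟩
      exact ⟨_, H6.conj_mem_of_mem_normalizer hy hr, by simp⟩

namespace J2

open Quaternion

/-- A quaternion from its coordinates. -/
def mkq (a b c d : ℝ) : ℍ[ℝ] := ⟨a, b, c, d⟩

@[simp] theorem mkq_re (a b c d : ℝ) : (mkq a b c d).re = a := rfl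
@[simp] theorem mkq_imI (a b c d : ℝ) : (mkq a b c d).imI = b := rfl
@[simp] theorem mkq_imJ (a b c d : ℝ) : (mkq a b c d).imJ = c := rfl
@[simp] theorem mkq_imK (a b c d : ℝ) : (mkq a b c d).imK = d := rfl

/-- The unit `i`. -/
def qi : ℍ[ℝ] := mkq 0 1 0 0
/-- The unit `j`. -/
def qj : ℍ[ℝ] := mkq 0 0 1 0
/-- The unit `k`. -/
def qk : ℍ[ℝ] := mkq 0 0 0 1
/-- A unit of order six. -/
noncomputable def qw : ℍ[ℝ] := mkq (1 / 2) (-1 / 2) (-1 / 2) (-1 / 2)

theorem ii : qi * qi = -1 := by ext <;> simp [qi]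
theorem jj : qj * qj = -1 := by ext <;> simp [qj]
theorem kk : qk * qk = -1 := by ext <;> simp [qk]
theorem ij : qi * qj = qk := by ext <;> simp [qi, qj, qk]
theorem ji : qj * qi = -qk := by ext <;> simp [qi, qj, qk]
theorem jk : qj * qk = qi := by ext <;> simp [qi, qj, qk]
theorem kj : qk * qj = -qi := by ext <;> simp [qi, qj, qk]
theorem ki : qk * qi = qj := by ext <;> simp [qi, qj, qk]
theorem ik : qi * qk = -qj := by ext <;> simp [qi, qj, qk]
theorem star_i : star qi = -qi := by ext <;> simp [qi]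
theorem star_j : star qj = -qj := by ext <;> simp [qj]
theorem star_k : star qk = -qk := by ext <;> simp [qk]

/-- Membership in the quaternion group of order eight. -/
def Q8 (q : ℍ[ℝ]) : Prop := q * star q = 1 ∧ (q * qi = qi * q ∨ q * qi = -(qi * q)) ∧
  (q * qj = qj * q ∨ q * qj = -(qj * q))

theorem star_mul_of {q : ℍ[ℝ]} (h : q * star q = 1) : star q * q = 1 := by
  rw [star_mul_self, ← self_mul_star, h]

theorem ne_zero_of {q : ℍ[ℝ]} (h : q * star q = 1) : q ≠ 0 := by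
  rintro rfl
  simp at h

theorem unit_mul {a b : ℍ[ℝ]} (ha : a * star a = 1) (hb : b * star b = 1) :
    a * b * star (a * b) = 1 := by
  rw [star_mul, mul_assoc, ← mul_assoc b, hb, one_mul, ha]

theorem sgn_mul {a b u : ℍ[ℝ]} (ha : a * u = u * a ∨ a * u = -(u * a))
    (hb : b * u = u * b ∨ b * u = -(u * b)) :
    a * b * u = u * (a * b) ∨ a * b * u = -(u * (a * b)) := by
  rcases ha with ha | ha <;> rcases hb with hb | hb
  · left; rw [mul_assoc, hb, ← mul_assoc, ha, mul_assoc]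
  · right; rw [mul_assoc, hb, mul_neg, ← mul_assoc, ha, mul_assoc]
  · right; rw [mul_assoc, hb, ← mul_assoc, ha, neg_mul, mul_assoc]
  · left; rw [mul_assoc, hb, mul_neg, ← mul_assoc, ha, neg_mul, neg_neg, mul_assoc]

theorem Q8.mul {a b : ℍ[ℝ]} (ha : Q8 a) (hb : Q8 b) : Q8 (a * b) :=
  ⟨unit_mul ha.1 hb.1, sgn_mul ha.2.1 hb.2.1, sgn_mul ha.2.2 hb.2.2⟩

theorem Q8.one : Q8 1 := ⟨by simp, by simp, by simp⟩

theorem Q8.neg {a : ℍ[ℝ]} (ha : Q8 a) : Q8 (-a) :=
  ⟨by simpa using ha.1, by simpa [neg_eq_iff_eq_neg] using ha.2.1,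
    by simpa [neg_eq_iff_eq_neg] using ha.2.2⟩

theorem Q8.i : Q8 qi := ⟨by simp [star_i, ii], Or.inl rfl, Or.inr (by simp [ij, ji])⟩
theorem Q8.j : Q8 qj := ⟨by simp [star_j, jj], Or.inr (by simp [ij, ji]), Or.inl rfl⟩
theorem Q8.k : Q8 qk := ⟨by simp [star_k, kk], Or.inr (by simp [ki, ik]), Or.inr (by simp [kj, jk])⟩

theorem norm_coords {q : ℍ[ℝ]} (h : q * star q = 1) :
    q.re ^ 2 + q.imI ^ 2 + q.imJ ^ 2 + q.imK ^ 2 = 1 := by
  have := congrArg QuaternionAlgebra.re h
  simp at this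
  linear_combination this

theorem comm_i {q : ℍ[ℝ]} (h : q * qi = qi * q) : q.imJ = 0 ∧ q.imK = 0 := by
  have h1 := congrArg QuaternionAlgebra.imJ h
  have h2 := congrArg QuaternionAlgebra.imK h
  simp [qi] at h1 h2
  constructor <;> linarith

theorem acomm_i {q : ℍ[ℝ]} (h : q * qi = -(qi * q)) : q.re = 0 ∧ q.imI = 0 := by
  have h1 := congrArg QuaternionAlgebra.re h
  have h2 := congrArg QuaternionAlgebra.imI h
  simp [qi] at h1 h2
  constructor <;> linarith

theorem comm_j {q : ℍ[ℝ]} (h : q * qj = qj * q) : q.imI = 0 ∧ q.imK = 0 := by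
  have h1 := congrArg QuaternionAlgebra.imI h
  have h2 := congrArg QuaternionAlgebra.imK h
  simp [qj] at h1 h2
  constructor <;> linarith

theorem acomm_j {q : ℍ[ℝ]} (h : q * qj = -(qj * q)) : q.re = 0 ∧ q.imJ = 0 := by
  have h1 := congrArg QuaternionAlgebra.re h
  have h2 := congrArg QuaternionAlgebra.imJ h
  simp [qj] at h1 h2
  constructor <;> linarith

theorem pm_of_comm {q : ℍ[ℝ]} (h : q * star q = 1) (hi : q * qi = qi * q) (hj : q * qj = qj * q) :
    q = 1 ∨ q = -1 := by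
  have h0 := norm_coords h
  obtain ⟨h1, h2⟩ := comm_i hi
  obtain ⟨h3, -⟩ := comm_j hj
  rcases mul_self_eq_one_iff.1 (show q.re * q.re = 1 by rw [h1, h2, h3] at h0; linarith) with e | e
  · left; ext <;> simp [*]
  · right; ext <;> simp [*]

theorem Q8.cases {q : ℍ[ℝ]} (h : Q8 q) :
    q = 1 ∨ q = -1 ∨ q = qi ∨ q = -qi ∨ q = qj ∨ q = -qj ∨ q = qk ∨ q = -qk := by
  have h0 := norm_coords h.1
  obtain ⟨hu, hi | hi, hj | hj⟩ := h
  · rcases pm_of_comm hu hi hj with e | e <;> simp [e]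
  · obtain ⟨h1, h2⟩ := comm_i hi
    obtain ⟨h3, -⟩ := acomm_j hj
    rcases mul_self_eq_one_iff.1 (show q.imI * q.imI = 1 by rw [h1, h2, h3] at h0; linarith) with
      e | e
    · exact .inr <| .inr <| .inl (by ext <;> simp [*, qi])
    · exact .inr <| .inr <| .inr <| .inl (by ext <;> simp [*, qi])
  · obtain ⟨h1, h2⟩ := acomm_i hi
    obtain ⟨-, h3⟩ := comm_j hj
    rcases mul_self_eq_one_iff.1 (show q.imJ * q.imJ = 1 by rw [h1, h2, h3] at h0; linarith) with
      e | e
    · exact .inr <| .inr <| .inr <| .inr <| .inl (by ext <;> simp [*, qj])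
    · exact .inr <| .inr <| .inr <| .inr <| .inr <| .inl (by ext <;> simp [*, qj])
  · obtain ⟨h1, h2⟩ := acomm_i hi
    obtain ⟨-, h3⟩ := acomm_j hj
    rcases mul_self_eq_one_iff.1 (show q.imK * q.imK = 1 by rw [h1, h2, h3] at h0; linarith) with
      e | e
    · exact .inr <| .inr <| .inr <| .inr <| .inr <| .inr <| .inl (by ext <;> simp [*, qk])
    · exact .inr <| .inr <| .inr <| .inr <| .inr <| .inr <| .inr (by ext <;> simp [*, qk])

theorem Q8.star {q : ℍ[ℝ]} (h : Q8 q) : Q8 (star q) := by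
  rcases h.cases with rfl | rfl | rfl | rfl | rfl | rfl | rfl | rfl <;>
    simp only [star_neg, star_one, star_i, star_j, star_k, neg_neg]
  exacts [Q8.one, Q8.one.neg, Q8.i.neg, Q8.i, Q8.j.neg, Q8.j, Q8.k.neg, Q8.k]

theorem Q8.pow_four {q : ℍ[ℝ]} (h : Q8 q) : q * q * (q * q) = 1 := by
  rcases h.cases with rfl | rfl | rfl | rfl | rfl | rfl | rfl | rfl <;> simp [ii, jj, kk]

theorem Q8.pm {q : ℍ[ℝ]} (h : Q8 q) (h2 : q * q = 1) : q = 1 ∨ q = -1 := by
  have : (-1 : ℍ[ℝ]) ≠ 1 := fun e => by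
    have := congrArg QuaternionAlgebra.re e
    norm_num at this
  rcases h.cases with rfl | rfl | rfl | rfl | rfl | rfl | rfl | rfl <;> simp_all [ii, jj, kk]

theorem one_ne_neg : (1 : ℍ[ℝ]) ≠ -1 := fun e => by
  have := congrArg QuaternionAlgebra.re e
  norm_num at this

theorem w_unit : qw * star qw = 1 := by ext <;> simp [qw] <;> norm_num
theorem wi : qw * qi * star qw = qk := by ext <;> simp [qw, qi, qk] <;> norm_num
theorem wj : qw * qj * star qw = qi := by ext <;> simp [qw, qi, qj] <;> norm_num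
theorem wk : qw * qk * star qw = qj := by ext <;> simp [qw, qj, qk] <;> norm_num
theorem www : qw * qw * qw = -1 := by ext <;> simp [qw] <;> norm_num

theorem Q8.conj_w {q : ℍ[ℝ]} (h : Q8 q) : Q8 (qw * q * Star.star qw) := by
  rcases h.cases with rfl | rfl | rfl | rfl | rfl | rfl | rfl | rfl <;>
    simp only [mul_neg, neg_mul, mul_one, w_unit, wi, wj, wk]
  exacts [Q8.one, Q8.one.neg, Q8.k, Q8.k.neg, Q8.i, Q8.i.neg, Q8.j, Q8.j.neg]

/-- A unit conjugating `i` to `± i` and `j` into the quaternion group lies in it, unless it has a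
coordinate `1 / √2`. -/
theorem q8_of_conj {a : ℍ[ℝ]} (ha : a * star a = 1) (h1 : 2 * a.re ^ 2 ≠ 1)
    (h2 : 2 * a.imJ ^ 2 ≠ 1) (hi : a * qi * star a = qi ∨ a * qi * star a = -qi)
    (hj : Q8 (a * qj * star a)) : Q8 a := by
  have ha' := star_mul_of ha
  have e : ∀ u v : ℍ[ℝ], a * u * star a = v → a * u = v * a := fun u v h => by
    rw [← h, mul_assoc, ha', mul_one]
  have hi' : a * qi = qi * a ∨ a * qi = -(qi * a) := hi.imp (e _ _) fun h => by
    rw [e _ _ h, neg_mul]
  refine ⟨ha, hi', ?_⟩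
  have h0 := norm_coords ha
  have hc : (a.imJ = 0 ∧ a.imK = 0) ∨ (a.re = 0 ∧ a.imI = 0) := hi'.imp comm_i acomm_i
  have key : ∀ v, a * qj * star a = v → (a * qj).re = (v * a).re ∧ (a * qj).imI = (v * a).imI ∧
      (a * qj).imJ = (v * a).imJ ∧ (a * qj).imK = (v * a).imK := fun v h => by
    rw [e _ _ h]; simp
  rcases hj.cases with h | h | h | h | h | h | h | h
  · obtain ⟨k1, k2, k3, k4⟩ := key _ h
    simp [qj] at k1 k2 k3 k4
    exfalso; rcases hc with hc | hc <;> nlinarith [hc.1, hc.2]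
  · obtain ⟨k1, k2, k3, k4⟩ := key _ h
    simp [qj] at k1 k2 k3 k4
    exfalso; rcases hc with hc | hc <;> nlinarith [hc.1, hc.2]
  · obtain ⟨k1, k2, k3, k4⟩ := key _ h
    simp [qj, qi] at k1 k2 k3 k4
    exfalso; rcases hc with hc | hc <;> nlinarith [hc.1, hc.2]
  · obtain ⟨k1, k2, k3, k4⟩ := key _ h
    simp [qj, qi] at k1 k2 k3 k4
    exfalso; rcases hc with hc | hc <;> nlinarith [hc.1, hc.2]
  · exact Or.inl (e _ _ h)
  · exact Or.inr (by rw [e _ _ h, neg_mul])
  · obtain ⟨k1, k2, k3, k4⟩ := key _ h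
    simp [qj, qk] at k1 k2 k3 k4
    exfalso
    rcases hc with hc | hc
    · exact h1 (by rw [hc.1, hc.2, ← k3] at h0; linarith)
    · exact h2 (by rw [hc.1, hc.2, ← k1] at h0; linarith)
  · obtain ⟨k1, k2, k3, k4⟩ := key _ h
    simp [qj, qk] at k1 k2 k3 k4
    exfalso
    rcases hc with hc | hc
    · exact h1 (by rw [hc.1, hc.2, k4] at h0; linarith)
    · exact h2 (by rw [hc.1, hc.2, ← k1] at h0; linarith)

/-- Three by three quaternion matrices. -/
abbrev M3 := Matrix (Fin 3) (Fin 3) ℍ[ℝ]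

/-- Block matrices. -/
noncomputable def bl (a p q r s : ℍ[ℝ]) : M3 := !![a, 0, 0; 0, p, q; 0, r, s]

/-- The transposition of the first two coordinates. -/
noncomputable def p12 : M3 := !![0, 1, 0; 1, 0, 0; 0, 0, 1]

theorem bl_mul (a p q r s a' p' q' r' s' : ℍ[ℝ]) : bl a p q r s * bl a' p' q' r' s' =
    bl (a * a') (p * p' + q * r') (p * q' + q * s') (r * p' + s * r') (r * q' + s * s') := by
  refine Matrix.ext fun i j => ?_
  fin_cases i <;> fin_cases j <;> simp [bl, Matrix.mul_apply, Fin.sum_univ_three]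

theorem bl_one : bl 1 1 0 0 1 = 1 := by
  refine Matrix.ext fun i j => ?_
  fin_cases i <;> fin_cases j <;> simp [bl]

theorem bl_neg (a p q r s : ℍ[ℝ]) : -bl a p q r s = bl (-a) (-p) (-q) (-r) (-s) := by
  refine Matrix.ext fun i j => ?_
  fin_cases i <;> fin_cases j <;> simp [bl]

theorem bl_star (a p q r s : ℍ[ℝ]) :
    star (bl a p q r s) = bl (star a) (star p) (star r) (star q) (star s) := by
  refine Matrix.ext fun i j => ?_
  fin_cases i <;> fin_cases j <;> simp [bl, Matrix.star_apply]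

theorem bl_inj {a p q r s a' p' q' r' s' : ℍ[ℝ]} : bl a p q r s = bl a' p' q' r' s' ↔
    a = a' ∧ p = p' ∧ q = q' ∧ r = r' ∧ s = s' := by
  refine ⟨fun h => ⟨congrFun (congrFun h 0) 0, congrFun (congrFun h 1) 1,
    congrFun (congrFun h 1) 2, congrFun (congrFun h 2) 1, congrFun (congrFun h 2) 2⟩, ?_⟩
  rintro ⟨rfl, rfl, rfl, rfl, rfl⟩
  rfl

theorem p12_mul (a b c : ℍ[ℝ]) : p12 * bl a b 0 0 c = bl b a 0 0 c * p12 := by
  refine Matrix.ext fun i j => ?_
  fin_cases i <;> fin_cases j <;> simp [bl, p12, Matrix.mul_apply, Fin.sum_univ_three]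

theorem eq_zero_of_eq_neg {x : ℍ[ℝ]} (h : x = -x) : x = 0 := by
  have : (2 : ℝ) • x = 0 := by rw [two_smul]; nth_rw 1 [h]; simp
  simpa using this

theorem eq_bl_of_comm {M : M3} (h : M * bl (-1) 1 0 0 1 = bl (-1) 1 0 0 1 * M) :
    ∃ a p q r s, M = bl a p q r s := by
  refine ⟨M 0 0, M 1 1, M 1 2, M 2 1, M 2 2, Matrix.ext fun i j => ?_⟩
  have := congrFun (congrFun h i) j
  fin_cases i <;> fin_cases j <;>
    simp [bl, Matrix.mul_apply, Fin.sum_univ_three] at this ⊢ <;>
    first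
      | exact eq_zero_of_eq_neg this
      | exact eq_zero_of_eq_neg this.symm

theorem not_anticomm {M : M3} (hu : M * star M = 1)
    (h : M * bl (-1) 1 0 0 1 = -(bl (-1) 1 0 0 1 * M)) : False := by
  have k : ∀ i j, (M * bl (-1) 1 0 0 1) i j = (-(bl (-1) 1 0 0 1 * M)) i j := fun i j => by rw [h]
  have h11 := k 1 1
  have h12 := k 1 2
  have h21 := k 2 1
  have h22 := k 2 2
  have u11 := congrFun (congrFun hu 1) 1
  have u22 := congrFun (congrFun hu 2) 2
  have u12 := congrFun (congrFun hu 1) 2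
  simp [bl, Matrix.mul_apply, Fin.sum_univ_three, Matrix.vecMul, dotProduct] at h11 h12 h21 h22
  simp [Matrix.mul_apply, Fin.sum_univ_three, Matrix.star_apply, eq_zero_of_eq_neg h11,
    eq_zero_of_eq_neg h12, eq_zero_of_eq_neg h21, eq_zero_of_eq_neg h22] at u11 u22 u12
  rcases u12 with e | e
  · exact ne_zero_of u11 e
  · exact ne_zero_of u22 e

end J2

end Cfsg.Agent.H4
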