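import Mathlib
import Cfsg.Agent.H4.J2Q

/-! The `2`-fusion system of a group shaped like the double cover of `J₂`. -/

set_option autoImplicit false
set_option maxHeartbeats 400000
set_option linter.unusedSectionVars false
set_option linter.style.haveILetI false
set_option linter.unusedSimpArgs false
set_option linter.unnecessarySeqFocus false

namespace Cfsg.Agent.H4.J2

open Subgroup Cfsg.Agent.L Quaternion

/-- A non-monomial element. -/
noncomputable def Ui : M3 := bl (mkq 0 (1 / 2) ((1 - √5) / 4) ((1 + √5) / 4))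
  (mkq (1 / 2) (-1 / 2) 0 0) (mkq (-1 / 2) (-1 / 2) 0 0) (mkq (-1 / 2) (-1 / 2) 0 0)
  (mkq (1 / 2) (-1 / 2) 0 0)

/-- Another non-monomial element. -/
noncomputable def Uj : M3 := bl (mkq 0 ((1 + √5) / 4) (1 / 2) ((1 - √5) / 4))
  (mkq (1 / 2) 0 (-1 / 2) 0) (mkq (-1 / 2) 0 (-1 / 2) 0) (mkq (-1 / 2) 0 (-1 / 2) 0)
  (mkq (1 / 2) 0 (-1 / 2) 0)

theorem s5 : √5 * √5 = (5 : ℝ) := Real.mul_self_sqrt (by norm_num)

theorem Ui_z2 : Ui * bl 1 (-1) 0 0 1 = bl 1 0 (-qi) qi 0 * Ui := by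
  simp only [Ui, bl_mul, bl_inj]
  refine ⟨?_, ?_, ?_, ?_, ?_⟩ <;> ext <;> simp [qi] <;> norm_num
theorem Ui_s : Ui * bl 1 0 1 1 0 = bl 1 0 1 1 0 * Ui := by
  simp [Ui, bl_mul]
theorem Ui_i : Ui * bl 1 qi 0 0 (-qi) = bl 1 0 (-1) 1 0 * Ui := by
  simp only [Ui, bl_mul, bl_inj]
  refine ⟨?_, ?_, ?_, ?_, ?_⟩ <;> ext <;> simp [qi] <;> norm_num
theorem Ui_j : Ui * bl 1 qj 0 0 (-qj) = bl 1 (-qk) 0 0 qk * Ui := by
  simp only [Ui, bl_mul, bl_inj]
  refine ⟨?_, ?_, ?_, ?_, ?_⟩ <;> ext <;> simp [qj, qk] <;> norm_num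
theorem Ui_sq : Ui * Ui = bl (-1) 0 (-1) (-1) 0 := by
  have := s5
  simp only [Ui, bl_mul, bl_inj]
  refine ⟨?_, ?_, ?_, ?_, ?_⟩ <;> ext <;> simp <;> grind
theorem Uj_z2 : Uj * bl 1 (-1) 0 0 1 = bl 1 0 (-qj) qj 0 * Uj := by
  simp only [Uj, bl_mul, bl_inj]
  refine ⟨?_, ?_, ?_, ?_, ?_⟩ <;> ext <;> simp [qj] <;> norm_num
theorem Uj_s : Uj * bl 1 0 1 1 0 = bl 1 0 1 1 0 * Uj := by
  simp [Uj, bl_mul]
theorem Uj_i : Uj * bl 1 qi 0 0 (-qi) = bl 1 qk 0 0 (-qk) * Uj := by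
  simp only [Uj, bl_mul, bl_inj]
  refine ⟨?_, ?_, ?_, ?_, ?_⟩ <;> ext <;> simp [qi, qk] <;> norm_num
theorem Uj_j : Uj * bl 1 qj 0 0 (-qj) = bl 1 0 (-1) 1 0 * Uj := by
  simp only [Uj, bl_mul, bl_inj]
  refine ⟨?_, ?_, ?_, ?_, ?_⟩ <;> ext <;> simp [qj] <;> norm_num
theorem Uj_sq : Uj * Uj = bl (-1) 0 (-1) (-1) 0 := by
  have := s5
  simp only [Uj, bl_mul, bl_inj]
  refine ⟨?_, ?_, ?_, ?_, ?_⟩ <;> ext <;> simp <;> grind
theorem U_word : Uj * bl qk 1 0 0 (star qk) * Ui * bl qj 1 0 0 (star qj) = bl qw qw 0 0 qw := by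
  have := s5
  simp only [Ui, Uj, bl_mul, bl_inj]
  refine ⟨?_, ?_, ?_, ?_, ?_⟩ <;> ext <;> simp [qj, qk, qw] <;> grind

/-- Monomial matrices fixing the first coordinate, with entries in the quaternion group. -/
def Mon (M : M3) : Prop :=
  ∃ a b c, Q8 a ∧ Q8 b ∧ Q8 c ∧ (M = bl a b 0 0 c ∨ M = bl a 0 b c 0)

theorem Mon.dg {a b c : ℍ[ℝ]} (ha : Q8 a) (hb : Q8 b) (hc : Q8 c) : Mon (bl a b 0 0 c) :=
  ⟨a, b, c, ha, hb, hc, Or.inl rfl⟩

theorem Mon.sw {a b c : ℍ[ℝ]} (ha : Q8 a) (hb : Q8 b) (hc : Q8 c) : Mon (bl a 0 b c 0) :=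
  ⟨a, b, c, ha, hb, hc, Or.inr rfl⟩

theorem Mon.mul {M N : M3} (hM : Mon M) (hN : Mon N) : Mon (M * N) := by
  obtain ⟨a, b, c, ha, hb, hc, rfl | rfl⟩ := hM <;>
    obtain ⟨a', b', c', ha', hb', hc', rfl | rfl⟩ := hN <;>
    simp only [bl_mul, mul_zero, zero_mul, add_zero, zero_add]
  exacts [.dg (ha.mul ha') (hb.mul hb') (hc.mul hc'), .sw (ha.mul ha') (hb.mul hb') (hc.mul hc'),
    .sw (ha.mul ha') (hb.mul hc') (hc.mul hb'), .dg (ha.mul ha') (hb.mul hc') (hc.mul hb')]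

theorem Mon.star {M : M3} (hM : Mon M) : Mon (star M) := by
  obtain ⟨a, b, c, ha, hb, hc, rfl | rfl⟩ := hM <;> simp only [bl_star, star_zero]
  exacts [.dg ha.star hb.star hc.star, .sw ha.star hc.star hb.star]

theorem Mon.pow_eight {M : M3} (hM : Mon M) : M ^ 2 ^ 3 = 1 := by
  have key : ∀ a b c, Q8 a → Q8 b → Q8 c → M * M = bl a b 0 0 c → M ^ 2 ^ 3 = 1 := by
    intro a b c ha hb hc h
    have : M ^ 2 ^ 3 = (M * M) * (M * M) * ((M * M) * (M * M)) := by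
      norm_num [pow_succ, mul_assoc]
    rw [this, h]
    simp only [bl_mul, mul_zero, zero_mul, add_zero, zero_add, ha.pow_four, hb.pow_four,
      hc.pow_four, bl_one]
  obtain ⟨a, b, c, ha, hb, hc, rfl | rfl⟩ := hM
  · exact key _ _ _ (ha.mul ha) (hb.mul hb) (hc.mul hc) (by simp [bl_mul])
  · exact key _ _ _ (ha.mul ha) (hb.mul hc) (hc.mul hb) (by simp [bl_mul])

theorem Mon.of_dg {a b c : ℍ[ℝ]} (h : Mon (bl a b 0 0 c)) : Q8 a ∧ Q8 b ∧ Q8 c := by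
  obtain ⟨a', b', c', ha, hb, hc, e | e⟩ := h <;> rw [bl_inj] at e
  · exact ⟨e.1 ▸ ha, e.2.1 ▸ hb, e.2.2.2.2 ▸ hc⟩
  · exact absurd e.2.2.1.symm (ne_zero_of hb.1)

variable {H : Type*} [Group H]

/-- The data about `2.J₂` that determine the `2`-fusion. -/
structure JH (ρ : H →* M3) : Prop where
  inj : Function.Injective ρ
  uni : ∀ g, ρ g * star (ρ g) = 1
  e1 : ∀ g a, ρ g = bl a 1 0 0 1 → a = 1 ∨ a = -1
  e2 : ∀ g a b c, ρ g = bl a b 0 0 c → 2 * a.re ^ 2 ≠ 1 ∧ 2 * a.imJ ^ 2 ≠ 1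
  ez : ∃ g, ρ g = bl (-1) 1 0 0 1
  ep : ∃ g, ρ g = p12
  es : ∃ g, ρ g = bl 1 0 1 1 0
  ei : ∃ g, ρ g = Ui
  ej : ∃ g, ρ g = Uj

variable {ρ : H →* M3}

/-- The matrix `M` comes from the subgroup `T`. -/
def In (ρ : H →* M3) (T : Subgroup H) (M : M3) : Prop := ∃ g ∈ T, ρ g = M

theorem In.mul {T : Subgroup H} {M N : M3} (hM : In ρ T M) (hN : In ρ T N) : In ρ T (M * N) := by
  obtain ⟨g, hg, rfl⟩ := hM
  obtain ⟨g', hg', rfl⟩ := hN
  exact ⟨_, mul_mem hg hg', map_mul _ _ _⟩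

theorem In.of_eq {T : Subgroup H} {M N : M3} (hM : In ρ T M) (e : M = N) : In ρ T N := e ▸ hM

/-- The subgroup contains the generators of the extraspecial group. -/
structure Gens (ρ : H →* M3) (T : Subgroup H) : Prop where
  z : In ρ T (bl (-1) 1 0 0 1)
  z2 : In ρ T (bl 1 (-1) 0 0 1)
  s : In ρ T (bl 1 0 1 1 0)
  i : In ρ T (bl 1 qi 0 0 (-qi))
  j : In ρ T (bl 1 qj 0 0 (-qj))

theorem Gens.z3 {T : Subgroup H} (h : Gens ρ T) : In ρ T (bl 1 1 0 0 (-1)) :=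
  ((h.s.mul h.z2).mul h.s).of_eq (by simp [bl_mul])

theorem Gens.z23 {T : Subgroup H} (h : Gens ρ T) : In ρ T (bl 1 (-1) 0 0 (-1)) :=
  (h.z2.mul h.z3).of_eq (by simp [bl_mul])

theorem Gens.neg {T : Subgroup H} (h : Gens ρ T) : In ρ T (bl (-1) (-1) 0 0 (-1)) :=
  (h.z.mul h.z23).of_eq (by simp [bl_mul])

theorem Gens.e {T : Subgroup H} (h : Gens ρ T) {b : ℍ[ℝ]} (hb : Q8 b) :
    In ρ T (bl 1 b 0 0 (star b)) := by
  have hk : In ρ T (bl 1 qk 0 0 (-qk)) := ((h.i.mul h.j).mul h.z3).of_eq (by simp [bl_mul, ij])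
  rcases hb.cases with rfl | rfl | rfl | rfl | rfl | rfl | rfl | rfl <;>
    simp only [star_neg, star_one, star_i, star_j, star_k, neg_neg]
  · exact ⟨1, one_mem _, by rw [map_one, bl_one]⟩
  · exact h.z23
  · exact h.i
  · exact (h.i.mul h.z23).of_eq (by simp [bl_mul])
  · exact h.j
  · exact (h.j.mul h.z23).of_eq (by simp [bl_mul])
  · exact hk
  · exact (hk.mul h.z23).of_eq (by simp [bl_mul])

namespace JH

theorem eq_iff (h : JH ρ) {g g' : H} : g = g' ↔ ρ g = ρ g' := h.inj.eq_iff.symm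

theorem inv_eq (h : JH ρ) (g : H) : ρ g⁻¹ = star (ρ g) := by
  calc ρ g⁻¹ = ρ g⁻¹ * (ρ g * star (ρ g)) := by rw [h.uni, mul_one]
    _ = _ := by rw [← mul_assoc, ← map_mul, inv_mul_cancel, map_one, one_mul]

theorem mem_of_in (h : JH ρ) {T : Subgroup H} {g : H} (hg : In ρ T (ρ g)) : g ∈ T := by
  obtain ⟨g', hg', e⟩ := hg
  exact h.inj e ▸ hg'

theorem conj_eq (_h : JH ρ) {g x : H} {M : M3} (e : ρ g * ρ x = M * ρ g) :
    ρ (g * x * g⁻¹) = M := by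
  rw [map_mul, map_mul, e, mul_assoc, ← map_mul, mul_inv_cancel, map_one, mul_one]

theorem unit₁ (h : JH ρ) {g : H} {a p q r s : ℍ[ℝ]} (e : ρ g = bl a p q r s) :
    a * star a = 1 := by
  have := h.uni g
  rw [e, bl_star, bl_mul, ← bl_one, bl_inj] at this
  exact this.1

theorem unit₂ (h : JH ρ) {g : H} {a b c : ℍ[ℝ]} (e : ρ g = bl a b 0 0 c) :
    b * star b = 1 ∧ c * star c = 1 := by
  have := h.uni g
  rw [e, bl_star, bl_mul, ← bl_one, bl_inj] at this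
  exact ⟨by simpa using this.2.1, by simpa using this.2.2.2.2⟩

theorem conj_dg (h : JH ρ) {g x : H} {a b c a' b' c' : ℍ[ℝ]} (hg : ρ g = bl a b 0 0 c)
    (hx : ρ x = bl a' b' 0 0 c') :
    ρ (g * x * g⁻¹) = bl (a * a' * star a) (b * b' * star b) 0 0 (c * c' * star c) := by
  rw [map_mul, map_mul, h.inv_eq, hg, hx, bl_star]
  simp [bl_mul]

theorem swap12 (h : JH ρ) {a b c : ℍ[ℝ]} (hM : In ρ ⊤ (bl a b 0 0 c)) :
    In ρ ⊤ (bl b a 0 0 c) := by
  obtain ⟨p, hp⟩ := h.ep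
  obtain ⟨g, -, hg⟩ := hM
  exact ⟨p * g * p⁻¹, trivial, h.conj_eq (by rw [hp, hg, p12_mul])⟩

theorem swap23 (h : JH ρ) {a b c : ℍ[ℝ]} (hM : In ρ ⊤ (bl a b 0 0 c)) :
    In ρ ⊤ (bl a c 0 0 b) := by
  obtain ⟨p, hp⟩ := h.es
  obtain ⟨g, -, hg⟩ := hM
  exact ⟨p * g * p⁻¹, trivial, h.conj_eq (by rw [hp, hg]; simp [bl_mul])⟩

theorem e1' (h : JH ρ) {w : ℍ[ℝ]} (hM : In ρ ⊤ (bl 1 1 0 0 w)) : w = 1 ∨ w = -1 := by
  obtain ⟨g, -, hg⟩ := h.swap12 (h.swap23 hM)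
  exact h.e1 g w hg

theorem gens_top (h : JH ρ) : Gens ρ ⊤ := by
  obtain ⟨z, hz⟩ := h.ez
  obtain ⟨s, hs⟩ := h.es
  obtain ⟨u, hu⟩ := h.ei
  obtain ⟨v, hv⟩ := h.ej
  have h1 : In ρ ⊤ (bl (-1) 1 0 0 1) := ⟨z, trivial, hz⟩
  have h2 : In ρ ⊤ (bl 1 0 1 1 0) := ⟨s, trivial, hs⟩
  obtain ⟨y, -, hy⟩ := h.swap12 h1
  have h3 : In ρ ⊤ (bl 1 0 (-qi) qi 0) := ⟨u * y * u⁻¹, trivial, h.conj_eq (by rw [hu, hy, Ui_z2])⟩
  have h4 : In ρ ⊤ (bl 1 0 (-qj) qj 0) := ⟨v * y * v⁻¹, trivial, h.conj_eq (by rw [hv, hy, Uj_z2])⟩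
  exact ⟨h1, h.swap12 h1, h2, (h2.mul h3).of_eq (by simp [bl_mul]),
    (h2.mul h4).of_eq (by simp [bl_mul])⟩

theorem ex_f (h : JH ρ) {b : ℍ[ℝ]} (hb : Q8 b) : ∃ g, ρ g = bl b 1 0 0 (star b) := by
  obtain ⟨g, -, hg⟩ := h.swap12 (h.gens_top.e hb)
  exact ⟨g, hg⟩

/-- The Sylow `2`-subgroup. -/
def S (h : JH ρ) : Subgroup H where
  carrier := {g | Mon (ρ g)}
  one_mem' := by
    change Mon (ρ 1)
    rw [map_one, ← bl_one]
    exact .dg .one .one .one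
  mul_mem' := fun {a b} ha hb => by
    change Mon (ρ (a * b))
    rw [map_mul]
    exact Mon.mul ha hb
  inv_mem' := fun {a} ha => by
    change Mon (ρ a⁻¹)
    rw [h.inv_eq]
    exact Mon.star ha

theorem mem_S (h : JH ρ) {g : H} : g ∈ h.S ↔ Mon (ρ g) := Iff.rfl

theorem mem_S_of (h : JH ρ) {g : H} {M : M3} (e : ρ g = M) (hM : Mon M) : g ∈ h.S :=
  h.mem_S.2 (e ▸ hM)

theorem isPGroup_S (h : JH ρ) : IsPGroup 2 h.S := fun g =>
  ⟨3, Subtype.ext (h.inj (by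
    rw [SubgroupClass.coe_pow, map_pow, Mon.pow_eight g.2, OneMemClass.coe_one, map_one]))⟩

theorem mem_of_gens (h : JH ρ) {T : Subgroup H} (hT : Gens ρ T) {g : H} (hg : g ∈ h.S)
    (h1 : ρ g 0 0 = 1) : g ∈ T := by
  have key : ∀ b c, Q8 b → In ρ ⊤ (bl 1 b 0 0 c) → In ρ T (bl 1 b 0 0 c) := by
    intro b c hb hM
    have h2 := h.e1' (w := b * c) (((h.gens_top.e hb.star).mul hM).of_eq (by
      simp [bl_mul, star_mul_of hb.1]))
    have h3 : c = star b * (b * c) := by rw [← mul_assoc, star_mul_of hb.1, one_mul]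
    rcases h2 with e | e
    · exact (hT.e hb).of_eq (by rw [h3, e, mul_one])
    · exact ((hT.e hb).mul hT.z3).of_eq (by rw [h3, e]; simp [bl_mul])
  refine h.mem_of_in ?_
  obtain ⟨a, b, c, ha, hb, hc, e | e⟩ := hg
  · obtain rfl : a = 1 := by rw [e] at h1; exact h1
    exact e ▸ key b c hb ⟨g, trivial, e⟩
  · obtain rfl : a = 1 := by rw [e] at h1; exact h1
    have := key b c hb ((In.mul (T := ⊤) ⟨g, trivial, e⟩ h.gens_top.s).of_eq (by simp [bl_mul]))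
    exact (this.mul hT.s).of_eq (by rw [e]; simp [bl_mul])

/-- The extraspecial subgroup, together with the centre. -/
def R (_h : JH ρ) : Subgroup H := closure {g | ρ g = bl (-1) 1 0 0 1 ∨ ρ g = bl 1 (-1) 0 0 1 ∨
  ρ g = bl 1 0 1 1 0 ∨ ρ g = bl 1 qi 0 0 (-qi) ∨ ρ g = bl 1 qj 0 0 (-qj)}

theorem gens_R (h : JH ρ) : Gens ρ h.R := by
  obtain ⟨⟨a, -, ha⟩, ⟨b, -, hb⟩, ⟨c, -, hc⟩, ⟨d, -, hd⟩, ⟨e, -, he⟩⟩ := h.gens_top
  exact ⟨⟨a, subset_closure (by simp [ha]), ha⟩, ⟨b, subset_closure (by simp [hb]), hb⟩,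
    ⟨c, subset_closure (by simp [hc]), hc⟩, ⟨d, subset_closure (by simp [hd]), hd⟩,
    ⟨e, subset_closure (by simp [he]), he⟩⟩

theorem R_le (h : JH ρ) : h.R ≤ h.S := by
  refine (closure_le _).2 ?_
  rintro g (e | e | e | e | e) <;> refine h.mem_S_of e ?_
  exacts [.dg Q8.one.neg .one .one, .dg .one Q8.one.neg .one, .sw .one .one .one,
    .dg .one .i Q8.i.neg, .dg .one .j Q8.j.neg]

theorem gens_S (h : JH ρ) : Gens ρ h.S := by
  obtain ⟨⟨a, ha', ha⟩, ⟨b, hb', hb⟩, ⟨c, hc', hc⟩, ⟨d, hd', hd⟩, ⟨e, he', he⟩⟩ := h.gens_R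
  exact ⟨⟨a, h.R_le ha', ha⟩, ⟨b, h.R_le hb', hb⟩, ⟨c, h.R_le hc', hc⟩, ⟨d, h.R_le hd', hd⟩,
    ⟨e, h.R_le he', he⟩⟩

theorem mem_normalizer_R [Finite H] (h : JH ρ) {x : H} {a p q r s : ℍ[ℝ]}
    (hx : ρ x = bl a p q r s)
    (hc : ∀ g, (ρ g = bl 1 (-1) 0 0 1 ∨ ρ g = bl 1 0 1 1 0 ∨ ρ g = bl 1 qi 0 0 (-qi) ∨
      ρ g = bl 1 qj 0 0 (-qj)) → x * g * x⁻¹ ∈ h.S) : x ∈ normalizer (h.R : Set H) := by
  have : h.R ≤ h.R.comap (MulAut.conj x).toMonoidHom := by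
    refine (closure_le _).2 ?_
    rintro g (e | e)
    · change x * g * x⁻¹ ∈ h.R
      exact subset_closure (Or.inl (h.conj_eq (by rw [hx, e]; simp [bl_mul])))
    · change x * g * x⁻¹ ∈ h.R
      refine h.mem_of_gens h.gens_R (hc g e) ?_
      rw [map_mul, map_mul, h.inv_eq, hx, bl_star]
      rcases e with e | e | e | e <;> rw [e, bl_mul, bl_mul, mul_one] <;> exact h.unit₁ hx
  exact H6.mem_normalizer_of_forall fun x hx => this hx

theorem cent (h : JH ρ) {T : Subgroup H} (hT : Gens ρ T) {x : H}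
    (hx : ∀ r ∈ T, ρ x * ρ r = ρ r * ρ x ∨ ρ x * ρ r = -(ρ r * ρ x)) :
    ∃ ε δ : ℍ[ℝ], (ε = 1 ∨ ε = -1) ∧ (δ = 1 ∨ δ = -1) ∧ ρ x = bl ε δ 0 0 δ := by
  have hx' : ∀ M, In ρ T M → ρ x * M = M * ρ x ∨ ρ x * M = -(M * ρ x) := by
    rintro _ ⟨r, hr, rfl⟩
    exact hx r hr
  obtain ⟨a, p, q, r, s, e⟩ := eq_bl_of_comm ((hx' _ hT.z).resolve_right (not_anticomm (h.uni x)))
  have ha := h.unit₁ e
  have key : ∀ p' q' r' s', In ρ T (bl 1 p' q' r' s') →
      bl a p q r s * bl 1 p' q' r' s' = bl 1 p' q' r' s' * bl a p q r s := by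
    intro p' q' r' s' hM
    rw [← e]
    refine (hx' _ hM).resolve_right fun e' => ne_zero_of ha (eq_zero_of_eq_neg ?_)
    rw [e, bl_mul, bl_mul, bl_neg, bl_inj] at e'
    simpa using e'.1
  have h1 := key _ _ _ _ hT.z2
  have h2 := key _ _ _ _ hT.s
  have h3 := key _ _ _ _ hT.i
  have h4 := key _ _ _ _ hT.j
  simp only [bl_mul, bl_inj, mul_zero, zero_mul, add_zero, zero_add, mul_one, one_mul, mul_neg,
    neg_mul] at h1 h2 h3 h4
  obtain rfl : q = 0 := eq_zero_of_eq_neg h1.2.2.1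
  obtain rfl : r = 0 := eq_zero_of_eq_neg h1.2.2.2.1.symm
  obtain rfl : p = s := h2.2.2.1
  have hp := pm_of_comm (h.unit₂ e).1 h3.2.1 h4.2.1
  refine ⟨a, p, ?_, hp, e⟩
  rcases hp with rfl | rfl
  · exact h.e1 x a e
  · obtain ⟨y, -, hy⟩ := h.gens_top.z23
    exact h.e1 (x * y) a (by rw [map_mul, e, hy]; simp [bl_mul])

theorem mem_center_iff (h : JH ρ) {x : H} : x ∈ center H ↔ ρ x = 1 ∨ ρ x = -1 := by
  rw [Subgroup.mem_center_iff]
  constructor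
  · intro hx
    obtain ⟨ε, δ, -, hδ, e⟩ := h.cent h.gens_top (x := x) fun r _ => Or.inl (by
      rw [← map_mul, ← map_mul, hx])
    obtain ⟨p, hp⟩ := h.ep
    have h1 := h.conj_eq (g := p) (x := x) (M := bl δ ε 0 0 δ) (by rw [hp, e, p12_mul])
    rw [hx, mul_inv_cancel_right, e, bl_inj] at h1
    rw [e, h1.1, ← bl_one, bl_neg]
    rcases hδ with rfl | rfl <;> simp
  · rintro (e | e) g <;> rw [h.eq_iff, map_mul, map_mul, e] <;> simp

theorem sgn_of_comm (h : JH ρ) {x r : H} (e : x * r * x⁻¹ * r⁻¹ ∈ center H) :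
    ρ x * ρ r = ρ r * ρ x ∨ ρ x * ρ r = -(ρ r * ρ x) := by
  have : ρ x * ρ r = ρ (x * r * x⁻¹ * r⁻¹) * (ρ r * ρ x) := by
    rw [← map_mul, ← map_mul, ← map_mul]; congr 1; group
  rcases h.mem_center_iff.1 e with e | e <;> rw [this, e] <;> simp

theorem center_le (h : JH ρ) {T : Subgroup H} (hT : Gens ρ T) : center H ≤ T := by
  intro x hx
  refine h.mem_of_in ?_
  rcases h.mem_center_iff.1 hx with e | e
  · exact ⟨1, one_mem _, by rw [e, map_one]⟩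
  · exact hT.neg.of_eq (by rw [e, ← bl_one, bl_neg, neg_zero])

/-- An element normalising `S` is diagonal up to the transposition. -/
theorem dg_of_normalizer (h : JH ρ) {g : H} (hg : g ∈ normalizer (h.S : Set H)) :
    ∃ s ∈ h.S, ∃ a b c, ρ (s * g) = bl a b 0 0 c := by
  obtain ⟨z, hzS, hz⟩ := h.gens_S.z
  obtain ⟨y, hyS, hy⟩ := h.gens_S.z2
  obtain ⟨w, hwS, hw⟩ := h.gens_S.z23
  obtain ⟨s, hsS, hs⟩ := h.gens_S.s
  have hzc : ∀ r ∈ h.S, r * z * r⁻¹ = z := by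
    rintro r ⟨a, b, c, -, -, -, e | e⟩ <;>
      exact h.inj ((h.conj_eq (by rw [e, hz]; simp [bl_mul])).trans hz.symm)
  obtain ⟨ε, δ, hε, hδ, e⟩ := h.cent h.gens_S (x := g * z * g⁻¹) fun r hr => Or.inl (by
    rw [← map_mul, ← map_mul]
    congr 1
    calc g * z * g⁻¹ * r = g * (g⁻¹ * r * g * z * (g⁻¹ * r * g)⁻¹) * g⁻¹ * r := by
          rw [hzc _ (H6.conj_mem_of_mem_normalizer' hg hr)]
      _ = _ := by group)
  have e' : ρ g * ρ z = bl ε δ 0 0 δ * ρ g := by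
    rw [← e, ← map_mul, ← map_mul, inv_mul_cancel_right]
  have hnc : ε ≠ δ := by
    rintro rfl
    have h1 : g * z * g⁻¹ ∈ center H := by
      rw [h.mem_center_iff, e, ← bl_one, bl_neg]
      rcases hδ with rfl | rfl <;> simp
    have h2 : z = g * z * g⁻¹ := by
      calc z = g⁻¹ * (g * z * g⁻¹) * g := by group
        _ = _ := by rw [Subgroup.mem_center_iff.1 h1 g⁻¹]; group
    rw [← h2, hz, bl_inj] at e
    exact one_ne_neg (e.2.1.trans e.1.symm)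
  have hgz : ρ g * ρ z = ρ z * ρ g := by
    rcases hε with rfl | rfl <;> rcases hδ with rfl | rfl
    · exact absurd rfl hnc
    · refine (not_anticomm (h.uni g) ?_).elim
      rw [← hz, e', hz, ← neg_mul, bl_neg, neg_neg, neg_zero]
    · rw [e', hz]
    · exact absurd rfl hnc
  obtain ⟨a, p, q, r, t, hgb⟩ := eq_bl_of_comm (M := ρ g) (by rw [← hz, hgz])
  have ha := h.unit₁ hgb
  have hgw : g * w * g⁻¹ = w :=
    h.inj ((h.conj_eq (by rw [hgb, hw]; simp [bl_mul])).trans hw.symm)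
  have fin : ∀ s' ∈ h.S, (∃ a p q r t, ρ (s' * g) = bl a p q r t) →
      ρ (s' * g * y * (s' * g)⁻¹) = bl 1 (-1) 0 0 1 →
      ∃ s ∈ h.S, ∃ a b c, ρ (s * g) = bl a b 0 0 c := by
    rintro s' hs' ⟨a, p, q, r, t, e1⟩ e2
    have e3 : ρ (s' * g) * ρ y = bl 1 (-1) 0 0 1 * ρ (s' * g) := by
      rw [← e2, ← map_mul, ← map_mul, inv_mul_cancel_right]
    rw [e1, hy, bl_mul, bl_mul, bl_inj] at e3
    simp only [mul_zero, zero_mul, add_zero, zero_add, mul_one, one_mul, mul_neg, neg_mul] at e3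
    obtain rfl : q = 0 := eq_zero_of_eq_neg e3.2.2.1
    obtain rfl : r = 0 := eq_zero_of_eq_neg e3.2.2.2.1.symm
    exact ⟨s', hs', a, p, t, e1⟩
  have h00 : ρ (g * y * g⁻¹) 0 0 = 1 := by
    rw [map_mul, map_mul, h.inv_eq, hgb, hy, bl_star, bl_mul, bl_mul, mul_one]
    exact ha
  have hyy : y * y = 1 := h.inj (by rw [map_mul, hy, map_one, ← bl_one]; simp [bl_mul])
  obtain ⟨a', b, c, -, hb, hc, e1 | e1⟩ := H6.conj_mem_of_mem_normalizer hg hyS
  · obtain rfl : a' = 1 := by rw [e1] at h00; exact h00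
    have h1 := congrArg ρ (H6.conj_mul_self hyy g)
    rw [map_mul, e1, map_one, ← bl_one, bl_mul, bl_inj] at h1
    rcases hb.pm (by simpa using h1.2.1) with rfl | rfl <;>
      rcases hc.pm (by simpa using h1.2.2.2.2) with rfl | rfl
    · rw [bl_one, ← map_one ρ, ← h.eq_iff] at e1
      have : y = 1 := by simpa using e1
      rw [this, map_one, ← bl_one, bl_inj] at hy
      exact absurd hy.2.1 one_ne_neg
    · refine fin s hsS ⟨a, r, t, p, q, by rw [map_mul, hs, hgb]; simp [bl_mul]⟩ ?_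
      rw [show s * g * y * (s * g)⁻¹ = s * (g * y * g⁻¹) * s⁻¹ by group]
      exact h.conj_eq (by rw [e1, hs]; simp [bl_mul])
    · exact fin 1 (one_mem _) ⟨a, p, q, r, t, by rw [one_mul, hgb]⟩ (by rw [one_mul, e1])
    · rw [← hw, ← h.eq_iff, ← hgw, mul_left_inj, mul_right_inj] at e1
      rw [e1, hw, bl_inj] at hy
      exact absurd hy.2.2.2.2.symm one_ne_neg
  · exfalso
    obtain rfl : a' = 1 := by rw [e1] at h00; exact h00
    obtain ⟨f, hf⟩ := h.ex_f Q8.i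
    have hfS : f ∈ h.S := h.mem_S_of hf (.dg .i .one Q8.i.star)
    have h1 : ∀ r ∈ h.S, y * r = r * y ∨ y * r = r * w * y := by
      rintro r ⟨a, b, c, -, -, -, e | e⟩
      · left; exact h.inj (by rw [map_mul, map_mul, e, hy]; simp [bl_mul])
      · right; exact h.inj (by rw [map_mul, map_mul, map_mul, e, hy, hw]; simp [bl_mul])
    have h2 : g * y * g⁻¹ * f = f * (g * y * g⁻¹) ∨ g * y * g⁻¹ * f = f * w * (g * y * g⁻¹) := by
      rcases h1 _ (H6.conj_mem_of_mem_normalizer' hg hfS) with e | e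
      · left
        calc g * y * g⁻¹ * f = g * (y * (g⁻¹ * f * g)) * g⁻¹ := by group
          _ = _ := by rw [e]; group
      · right
        calc g * y * g⁻¹ * f = g * (y * (g⁻¹ * f * g)) * g⁻¹ := by group
          _ = f * (g * w * g⁻¹) * (g * y * g⁻¹) := by rw [e]; group
          _ = _ := by rw [hgw]
    have hb0 := ne_zero_of hb.1
    rcases h2 with e | e <;> rw [h.eq_iff] at e <;>
      simp only [map_mul ρ (g * y * g⁻¹), map_mul ρ f, map_mul ρ (f * w), e1, hf, hw, bl_mul,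
        bl_inj, star_i, mul_zero, zero_mul, add_zero, zero_add, mul_one, one_mul, mul_neg,
        neg_mul] at e
    · have h3 : -qi = 1 := mul_left_cancel₀ hb0 (by rw [mul_neg, e.2.2.1, mul_one])
      have := congrArg QuaternionAlgebra.re h3
      simp [qi] at this
    · have h3 : qi = 1 := mul_left_cancel₀ hb0 (by rw [neg_inj.1 e.2.2.1, mul_one])
      have := congrArg QuaternionAlgebra.re h3
      simp [qi] at this

theorem mem_S_of_dg (h : JH ρ) {g : H} (hg : g ∈ normalizer (h.S : Set H)) {a b c : ℍ[ℝ]}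
    (e : ρ g = bl a b 0 0 c) (hi : a * qi * star a = qi ∨ a * qi * star a = -qi) : g ∈ h.S := by
  have hu := h.unit₂ e
  have key : ∀ u, Q8 u → In ρ ⊤ (bl (a * u * star a) 1 0 0 (c * star u * star c)) ∧
      In ρ ⊤ (bl (a * u * star a) 1 0 0 (b * star u * star b)) ∧ Q8 (a * u * star a) := by
    intro u hu'
    obtain ⟨f, hf⟩ := h.ex_f hu'
    obtain ⟨f', -, hf'⟩ := h.swap23 ⟨f, trivial, hf⟩
    have h1 := h.conj_dg e hf
    have h2 := h.conj_dg e hf'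
    rw [mul_one, hu.1] at h1
    rw [mul_one, hu.2] at h2
    have h3 := H6.conj_mem_of_mem_normalizer hg (h.mem_S_of hf (.dg hu' .one hu'.star))
    rw [mem_S, h1] at h3
    exact ⟨⟨_, trivial, h1⟩, h.swap23 ⟨_, trivial, h2⟩, h3.of_dg.1⟩
  have ha : Q8 a := q8_of_conj (h.unit₁ e) (h.e2 g a b c e).1 (h.e2 g a b c e).2 hi (key _ .j).2.2
  have key2 : ∀ d u : ℍ[ℝ], d * star d = 1 → Q8 u → star u = -u →
      (a * u = u * a ∨ a * u = -(u * a)) →
      In ρ ⊤ (bl (a * u * star a) 1 0 0 (d * star u * star d)) →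
      d * u = u * d ∨ d * u = -(u * d) := by
    intro d u hd hu' hs hau hM
    have hv : Q8 (a * u * star a) := (ha.mul hu').mul ha.star
    obtain ⟨f, hf⟩ := h.ex_f hv.star
    have h1 := h.e1' (w := d * star u * star d * (a * u * star a))
      ((hM.mul ⟨f, trivial, hf⟩).of_eq (by
        rw [bl_mul, hv.1]; simp))
    have h2 : a * u * star a = u ∨ a * u * star a = -u := by
      rcases hau with e | e
      · left; rw [e, mul_assoc, ha.1, mul_one]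
      · right; rw [e, neg_mul, mul_assoc, ha.1, mul_one]
    have h3 : d * u * star d * u = 1 ∨ d * u * star d * u = -1 := by
      rw [hs] at h1
      rcases h1 with h1 | h1 <;> rcases h2 with h2 | h2 <;> rw [h2] at h1 <;>
        simp only [mul_neg, neg_mul, neg_neg, neg_inj] at h1
      · right; rw [← h1, neg_neg]
      · left; exact h1
      · left; exact h1
      · right; exact h1
    have huu : u * u = -1 := by rw [← neg_neg (u * u), ← mul_neg, ← hs, hu'.1]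
    have h4 : d * u = -(d * u * star d * u * (u * d)) := by
      rw [mul_assoc _ u, ← mul_assoc u, huu, neg_one_mul, mul_neg, neg_neg, mul_assoc,
        star_mul_of hd, mul_one]
    rcases h3 with h3 | h3
    · right; rw [h4, h3, one_mul]
    · left; rw [h4, h3, neg_one_mul, neg_neg]
  exact h.mem_S_of e (.dg ha
    ⟨hu.1, key2 b qi hu.1 .i star_i ha.2.1 (key _ .i).2.1,
      key2 b qj hu.1 .j star_j ha.2.2 (key _ .j).2.1⟩
    ⟨hu.2, key2 c qi hu.2 .i star_i ha.2.1 (key _ .i).1,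
      key2 c qj hu.2 .j star_j ha.2.2 (key _ .j).1⟩)

theorem normalizer_cases [Finite H] (h : JH ρ) {d : H} (hd : ρ d = bl qw qw 0 0 qw) :
    d ∈ normalizer (h.S : Set H) ∧ d ^ 3 ∈ h.S ∧
      ∀ g ∈ normalizer (h.S : Set H), ∃ n : ℕ, ∃ s ∈ h.S, d ^ n * s * g ∈ h.S := by
  have hdN : d ∈ normalizer (h.S : Set H) := by
    refine H6.mem_normalizer_of_forall ?_
    rintro r ⟨a, b, c, ha, hb, hc, e | e⟩
    · exact h.mem_S_of (h.conj_dg hd e) (.dg ha.conj_w hb.conj_w hc.conj_w)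
    · refine h.mem_S_of ?_ (.sw ha.conj_w hb.conj_w hc.conj_w)
      rw [map_mul, map_mul, h.inv_eq, hd, e, bl_star]
      simp [bl_mul]
  refine ⟨hdN, h.mem_S_of (M := bl (-1) (-1) 0 0 (-1)) ?_ (.dg Q8.one.neg Q8.one.neg Q8.one.neg),
    fun g hg => ?_⟩
  · rw [pow_succ, pow_two, map_mul, map_mul, hd, ← www]
    simp [bl_mul]
  obtain ⟨s, hs, a, b, c, e⟩ := h.dg_of_normalizer hg
  have hsg : s * g ∈ normalizer (h.S : Set H) := mul_mem (le_normalizer hs) hg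
  obtain ⟨f, hf⟩ := h.ex_f Q8.i
  have h3 := H6.conj_mem_of_mem_normalizer hsg (h.mem_S_of hf (.dg .i .one Q8.i.star))
  rw [mem_S, h.conj_dg e hf] at h3
  have ha := h.unit₁ e
  have hsq : a * qi * star a * (a * qi * star a) = -1 := by
    calc a * qi * star a * (a * qi * star a) = a * (qi * (star a * a) * qi) * star a := by
          simp only [mul_assoc]
      _ = -1 := by rw [star_mul_of ha, mul_one, ii, mul_neg, mul_one, neg_mul, ha]
  have e1 : ρ (d * (s * g)) = bl (qw * a) (qw * b) 0 0 (qw * c) := by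
    rw [map_mul, hd, e]; simp [bl_mul]
  have e2 : ρ (d * (d * (s * g))) = bl (qw * (qw * a)) (qw * (qw * b)) 0 0 (qw * (qw * c)) := by
    rw [map_mul, hd, e1]; simp [bl_mul]
  have c1 : ∀ a : ℍ[ℝ], qw * a * qi * star (qw * a) = qw * (a * qi * star a) * star qw :=
    fun a => by simp only [star_mul, mul_assoc]
  have k0 : a * qi * star a = qi ∨ a * qi * star a = -qi → ∃ n : ℕ, ∃ s ∈ h.S,
      d ^ n * s * g ∈ h.S := fun k => ⟨0, s, hs, by simpa using h.mem_S_of_dg hsg e k⟩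
  have k1 : a * qi * star a = qj ∨ a * qi * star a = -qj → ∃ n : ℕ, ∃ s ∈ h.S,
      d ^ n * s * g ∈ h.S := fun k => ⟨1, s, hs, by
    rw [pow_one, mul_assoc]
    refine h.mem_S_of_dg (mul_mem hdN hsg) e1 ?_
    rw [c1]
    rcases k with k | k <;> simp [k, wj]⟩
  have k2 : a * qi * star a = qk ∨ a * qi * star a = -qk → ∃ n : ℕ, ∃ s ∈ h.S,
      d ^ n * s * g ∈ h.S := fun k => ⟨2, s, hs, by
    rw [pow_two, mul_assoc, mul_assoc]
    refine h.mem_S_of_dg (mul_mem hdN (mul_mem hdN hsg)) e2 ?_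
    rw [c1, c1]
    rcases k with k | k <;> simp [k, wj, wk]⟩
  rcases h3.of_dg.1.cases with k | k | k | k | k | k | k | k
  · rw [k, one_mul] at hsq; exact absurd hsq one_ne_neg
  · rw [k, neg_mul_neg, one_mul] at hsq; exact absurd hsq one_ne_neg
  exacts [k0 (.inl k), k0 (.inr k), k1 (.inl k), k1 (.inr k), k2 (.inl k), k2 (.inr k)]

theorem isSimple [Finite H] (h : JH ρ) {G' : Type*} [Group G'] (π : H →* G')
    (hπ : Function.Surjective π) (hk : π.ker = center H) (P : Sylow 2 G') :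
    (groupFusionSystem (P : Subgroup G')).IsSimple 2 := by
  haveI : Fact (Nat.Prime 2) := ⟨Nat.prime_two⟩
  obtain ⟨u, hu⟩ := h.ei
  obtain ⟨v, hv⟩ := h.ej
  obtain ⟨fk, hfk⟩ := h.ex_f Q8.k
  obtain ⟨fj, hfj⟩ := h.ex_f Q8.j
  have hd : ρ (v * fk * u * fj) = bl qw qw 0 0 qw := by
    rw [map_mul, map_mul, map_mul, hu, hv, hfk, hfj, U_word]
  obtain ⟨hdN, hd3, hN⟩ := h.normalizer_cases hd
  have hS : IsSylowIn 2 h.S ⊤ := by
    refine H5.Cl.isSylowIn_of_normalizer h.isPGroup_S fun g hg ⟨k, hk⟩ => ?_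
    obtain ⟨n, s, hs, e⟩ := hN g hg
    generalize v * fk * u * fj = d at hdN hd3 e
    have h1 : d ^ n * g ∈ h.S := by
      have := mul_mem (inv_mem (H6.conj_mem_of_mem_normalizer (pow_mem hdN n) hs)) e
      convert this using 1
      group
    have h2 : g ^ 3 ∈ h.S := by
      have h4 := H6.conj_mem_of_mem_normalizer' (pow_mem hdN n) h1
      have h5 : (d ^ n) ^ 3 ∈ h.S := by rw [← pow_mul, mul_comm, pow_mul]; exact pow_mem hd3 n
      have h6 := H6.conj_mem_of_mem_normalizer' (pow_mem hdN n) h4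
      generalize d ^ n = x at *
      have := mul_mem (mul_mem (mul_mem h4 h6) (inv_mem h5)) h1
      convert this using 1
      simp only [pow_succ, pow_zero]
      group
    obtain ⟨m, hm⟩ := exists_pow_eq_self_of_coprime (x := g) (n := 3)
      (Nat.Coprime.coprime_dvd_right (orderOf_dvd_of_pow_eq_one hk)
        (Nat.Coprime.pow_right k (by norm_num)))
    exact hm ▸ pow_mem h2 m
  obtain ⟨z, hzS, hz⟩ := h.gens_S.z
  refine isSimple_of_central_le π hπ hS (hk ▸ h.center_le h.gens_S) ?_ ?_ h.R_le ?_ ?_ P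
  · intro e
    have := h.mem_center_iff.1 (hk ▸ e hzS)
    rw [hz, ← bl_one, bl_neg, bl_inj, bl_inj] at this
    rcases this with e | e
    · exact one_ne_neg e.1.symm
    · exact one_ne_neg e.2.1
  · intro T hT hkT hsc
    refine or_iff_not_imp_left.2 fun hne => ?_
    rw [hk] at hkT hne
    haveI := h.isPGroup_S.isNilpotent
    have hn : ∀ x ∈ T, ∀ g ∈ h.S, g * x * g⁻¹ ∈ T := fun x hx g hg =>
      hsc x hx g (mul_mem (mul_mem hg (hT hx)) (inv_mem hg))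
    obtain ⟨x, hx, hx1, hxc⟩ := H1.exists_central_mod (L := h.S) (C := T) (N := center H)
      inferInstance hT (fun g hg => H6.mem_normalizer_of_forall fun x hx => hn x hx g hg) hne
    have hc : ∀ (g : H) {M M' : M3}, In ρ T M → ρ g * M = M' * ρ g → Mon M' → In ρ T M' := by
      rintro g _ M' ⟨r, hr, rfl⟩ e hM
      have := h.conj_eq e
      exact ⟨_, hsc r hr g (h.mem_S_of this hM), this⟩
    have hneg : In ρ T (bl (-1) (-1) 0 0 (-1)) := by
      obtain ⟨n, -, hn⟩ := h.gens_top.neg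
      exact ⟨n, hkT (h.mem_center_iff.2 (Or.inr (by rw [hn, ← bl_one, bl_neg, neg_zero]))), hn⟩
    have t1 : In ρ T (bl (-1) 1 0 0 1) := by
      obtain ⟨ε, δ, hε, hδ, e⟩ := h.cent h.gens_S fun r hr => h.sgn_of_comm (hxc r hr)
      rw [h.mem_center_iff, e, ← bl_one, bl_neg] at hx1
      rcases hε with rfl | rfl <;> rcases hδ with rfl | rfl
      · simp at hx1
      · exact (hneg.mul ⟨x, hx, e⟩).of_eq (by simp [bl_mul])
      · exact ⟨x, hx, e⟩
      · simp at hx1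
    obtain ⟨p, hp⟩ := h.ep
    have t2 : In ρ T (bl 1 (-1) 0 0 1) := hc p t1 (by rw [hp, p12_mul]) (.dg .one Q8.one.neg .one)
    have t3 : In ρ T (bl 1 0 (-qi) qi 0) := hc u t2 (by rw [hu, Ui_z2]) (.sw .one Q8.i.neg .i)
    have t4 : In ρ T (bl 1 0 (-qj) qj 0) := hc v t2 (by rw [hv, Uj_z2]) (.sw .one Q8.j.neg .j)
    obtain ⟨fi, hfi⟩ := h.ex_f Q8.i
    have t5 : In ρ T (bl 1 0 1 1 0) := hc fi t3 (by rw [hfi]; simp [bl_mul, star_i, ii])
      (.sw .one .one .one)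
    have hG : Gens ρ T := ⟨t1, t2, t5, (t5.mul t3).of_eq (by simp [bl_mul]),
      (t5.mul t4).of_eq (by simp [bl_mul])⟩
    intro s hs
    obtain ⟨a, ha, e⟩ : ∃ a, Q8 a ∧ ∃ p q r t, ρ s = bl a p q r t := by
      obtain ⟨a, b, c, ha, -, -, e | e⟩ := hs <;> exact ⟨a, ha, _, _, _, _, e⟩
    obtain ⟨f, hf, hf'⟩ := hc p (hG.e ha) (by rw [hp, p12_mul]) (.dg ha .one ha.star)
    have := h.mem_of_gens hG (mul_mem (inv_mem (hT hf)) hs) (by
      obtain ⟨p, q, r, t, e⟩ := e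
      rw [map_mul, h.inv_eq, hf', e, bl_star, bl_mul]
      exact star_mul_of ha.1)
    simpa using mul_mem hf this
  · intro x hx
    rw [hk] at hx
    obtain ⟨ε, δ, hε, hδ, e⟩ := h.cent h.gens_R fun r hr => h.sgn_of_comm (hx r hr)
    refine h.mem_of_in (e ▸ ?_)
    rcases hε with rfl | rfl <;> rcases hδ with rfl | rfl
    exacts [⟨1, one_mem _, by rw [map_one, bl_one]⟩, h.gens_R.z23, h.gens_R.z, h.gens_R.neg]
  · have hSC : h.S ≤ closure {g : H | g ∈ normalizer (h.R : Set H) ∧ ∃ k : ℕ, g ^ 2 ^ k = 1} := by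
      intro s hs
      refine subset_closure ⟨?_, pow_two_pow_of_mem h.isPGroup_S hs⟩
      obtain ⟨a, p, q, r, t, e⟩ : ∃ a p q r t, ρ s = bl a p q r t := by
        obtain ⟨a, b, c, ha, -, -, e | e⟩ := hs <;> exact ⟨a, _, _, _, _, e⟩
      exact h.mem_normalizer_R e fun g hg =>
        mul_mem (mul_mem hs (h.R_le (subset_closure (Or.inr hg)))) (inv_mem hs)
    have hsq : ∀ x, ρ x * ρ x = bl (-1) 0 (-1) (-1) 0 → ∃ k : ℕ, x ^ 2 ^ k = 1 := by
      intro x hx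
      obtain ⟨k, hk⟩ := pow_two_pow_of_mem h.isPGroup_S (h.mem_S_of (g := x * x)
        (by rw [map_mul, hx]) (.sw Q8.one.neg Q8.one.neg Q8.one.neg))
      exact ⟨k + 1, by rw [pow_succ', pow_mul, pow_two, hk]⟩
    have huC : u ∈ closure {g : H | g ∈ normalizer (h.R : Set H) ∧ ∃ k : ℕ, g ^ 2 ^ k = 1} := by
      refine subset_closure ⟨h.mem_normalizer_R hu ?_, hsq u (by rw [hu, Ui_sq])⟩
      rintro g (e | e | e | e)
      · exact h.mem_S_of (h.conj_eq (by rw [hu, e, Ui_z2])) (.sw .one Q8.i.neg .i)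
      · exact h.mem_S_of (h.conj_eq (by rw [hu, e, Ui_s])) (.sw .one .one .one)
      · exact h.mem_S_of (h.conj_eq (by rw [hu, e, Ui_i])) (.sw .one Q8.one.neg .one)
      · exact h.mem_S_of (h.conj_eq (by rw [hu, e, Ui_j])) (.dg .one Q8.k.neg .k)
    have hvC : v ∈ closure {g : H | g ∈ normalizer (h.R : Set H) ∧ ∃ k : ℕ, g ^ 2 ^ k = 1} := by
      refine subset_closure ⟨h.mem_normalizer_R hv ?_, hsq v (by rw [hv, Uj_sq])⟩
      rintro g (e | e | e | e)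
      · exact h.mem_S_of (h.conj_eq (by rw [hv, e, Uj_z2])) (.sw .one Q8.j.neg .j)
      · exact h.mem_S_of (h.conj_eq (by rw [hv, e, Uj_s])) (.sw .one .one .one)
      · exact h.mem_S_of (h.conj_eq (by rw [hv, e, Uj_i])) (.dg .one .k Q8.k.neg)
      · exact h.mem_S_of (h.conj_eq (by rw [hv, e, Uj_j])) (.sw .one Q8.one.neg .one)
    have hdC := mul_mem (mul_mem (mul_mem hvC (hSC (h.mem_S_of hfk (.dg .k .one Q8.k.star)))) huC)
      (hSC (h.mem_S_of hfj (.dg .j .one Q8.j.star)))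
    intro g hg
    obtain ⟨n, s, hs, e⟩ := hN g hg
    have := mul_mem (inv_mem (mul_mem (pow_mem hdC n) (hSC hs))) (hSC e)
    rwa [inv_mul_cancel_left] at this

end JH

end Cfsg.Agent.H4.J2
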