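import Mathlib
import Cfsg.Agent.H4.J2Fus

/-! The icosian ring and the icosian Leech lattice. -/

set_option autoImplicit false
set_option maxHeartbeats 400000
set_option linter.unusedSectionVars false
set_option linter.style.haveILetI false
set_option linter.unusedSimpArgs false
set_option linter.unnecessarySeqFocus false

namespace Cfsg.Agent.H4.J2

open Subgroup Quaternion Cfsg.Spor Matrix

theorem tau_sq : tau * tau = tau + 1 := by
  have := s5
  unfold tau
  grind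

theorem sig_eq : sig = 1 - tau := by
  unfold tau sig
  ring

theorem O_inj {m n : ℤ} (h : (m : ℝ) + n * tau = 0) : m = 0 ∧ n = 0 := by
  have hn : n = 0 := by
    by_contra hn
    have h1 : Irrational √5 := by simpa using Nat.Prime.irrational_sqrt (p := 5) (by norm_num)
    refine h1 ⟨(-(2 * m + n) : ℤ) / (n : ℤ), ?_⟩
    have : (n : ℝ) ≠ 0 := by exact_mod_cast hn
    unfold tau at h
    push_cast
    field_simp
    linarith
  rw [hn] at h
  exact ⟨by simpa using h, hn⟩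

/-- The second generator of the icosian ring. -/
noncomputable def qg : ℍ[ℝ] := mkq (1 / 2) (sig / 2) 0 (tau / 2)

/-- The icosian with given integral coordinates. -/
noncomputable def ico (a0 a1 b0 b1 c0 c1 d0 d1 : ℤ) : ℍ[ℝ] :=
  mkq ((a0 + a1 * tau) + (c0 + c1 * tau) / 2 + (d0 + d1 * tau) / 2)
    ((b0 + b1 * tau) + (c0 + c1 * tau) / 2 + (1 - tau) * (d0 + d1 * tau) / 2)
    ((c0 + c1 * tau) / 2) ((c0 + c1 * tau) / 2 + tau * (d0 + d1 * tau) / 2)

theorem icosians_eq : icosians = Subring.closure {qi, qg} := rfl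

theorem qi_mem : qi ∈ icosians := Subring.subset_closure (Or.inl rfl)

theorem qg_mem : qg ∈ icosians := Subring.subset_closure (Or.inr rfl)

theorem star_mem {x : ℍ[ℝ]} (hx : x ∈ icosians) : star x ∈ icosians := by
  rw [icosians_eq] at hx
  induction hx using Subring.closure_induction with
  | mem x hx =>
    rcases hx with rfl | rfl
    · rw [star_i]; exact neg_mem qi_mem
    · have : star qg = 1 - qg := by ext <;> simp [qg] <;> norm_num
      rw [this]
      exact sub_mem (one_mem _) qg_mem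
  | zero => simp
  | one => simp
  | add x y _ _ hx hy => rw [star_add]; exact add_mem hx hy
  | neg x _ hx => rw [star_neg]; exact neg_mem hx
  | mul x y _ _ hx hy => rw [star_mul]; exact mul_mem hy hx

theorem tau_mem : mkq tau 0 0 0 ∈ icosians := by
  have : mkq tau 0 0 0 = 1 + (qi * qg + star (qi * qg)) := by
    ext <;> simp [qi, qg, sig_eq]
    ring
  rw [this]
  exact add_mem (one_mem _) (add_mem (mul_mem qi_mem qg_mem) (star_mem (mul_mem qi_mem qg_mem)))

theorem e3_mem : mkq (1 / 2) (1 / 2) (1 / 2) (1 / 2) ∈ icosians := by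
  have h := tau_sq
  have : mkq (1 / 2) (1 / 2) (1 / 2) (1 / 2) =
      (1 - mkq tau 0 0 0) * (qi * qg - qg + 1) + 1 + qi := by
    ext <;> simp [qi, qg, sig_eq] <;> grind
  rw [this]
  exact add_mem (add_mem (mul_mem (sub_mem (one_mem _) tau_mem)
    (add_mem (sub_mem (mul_mem qi_mem qg_mem) qg_mem) (one_mem _))) (one_mem _)) qi_mem

theorem ico_mem (a0 a1 b0 b1 c0 c1 d0 d1 : ℤ) : ico a0 a1 b0 b1 c0 c1 d0 d1 ∈ icosians := by
  have k : ∀ m n : ℤ, mkq (m + n * tau) 0 0 0 ∈ icosians := fun m n => by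
    have : mkq (m + n * tau) 0 0 0 = m • (1 : ℍ[ℝ]) + n • mkq tau 0 0 0 := by
      ext <;> simp
    rw [this]
    exact add_mem (zsmul_mem (one_mem _) m) (zsmul_mem tau_mem n)
  have : ico a0 a1 b0 b1 c0 c1 d0 d1 = mkq (a0 + a1 * tau) 0 0 0 + mkq (b0 + b1 * tau) 0 0 0 * qi +
      mkq (c0 + c1 * tau) 0 0 0 * mkq (1 / 2) (1 / 2) (1 / 2) (1 / 2) +
      mkq (d0 + d1 * tau) 0 0 0 * qg := by
    ext <;> simp [ico, qi, qg, sig_eq] <;> ring
  rw [this]
  exact add_mem (add_mem (add_mem (k _ _) (mul_mem (k _ _) qi_mem)) (mul_mem (k _ _) e3_mem))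
    (mul_mem (k _ _) qg_mem)

theorem exists_ico {x : ℍ[ℝ]} (hx : x ∈ icosians) :
    ∃ a0 a1 b0 b1 c0 c1 d0 d1 : ℤ, x = ico a0 a1 b0 b1 c0 c1 d0 d1 := by
  have ht := tau_sq
  rw [icosians_eq, Subring.mem_closure_iff] at hx
  induction hx using AddSubgroup.closure_induction with
  | mem x hx =>
    induction hx using Submonoid.closure_induction_left with
    | one => exact ⟨1, 0, 0, 0, 0, 0, 0, 0, by ext <;> simp [ico]⟩
    | mul_left x hx y _ ih =>
      obtain ⟨a0, a1, b0, b1, c0, c1, d0, d1, rfl⟩ := ih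
      rcases hx with rfl | rfl
      · exact ⟨-b0 + c0 - c1 - d0 + d1, -b1 - c0 + d0, a0 + 3 * c0 - c1 + d1,
          a1 - c0 + 2 * c1 + d0 + d1, -c0 - d1, -c1 - d0 - d1, -2 * c0 + 2 * c1 + d0, 2 * c0 + d1,
          by ext <;> simp [ico, qi] <;> grind⟩
      · exact ⟨c0 - c1 - d0, -c0 - d1, b0 - b1 + 2 * c0 - 2 * c1, -b0 - 2 * c0, b1 + c1,
          b0 + b1 + c0 + c1, a0 - b0 - 2 * c0 + c1 + d0, a1 - b1 + c0 - c1 + d1,
          by ext <;> simp [ico, qg, sig_eq] <;> grind⟩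
  | zero => exact ⟨0, 0, 0, 0, 0, 0, 0, 0, by ext <;> simp [ico]⟩
  | add x y _ _ hx hy =>
    obtain ⟨a0, a1, b0, b1, c0, c1, d0, d1, rfl⟩ := hx
    obtain ⟨a0', a1', b0', b1', c0', c1', d0', d1', rfl⟩ := hy
    exact ⟨a0 + a0', a1 + a1', b0 + b0', b1 + b1', c0 + c0', c1 + c1', d0 + d0', d1 + d1',
      by ext <;> simp [ico] <;> ring⟩
  | neg x _ hx =>
    obtain ⟨a0, a1, b0, b1, c0, c1, d0, d1, rfl⟩ := hx
    exact ⟨-a0, -a1, -b0, -b1, -c0, -c1, -d0, -d1, by ext <;> simp [ico] <;> ring⟩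

theorem sq_ne_two (m n : ℤ) : ((m : ℝ) + n * tau) ^ 2 ≠ 2 := by
  intro h
  have ht := tau_sq
  obtain ⟨h1, h2⟩ := O_inj (m := m ^ 2 + n ^ 2 - 2) (n := 2 * m * n + n ^ 2) (by
    push_cast
    grind)
  have hm : m ≤ 1 ∧ -1 ≤ m := by constructor <;> nlinarith
  have hn : n ≤ 1 ∧ -1 ≤ n := by constructor <;> nlinarith
  obtain ⟨hm1, hm2⟩ := hm
  obtain ⟨hn1, hn2⟩ := hn
  interval_cases m <;> interval_cases n <;> omega

theorem coord_ne {a : ℍ[ℝ]} (ha : a ∈ icosians) : 2 * a.re ^ 2 ≠ 1 ∧ 2 * a.imJ ^ 2 ≠ 1 := by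
  obtain ⟨a0, a1, b0, b1, c0, c1, d0, d1, rfl⟩ := exists_ico ha
  constructor
  · intro h
    refine sq_ne_two (2 * a0 + c0 + d0) (2 * a1 + c1 + d1) ?_
    simp only [ico, mkq_re] at h
    push_cast
    linear_combination 2 * h
  · intro h
    refine sq_ne_two c0 c1 ?_
    simp only [ico, mkq_imJ] at h
    linear_combination 2 * h

theorem pm_of_two {t : ℍ[ℝ]} (ht : t ∈ icosians) (h : (1 + (t + t)) * star (1 + (t + t)) = 1) :
    1 + (t + t) = 1 ∨ 1 + (t + t) = -1 := by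
  obtain ⟨a0, a1, b0, b1, c0, c1, d0, d1, rfl⟩ := exists_ico ht
  have hτ := tau_sq
  have e : 1 + (ico a0 a1 b0 b1 c0 c1 d0 d1 + ico a0 a1 b0 b1 c0 c1 d0 d1) =
      mkq (((1 + 2 * a0 + c0 + d0 : ℤ) : ℝ) + (2 * a1 + c1 + d1 : ℤ) * tau)
        ((2 * b0 + c0 + d0 - d1 : ℤ) + (2 * b1 + c1 - d0 : ℤ) * tau)
        (c0 + c1 * tau) ((c0 + d1 : ℤ) + (c1 + d0 + d1 : ℤ) * tau) := by
    ext <;> simp [ico] <;> grind
  rw [e] at h ⊢
  have h0 := norm_coords h
  simp only [mkq_re, mkq_imI, mkq_imJ, mkq_imK] at h0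
  generalize hm0 : 1 + 2 * a0 + c0 + d0 = m0 at *
  generalize hn0 : 2 * a1 + c1 + d1 = n0 at *
  generalize hm1 : 2 * b0 + c0 + d0 - d1 = m1 at *
  generalize hn1 : 2 * b1 + c1 - d0 = n1 at *
  generalize hm3 : c0 + d1 = m3 at *
  generalize hn3 : c1 + d0 + d1 = n3 at *
  obtain ⟨h1, h2⟩ := O_inj
    (m := m0 ^ 2 + m1 ^ 2 + c0 ^ 2 + m3 ^ 2 + (n0 ^ 2 + n1 ^ 2 + c1 ^ 2 + n3 ^ 2) - 1)
    (n := 2 * (m0 * n0 + m1 * n1 + c0 * c1 + m3 * n3) + (n0 ^ 2 + n1 ^ 2 + c1 ^ 2 + n3 ^ 2)) (by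
    push_cast
    grind)
  have p1 : 0 ≤ m0 ^ 2 + m1 ^ 2 + c0 ^ 2 + m3 ^ 2 := by positivity
  have p2 : 0 ≤ n0 ^ 2 + n1 ^ 2 + c1 ^ 2 + n3 ^ 2 := by positivity
  have p3 : n0 ^ 2 + n1 ^ 2 + c1 ^ 2 + n3 ^ 2 = 0 := by omega
  have q0 : n0 = 0 := by nlinarith
  have q1 : n1 = 0 := by nlinarith
  have q2 : c1 = 0 := by nlinarith
  have q3 : n3 = 0 := by nlinarith
  have p4 : m0 ^ 2 + m1 ^ 2 + c0 ^ 2 + m3 ^ 2 = 1 := by omega
  have b1 : -1 ≤ m1 ∧ m1 ≤ 1 := by constructor <;> nlinarith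
  have b2 : -1 ≤ c0 ∧ c0 ≤ 1 := by constructor <;> nlinarith
  have b3 : -1 ≤ m3 ∧ m3 ≤ 1 := by constructor <;> nlinarith
  have r2 : c0 = 0 := by
    by_contra hc
    have : m1 ≠ 0 := by omega
    have := Int.one_le_abs this
    have := Int.one_le_abs hc
    nlinarith [sq_abs m1, sq_abs c0]
  have r1 : m1 = 0 := by omega
  have r3 : m3 = 0 := by omega
  rw [q0, q1, q2, q3, r1, r2, r3]
  rcases mul_self_eq_one_iff.1 (show m0 * m0 = 1 by rw [r1, r2, r3] at p4; linarith) with e | e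
  · left; ext <;> simp [e]
  · right; ext <;> simp [e]

theorem h_eq : icoH = ico 0 (-1) 0 0 1 0 0 0 := by
  change mkq _ _ _ _ = _
  ext <;> simp [ico, tau] <;> ring

theorem h_mem : icoH ∈ icosians := h_eq ▸ ico_mem _ _ _ _ _ _ _ _

theorem h_mul_star : icoH * star icoH = 2 := by
  have := tau_sq
  rw [h_eq, ← one_add_one_eq_two]
  ext <;> simp [ico] <;> grind

theorem star_mul_h : star icoH * icoH = 2 := by
  rw [star_mul_self, ← self_mul_star, h_mul_star]

theorem two_mem : (2 : ℍ[ℝ]) ∈ icosians := by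
  rw [← one_add_one_eq_two]; exact add_mem (one_mem _) (one_mem _)

theorem two_ne : (2 : ℍ[ℝ]) ≠ 0 := fun e => by
  rw [← one_add_one_eq_two] at e
  exact one_ne_neg (eq_neg_of_add_eq_zero_left e)

theorem lat_sub_mul {x r : Fin 3 → ℍ[ℝ]} (hx : x ∈ icoLeech) (hr : r ∈ icoLeech) {t : ℍ[ℝ]}
    (ht : t ∈ icosians) : (fun s => x s - t * r s) ∈ icoLeech := by
  obtain ⟨h0, ⟨a, ha, e1⟩, ⟨b, hb, e2⟩, ⟨c, hc, e3⟩⟩ := hx
  obtain ⟨h0', ⟨a', ha', e1'⟩, ⟨b', hb', e2'⟩, ⟨c', hc', e3'⟩⟩ := hr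
  refine ⟨fun s => sub_mem (h0 s) (mul_mem ht (h0' s)), ⟨a - t * a', sub_mem ha (mul_mem ht ha'), ?_⟩,
    ⟨b - t * b', sub_mem hb (mul_mem ht hb'), ?_⟩, ⟨c - t * c', sub_mem hc (mul_mem ht hc'), ?_⟩⟩
  · rw [sub_mul, mul_assoc, ← e1, ← e1']; noncomm_ring
  · rw [sub_mul, mul_assoc, ← e2, ← e2']; noncomm_ring
  · rw [sub_mul, mul_assoc, ← e3, ← e3']; noncomm_ring

theorem qip_mem {x r : Fin 3 → ℍ[ℝ]} (hx : x ∈ icoLeech) (hr : r ∈ icoLeech) :
    ∃ t ∈ icosians, qip x r = t + t := by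
  obtain ⟨h0, ⟨a, ha, e1⟩, ⟨b, hb, e2⟩, ⟨c, hc, e3⟩⟩ := hx
  obtain ⟨h0', ⟨a', ha', e1'⟩, ⟨b', hb', e2'⟩, ⟨c', hc', e3'⟩⟩ := hr
  have hq : qip x r ∈ icosians := sum_mem fun t _ => mul_mem (h0 t) (star_mem (h0' t))
  have x1 : x 1 = x 2 + b * icoH := by rw [← e2]; abel
  have x0 : x 0 = x 2 + (a + b) * icoH := by rw [add_mul, ← e1, ← e2]; abel
  have r1 : star (r 1) = star (r 2) + star icoH * star b' := by rw [← star_mul, ← e2']; simp
  have r0 : star (r 0) = star (r 2) + star icoH * star (a' + b') := by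
    rw [← star_mul, add_mul, ← e1', ← e2']; simp
  have x2 : x 2 + x 2 + x 2 = c * star icoH - (a + b + b) * icoH := by
    rw [← e3, x0, x1]; noncomm_ring
  have r2 : star (r 2) + star (r 2) + star (r 2) =
      icoH * star c' - star icoH * (star (a' + b') + star b') := by
    have := congrArg star e3'
    rw [star_add, star_add, star_mul, star_star, r0, r1] at this
    rw [← this]; noncomm_ring
  have k1 := h_mul_star
  have k2 := star_mul_h
  set A := a + b
  set A' := star (a' + b')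
  set B' := star b'
  set C' := star c'
  set y := x 2
  set w := star (r 2)
  set h := icoH
  set h' := star icoH
  have key : qip x r + qip x r + qip x r = (c * C' - (A + b) * (A' + B') + (A * A' + b * B') +
      (A * A' + b * B') + (A * A' + b * B')) * 2 := by
    have q1 : qip x r = (y + A * h) * (w + h' * A') + (y + b * h) * (w + h' * B') + y * w := by
      rw [qip, Fin.sum_univ_three, x0, x1, r0, r1]
    have q2 : qip x r + qip x r + qip x r = (y + y + y) * (w + w + w) + (A + b) * h * (w + w + w) +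
        (y + y + y) * h' * (A' + B') + (A * (h * h') * A' + b * (h * h') * B') +
        (A * (h * h') * A' + b * (h * h') * B') + (A * (h * h') * A' + b * (h * h') * B') := by
      rw [q1]; noncomm_ring
    have q3 : (c * h' - (A + b) * h) * (h * C' - h' * (A' + B')) +
        (A + b) * h * (h * C' - h' * (A' + B')) + (c * h' - (A + b) * h) * h' * (A' + B') =
        c * (h' * h) * C' - (A + b) * (h * h') * (A' + B') := by noncomm_ring
    rw [q2, x2, r2, q3, k1, k2]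
    noncomm_ring
  refine ⟨c * C' - (A + b) * (A' + B') + (A * A' + b * B') + (A * A' + b * B') +
    (A * A' + b * B') - qip x r, ?_, ?_⟩
  · have hA : A ∈ icosians := add_mem ha hb
    have hA' : A' ∈ icosians := star_mem (add_mem ha' hb')
    have hB' : B' ∈ icosians := star_mem hb'
    have hs := add_mem (mul_mem hA hA') (mul_mem hb hB')
    exact sub_mem (add_mem (add_mem (add_mem (sub_mem (mul_mem hc (star_mem hc'))
      (mul_mem (add_mem hA hb) (add_mem hA' hB'))) hs) hs) hs) hq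
  · rw [mul_two] at key
    rw [sub_add_sub_comm, ← key]; abel

theorem qrefl_mem {x r : Fin 3 → ℍ[ℝ]} (hx : x ∈ icoLeech) (hr : r ∈ icoLeech) :
    qrefl r x ∈ icoLeech := by
  obtain ⟨t, ht, e⟩ := qip_mem hx hr
  have : (1 / 2 : ℝ) • qip x r = t := by rw [e, ← two_smul ℝ, smul_smul]; simp
  unfold qrefl
  rw [this]
  exact lat_sub_mul hx hr ht

/-- The matrix of a reflection. -/
noncomputable def reflM (r : Fin 3 → ℍ[ℝ]) : M3 :=
  1 - Matrix.of fun s t => (1 / 2 : ℝ) • (star (r s) * r t)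

theorem vecMul_reflM (r x : Fin 3 → ℍ[ℝ]) : x ᵥ* reflM r = qrefl r x := by
  funext t
  rw [reflM, vecMul_sub, vecMul_one]
  simp only [Pi.sub_apply, qrefl, qip, vecMul, dotProduct,
    Matrix.of_apply, Fin.sum_univ_three, mul_smul_comm, smul_add, add_mul, smul_mul_assoc,
    mul_assoc]

theorem star_reflM (r : Fin 3 → ℍ[ℝ]) : star (reflM r) = reflM r := by
  rw [reflM, star_sub, star_one]
  congr 1
  refine Matrix.ext fun s t => ?_
  simp [Matrix.star_apply]

theorem reflM_mul_self {r : Fin 3 → ℍ[ℝ]} (hr : qip r r = 4) : reflM r * reflM r = 1 := by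
  set P : M3 := Matrix.of fun s t => (1 / 2 : ℝ) • (star (r s) * r t) with hP
  have : P * P = P + P := by
    refine Matrix.ext fun s t => ?_
    have h1 : (P * P) s t = (1 / 4 : ℝ) • (star (r s) * qip r r * r t) := by
      simp only [hP, Matrix.mul_apply, Matrix.of_apply, qip, Fin.sum_univ_three, mul_smul_comm,
        smul_mul_assoc, smul_smul, mul_add, add_mul, smul_add, mul_assoc]
      norm_num
    have h4 : (4 : ℍ[ℝ]) = (4 : ℝ) • (1 : ℍ[ℝ]) := by
      rw [show (4 : ℝ) = 1 + 1 + 1 + 1 by norm_num]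
      simp only [add_smul, one_smul]
      norm_num
    rw [h1, hr, h4, Matrix.add_apply, hP, Matrix.of_apply, ← add_smul, mul_smul_comm, mul_one,
      smul_mul_assoc, smul_smul]
    norm_num
  rw [reflM, ← hP, sub_mul, mul_sub, mul_sub, this]
  simp

theorem two_single_mem (s : Fin 3) : (Pi.single s 2 : Fin 3 → ℍ[ℝ]) ∈ icoLeech := by
  have h1 := star_mem h_mem
  refine ⟨fun t => ?_, ?_, ?_, ⟨icoH, h_mem, ?_⟩⟩
  · by_cases e : t = s
    · simp [e, two_mem]
    · simp [e]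
  · fin_cases s
    · exact ⟨_, h1, by simp [star_mul_h]⟩
    · exact ⟨_, neg_mem h1, by simp [star_mul_h]⟩
    · exact ⟨0, zero_mem _, by simp⟩
  · fin_cases s
    · exact ⟨0, zero_mem _, by simp⟩
    · exact ⟨_, h1, by simp [star_mul_h]⟩
    · exact ⟨_, neg_mem h1, by simp [star_mul_h]⟩
  · fin_cases s <;> simp [h_mul_star]

theorem eq_of_vecMul {M N : M3} (h : ∀ x ∈ icoLeech, x ᵥ* M = x ᵥ* N) : M = N := by
  refine Matrix.ext fun s t => ?_
  have := congrFun (h _ (two_single_mem s)) t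
  simp only [single_vecMul] at this
  exact mul_left_cancel₀ two_ne this

/-- The permutation `f` of the lattice is given by the unitary matrix `M`. -/
def Rep (f : Equiv.Perm icoLeech) (M : M3) : Prop :=
  M * star M = 1 ∧ star M * M = 1 ∧ ∀ x : icoLeech, (f x : Fin 3 → ℍ[ℝ]) = x.1 ᵥ* star M

theorem Rep.unique {f : Equiv.Perm icoLeech} {M N : M3} (hM : Rep f M) (hN : Rep f N) : M = N :=
  star_injective (eq_of_vecMul fun x hx => (hM.2.2 ⟨x, hx⟩).symm.trans (hN.2.2 ⟨x, hx⟩))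

theorem Rep.one : Rep 1 1 := ⟨by simp, by simp, by simp⟩

theorem Rep.mul {f g : Equiv.Perm icoLeech} {M N : M3} (hM : Rep f M) (hN : Rep g N) :
    Rep (f * g) (M * N) := by
  refine ⟨?_, ?_, fun x => ?_⟩
  · rw [star_mul, mul_assoc, ← mul_assoc N, hN.1, one_mul, hM.1]
  · rw [star_mul, mul_assoc, ← mul_assoc (star M), hM.2.1, one_mul, hN.2.1]
  · rw [Equiv.Perm.mul_apply, hM.2.2, hN.2.2, vecMul_vecMul, star_mul]

theorem Rep.inv {f : Equiv.Perm icoLeech} {M : M3} (hM : Rep f M) : Rep f⁻¹ (star M) := by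
  refine ⟨by rw [star_star, hM.2.1], by rw [star_star, hM.1], fun x => ?_⟩
  have := hM.2.2 (f⁻¹ x)
  rw [show f (f⁻¹ x) = x from f.apply_symm_apply x] at this
  rw [this, star_star, vecMul_vecMul, hM.2.1, vecMul_one]

theorem rep_of_refl {f : Equiv.Perm icoLeech} {r : Fin 3 → ℍ[ℝ]} (hr : qip r r = 4)
    (h : ∀ x : icoLeech, (f x : Fin 3 → ℍ[ℝ]) = qrefl r x) : Rep f (reflM r) :=
  ⟨by rw [star_reflM, reflM_mul_self hr], by rw [star_reflM, reflM_mul_self hr],
    fun x => by rw [h, star_reflM, vecMul_reflM]⟩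

theorem exists_rep (f : twoJ2) : ∃ M, Rep f M := by
  obtain ⟨f, hf⟩ := f
  induction hf using closure_induction with
  | mem f hf =>
    obtain ⟨r, hr, h⟩ := hf
    exact ⟨_, rep_of_refl hr h⟩
  | one => exact ⟨1, .one⟩
  | mul f g _ _ hf hg => exact ⟨_, hf.choose_spec.mul hg.choose_spec⟩
  | inv f _ hf => exact ⟨_, hf.choose_spec.inv⟩

/-- The matrix representation of the reflection group. -/
noncomputable def rho : twoJ2 →* M3 where
  toFun f := (exists_rep f).choose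
  map_one' := (exists_rep 1).choose_spec.unique .one
  map_mul' f g := (exists_rep (f * g)).choose_spec.unique
    ((exists_rep f).choose_spec.mul (exists_rep g).choose_spec)

theorem rho_rep (f : twoJ2) : Rep f (rho f) := (exists_rep f).choose_spec

theorem exists_refl {r : Fin 3 → ℍ[ℝ]} (hr : r ∈ icoLeech) (h4 : qip r r = 4) :
    ∃ g, rho g = reflM r := by
  have hinv : Function.Involutive fun x : icoLeech => (⟨qrefl r x, qrefl_mem x.2 hr⟩ : icoLeech) :=
    fun x => Subtype.ext (by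
      simp only [← vecMul_reflM, vecMul_vecMul, reflM_mul_self h4, vecMul_one])
  exact ⟨⟨hinv.toPerm, subset_closure ⟨⟨r, hr⟩, h4, fun _ => rfl⟩⟩,
    (rho_rep _).unique (rep_of_refl h4 fun _ => rfl)⟩

theorem one_sub_star_h : 1 - star icoH = ico 0 0 0 0 0 (-1) 0 0 * icoH := by
  have := tau_sq
  rw [h_eq]
  ext <;> simp [ico] <;> grind

theorem v_mem : ![1, 1, star icoH] ∈ icoLeech := by
  refine ⟨fun t => ?_, ⟨0, zero_mem _, by simp⟩, ⟨_, ico_mem _ _ _ _ _ _ _ _, one_sub_star_h⟩,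
    ⟨icoH + 1, add_mem h_mem (one_mem _), ?_⟩⟩
  · fin_cases t <;> simp [star_mem h_mem]
  · simp [add_mul, h_mul_star, one_add_one_eq_two]

theorem v'_mem : ![star icoH, 1, 1] ∈ icoLeech := by
  refine ⟨fun t => ?_, ⟨_, neg_mem (ico_mem 0 0 0 0 0 (-1) 0 0), ?_⟩, ⟨0, zero_mem _, by simp⟩,
    ⟨icoH + 1, add_mem h_mem (one_mem _), ?_⟩⟩
  · fin_cases t <;> simp [star_mem h_mem]
  · rw [neg_mul, ← one_sub_star_h]; simp
  · simp [add_mul, h_mul_star, ← one_add_one_eq_two]; abel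

theorem v''_mem {d t : ℍ[ℝ]} (ht : t ∈ icosians) (e : d * star icoH = star icoH + t * 2) :
    ![d * star icoH, 1, 1] ∈ icoLeech := by
  have := lat_sub_mul v'_mem (two_single_mem 0) (neg_mem ht)
  convert this using 1
  funext s
  fin_cases s <;> simp [e]

theorem two_eq : (2 : ℍ[ℝ]) = mkq 2 0 0 0 := by
  rw [← one_add_one_eq_two]; ext <;> simp; norm_num

theorem reflM_v {p : ℍ[ℝ]} (hp : star p * p = 2) : reflM ![p, 1, 1] =
    !![0, -((1 / 2 : ℝ) • star p), -((1 / 2 : ℝ) • star p);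
      -((1 / 2 : ℝ) • p), (1 / 2 : ℝ) • 1, -((1 / 2 : ℝ) • 1);
      -((1 / 2 : ℝ) • p), -((1 / 2 : ℝ) • 1), (1 / 2 : ℝ) • 1] := by
  refine Matrix.ext fun s t => ?_
  fin_cases s <;> fin_cases t <;> simp [reflM, hp] <;> ext <;> simp [two_eq] <;> norm_num

theorem reflM_mul {p q : ℍ[ℝ]} (hp : star p * p = 2) (hq : star q * q = 2) :
    reflM ![p, 1, 1] * reflM ![q, 1, 1] = bl ((1 / 2 : ℝ) • (star p * q))
      ((1 / 4 : ℝ) • (p * star q) + (1 / 2 : ℝ) • 1) ((1 / 4 : ℝ) • (p * star q) - (1 / 2 : ℝ) • 1)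
      ((1 / 4 : ℝ) • (p * star q) - (1 / 2 : ℝ) • 1)
      ((1 / 4 : ℝ) • (p * star q) + (1 / 2 : ℝ) • 1) := by
  rw [reflM_v hp, reflM_v hq]
  refine Matrix.ext fun s t => ?_
  fin_cases s <;> fin_cases t <;>
    simp [bl, Matrix.mul_apply, Fin.sum_univ_three, smul_smul] <;> module

theorem exists_U {d t : ℍ[ℝ]} (hd : Q8 d) (ht : t ∈ icosians)
    (e : d * star icoH = star icoH + t * 2) : ∃ g, rho g =
      bl ((1 / 2 : ℝ) • (icoH * (d * star icoH)))
      ((1 / 2 : ℝ) • star d + (1 / 2 : ℝ) • 1) ((1 / 2 : ℝ) • star d - (1 / 2 : ℝ) • 1)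
      ((1 / 2 : ℝ) • star d - (1 / 2 : ℝ) • 1) ((1 / 2 : ℝ) • star d + (1 / 2 : ℝ) • 1) := by
  have k1 := h_mul_star
  have k2 := star_mul_h
  have h4 : (4 : ℍ[ℝ]) = 2 + 1 + 1 := by norm_num
  have k3 : (1 / 4 : ℝ) • (star icoH * star (d * star icoH)) = (1 / 2 : ℝ) • star d := by
    rw [star_mul, star_star, ← mul_assoc, k2, two_mul, ← two_smul ℝ, smul_smul]; norm_num
  have k4 : d * star icoH * star (d * star icoH) = 2 := by
    rw [star_mul, star_star, mul_assoc, ← mul_assoc (star icoH), k2, two_mul, mul_add, hd.1,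
      one_add_one_eq_two]
  obtain ⟨s1, hs1⟩ := exists_refl v'_mem (by simp [qip, Fin.sum_univ_three, k2, h4])
  obtain ⟨g, hg⟩ := exists_refl (v''_mem ht e) (by
    simp only [qip, Fin.sum_univ_three, h4]; simpa using k4)
  refine ⟨s1 * g, ?_⟩
  rw [map_mul, hs1, hg, reflM_mul (by rw [star_star, k1])
    (by rw [star_mul_self, ← self_mul_star, k4]), k3, star_star]

theorem jh_rho : JH rho := by
  have hτ := tau_sq
  have h5 := s5
  have k1 := h_mul_star
  have k2 := star_mul_h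
  have h2 := two_eq
  have hh : icoH = mkq (-√5 / 2) (1 / 2) (1 / 2) (1 / 2) := rfl
  refine ⟨fun f g h => ?_, fun g => (rho_rep g).1, fun g a e => ?_, fun g a b c e => ?_, ?_, ?_,
    ?_, ?_, ?_⟩
  · refine Subtype.ext (Equiv.ext fun x => Subtype.ext ?_)
    rw [(rho_rep f).2.2, (rho_rep g).2.2, h]
  · obtain ⟨t, ht, e1⟩ := qip_mem (g.1 ⟨_, v_mem⟩).2 v_mem
    rw [(rho_rep g).2.2, e, bl_star] at e1
    simp [qip, Fin.sum_univ_three, bl, vecMul, dotProduct, k2] at e1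
    have e2 : star a = 1 + ((t - 2) + (t - 2)) := by
      rw [sub_add_sub_comm, ← e1, ← one_add_one_eq_two]; abel
    have hu := (rho_rep g).2.1
    rw [e, bl_star, bl_mul, ← bl_one, bl_inj] at hu
    rcases pm_of_two (sub_mem ht two_mem) (by rw [← e2, star_star, hu.1]) with e3 | e3 <;>
      rw [← e2] at e3
    · left; simpa using congrArg star e3
    · right; simpa using congrArg star e3
  · obtain ⟨t, ht, e1⟩ := qip_mem (g.1 ⟨_, two_single_mem 0⟩).2 v_mem
    rw [(rho_rep g).2.2, e, bl_star] at e1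
    simp [qip, Fin.sum_univ_three, bl, vecMul, dotProduct] at e1
    have e2 : a = star t := by
      rw [← two_mul] at e1
      rw [← mul_left_cancel₀ two_ne e1, star_star]
    exact coord_ne (e2 ▸ star_mem ht)
  · obtain ⟨g, hg⟩ := exists_refl (two_single_mem 0) (by
      simp [qip, Fin.sum_univ_three]; norm_num)
    refine ⟨g, hg.trans (Matrix.ext fun s t => ?_)⟩
    fin_cases s <;> fin_cases t <;> simp [reflM, bl]
    rw [h2]; ext <;> simp; norm_num
  · obtain ⟨g, hg⟩ := exists_refl (r := ![icoH, -icoH, 0]) ⟨fun t => by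
      fin_cases t <;> simp [h_mem], ⟨2, two_mem, by simp [two_mul]⟩,
      ⟨-1, neg_mem (one_mem _), by simp⟩, ⟨0, zero_mem _, by simp⟩⟩ (by
      simp [qip, Fin.sum_univ_three, k1]; norm_num)
    refine ⟨g, hg.trans (Matrix.ext fun s t => ?_)⟩
    fin_cases s <;> fin_cases t <;> simp [reflM, p12, k2] <;> rw [h2] <;> ext <;> simp
  · obtain ⟨g, hg⟩ := exists_refl (r := ![0, icoH, -icoH]) ⟨fun t => by
      fin_cases t <;> simp [h_mem], ⟨-1, neg_mem (one_mem _), by simp⟩,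
      ⟨2, two_mem, by simp [two_mul]⟩, ⟨0, zero_mem _, by simp⟩⟩ (by
      simp [qip, Fin.sum_univ_three, k1]; norm_num)
    refine ⟨g, hg.trans (Matrix.ext fun s t => ?_)⟩
    fin_cases s <;> fin_cases t <;> simp [reflM, bl, k2] <;> rw [h2] <;> ext <;> simp
  · obtain ⟨g, hg⟩ := exists_U Q8.i (ico_mem (-1) 1 (-1) 0 1 0 1 (-1)) (by
      rw [h_eq, h2]; ext <;> simp [ico, qi] <;> grind)
    refine ⟨g, hg.trans ?_⟩
    rw [Ui, bl_inj, hh]
    refine ⟨?_, ?_, ?_, ?_, ?_⟩ <;> ext <;> simp [qi] <;> grind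
  · obtain ⟨g, hg⟩ := exists_U Q8.j (ico_mem (-1) 1 (-1) 1 1 (-1) 1 0) (by
      rw [h_eq, h2]; ext <;> simp [ico, qj] <;> grind)
    refine ⟨g, hg.trans ?_⟩
    rw [Uj, bl_inj, hh]
    refine ⟨?_, ?_, ?_, ?_, ?_⟩ <;> ext <;> simp [qj] <;> grind

theorem isSimple_of_iso {G : Type*} [Group G] [Finite G] (e : G ≃* Cfsg.Spor.J2) (P : Sylow 2 G) :
    (groupFusionSystem (P : Subgroup G)).IsSimple 2 := by
  haveI : Finite Cfsg.Spor.J2 := Finite.of_equiv G e.toEquiv
  haveI : Finite (center twoJ2) := by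
    have : ((center twoJ2 : Subgroup twoJ2) : Set twoJ2) ⊆ rho ⁻¹' {1, -1} := fun x hx =>
      jh_rho.mem_center_iff.1 hx
    exact (((Set.toFinite _).preimage jh_rho.inj.injOn).subset this).to_subtype
  haveI : Finite twoJ2 := Finite.of_subgroup_quotient (center twoJ2)
  refine jh_rho.isSimple (e.symm.toMonoidHom.comp (QuotientGroup.mk' _))
    (e.symm.surjective.comp (QuotientGroup.mk'_surjective _)) ?_ P
  ext x
  simp [QuotientGroup.eq_one_iff]

end Cfsg.Agent.H4.J2
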