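import Cfsg.Agent.H3.Kuls
import Cfsg.Agent.H3.Cover
import Cfsg.Agent.H3.BlkMisc
import Cfsg.Agent.H4.AmGm
import Cfsg.Agent.H4.DefectZero
import Cfsg.Agent.H5.DefectOne

/-! Height zero characters of the principal block: the vector of multiplicities in
`p ^ ν · 1_{reg}` and the short vectors of its neighbour lattice. -/

set_option autoImplicit false
set_option linter.unusedSectionVars false

namespace Cfsg.Agent.H4

open Cfsg Cfsg.Agent.H3 Cfsg.Agent.H5
open scoped ComplexConjugate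

variable {G : Type*} [Group G] [Finite G]

theorem k0_card_le_sum_div {Ψ : G → ℂ} (hΨ : IsGeneralizedCharacter G Ψ) {n : ℕ} (hn : n ≠ 0)
    (hi : ∀ g, IsIntegral ℤ (Ψ g / n)) (S : Finset G)
    (hS : ∀ m : ℕ, m.Coprime (Nat.card G) → ∀ g ∈ S, g ^ m ∈ S) (h0 : ∀ g ∈ S, Ψ g ≠ 0) :
    (S.card : ℝ) ≤ ∑ g ∈ S, ‖Ψ g / n‖ ^ 2 := by
  have hn' : (n : ℂ) ≠ 0 := Nat.cast_ne_zero.2 hn
  refine card_le_sum_of_galois S _
    (fun g hg => pow_pos (norm_pos_iff.2 (div_ne_zero (h0 g hg) hn')) 2) (fun g _ => ?_) fun τ => ?_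
  · rw [ofReal_norm_sq]
    exact (hi g).mul (isIntegral_star (hi g))
  · obtain ⟨m, hm, h2⟩ := exists_pow_of_ringHom_char G τ.toRingHom
    refine ⟨fun g => g ^ m, hS m hm, (powCoprime hm.symm).injective.injOn, fun g _ => ?_⟩
    have h3 : τ (Ψ g) = Ψ (g ^ m) := h2 Ψ hΨ g
    have h4 : τ (conj (Ψ g)) = conj (Ψ (g ^ m)) := by
      rw [← h3]; exact hΨ.map_conj τ.toRingHom g
    rw [ofReal_norm_sq, ofReal_norm_sq]
    simp only [map_mul, map_div₀, map_natCast, h3, h4]

/-- A generalized character of norm `n²`, congruent to `n` modulo `2n`, has values `± n`. -/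
theorem k0_sign [Fintype G] {Φ : G → ℂ} (hΦ : IsGeneralizedCharacter G Φ) {n : ℕ} (hn : n ≠ 0)
    (hi : ∀ g, IsIntegral ℤ ((1 - Φ g / n) / 2)) (hnorm : classInner Φ Φ = (n : ℂ) ^ 2) (g : G) :
    Φ g / n = 1 ∨ Φ g / n = -1 := by
  classical
  have hn' : (n : ℂ) ≠ 0 := Nat.cast_ne_zero.2 hn
  have hA : IsGeneralizedCharacter G (((n : ℤ) : ℂ) • (1 : G → ℂ) - Φ) :=
    (isGeneralizedCharacter_one.intCast_smul n).sub hΦ
  have hB : IsGeneralizedCharacter G (((n : ℤ) : ℂ) • (1 : G → ℂ) + Φ) :=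
    (isGeneralizedCharacter_one.intCast_smul n).add hΦ
  have eA : ∀ g, (((n : ℤ) : ℂ) • (1 : G → ℂ) - Φ) g / ((2 * n : ℕ) : ℂ) = (1 - Φ g / n) / 2 :=
    fun g => by simp; field_simp
  have eB : ∀ g, (((n : ℤ) : ℂ) • (1 : G → ℂ) + Φ) g / ((2 * n : ℕ) : ℂ) =
      1 - (1 - Φ g / n) / 2 := fun g => by simp; field_simp; ring
  let S : Finset G := Finset.univ.filter fun g =>
    (((n : ℤ) : ℂ) • (1 : G → ℂ) - Φ) g ≠ 0 ∧ (((n : ℤ) : ℂ) • (1 : G → ℂ) + Φ) g ≠ 0
  have hS : ∀ m : ℕ, m.Coprime (Nat.card G) → ∀ g ∈ S, g ^ m ∈ S := fun m hm g hg => by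
    simp only [S, Finset.mem_filter, Finset.mem_univ, true_and] at hg ⊢
    exact ⟨fun h => hg.1 ((apply_pow_eq_zero_iff hA hm g).1 h),
      fun h => hg.2 ((apply_pow_eq_zero_iff hB hm g).1 h)⟩
  have hout : ∀ g, g ∉ S → Φ g / n = 1 ∨ Φ g / n = -1 := fun g hg => by
    simp only [S, Finset.mem_filter, Finset.mem_univ, true_and, not_and_or, not_not] at hg
    rcases hg with h | h
    · left
      simp only [Pi.sub_apply, Pi.smul_apply, Pi.one_apply, smul_eq_mul, mul_one,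
        Int.cast_natCast] at h
      rw [div_eq_iff hn']; linear_combination -h
    · right
      simp only [Pi.add_apply, Pi.smul_apply, Pi.one_apply, smul_eq_mul, mul_one,
        Int.cast_natCast] at h
      rw [div_eq_iff hn']; linear_combination h
  have h1 := k0_card_le_sum_div hA (n := 2 * n) (by omega) (fun g => eA g ▸ hi g) S hS
    (fun g hg => (Finset.mem_filter.1 hg).2.1)
  have h2 := k0_card_le_sum_div hB (n := 2 * n) (by omega)
    (fun g => eB g ▸ isIntegral_one.sub (hi g)) S hS (fun g hg => (Finset.mem_filter.1 hg).2.2)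
  simp only [eA] at h1
  simp only [eB] at h2
  have h3 : ∀ z : ℂ, ‖(1 - z) / 2‖ ^ 2 + ‖1 - (1 - z) / 2‖ ^ 2 = (1 + ‖z‖ ^ 2) / 2 := fun z => by
    simp only [← Complex.normSq_eq_norm_sq, Complex.normSq_apply]
    simp
    ring
  have h4 : ∑ g, ‖Φ g / n‖ ^ 2 = Nat.card G := by
    rw [classInner_self_eq] at hnorm
    have h5 : (Nat.card G : ℝ)⁻¹ * ∑ g, ‖Φ g‖ ^ 2 = (n : ℝ) ^ 2 := by exact_mod_cast hnorm
    have h6 : (Nat.card G : ℝ) ≠ 0 := by exact_mod_cast Nat.card_pos.ne'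
    have h7 : (n : ℝ) ≠ 0 := by exact_mod_cast hn
    simp only [norm_div, div_pow, Complex.norm_natCast, ← Finset.sum_div]
    field_simp at h5 ⊢
    linarith
  have h5 : ∑ g ∈ Sᶜ, ‖Φ g / n‖ ^ 2 = (Sᶜ.card : ℝ) := by
    rw [Finset.card_eq_sum_ones, Nat.cast_sum]
    refine Finset.sum_congr rfl fun g hg => ?_
    rcases hout g (Finset.mem_compl.1 hg) with h | h <;> simp [h]
  have h6 : ∑ g ∈ S, ‖Φ g / n‖ ^ 2 = S.card := by
    rw [← Finset.sum_add_sum_compl S, h5, Nat.card_eq_fintype_card,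
      ← Finset.card_add_card_compl S, Nat.cast_add] at h4
    linarith
  have h7 : (2 * S.card : ℝ) ≤ ∑ g ∈ S, (1 + ‖Φ g / n‖ ^ 2) / 2 := by
    simp only [← h3, Finset.sum_add_distrib]
    linarith
  rw [← Finset.sum_div, Finset.sum_add_distrib, h6] at h7
  simp only [Finset.sum_const, nsmul_eq_mul, mul_one] at h7
  have h8 : S.card = 0 := by
    have : (S.card : ℝ) ≤ 0 := by linarith
    exact_mod_cast le_antisymm this (Nat.cast_nonneg _)
  exact hout g (by rw [Finset.card_eq_zero.1 h8]; exact Finset.notMem_empty g)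

variable {p : ℕ} [hp : Fact p.Prime] {M : Ideal AlgInt} [hMm : M.IsMaximal] [CharP (Res M) p]

theorem k0_avg_integral {χ : G → ℂ} (hχ : IsCharacter G χ) (P : Subgroup G) [Fintype P] {x : G}
    (hx : P ≤ cz x) : IsIntegral ℤ ((Nat.card P : ℂ)⁻¹ * ∑ u : P, χ (x * u)) := by
  classical
  have := Fintype.ofFinite G
  have h := isIntegral_ev hχ (isIntegral_single_mul_avg (centralizer_le_normalizer' hx))
  rw [ev_single_mul_avg] at h
  rwa [← Finset.sum_subtype (Finset.univ.filter (· ∈ P)) (by simp) (fun u => χ (x * u))]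

theorem k0_inner_mem_nilp {E : Type*} [Group E] [Fintype E] [Group.IsNilpotent E] {v : E → ℂ}
    (hm : ∀ g, v g ∈ locRing M) (hr : ∀ g, v (pReg p g) = v g) {θ : E → ℂ}
    (hθ : IsCharacter E θ) : classInner v θ ∈ locRing M := by
  classical
  obtain ⟨P, Q, hP, hQ, hPQ, hcard, hQp⟩ := exists_pPart_decomp_of_nilpotent (E := E) p hp.out
  have hc : Subgroup.IsComplement' Q P := by
    refine Subgroup.isComplement'_of_coprime (by rw [hcard, mul_comm]) ?_
    obtain ⟨k, hk⟩ := IsPGroup.iff_card.1 hP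
    rw [hk]
    exact (((Nat.Prime.coprime_iff_not_dvd hp.out).2 hQp).symm).pow_right k
  have hb : Function.Bijective fun x : Q × P => (x.1 : E) * x.2 := hc
  have h1 : classInner v θ = (Nat.card Q : ℂ)⁻¹ * ∑ q : Q, v q *
      ((Nat.card P : ℂ)⁻¹ * ∑ u : P, conj (θ (q * u))) := by
    rw [classInner, ← hb.sum_comp, Fintype.sum_prod_type, hcard, Nat.cast_mul, mul_inv,
      mul_comm (Nat.card P : ℂ)⁻¹, mul_assoc, Finset.mul_sum]
    congr 1
    refine Finset.sum_congr rfl fun q _ => ?_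
    rw [mul_left_comm, Finset.mul_sum (f := fun u : P => conj (θ (q * u)))]
    congr 1
    refine Finset.sum_congr rfl fun u _ => ?_
    rw [← hr (q * u), ← hPQ u u.2 q q.2,
      pReg_mul_of (hPQ u u.2 q q.2) (isPElt_of_mem hP u.2) ((hQ q).1 q.2)]
  rw [h1]
  refine mul_mem (inv_natCast_mem hQp) (sum_mem fun q _ => mul_mem (hm q) ?_)
  exact mem_locRing_of_isIntegral M (k0_avg_integral hθ.conj P
    fun u hu => mem_cz.2 (hPQ u hu q q.2))

/-- A `p`-integral class function constant on `p'`-sections has `p`-integral mean. -/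
theorem k0_inner_one_mem [Fintype G] {u : G → ℂ} (hu : IsClassFunction G u)
    (hm : ∀ g, u g ∈ locRing M) (hr : ∀ g, u (pReg p g) = u g) :
    classInner u 1 ∈ locRing M := by
  classical
  refine AddSubgroup.closure_induction (p := fun f _ => classInner u f ∈ locRing M) ?_ ?_ ?_ ?_
    (one_mem_closure_elemInd (G := G))
  · rintro f ⟨E, θ, ⟨q, hq, hE⟩, ⟨χ, ψ, hχ, hψ, rfl⟩, rfl⟩
    have := isNilpotent_of_isElementary hq hE
    rw [frobenius_recip' E _ hu, classInner_sub_right]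
    have h1 : ∀ g : E, u (pReg p g : E) = u g := fun g => by rw [coe_pReg, hr]
    exact sub_mem (k0_inner_mem_nilp (E := E) (p := p) (fun g => hm g) h1 hχ)
      (k0_inner_mem_nilp (E := E) (p := p) (fun g => hm g) h1 hψ)
  · rw [classInner_zero_right]; exact zero_mem _
  · intro f g _ _ h1 h2
    rw [classInner_add_right]; exact add_mem h1 h2
  · intro f _ h
    rw [classInner_neg_right]; exact neg_mem h

variable (p G) in
/-- The generalized character `p ^ ν · 1_{reg}`. -/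
noncomputable def k0th : G → ℂ :=
  fun x => if p ∣ orderOf x then 0 else ((p ^ (Nat.card G).factorization p : ℕ) : ℂ) * (1 : G → ℂ) x

theorem isGen_k0th : IsGeneralizedCharacter G (k0th G p) :=
  isGen_pow_mul_regPart isGeneralizedCharacter_one

theorem k0th_eq : k0th G p =
    ((p ^ (Nat.card G).factorization p : ℕ) : ℂ) • regP p (irrOne G : G → ℂ) := by
  funext x
  by_cases h : p ∣ orderOf x
  · simp [k0th, h, regP_of_dvd]
  · simp [k0th, h, regP_of_pReg, irrOne]

theorem k0_not_dvd_iff [Fintype G] (χ : IrrCharacter G) {a : ℤ}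
    (ha : classInner (k0th G p) χ = a) :
    ¬(p : ℤ) ∣ a ↔ χ ∈ principalBlock M G ∧ ¬p ∣ charDegree (χ : G → ℂ) := by
  have hpm : ((p ^ (Nat.card G).factorization p : ℕ) : ℂ) ≠ 0 :=
    Nat.cast_ne_zero.2 (pow_ne_zero _ hp.out.ne_zero)
  have h1 := IsPBlock.lam_tR_ne_zero_iff (p := p) (isPBlock_principalBlock (M := M) (G := G))
    irrOne_mem_principalBlock χ
  have hu : red M ((Nat.card G : ℂ) / ((p ^ (Nat.card G).factorization p : ℕ) : ℂ)) ≠ 0 :=
    (red_natCast_div_ne_zero_iff (p := p) Nat.card_pos.ne' (pow_ne_zero _ hp.out.ne_zero)).2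
      (by rw [Nat.factorization_pow_self hp.out])
  have h2 : om (irrOne G : G → ℂ) (tR p χ) =
      (Nat.card G : ℂ) / ((p ^ (Nat.card G).factorization p : ℕ) : ℂ) * a := by
    rw [om_apply, ev_tR_comm χ.2.isCharacter (irrOne G).2.isCharacter, ev_tR _ χ.2.isCharacter,
      ← ha, k0th_eq, classInner_smul_left]
    change _ / (1 : ℂ) = _
    field_simp
  rw [lam_redA_tR _ χ.2.isCharacter, h2, red_mul (mem_of_red_ne_zero hu) (intCast_mem _ a),
    red_intCast, mul_ne_zero_iff, and_iff_right hu, Ne, CharP.intCast_eq_zero_iff (Res M) p] at h1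
  rw [h1]
  refine and_congr_right fun hχ => ?_
  have h3 : minNu p (principalBlock M G) = 0 := by
    have := minNu_le (p := p) (irrOne_mem_principalBlock (M := M) (G := G))
    have h4 : charDegree (irrOne G : G → ℂ) = 1 := H3.charDegree_eq (by simp [irrOne])
    simp only [nu, h4, Nat.factorization_one, Finsupp.coe_zero, Pi.zero_apply] at this
    omega
  rw [blockHeight_eq_zero_iff hχ, h3, nu, Nat.factorization_eq_zero_iff]
  have := charDegree_ne_zero χ
  have := hp.out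
  tauto

theorem k0_sum_sq [Fintype G] (a : IrrCharacter G → ℤ)
    (ha : ∀ χ : IrrCharacter G, classInner (k0th G p) χ = a χ) :
    ∑ χ, a χ ^ 2 = (p : ℤ) ^ (Nat.card G).factorization p * a (irrOne G) := by
  have h1 := isGen_k0th.classInner_self_eq_sum_sq a ha
  have h2 : classInner (k0th G p) (k0th G p) =
      ((p ^ (Nat.card G).factorization p : ℕ) : ℂ) * classInner (k0th G p) (irrOne G) := by
    simp only [classInner]
    rw [mul_left_comm, Finset.mul_sum (a := ((p ^ (Nat.card G).factorization p : ℕ) : ℂ))]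
    congr 1
    refine Finset.sum_congr rfl fun x _ => ?_
    by_cases h : p ∣ orderOf x <;> simp [k0th, h, irrOne]
  rw [h2, ha] at h1
  exact_mod_cast h1.symm

include M in
/-- No vector of the neighbour lattice of norm `p²` is congruent to the trivial character
modulo `2`. -/
theorem k0_no_vector [Fintype G] (hodd : p ≠ 2) (h2 : p ^ 2 ∣ Nat.card G)
    (a : IrrCharacter G → ℤ) (ha : ∀ χ : IrrCharacter G, classInner (k0th G p) χ = a χ)
    (Y : IrrCharacter G → ℤ) (c : ℤ) (hY : ∀ χ, (p : ℤ) ∣ Y χ - c * a χ)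
    (hsq : ∑ χ, Y χ ^ 2 = (p : ℤ) ^ 2) (ho : Odd (Y (irrOne G)))
    (he : ∀ χ, χ ≠ irrOne G → Even (Y χ)) (h1 : ¬(p : ℤ) ∣ Y (irrOne G)) : False := by
  classical
  have hp0 : (p : ℂ) ≠ 0 := Nat.cast_ne_zero.2 hp.out.ne_zero
  choose b hb using hY
  obtain ⟨d, hd⟩ : ∃ d : IrrCharacter G → ℤ, ∀ χ, Y χ = (if χ = irrOne G then 1 else 0) + 2 * d χ := by
    refine ⟨fun χ => Y χ / 2, fun χ => ?_⟩
    split_ifs with h
    · subst h
      obtain ⟨k, hk⟩ := ho
      simp only [hk]; omega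
    · obtain ⟨k, hk⟩ := he χ h
      simp only [hk]; omega
  set Φ : G → ℂ := ∑ χ : IrrCharacter G, (Y χ : ℂ) • (χ : G → ℂ) with hΦd
  set ψ : G → ℂ := ∑ χ : IrrCharacter G, (b χ : ℂ) • (χ : G → ℂ) with hψd
  set Δ : G → ℂ := ∑ χ : IrrCharacter G, (d χ : ℂ) • (χ : G → ℂ) with hΔd
  have hΦ : IsGeneralizedCharacter G Φ := isGeneralizedCharacter_sum_int Y
  have hψ : IsGeneralizedCharacter G ψ := isGeneralizedCharacter_sum_int b
  have hΔ : IsGeneralizedCharacter G Δ := isGeneralizedCharacter_sum_int d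
  have e1 : ∀ g, Φ g = c * k0th G p g + p * ψ g := fun g => by
    rw [isGen_k0th.isClassFunction.apply_eq_sum_irr g]
    simp only [hΦd, hψd, Finset.sum_apply, Pi.smul_apply, smul_eq_mul, Finset.mul_sum, ha,
      ← Finset.sum_add_distrib]
    refine Finset.sum_congr rfl fun χ _ => ?_
    have : (Y χ : ℂ) - c * a χ = p * b χ := by exact_mod_cast hb χ
    linear_combination (χ : G → ℂ) g * this
  have e2 : ∀ g, Φ g = 1 + 2 * Δ g := fun g => by
    simp only [hΦd, hΔd, Finset.sum_apply, Pi.smul_apply, smul_eq_mul, Finset.mul_sum, hd]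
    push_cast
    simp only [add_mul, Finset.sum_add_distrib, ite_mul, one_mul, zero_mul, Finset.sum_ite_eq',
      Finset.mem_univ, if_true, mul_assoc]
    rfl
  obtain ⟨ν, hν⟩ : ∃ ν, (Nat.card G).factorization p = ν + 2 :=
    ⟨_, (Nat.sub_add_cancel ((hp.out.pow_dvd_iff_le_factorization Nat.card_pos.ne').1 h2)).symm⟩
  have e3 : ∀ g, ∃ k : ℤ, Φ g / p = ψ g + p * k := fun g => by
    rw [e1]
    by_cases h : p ∣ orderOf g
    · exact ⟨0, by simp [k0th, h]; field_simp⟩
    · refine ⟨c * p ^ ν, ?_⟩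
      simp only [k0th, h, if_false, hν, Pi.one_apply]
      push_cast
      field_simp
      ring
  have hint : ∀ g, IsIntegral ℤ (Φ g / p) := fun g => by
    obtain ⟨k, hk⟩ := e3 g
    rw [hk]
    exact (hψ.isIntegral g).add ((isIntegral_natCast _).mul (isIntegral_intCast _))
  have hred : ∀ g, red M (Φ g / p) = red M (ψ g) := fun g => by
    obtain ⟨k, hk⟩ := e3 g
    rw [hk, red_add (mem_locRing_of_isIntegral M (hψ.isIntegral g))
      (mul_mem (natCast_mem _ p) (intCast_mem _ k)), red_mul (natCast_mem _ p) (intCast_mem _ k),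
      red_natCast, CharP.cast_eq_zero, zero_mul, add_zero]
  have hψr : ∀ g, red M (ψ g) = red M (ψ (pReg p g)) := fun g => by
    obtain ⟨α, β, hα, hβ, h⟩ := hψ
    rw [h, Pi.sub_apply, Pi.sub_apply, red_sub (char_mem hα _) (char_mem hβ _),
      red_sub (char_mem hα _) (char_mem hβ _), red_char_pReg (p := p) hα,
      red_char_pReg (p := p) hβ]
  obtain ⟨k, hk⟩ := hp.out.odd_of_ne_two hodd
  have hhalf : ∀ g, IsIntegral ℤ ((1 - Φ g / p) / 2) := fun g => by
    have : (1 - Φ g / p) / 2 = k * (Φ g / p) - Δ g := by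
      have h3 : (p : ℂ) = 2 * k + 1 := by exact_mod_cast hk
      have h4 : Φ g = p * (Φ g / p) := by field_simp
      rw [e2 g] at h4 ⊢
      rw [h3] at h4 ⊢
      linear_combination h4 / 2
    rw [this]
    exact ((isIntegral_natCast _).mul (hint g)).sub (hΔ.isIntegral g)
  have hnorm : classInner Φ Φ = (p : ℂ) ^ 2 := by
    rw [hΦ.classInner_self_eq_sum_sq Y (fun χ => classInner_sum_irr_left _ χ), hsq]
    push_cast; rfl
  have hs := k0_sign hΦ hp.out.ne_zero hhalf hnorm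
  have h2' : (2 : Res M) ≠ 0 := by
    have := red_natCast_ne_zero (M := M) (p := p) (n := 2)
      (fun h => hodd ((Nat.prime_dvd_prime_iff_eq hp.out Nat.prime_two).1 h))
    rwa [red_natCast, Nat.cast_ofNat] at this
  have hr : ∀ g, Φ (pReg p g) / p = Φ g / p := fun g => by
    have h3 : red M (Φ g / p) = red M (Φ (pReg p g) / p) := by rw [hred, hred, hψr]
    rcases hs g with h | h <;> rcases hs (pReg p g) with h' | h' <;> rw [h, h'] at h3 ⊢ <;>
      rw [red_neg, red_one] at h3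
    · exact absurd (by linear_combination h3) h2'
    · exact absurd (by linear_combination -h3) h2'
  have hmem := k0_inner_one_mem (M := M) (p := p) (u := fun g => Φ g / p)
    (hΦ.isClassFunction.map (· / p)) (fun g => mem_locRing_of_isIntegral M (hint g)) hr
  have h5 : (p : ℂ) ^ 1 * classInner (fun g => Φ g / p) 1 = Y (irrOne G) := by
    rw [pow_one, ← classInner_smul_left, ← classInner_sum_irr_left (fun χ => (Y χ : ℂ)) (irrOne G)]
    congr 1
    funext g
    simp only [Pi.smul_apply, smul_eq_mul]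
    field_simp
    rfl
  obtain ⟨m, hm⟩ := exists_int_of_mem_of_pow_mul hmem 1 _ h5
  rw [hm, pow_one] at h5
  exact h1 ⟨m, by exact_mod_cast h5.symm⟩

theorem k0_exists_mult [Fintype G] : ∃ a : IrrCharacter G → ℤ,
    ∀ χ : IrrCharacter G, classInner (k0th G p) χ = a χ :=
  ⟨_, (isGen_k0th (G := G) (p := p)).exists_eq_sum_int.choose_spec.1⟩

theorem k0_irrOne_not_dvd : ¬p ∣ charDegree (irrOne G : G → ℂ) := by
  rw [show charDegree (irrOne G : G → ℂ) = 1 from H3.charDegree_eq (by simp [irrOne])]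
  exact hp.out.not_dvd_one

/-- If `p` is odd and `p²` divides the group order, the number of height zero characters in the
principal block is not five, granted the lattice lemma. -/
theorem k0_ne_five (hodd : p ≠ 2) (h2 : p ^ 2 ∣ Nat.card G)
    (hL : ∀ a : Fin 5 → ℤ, (p : ℤ) ^ 2 ∣ ∑ i, a i ^ 2 → ¬(p : ℤ) ∣ a 0 → ¬(p : ℤ) ∣ a 1 →
      ∃ (y : Fin 5 → ℤ) (c : ℤ), ¬(p : ℤ) ∣ c ∧ (∀ i, (p : ℤ) ∣ y i - c * a i) ∧
        ∑ i, y i ^ 2 = (p : ℤ) ^ 2 ∧ Odd (y 0) ∧ ∀ i, i ≠ 0 → Even (y i)) :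
    Nat.card {χ : IrrCharacter G // χ ∈ principalBlock M G ∧ ¬p ∣ charDegree (χ : G → ℂ)} ≠ 5 := by
  classical
  intro h5
  have := Fintype.ofFinite G
  obtain ⟨a, ha⟩ := k0_exists_mult (G := G) (p := p)
  have hX := fun χ => k0_not_dvd_iff (M := M) χ (ha χ)
  let e0 := (Finite.equivFinOfCardEq h5).symm
  let x1 : {χ : IrrCharacter G // χ ∈ principalBlock M G ∧ ¬p ∣ charDegree (χ : G → ℂ)} :=
    ⟨irrOne G, irrOne_mem_principalBlock, k0_irrOne_not_dvd⟩
  let e := e0.trans (Equiv.swap (e0 0) x1)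
  have he0 : e 0 = x1 := by simp [e]
  let ι : Fin 5 → IrrCharacter G := fun i => (e i).1
  have hι : Function.Injective ι := Subtype.val_injective.comp e.injective
  have hι0 : ι 0 = irrOne G := by simp [ι, he0, x1]
  have hιa : ∀ i, ¬(p : ℤ) ∣ a (ι i) := fun i => (hX _).2 (e i).2
  have hout : ∀ χ, (¬∃ i, ι i = χ) → (p : ℤ) ∣ a χ := fun χ h => by
    by_contra h'
    exact h ⟨e.symm ⟨χ, (hX χ).1 h'⟩, by simp [ι]⟩
  have hsplit : ∀ f : IrrCharacter G → ℤ, ∑ χ, f χ =
      ∑ i, f (ι i) + ∑ χ with ¬∃ i, ι i = χ, f χ := fun f => by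
    rw [← Finset.sum_filter_add_sum_filter_not Finset.univ (fun χ => ∃ i, ι i = χ),
      ← Finset.sum_image (s := Finset.univ) (g := ι) (fun i _ j _ h => hι h)]
    congr 2
    ext χ; simp
  have hdvd : (p : ℤ) ^ 2 ∣ ∑ i, a (ι i) ^ 2 := by
    have h1 := k0_sum_sq a ha
    rw [hsplit] at h1
    have h3 : (p : ℤ) ^ 2 ∣ ∑ χ with ¬∃ i, ι i = χ, a χ ^ 2 :=
      Finset.dvd_sum fun χ h => pow_dvd_pow_of_dvd (hout χ (Finset.mem_filter.1 h).2) 2
    refine (dvd_add_left h3).1 (h1 ▸ Dvd.dvd.mul_right (pow_dvd_pow _ ?_) _)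
    exact (hp.out.pow_dvd_iff_le_factorization Nat.card_pos.ne').1 h2
  obtain ⟨y, c, hc, hy, hsq, ho, hev⟩ := hL (fun i => a (ι i)) hdvd (hιa 0) (hιa 1)
  have hY : ∀ i, Function.extend ι y 0 (ι i) = y i := hι.extend_apply y 0
  have hY' : ∀ χ, (¬∃ i, ι i = χ) → Function.extend ι y 0 χ = 0 := fun χ h =>
    Function.extend_apply' y (0 : IrrCharacter G → ℤ) χ h
  refine k0_no_vector (M := M) hodd h2 a ha (Function.extend ι y 0) c (fun χ => ?_) ?_ ?_
    (fun χ h => ?_) ?_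
  · by_cases h : ∃ i, ι i = χ
    · obtain ⟨i, rfl⟩ := h
      rw [hY]; exact hy i
    · rw [hY' χ h, zero_sub, dvd_neg]
      exact (hout χ h).mul_left c
  · rw [hsplit, Finset.sum_eq_zero (s := Finset.univ.filter _) fun χ h => by
      rw [hY' χ (Finset.mem_filter.1 h).2]; rfl]
    simp only [hY, hsq, add_zero]
  · rw [← hι0, hY]; exact ho
  · by_cases h' : ∃ i, ι i = χ
    · obtain ⟨i, rfl⟩ := h'
      rw [hY]
      exact hev i fun hi => h (hi ▸ hι0)
    · rw [hY' χ h']; exact Even.zero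
  · rw [← hι0, hY]
    intro h
    have h3 : (p : ℤ) ∣ c * a (ι 0) := by
      have := dvd_sub h (hy 0)
      rwa [sub_sub_cancel] at this
    exact ((Nat.prime_iff_prime_int.1 hp.out).dvd_or_dvd h3).elim hc (hιa 0)

/-- For a group of even order the number of odd degree characters in the principal `2`-block
is even. -/
theorem k0_even {M : Ideal AlgInt} [M.IsMaximal] [CharP (Res M) 2] (h2 : 2 ∣ Nat.card G) :
    Even (Nat.card {χ : IrrCharacter G //
      χ ∈ principalBlock M G ∧ ¬2 ∣ charDegree (χ : G → ℂ)}) := by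
  classical
  have := Fintype.ofFinite G
  obtain ⟨a, ha⟩ := k0_exists_mult (G := G) (p := 2)
  have hX := fun χ => k0_not_dvd_iff (M := M) χ (ha χ)
  have h1 := k0_sum_sq a ha
  have h3 : Even (∑ χ, (a χ).natAbs ^ 2) := by
    rw [← Int.even_coe_nat]
    push_cast
    simp only [sq_abs]
    rw [h1]
    refine Even.mul_right ((Int.even_pow' ?_).2 (by decide)) _
    exact (Nat.prime_two.factorization_pos_of_dvd Nat.card_pos.ne' h2).ne'
  rw [Finset.even_sum_iff_even_card_odd] at h3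
  rw [Nat.card_eq_fintype_card, Fintype.card_subtype]
  convert h3 using 3 with χ
  rw [← hX χ, Nat.odd_pow_iff two_ne_zero, Int.natAbs_odd, ← Int.not_even_iff_odd,
    even_iff_two_dvd]
  rfl

theorem k0_defect_one {P : Sylow p G} (hc : Nat.card P = p) :
    ∃ t, t * (cP P).relIndex (nP P) + 1 = p ∧
      Nat.card {χ : IrrCharacter G // χ ∈ principalBlock M G ∧ ¬p ∣ charDegree (χ : G → ℂ)} =
        (cP P).relIndex (nP P) + t := by
  obtain ⟨h1, h2⟩ := principal_defect_one (M := M) hc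
  have ht := (frobSyl_of_card hc).card_Orb
  rw [show Nat.card (sP P) = p from hc] at ht
  have he0 : (cP P).relIndex (nP P) ≠ 0 := Subgroup.index_ne_zero_of_finite
  refine ⟨_, ht, ?_⟩
  generalize (cP P).relIndex (nP P) = e at *
  generalize Nat.card (Orb P) = t at *
  rw [show (p - 1) / e = t from Nat.div_eq_of_eq_mul_left (Nat.pos_of_ne_zero he0) (by omega)] at h1
  rw [← h1]
  refine Nat.card_congr (Equiv.subtypeEquivRight fun χ => and_iff_left_of_imp fun hχ hd => ?_)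
  have hd' : (charDegree (χ : G → ℂ) : ℤ) ≡ 0 [ZMOD p] :=
    Int.modEq_zero_iff_dvd.2 (Int.natCast_dvd_natCast.2 hd)
  have h3 : ¬(p : ℤ) ∣ 1 := fun h => hp.out.not_dvd_one (Int.natCast_dvd_natCast.1 h)
  have h4 : ¬(p : ℤ) ∣ e := fun h => by
    have h5 : p ∣ t * e + 1 := ht ▸ dvd_rfl
    exact hp.out.not_dvd_one ((Nat.dvd_add_right
      ((Int.natCast_dvd_natCast.1 h).mul_left t)).1 h5)
  rcases h2 χ hχ with h | h | h | h
  · exact h3 (Int.modEq_zero_iff_dvd.1 (h.symm.trans hd'))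
  · exact h3 (dvd_neg.1 (Int.modEq_zero_iff_dvd.1 (h.symm.trans hd')))
  · exact h4 (Int.modEq_zero_iff_dvd.1 (h.symm.trans hd'))
  · exact h4 (dvd_neg.1 (Int.modEq_zero_iff_dvd.1 (h.symm.trans hd')))

theorem k0_defect_zero (h : ¬p ∣ Nat.card G) :
    Nat.card {χ : IrrCharacter G // χ ∈ principalBlock M G ∧ ¬p ∣ charDegree (χ : G → ℂ)} = 1 := by
  rw [Nat.card_eq_one_iff_exists]
  exact ⟨⟨irrOne G, irrOne_mem_principalBlock, k0_irrOne_not_dvd⟩, fun χ => Subtype.ext
    (eq_of_sameBlock_of_not_dvd (M := M) h (θ := irrOne G) χ.2.1).symm⟩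

theorem k0_five_iff (P : Sylow p G)
    (hL : p ≠ 2 → ∀ a : Fin 5 → ℤ, (p : ℤ) ^ 2 ∣ ∑ i, a i ^ 2 → ¬(p : ℤ) ∣ a 0 → ¬(p : ℤ) ∣ a 1 →
      ∃ (y : Fin 5 → ℤ) (c : ℤ), ¬(p : ℤ) ∣ c ∧ (∀ i, (p : ℤ) ∣ y i - c * a i) ∧
        ∑ i, y i ^ 2 = (p : ℤ) ^ 2 ∧ Odd (y 0) ∧ ∀ i, i ≠ 0 → Even (y i)) :
    Nat.card {χ : IrrCharacter G // χ ∈ principalBlock M G ∧ ¬p ∣ charDegree (χ : G → ℂ)} = 5 ↔
      ((Nat.card P = 5 ∧ ((cP P).relIndex (nP P) = 1 ∨ (cP P).relIndex (nP P) = 4)) ∨
        (Nat.card P = 7 ∧ ((cP P).relIndex (nP P) = 2 ∨ (cP P).relIndex (nP P) = 3))) := by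
  have hcard := P.card_eq_multiplicity
  constructor
  · intro h5
    have hd : p ∣ Nat.card G := by
      by_contra h
      rw [k0_defect_zero h] at h5
      omega
    have hodd : p ≠ 2 := by
      rintro rfl
      have := k0_even (M := M) hd
      rw [h5] at this
      exact absurd this (by decide)
    have h2 : ¬p ^ 2 ∣ Nat.card G := fun h => k0_ne_five hodd h (hL hodd) h5
    have hc : Nat.card P = p := by
      rw [hp.out.pow_dvd_iff_le_factorization Nat.card_pos.ne'] at h2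
      have := hp.out.factorization_pos_of_dvd Nat.card_pos.ne' hd
      rw [hcard, show (Nat.card G).factorization p = 1 by omega, pow_one]
    obtain ⟨t, ht, h⟩ := k0_defect_one (M := M) hc
    rw [hc]
    rw [h5] at h
    have hp1 := hp.out.one_lt
    generalize (cP P).relIndex (nP P) = e at *
    obtain rfl : t = 5 - e := by omega
    have he : e ≤ 5 := by omega
    interval_cases e <;> omega
  · intro h
    have hc : Nat.card P = p := by
      have hpr : (Nat.card P).Prime := by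
        rcases h with h | h <;> rw [h.1] <;> norm_num
      rw [hcard] at hpr ⊢
      rw [hpr.eq_one_of_pow, pow_one]
    obtain ⟨t, ht, h'⟩ := k0_defect_one (M := M) hc
    rw [h']
    rw [hc] at h
    rcases h with ⟨h1, h2 | h2⟩ | ⟨h1, h2 | h2⟩ <;> rw [h2] at ht ⊢ <;> omega

end Cfsg.Agent.H4
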