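import Mathlib
import Cfsg.Agent.H4.P4Fus
import Cfsg.Agent.H4.L3Mat

/-! The group `PSp₄(q)`, `q` odd, has the shape `P4`. -/

set_option autoImplicit false
set_option maxHeartbeats 400000
set_option linter.unusedSectionVars false
set_option linter.style.haveILetI false
set_option linter.unusedSimpArgs false
set_option linter.unnecessarySeqFocus false

namespace Cfsg.Agent.H4.Sp4

open Subgroup Matrix
open scoped MatrixGroups

variable {F : Type*} [Field F]

/-- Two by two matrices. -/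
abbrev M2 (F : Type*) := Matrix (Fin 2) (Fin 2) F
/-- Four by four matrices. -/
abbrev M4 (F : Type*) := Matrix (Fin 2 ⊕ Fin 2) (Fin 2 ⊕ Fin 2) F

/-- Kronecker product. -/
def T (x y : M2 F) : M4 F := fromBlocks (x 0 0 • y) (x 0 1 • y) (x 1 0 • y) (x 1 1 • y)

/-- Direct sum. -/
def pr (x y : M2 F) : M4 F :=
  fromBlocks !![x 0 0, 0; 0, y 0 0] !![x 0 1, 0; 0, y 0 1] !![x 1 0, 0; 0, y 1 0]
    !![x 1 1, 0; 0, y 1 1]

theorem T_mul (x y x' y' : M2 F) : T x y * T x' y' = T (x * x') (y * y') := by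
  ext (i | i) (j | j) <;> fin_cases i <;> fin_cases j <;>
    simp [T, Matrix.mul_apply, Fintype.sum_sum_type, Fin.sum_univ_two] <;> ring

theorem T_neg (x y : M2 F) : T (-x) y = -T x y := by
  ext (i | i) (j | j) <;> simp [T]

theorem T_neg' (x y : M2 F) : T x (-y) = -T x y := by
  ext (i | i) (j | j) <;> simp [T]

theorem T_smul (c : F) (x y : M2 F) : T (c • x) y = T x (c • y) := by
  ext (i | i) (j | j) <;> simp [T] <;> ring

theorem T_one : T (1 : M2 F) 1 = 1 := by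
  ext (i | i) (j | j) <;> fin_cases i <;> fin_cases j <;> simp [T]

theorem pr_mul (x y x' y' : M2 F) : pr x y * pr x' y' = pr (x * x') (y * y') := by
  ext (i | i) (j | j) <;> fin_cases i <;> fin_cases j <;>
    simp [pr, Matrix.mul_apply, Fintype.sum_sum_type, Fin.sum_univ_two]

theorem pr_neg (x y : M2 F) : pr (-x) (-y) = -pr x y := by
  ext (i | i) (j | j) <;> fin_cases i <;> fin_cases j <;> simp [pr]

theorem pr_self (x : M2 F) : pr x x = T x 1 := by
  ext (i | i) (j | j) <;> fin_cases i <;> fin_cases j <;> simp [pr, T]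

theorem pr_z : pr (-1 : M2 F) 1 = T 1 !![-1, 0; 0, 1] := by
  ext (i | i) (j | j) <;> fin_cases i <;> fin_cases j <;> simp [pr, T]

theorem pr_inj {x y x' y' : M2 F} : pr x y = pr x' y' ↔ x = x' ∧ y = y' := by
  refine ⟨fun h => ?_, fun h => by rw [h.1, h.2]⟩
  simp only [pr, fromBlocks_inj] at h
  obtain ⟨h1, h2, h3, h4⟩ := h
  constructor <;> ext i j <;> fin_cases i <;> fin_cases j
  exacts [congrFun (congrFun h1 0) 0, congrFun (congrFun h2 0) 0, congrFun (congrFun h3 0) 0,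
    congrFun (congrFun h4 0) 0, congrFun (congrFun h1 1) 1, congrFun (congrFun h2 1) 1,
    congrFun (congrFun h3 1) 1, congrFun (congrFun h4 1) 1]

theorem swap_pr (x y : M2 F) : T 1 !![0, 1; 1, 0] * pr x y = pr y x * T 1 !![0, 1; 1, 0] := by
  ext (i | i) (j | j) <;> fin_cases i <;> fin_cases j <;>
    simp [pr, T, Matrix.mul_apply, Fintype.sum_sum_type, Fin.sum_univ_two]

theorem pr_mem {x y : M2 F} :
    pr x y ∈ symplecticGroup (Fin 2) F ↔ x.det = 1 ∧ y.det = 1 := by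
  rw [SymplecticGroup.mem_iff, det_fin_two, det_fin_two]
  constructor
  · intro h
    have h1 := congrFun (congrFun h (Sum.inr 0)) (Sum.inl 0)
    have h2 := congrFun (congrFun h (Sum.inr 1)) (Sum.inl 1)
    simp [pr, J, Matrix.mul_apply, Fintype.sum_sum_type, Fin.sum_univ_two] at h1 h2
    exact ⟨by linear_combination h1, by linear_combination h2⟩
  · rintro ⟨h1, h2⟩
    ext (i | i) (j | j) <;> fin_cases i <;> fin_cases j <;>
      simp [pr, J, Matrix.mul_apply, Fintype.sum_sum_type, Fin.sum_univ_two] <;>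
      first
        | ring1
        | linear_combination h1
        | linear_combination h2
        | linear_combination -h1
        | linear_combination -h2

theorem T_mem {x y : M2 F} (h : x.det • (y * yᵀ) = 1) : T x y ∈ symplecticGroup (Fin 2) F := by
  rw [SymplecticGroup.mem_iff]
  have h00 := congrFun (congrFun h 0) 0
  have h01 := congrFun (congrFun h 0) 1
  have h10 := congrFun (congrFun h 1) 0
  have h11 := congrFun (congrFun h 1) 1
  simp only [det_fin_two, Matrix.smul_apply, Matrix.mul_apply, Fin.sum_univ_two, transpose_apply,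
    smul_eq_mul, one_apply_eq, ne_eq, zero_ne_one, one_ne_zero, not_false_eq_true,
    one_apply_ne] at h00 h01 h10 h11
  ext (i | i) (j | j) <;> fin_cases i <;> fin_cases j <;>
    simp [T, J, Matrix.mul_apply, Fintype.sum_sum_type, Fin.sum_univ_two] <;>
    first
      | ring1
      | linear_combination h00
      | linear_combination h01
      | linear_combination h10
      | linear_combination h11
      | linear_combination -h00
      | linear_combination -h01
      | linear_combination -h10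
      | linear_combination -h11

theorem eq_pr_of_comm (h2 : (2 : F) ≠ 0) {g : M4 F} (h : g * pr (-1) 1 = pr (-1) 1 * g) :
    ∃ x y, g = pr x y := by
  have k2 : ∀ x : F, x = -x → x = 0 := fun x hx =>
    (mul_eq_zero.1 (show 2 * x = 0 by linear_combination hx)).resolve_left h2
  have k : ∀ a b, (g * pr (-1) 1 : M4 F) a b = (pr (-1) 1 * g : M4 F) a b := fun a b => by rw [h]
  refine ⟨!![g (.inl 0) (.inl 0), g (.inl 0) (.inr 0); g (.inr 0) (.inl 0), g (.inr 0) (.inr 0)],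
    !![g (.inl 1) (.inl 1), g (.inl 1) (.inr 1); g (.inr 1) (.inl 1), g (.inr 1) (.inr 1)], ?_⟩
  ext a b
  have := k a b
  rcases a with a | a <;> rcases b with b | b <;> fin_cases a <;> fin_cases b <;>
    simp [pr, Matrix.mul_apply, Fintype.sum_sum_type, Fin.sum_univ_two] at this ⊢ <;>
    first
      | exact k2 _ this
      | exact k2 _ this.symm

/-- The embedding of `SL₂ × SL₂`. -/
def emb : SL(2, F) × SL(2, F) →* symplecticGroup (Fin 2) F where
  toFun p := ⟨pr p.1 p.2, pr_mem.2 ⟨p.1.2, p.2.2⟩⟩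
  map_one' := Subtype.ext (by simp [pr_self, T_one])
  map_mul' p q := Subtype.ext (by simp [pr_mul])

theorem emb_val (x y : SL(2, F)) : (emb (x, y) : M4 F) = pr x y := rfl

/-- The swap. -/
def sw : symplecticGroup (Fin 2) F := ⟨T 1 !![0, 1; 1, 0], T_mem (by
  ext i j
  fin_cases i <;> fin_cases j <;> simp [Matrix.vecMul, dotProduct, Fin.sum_univ_two])⟩

theorem sw_emb (x y : SL(2, F)) : sw * emb (x, y) = emb (y, x) * sw := Subtype.ext (swap_pr _ _)

theorem sw_sw : (sw : symplecticGroup (Fin 2) F) * sw = 1 := Subtype.ext (by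
  change T _ _ * T _ _ = 1
  rw [T_mul, ← T_one]
  congr 1
  · simp
  · ext i j
    fin_cases i <;> fin_cases j <;> simp [Matrix.mul_apply, Fin.sum_univ_two])

theorem exists_emb (h2 : (2 : F) ≠ 0) {g : symplecticGroup (Fin 2) F}
    (h : g * emb (-1, 1) = emb (-1, 1) * g) : ∃ x y, g = emb (x, y) := by
  obtain ⟨x, y, e⟩ := eq_pr_of_comm h2 (g := g) (by simpa [emb_val] using congrArg Subtype.val h)
  have := pr_mem.1 (e ▸ g.2)
  exact ⟨⟨x, this.1⟩, ⟨y, this.2⟩, Subtype.ext e⟩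

theorem emb_inj {x y x' y' : SL(2, F)} : emb (x, y) = emb (x', y') ↔ x = x' ∧ y = y' := by
  rw [Subtype.ext_iff, emb_val, emb_val, pr_inj]
  exact ⟨fun h => ⟨Subtype.ext h.1, Subtype.ext h.2⟩, fun h => by rw [h.1, h.2]; exact ⟨rfl, rfl⟩⟩

theorem sl_uniq (h2 : (2 : F) ≠ 0) {x : SL(2, F)} (h : x * x = 1) : x = 1 ∨ x = -1 := by
  have hd := x.2
  rw [det_fin_two] at hd
  have k : ∀ a b, (x * x).1 a b = (1 : SL(2, F)).1 a b := fun a b => by rw [h]
  have h1 := k 0 0
  have h3 := k 0 1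
  have h4 := k 1 0
  simp [Matrix.mul_apply, Fin.sum_univ_two, -mul_eq_zero] at h1 h3 h4
  have hps : x.1 0 0 + x.1 1 1 ≠ 0 := fun e =>
    h2 (by linear_combination x.1 0 0 * e - h1 - hd)
  have hq : x.1 0 1 = 0 := (mul_eq_zero.1 (show x.1 0 1 * (x.1 0 0 + x.1 1 1) = 0 by
    linear_combination h3)).resolve_right hps
  have hr : x.1 1 0 = 0 := (mul_eq_zero.1 (show x.1 1 0 * (x.1 0 0 + x.1 1 1) = 0 by
    linear_combination h4)).resolve_right hps
  rw [hq] at hd h1
  have hs : x.1 1 1 = x.1 0 0 := by linear_combination x.1 0 0 * hd - x.1 1 1 * h1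
  rcases mul_self_eq_one_iff.1 (show x.1 0 0 * x.1 0 0 = 1 by linear_combination h1) with e | e
  · left
    ext i j
    fin_cases i <;> fin_cases j <;> simp [hq, hr, hs, e]
  · right
    ext i j
    fin_cases i <;> fin_cases j <;> simp [hq, hr, hs, e]

/-- First quaternion unit. -/
def qi : SL(2, F) := ⟨!![0, -1; 1, 0], by simp [det_fin_two]⟩

/-- Second quaternion unit. -/
def qj {a b : F} (h : a ^ 2 + b ^ 2 = -1) : SL(2, F) :=
  ⟨!![a, b; b, -a], by rw [det_fin_two]; simp; linear_combination -h⟩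

theorem qi_val : ((qi : SL(2, F)) : M2 F) = !![0, -1; 1, 0] := rfl

theorem qj_val {a b : F} (h : a ^ 2 + b ^ 2 = -1) : (qj h : M2 F) = !![a, b; b, -a] := rfl

theorem exists_sl {M : M2 F} (h : M.det = 1) : ∃ x : SL(2, F), (x : M2 F) = M := ⟨⟨M, h⟩, rfl⟩

theorem sl_cent (h2 : (2 : F) ≠ 0) {a b : F} (hab : a ^ 2 + b ^ 2 = -1) {x : SL(2, F)}
    (hi : Commute x qi) (hj : Commute x (qj hab)) : x = 1 ∨ x = -1 := by
  refine sl_uniq h2 ?_
  have hd := x.2
  rw [det_fin_two] at hd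
  have k : ∀ a b, (x * qi).1 a b = (qi * x).1 a b := fun a b => by rw [hi.eq]
  have k' : ∀ a b, (x * qj hab).1 a b = (qj hab * x).1 a b := fun a b => by rw [hj.eq]
  have h1 := k 0 0
  have h3 := k 0 1
  have h4 := k' 0 0
  have h5 := k' 0 1
  simp [qi_val, qj_val, Matrix.mul_apply, Fin.sum_univ_two, -mul_eq_zero] at h1 h3 h4 h5
  have hr : x.1 1 0 = 0 := by
    refine (mul_eq_zero.1 (show 2 * x.1 1 0 = 0 from ?_)).resolve_left h2
    linear_combination (2 * x.1 1 0) * hab - a * (2 * a * h1 - b * h3 + h5) - b * (b * h1 - h4)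
  have hq : x.1 0 1 = 0 := by rw [h1, hr, neg_zero]
  ext i j
  fin_cases i <;> fin_cases j <;> simp [Matrix.mul_apply, Fin.sum_univ_two, hq, hr]
  · linear_combination hd + x.1 0 0 * h3 + x.1 1 0 * hq
  · linear_combination hd - x.1 1 1 * h3 + x.1 1 0 * hq

theorem qpair {a b : F} (hab : a ^ 2 + b ^ 2 = -1) : QPair (-1 : SL(2, F)) qi (qj hab) := by
  refine ⟨?_, ?_, ?_⟩
  · ext i j
    fin_cases i <;> fin_cases j <;> simp [qi_val, Matrix.mul_apply, Fin.sum_univ_two]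
  · ext i j
    fin_cases i <;> fin_cases j <;> simp [qj_val, Matrix.mul_apply, Fin.sum_univ_two] <;>
      first | ring1 | linear_combination hab
  · rw [mul_inv_eq_iff_eq_mul, eq_inv_mul_iff_mul_eq]
    ext i j
    fin_cases i <;> fin_cases j <;> simp [qi_val, qj_val, Matrix.mul_apply, Fin.sum_univ_two]

theorem sl_sq {x : SL(2, F)} (h : x * x = -1) :
    x.1 1 1 = -x.1 0 0 ∧ x.1 0 0 ^ 2 + x.1 0 1 * x.1 1 0 = -1 := by
  have hd := x.2
  rw [det_fin_two] at hd
  have k : ∀ a b, (x * x).1 a b = (-1 : SL(2, F)).1 a b := fun a b => by rw [h]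
  have h1 := k 0 0
  have h4 := k 1 1
  simp [Matrix.mul_apply, Fin.sum_univ_two] at h1 h4
  have : (x.1 0 0 + x.1 1 1) ^ 2 = 0 := by linear_combination h1 + h4 + 2 * hd
  exact ⟨by linear_combination pow_eq_zero_iff (two_ne_zero) |>.1 this, by linear_combination h1⟩

theorem sl_pair_conj (h2 : (2 : F) ≠ 0) {x y : SL(2, F)} (h : QPair (-1) x y) : IsConj x y := by
  obtain ⟨hx1, hx2⟩ := sl_sq h.ii
  obtain ⟨hy1, hy2⟩ := sl_sq h.jj
  have h1 : x * y * x = y := by
    calc x * y * x = x * (y * x * y⁻¹) * y := by group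
      _ = y := by rw [h.ji]; group
  have h3 : x * y * (-1) = y * x := by
    rw [← h.ii]
    calc x * y * (x * x) = (x * y * x) * x := by group
      _ = _ := by rw [h1]
  have hX : x.1 * x.1 = -1 := by simpa using congrArg Subtype.val h.ii
  have hY : y.1 * y.1 = -1 := by simpa using congrArg Subtype.val h.jj
  have hXY : y.1 * x.1 = -(x.1 * y.1) := by simpa using (congrArg Subtype.val h3).symm
  obtain ⟨w, hw⟩ := exists_sl (M := (2 : F)⁻¹ • (1 + x.1 + y.1 + x.1 * y.1)) (by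
    rw [det_smul, det_fin_two]
    simp [Matrix.mul_apply, Fin.sum_univ_two, hx1, hy1]
    field_simp
    linear_combination (y.1 0 0 ^ 2 + y.1 0 1 * y.1 1 0 - 1) * hx2 - 2 * hy2)
  refine isConj_iff.2 ⟨w, ?_⟩
  · rw [mul_inv_eq_iff_eq_mul]
    refine Subtype.ext ?_
    change w.1 * x.1 = y.1 * w.1
    rw [hw, smul_mul_assoc, mul_smul_comm]
    congr 1
    have e1 : x.1 * y.1 * x.1 = y.1 := by simpa using congrArg Subtype.val h1
    have e2 : y.1 * (x.1 * y.1) = x.1 := by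
      rw [← mul_assoc, hXY, neg_mul, mul_assoc, hY]; simp
    rw [add_mul, add_mul, add_mul, mul_add, mul_add, mul_add, e1, e2, hX, hY]
    simp only [one_mul, mul_one]
    abel

theorem mem_center_iff' (h2 : (2 : F) ≠ 0) {a b : F} (hab : a ^ 2 + b ^ 2 = -1)
    {g : symplecticGroup (Fin 2) F} :
    g ∈ center (symplecticGroup (Fin 2) F) ↔ (g : M4 F) = 1 ∨ (g : M4 F) = -1 := by
  rw [Subgroup.mem_center_iff]
  constructor
  · intro h
    obtain ⟨x, y, rfl⟩ := exists_emb h2 (h _).symm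
    have h1 := h sw
    rw [sw_emb, mul_left_inj, emb_inj] at h1
    obtain rfl := h1.1
    have h3 := h (emb (qi, 1))
    have h4 := h (emb (qj hab, 1))
    rw [← map_mul, ← map_mul, Prod.mk_mul_mk, Prod.mk_mul_mk, emb_inj] at h3 h4
    rcases sl_cent h2 hab h3.1.symm h4.1.symm with rfl | rfl
    · left; rw [emb_val]; simp [pr_self, T_one]
    · right; rw [emb_val]; simp [pr_self, T_one, T_neg]
  · rintro (h | h) g' <;> refine Subtype.ext ?_ <;> simp [h]

theorem exists_p4 (h2 : (2 : F) ≠ 0) {a b : F} (hab : a ^ 2 + b ^ 2 = -1) :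
    ∃ (z τ i j ω u v : Cfsg.PSp 2 F) (L : Subgroup (Cfsg.PSp 2 F)), P4 z τ i j ω u v L := by
  let π : symplecticGroup (Fin 2) F →* Cfsg.PSp 2 F := QuotientGroup.mk' _
  have hπ : ∀ g g', π g = π g' ↔ (g : M4 F) = g' ∨ (g : M4 F) = -g' := by
    intro g g'
    rw [← mul_inv_eq_one, ← map_inv, ← map_mul, ← MonoidHom.mem_ker, QuotientGroup.ker_mk',
      mem_center_iff' h2 hab]
    have e : (g : M4 F) = (g * g'⁻¹ : symplecticGroup (Fin 2) F) * (g' : M4 F) := by
      rw [← Submonoid.coe_mul, inv_mul_cancel_right]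
    have e' : ((g * g'⁻¹ : symplecticGroup (Fin 2) F) : M4 F) =
        g * (g'⁻¹ : symplecticGroup (Fin 2) F) := rfl
    have e'' : (g' : M4 F) * (g'⁻¹ : symplecticGroup (Fin 2) F) = 1 := by
      rw [← Submonoid.coe_mul, mul_inv_cancel]; rfl
    constructor
    · rintro (h | h)
      · left; rw [e, h, one_mul]
      · right; rw [e, h, neg_one_mul]
    · rintro (h | h)
      · left; rw [e', h, e'']
      · right; rw [e', h, neg_mul, e'']
  have hneg : (1 : SL(2, F)) ≠ -1 := fun e => by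
    have : (1 : SL(2, F)).1 0 0 = (-1 : SL(2, F)).1 0 0 := by rw [← e]
    simp at this
    exact h2 (by linear_combination this)
  let φ : SL(2, F) × SL(2, F) →* Cfsg.PSp 2 F := π.comp emb
  have hφ : ∀ x y x' y', φ (x, y) = φ (x', y') ↔ (x = x' ∧ y = y') ∨ (x = -x' ∧ y = -y') := by
    intro x y x' y'
    change π _ = π _ ↔ _
    rw [hπ, emb_val, emb_val, ← pr_neg, pr_inj, pr_inj]
    refine or_congr (and_congr ?_ ?_) (and_congr ?_ ?_) <;>
      exact ⟨fun h => Subtype.ext h, fun h => congrArg Subtype.val h⟩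
  have hφ1 : ∀ x x', φ (x, 1) = φ (x', 1) ↔ x = x' := by
    intro x x'
    rw [hφ]
    simp [hneg]
  have hm : ∀ x y x' y', φ (x, y) * φ (x', y') = φ (x * x', y * y') := fun x y x' y' => by
    rw [← map_mul]; rfl
  have hi : ∀ x y, (φ (x, y))⁻¹ = φ (x⁻¹, y⁻¹) := fun x y => by rw [← map_inv]; rfl
  have h1 : (1 : Cfsg.PSp 2 F) = φ (1, 1) := (map_one φ).symm
  have ht : ∀ x y, π sw * φ (x, y) * (π sw)⁻¹ = φ (y, x) := by
    intro x y
    rw [mul_inv_eq_iff_eq_mul]
    change π _ * π _ = π _ * π _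
    rw [← map_mul, ← map_mul, sw_emb]
  have hd : ∀ x, φ (x, 1) * (π sw * φ (x, 1) * (π sw)⁻¹) = φ (x, x) := fun x => by
    rw [ht, hm, mul_one, one_mul]
  have hc : (2 : F)⁻¹ * 2 = 1 := inv_mul_cancel₀ h2
  have hp := qpair hab
  set I : M2 F := !![0, -1; 1, 0] with hI
  set Jm : M2 F := !![a, b; b, -a] with hJ
  have hII : I * I = -1 := congrArg Subtype.val hp.ii
  have hJJ : Jm * Jm = -1 := congrArg Subtype.val hp.jj
  have hJI : Jm * I = -(I * Jm) := by
    ext i j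
    fin_cases i <;> fin_cases j <;> simp [hI, hJ, Matrix.mul_apply, Fin.sum_univ_two]
  set H : M2 F := (2 : F)⁻¹ • !![1, 1; 1, -1] with hH
  have hHH : (2 : F) • (H * H) = 1 := by
    ext i j
    fin_cases i <;> fin_cases j <;> simp [hH, Matrix.mul_apply, Fin.sum_univ_two] <;>
      field_simp <;> ring
  have hHt : Hᵀ = H := by
    ext i j
    fin_cases i <;> fin_cases j <;> simp [hH]
  have hHD : H * !![-1, 0; 0, 1] = -(!![0, 1; 1, 0] * H) := by
    ext i j
    fin_cases i <;> fin_cases j <;> simp [hH, Matrix.mul_apply, Fin.sum_univ_two]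
  have hdA : (I + Jm).det = 2 := by
    rw [det_fin_two]; simp [hI, hJ]; linear_combination -hab
  have hdB : (Jm + I * Jm).det = 2 := by
    rw [det_fin_two]; simp [hI, hJ]; linear_combination -2 * hab
  have hK : I * Jm * I = Jm := by
    rw [mul_assoc, hJI, mul_neg, ← mul_assoc, hII]; simp
  have hK2 : I * Jm * Jm = -I := by rw [mul_assoc, hJJ]; simp
  have hK3 : Jm * (I * Jm) = I := by rw [← mul_assoc, hJI, neg_mul, hK2, neg_neg]
  have hK4 : I * (I * Jm) = -Jm := by rw [← mul_assoc, hII]; simp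
  have hK5 : I * Jm * (I * Jm) = -1 := by rw [← mul_assoc, hK, hJJ]
  have hAA : (I + Jm) * (I + Jm) = -((2 : F) • 1) := by
    rw [add_mul, mul_add, mul_add, hII, hJJ, hJI, two_smul]; abel
  have hBB : (Jm + I * Jm) * (Jm + I * Jm) = -((2 : F) • 1) := by
    rw [add_mul, mul_add, mul_add, hJJ, hK2, hK3, hK5, two_smul]; abel
  have hAI : (I + Jm) * I = Jm * (I + Jm) := by
    rw [add_mul, mul_add, hII, hJJ]; abel
  have hBI : (Jm + I * Jm) * I = -(I * (Jm + I * Jm)) := by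
    rw [add_mul, mul_add, hJI, hK, hK4]; abel
  have hBJ : (Jm + I * Jm) * Jm = I * Jm * (Jm + I * Jm) := by
    rw [add_mul, mul_add, hJJ, hK2, hK5]; abel
  obtain ⟨u, hu⟩ : ∃ u : symplecticGroup (Fin 2) F, (u : M4 F) = T (I + Jm) H :=
    ⟨⟨_, T_mem (by rw [hdA, hHt, hHH])⟩, rfl⟩
  obtain ⟨v, hv⟩ : ∃ v : symplecticGroup (Fin 2) F, (v : M4 F) = T (Jm + I * Jm) H :=
    ⟨⟨_, T_mem (by rw [hdB, hHt, hHH])⟩, rfl⟩
  obtain ⟨ω, hω⟩ := exists_sl (M := (2 : F)⁻¹ • ((Jm + I * Jm) * (I + Jm))) (by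
    rw [det_smul, det_mul, hdA, hdB]
    simp
    field_simp)
  have hsw : ((sw : symplecticGroup (Fin 2) F) : M4 F) = T 1 !![0, 1; 1, 0] := rfl
  have hconj : ∀ (g x y : symplecticGroup (Fin 2) F),
      ((g : M4 F) * x = y * g ∨ (g : M4 F) * x = -(y * g)) → π g * π x * (π g)⁻¹ = π y := by
    intro g x y h
    rw [mul_inv_eq_iff_eq_mul, ← map_mul, ← map_mul, hπ]
    exact h
  have hz : ((emb (-1, 1) : symplecticGroup (Fin 2) F) : M4 F) = T 1 !![-1, 0; 0, 1] := by
    rw [emb_val, ← pr_z]; simp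
  have hdd : ∀ x : SL(2, F), ((emb (x, x) : symplecticGroup (Fin 2) F) : M4 F) = T x 1 :=
    fun x => by rw [emb_val, pr_self]
  refine ⟨φ (-1, 1), π sw, φ (qi, 1), φ (qj hab, 1), φ (ω, 1), π u, π v,
    (φ.comp (MonoidHom.inl _ _)).range, ?_, ?_, ?_, ?_, ⟨_, rfl⟩, ?_, ?_, ?_, ?_, ⟨_, rfl⟩,
    ⟨_, rfl⟩, ⟨?_, ?_, ?_⟩, ?_, ?_, ⟨_, rfl⟩, ?_, ?_, ?_, ?_, ?_, ?_, ?_, ?_, ?_, ?_⟩
  · rw [h1, Ne, hφ1]; exact hneg.symm
  · rw [hm, h1, hφ]; simp
  · rw [← map_mul, sw_sw, map_one]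
  · rw [ht, hφ]; simp
  · rintro _ ⟨x, rfl⟩ _ ⟨y, rfl⟩
    change φ (x, 1) * (_ * φ (y, 1) * _) = (_ * φ (y, 1) * _) * φ (x, 1)
    rw [ht, hm, hm]; simp
  · rintro _ ⟨x, rfl⟩ ⟨y, hy⟩
    change φ (y, 1) = _ * φ (x, 1) * _ at hy
    change φ (x, 1) = _ ∨ φ (x, 1) = _
    rw [ht, hφ] at hy
    rw [h1, hφ1, hφ1]
    rcases hy with hy | hy
    · exact Or.inl hy.2.symm
    · right; rw [hy.2, neg_neg]
  · intro g hg
    obtain ⟨g, rfl⟩ := QuotientGroup.mk'_surjective _ g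
    change π g * π _ = π _ * π g at hg
    rw [← map_mul, ← map_mul, hπ] at hg
    have key : ∀ x y, π (emb (x, y)) = φ (x, 1) * (π sw * φ (y, 1) * (π sw)⁻¹) := fun x y => by
      rw [ht, hm, mul_one, one_mul]; rfl
    rcases hg with hg | hg
    · obtain ⟨x, y, rfl⟩ := exists_emb h2 (Subtype.ext hg)
      exact ⟨_, ⟨x, rfl⟩, _, ⟨y, rfl⟩, Or.inl (key x y)⟩
    · obtain ⟨x, y, e⟩ := exists_emb h2 (g := g * sw) (Subtype.ext (by
        have e1 : (sw : symplecticGroup (Fin 2) F) * emb (-1, 1) = emb (1, -1) * sw := sw_emb _ _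
        have e2 : ((emb (1, -1) : symplecticGroup (Fin 2) F) : M4 F) =
            -(emb (-1, 1) : symplecticGroup (Fin 2) F) := by
          rw [emb_val, emb_val, ← pr_neg]; simp
        rw [mul_assoc, e1, ← mul_assoc, ← mul_assoc, Submonoid.coe_mul, Submonoid.coe_mul,
          Submonoid.coe_mul _ _ sw, e2, mul_neg, ← Submonoid.coe_mul, hg, neg_neg]))
      refine ⟨_, ⟨x, rfl⟩, _, ⟨y, rfl⟩, Or.inr ?_⟩
      change π g = φ (x, 1) * (π sw * φ (y, 1) * (π sw)⁻¹) * π sw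
      rw [← key, ← e, ← map_mul, mul_assoc, sw_sw, mul_one]
  · rintro _ ⟨x, rfl⟩ hx
    change φ (x, 1) * φ (x, 1) = _ at hx
    change φ (x, 1) = _ ∨ φ (x, 1) = _
    rw [hm, h1, mul_one, hφ1] at hx
    rw [h1, hφ1, hφ1]
    exact sl_uniq h2 hx
  · rw [hm, hp.ii, mul_one]
  · rw [hm, hp.jj, mul_one]
  · rw [hi, hi, hm, hm, hp.ji]; simp
  · rintro _ ⟨x, rfl⟩ e1 e2
    change φ (x, 1) * _ = _ * φ (x, 1) at e1 e2
    change φ (x, 1) = _ ∨ φ (x, 1) = _
    rw [hm, hm, mul_one, hφ1] at e1 e2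
    rw [h1, hφ1, hφ1]
    exact sl_cent h2 hab e1 e2
  · rintro _ ⟨x, rfl⟩ _ ⟨y, rfl⟩ ⟨e1, e2, e3⟩
    change φ (x, 1) * φ (x, 1) = _ at e1
    change φ (y, 1) * φ (y, 1) = _ at e2
    change φ (y, 1) * φ (x, 1) * (φ (y, 1))⁻¹ = (φ (x, 1))⁻¹ at e3
    rw [hm, mul_one, hφ1] at e1 e2
    rw [hi, hi, hm, hm, inv_one, mul_one, mul_one, hφ1] at e3
    exact (φ.comp (MonoidHom.inl _ _)).map_isConj (sl_pair_conj h2 ⟨e1, e2, e3⟩)
  · rw [mul_inv_eq_iff_eq_mul, hm, hm, hm, mul_one, mul_one, hφ1]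
    refine Subtype.ext ?_
    change ω.1 * I = I * Jm * ω.1
    rw [hω, smul_mul_assoc, mul_smul_comm, mul_assoc, hAI, ← mul_assoc, hBJ, mul_assoc]
  · rw [mul_inv_eq_iff_eq_mul, eq_inv_mul_iff_mul_eq, hm, hm, mul_one, mul_one, hφ1]
    refine Subtype.ext ?_
    change I * (ω.1 * Jm) = ω.1
    have hAJ : (I + Jm) * Jm = I * (I + Jm) := by
      rw [add_mul, mul_add, hII, hJJ]; abel
    rw [hω, smul_mul_assoc, mul_smul_comm, mul_assoc, hAJ, ← mul_assoc _ I, hBI, neg_mul,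
      mul_neg, ← mul_assoc, ← mul_assoc, hII, neg_one_mul, neg_mul, neg_neg]
  · rw [hd, ← map_mul]
    change π _ = _
    rw [hπ, hdd, Submonoid.coe_mul, hu, hv, T_mul, hω, T_smul, ← hHH, smul_smul, hc, one_smul]
    exact Or.inl rfl
  · rw [← map_mul, ← map_one π, hπ, Submonoid.coe_mul, hu, T_mul, hAA, T_neg, T_smul, hHH, T_one]
    exact Or.inr rfl
  · rw [← map_mul, ← map_one π, hπ, Submonoid.coe_mul, hv, T_mul, hBB, T_neg, T_smul, hHH, T_one]
    exact Or.inr rfl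
  · refine hconj _ _ _ (Or.inr ?_)
    rw [hz, hsw, hu, T_mul, T_mul, hHD, T_neg', one_mul, mul_one]
  · refine hconj _ _ _ (Or.inr ?_)
    rw [hz, hsw, hv, T_mul, T_mul, hHD, T_neg', one_mul, mul_one]
  · rw [hd, hd]
    refine hconj _ _ _ (Or.inl ?_)
    rw [hdd, hdd, hu, T_mul, T_mul, one_mul, mul_one]
    exact congrArg (T · H) hAI
  · rw [hd]
    refine hconj _ _ _ (Or.inr ?_)
    rw [hdd, hv, T_mul, T_mul, one_mul, mul_one, ← T_neg]
    exact congrArg (T · H) hBI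
  · rw [hd, hd, hm]
    refine hconj _ _ _ (Or.inl ?_)
    rw [hdd, hdd, hv, T_mul, T_mul, one_mul, mul_one]
    exact congrArg (T · H) hBJ

end Cfsg.Agent.H4.Sp4
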