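import Cfsg.Agent.H4.FixAvg2
import Cfsg.Agent.H4.Extend
import Cfsg.Agent.H4.Monomial
import Cfsg.Agent.H1.Hall

/-! Degrees of primitive characters of solvable groups and conjugacy class sizes. -/

set_option autoImplicit false
set_option maxHeartbeats 400000
set_option linter.unusedSectionVars false
set_option linter.style.haveILetI false

namespace Cfsg.Agent.H4

open Cfsg Cfsg.Agent.H3 Subgroup
open scoped ComplexConjugate IsMulCommutative

section Mod
variable {G : Type*} [Group G]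

theorem exists_conj_rep (N : Subgroup G) [hN : N.Normal] [IsMulCommutative N]
    (hmin : ∀ U : Subgroup G, U.Normal → U ≤ N → U = ⊥ ∨ U = N) :
    ∃ ρ : Representation ℤ G (Additive N), IrrZ ρ ∧
      ∀ g v, ((ρ g v).toMul : G) = g * (v.toMul : G) * g⁻¹ := by
  let ρ : Representation ℤ G (Additive N) :=
    (Representation.ofMulDistribMulAction (ConjAct G) N).comp ConjAct.toConjAct.toMonoidHom
  have hρ : ∀ g v, ((ρ g v).toMul : G) = g * (v.toMul : G) * g⁻¹ := fun g v => rfl
  refine ⟨ρ, fun U hU => ?_, hρ⟩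
  let U' : Subgroup G := (U.toAddSubgroup.toSubgroup').map N.subtype
  rcases hmin U' ⟨by
    rintro _ ⟨n, hn, rfl⟩ g
    exact ⟨(ρ g (Additive.ofMul n)).toMul, hU g hn, hρ g _⟩⟩ (map_subtype_le _) with h | h
  · refine Or.inl (eq_bot_iff.2 fun v hv => ?_)
    have : (v.toMul : G) ∈ U' := ⟨v.toMul, hv, rfl⟩
    rw [h, mem_bot] at this
    exact (Submodule.mem_bot ℤ).2 (Additive.toMul.injective (Subtype.ext this))
  · refine Or.inr (eq_top_iff.2 fun v _ => ?_)
    obtain ⟨w, hw, e⟩ : (v.toMul : G) ∈ U' := by rw [h]; exact v.toMul.2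
    rw [Subtype.ext e] at hw
    exact hw

theorem le_centralizer_of_pow [Finite G] (N : Subgroup G) [hN : N.Normal] [IsMulCommutative N]
    (hmin : ∀ U : Subgroup G, U.Normal → U ≤ N → U = ⊥ ∨ U = N) {p k : ℕ} [Fact p.Prime]
    (hk : Nat.card N = p ^ k) (M : Subgroup G) [M.Normal]
    (hp : ∀ m ∈ M, ∃ j : ℕ, m ^ p ^ j ∈ centralizer (N : Set G)) : M ≤ centralizer (N : Set G) := by
  obtain ⟨ρ, h1, h2⟩ := exists_conj_rep N hmin
  have := h1.eq_one_of_pow (k := k) hk M fun m hm => by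
    obtain ⟨j, hj⟩ := hp m hm
    refine ⟨j, LinearMap.ext fun v => Additive.toMul.injective (Subtype.ext ?_)⟩
    rw [h2, ← hj _ v.toMul.2, mul_inv_cancel_right]
    rfl
  intro m hm n hn
  have h3 := h2 m (Additive.ofMul ⟨n, hn⟩)
  rw [this m hm] at h3
  exact eq_mul_inv_iff_mul_eq.1 h3

theorem prod_cent_sq_le [Fintype G] (hs : Group.IsSolvable G) (N : Subgroup G) [hN : N.Normal]
    [IsMulCommutative N] (hmin : ∀ U : Subgroup G, U.Normal → U ≤ N → U = ⊥ ∨ U = N) {p k : ℕ}
    [Fact p.Prime] (hk : Nat.card N = p ^ k) (hc : ¬ N ≤ center G) :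
    ∏ g : G, Nat.card (N ⊓ centralizer {g} : Subgroup G) ^ 2 ≤ Nat.card N ^ Nat.card G := by
  obtain ⟨ρ, h1, h2⟩ := exists_conj_rep N hmin
  have := prod_fix_sq_le_of_solvable hs h1 (k := k) hk (by
    by_contra h
    push Not at h
    refine hc fun n hn => mem_center_iff.2 fun g => ?_
    have h3 := h2 g (Additive.ofMul ⟨n, hn⟩)
    rw [h g] at h3
    exact (eq_mul_inv_iff_mul_eq.1 h3).symm)
  refine le_trans (Finset.prod_le_prod' fun g _ => Nat.pow_le_pow_left ?_ 2) this
  refine Nat.card_le_card_of_injective (fun x => ⟨Additive.ofMul ⟨x.1, x.2.1⟩,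
    mem_fixS.2 (Additive.toMul.injective (Subtype.ext ?_))⟩) fun x y e => ?_
  · rw [h2]
    exact mul_inv_eq_iff_eq_mul.2 (x.2.2 g rfl)
  · exact Subtype.ext (congrArg (fun z : fixS (ρ g) => ((Additive.toMul z.1 : N) : G)) e)

theorem card_eq_prime_of_central [Finite G] (N : Subgroup G) (hc : N ≤ center G)
    (hmin : ∀ U : Subgroup G, U.Normal → U ≤ N → U = ⊥ ∨ U = N) {p : ℕ} [hp : Fact p.Prime]
    (hd : p ∣ Nat.card N) : Nat.card N = p := by
  obtain ⟨x, hx⟩ := exists_prime_orderOf_dvd_card' p hd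
  have h1 : zpowers (x : G) ≤ N := by simp
  rcases hmin (zpowers (x : G)) ⟨fun n hn g => by
    rwa [mem_center_iff.1 (hc (h1 hn)) g, mul_inv_cancel_right]⟩ h1 with h | h
  · rw [zpowers_eq_bot, OneMemClass.coe_eq_one] at h
    rw [h, orderOf_one] at hx
    exact absurd hx hp.out.ne_one.symm
  · rw [← h, Nat.card_zpowers, orderOf_coe, hx]

end Mod

section Down
variable {G : Type*} [Group G] [Fintype G]

theorem cosetAvg_normSq_eq_or {θ : G → ℂ} (hθ : IsIrrCharacter G θ) (N : Subgroup G) [N.Normal]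
    [Fintype N] (hN : ∀ a b : G, a * b * a⁻¹ * b⁻¹ ∈ N) (k : G) :
    cosetAvg N (θ * fun g => conj (θ g)) k = 0 ∨
      cosetAvg N (θ * fun g => conj (θ g)) k = cosetAvg N (θ * fun g => conj (θ g)) 1 := by
  classical
  by_cases h0 : ∀ n : N, θ (n * k) = 0
  · left
    simp [cosetAvg, h0]
  right
  push Not at h0
  obtain ⟨n, hn⟩ := h0
  have hφ := isCharacter_cosetAvg N (hθ.isCharacter.mul hθ.isCharacter.conj)
  rw [hφ.isClassFunction.apply_eq_sum_irr k, hφ.isClassFunction.apply_eq_sum_irr 1]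
  refine Finset.sum_congr rfl fun β _ => ?_
  by_cases h2 : classInner (cosetAvg N (θ * fun g => conj (θ g))) β = 0
  · rw [h2, zero_mul, zero_mul]
  congr 1
  have hβ := β.2
  have h3 : ∀ n ∈ N, ∀ x, (β : G → ℂ) (n * x) = (β : G → ℂ) x := by
    rcases cosetAvg_irr N hβ with k | k
    · intro n hn x
      rw [← k, cosetAvg_mul N β hn]
    · refine absurd ?_ h2
      rw [← classInner_star, ← classInner_cosetAvg N β fun n hn x => cosetAvg_mul N _ hn x, k]
      simp [classInner]
  have h4 : (β : G → ℂ) 1 = 1 := irr_apply_one_of_commutator hβ fun a b => by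
    simpa using h3 _ (hN a b) 1
  have h5 : θ = θ * β := by
    by_contra hne
    refine h2 ?_
    rw [classInner_cosetAvg N _ h3,
      ← hθ.classInner_of_ne (hθ.mul_linear hβ.isCharacter h4) hne]
    unfold classInner
    congr 1
    exact Finset.sum_congr rfl fun x _ => by simp only [Pi.mul_apply, map_mul]; ring
  have h6 := congrFun h5 (n * k)
  rw [Pi.mul_apply, h3 _ n.2] at h6
  rw [h4]
  exact (mul_left_cancel₀ hn (h6.symm.trans (mul_one _).symm))

/-- The ramification index of `χ` over `K`. -/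
def Ram (χ : G → ℂ) (K : Subgroup G) (e : ℕ) : Prop :=
  ∑ᶠ n : K, χ n * conj (χ n) = e ^ 2 * Nat.card K

theorem IsPrim.exists_ram {χ : G → ℂ} (hχ : IsIrrCharacter G χ) (hp : IsPrim χ) (K : Subgroup G)
    [K.Normal] : ∃ e, 0 < e ∧ Ram χ K e := by
  classical
  obtain ⟨θ, e, hθ, he, -, h⟩ := hp.exists_res_eq hχ K
  refine ⟨e, he, ?_⟩
  have h1 := hθ.classInner_self
  rw [classInner, inv_mul_eq_iff_eq_mul₀ (natCard_ne_zero_C K), mul_one] at h1
  rw [Ram, finsum_eq_sum_of_fintype, ← h1, Finset.mul_sum]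
  refine Finset.sum_congr rfl fun n _ => ?_
  rw [h, map_mul, Complex.conj_natCast]
  ring

theorem Ram.eq_of_bot {χ : G → ℂ} (hχ : IsCharacter G χ) {e : ℕ} (h : Ram χ ⊥ e) :
    e = charDegree χ := by
  rw [Ram, finsum_unique, card_bot, Subsingleton.elim default (1 : (⊥ : Subgroup G)),
    OneMemClass.coe_one, ← hχ.cast_charDegree, Complex.conj_natCast, ← sq, Nat.cast_one,
    mul_one] at h
  exact (Nat.pow_left_injective two_ne_zero (by exact_mod_cast h)).symm

theorem ram_top {χ : G → ℂ} (hχ : IsIrrCharacter G χ) : Ram χ ⊤ 1 := by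
  classical
  have h1 := hχ.classInner_self
  rw [classInner, inv_mul_eq_iff_eq_mul₀ (natCard_ne_zero_C G), mul_one] at h1
  rw [Ram, finsum_eq_sum_of_fintype, card_top, Nat.cast_one, one_pow, one_mul, ← h1]
  exact Fintype.sum_equiv topEquiv.toEquiv _ _ fun _ => rfl

theorem IsPrim.going_down {χ : G → ℂ} (hχ : IsIrrCharacter G χ) (hp : IsPrim χ) {L K : Subgroup G}
    [L.Normal] [K.Normal] (hLK : L ≤ K)
    (hch : ∀ U : Subgroup G, U.Normal → L ≤ U → U ≤ K → U = L ∨ U = K)
    (hab : ∀ a ∈ K, ∀ b ∈ K, a * b * a⁻¹ * b⁻¹ ∈ L) {d e : ℕ} (hL : Ram χ L d) (hK : Ram χ K e) :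
    d = e ∨ d ^ 2 = L.relIndex K * e ^ 2 := by
  classical
  let ψ := cosetAvg L (χ * fun g => conj (χ g))
  have hψ : IsCharacter G ψ := isCharacter_cosetAvg L (hχ.isCharacter.mul hχ.isCharacter.conj)
  have hψ1 : ψ 1 = d ^ 2 := by
    rw [Ram, finsum_eq_sum_of_fintype] at hL
    simp only [ψ, cosetAvg, Pi.mul_apply, mul_one, hL]
    field_simp [natCard_ne_zero_C L]
  obtain ⟨θ, c, hθ, -, -, h⟩ := hp.exists_res_eq hχ K
  have h1 : ∀ k : K, ψ k = c ^ 2 * cosetAvg (L.subgroupOf K) (θ * fun g => conj (θ g)) k := by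
    intro k
    simp only [ψ, cosetAvg, Pi.mul_apply]
    rw [Nat.card_congr (subgroupOfEquivOfLe hLK).toEquiv, mul_left_comm, Finset.mul_sum _ _ (_ ^ 2)]
    congr 1
    refine (Fintype.sum_equiv (subgroupOfEquivOfLe hLK).toEquiv _ _ fun n => ?_).symm
    rw [show ((subgroupOfEquivOfLe hLK).toEquiv n : G) * k = (n * k : K) from rfl, h, map_mul,
      Complex.conj_natCast]
    ring
  have h2 : ∀ k : K, ψ k = 0 ∨ ψ k = ψ 1 := fun k => by
    rcases cosetAvg_normSq_eq_or hθ (L.subgroupOf K) (fun a b => hab a a.2 b b.2) k with e | e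
    · left; rw [h1, e, mul_zero]
    · right; rw [h1, e, ← h1]; rfl
  have h3 : ∑ k : K, ψ k = e ^ 2 * Nat.card K := by
    rw [Ram, finsum_eq_sum_of_fintype] at hK
    rw [← hK, Finset.sum_congr rfl fun k _ => h1 k, ← Finset.mul_sum, sum_cosetAvg, Finset.mul_sum]
    refine Finset.sum_congr rfl fun n _ => ?_
    rw [h, map_mul, Complex.conj_natCast, Pi.mul_apply]
    ring
  haveI := hψ.normal_charKer
  have h4 : ∑ k : K, ψ k = Nat.card (charKer ψ ⊓ K : Subgroup G) * d ^ 2 := by
    rw [← Finset.sum_filter_add_sum_filter_not Finset.univ fun k : K => (k : G) ∈ charKer ψ,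
      Finset.sum_eq_zero (s := Finset.filter (fun k : K => ¬ (k : G) ∈ charKer ψ) _) fun k hk =>
        (h2 k).resolve_right fun e => (Finset.mem_filter.1 hk).2 (hψ.mem_charKer.2 e),
      Finset.sum_congr rfl fun k hk => hψ.mem_charKer.1 (Finset.mem_filter.1 hk).2, add_zero,
      Finset.sum_const, nsmul_eq_mul, hψ1, ← Fintype.card_subtype, ← Nat.card_eq_fintype_card,
      ← subgroupOf_map_subtype, card_map_of_injective K.subtype_injective]
    rfl
  have h5 : e ^ 2 * Nat.card K = Nat.card (charKer ψ ⊓ K : Subgroup G) * d ^ 2 := by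
    exact_mod_cast h3.symm.trans h4
  rcases hch (charKer ψ ⊓ K) inferInstance (le_inf (fun n hn => hψ.mem_charKer.2 (by
    simpa using cosetAvg_mul L _ hn 1)) hLK) inf_le_right with h6 | h6
  · right
    rw [h6, ← (L.subgroupOf K).index_mul_card, Nat.card_congr (subgroupOfEquivOfLe hLK).toEquiv]
      at h5
    refine Nat.eq_of_mul_eq_mul_left (Nat.card_pos (α := L)) ?_
    rw [← h5, relIndex]
    ring
  · left
    rw [h6, mul_comm] at h5
    exact (Nat.pow_left_injective two_ne_zero (Nat.eq_of_mul_eq_mul_left Nat.card_pos h5)).symm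

theorem factorization_relIndex_add {L K C : Subgroup G} (hLK : L ≤ K) (p : ℕ) :
    (L.relIndex (K ⊓ C)).factorization p + (C.relIndex K).factorization p =
      (C.relIndex L).factorization p + (L.relIndex K).factorization p := by
  have h1 := relIndex_mul_relIndex (L ⊓ C) (K ⊓ C) K (inf_le_inf_right _ hLK) inf_le_left
  have h2 := relIndex_mul_relIndex (L ⊓ C) L K inf_le_left hLK
  have h3 : (L ⊓ C).relIndex (K ⊓ C) = L.relIndex (K ⊓ C) := by
    rw [← inf_relIndex_right L, ← inf_assoc, inf_eq_left.2 hLK]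
  rw [h3, inf_relIndex_left] at h1
  rw [inf_relIndex_left, ← h1] at h2
  have := congrArg (fun n : ℕ => n.factorization p) h2
  have h0 : ∀ A B : Subgroup G, A.relIndex B ≠ 0 := fun A B => index_ne_zero_of_finite
  simp only [Nat.factorization_mul (h0 _ _) (h0 _ _), Finsupp.add_apply] at this
  exact this.symm

theorem IsPrim.exists_sum_bound (hs : Group.IsSolvable G) {χ : G → ℂ} (hχ : IsIrrCharacter G χ)
    (hp : IsPrim χ) (p : ℕ) [hpp : Fact p.Prime] (M : Subgroup G)
    (hM : ∀ (L K : Subgroup G) [L.Normal] [K.Normal], L ≤ K →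
      (∀ U : Subgroup G, U.Normal → L ≤ U → U ≤ K → U = L ∨ U = K) → p ∣ L.relIndex K →
      ∀ m ∈ M, ∀ k ∈ K, m * k * m⁻¹ * k⁻¹ ∈ L) (K : Subgroup G) :
    K.Normal → ∀ e, 0 < e → Ram χ K e → ∃ f : G → ℕ,
      (∀ g, ∀ m ∈ M, f g ≤ ((centralizer {g * m}).relIndex K).factorization p) ∧
      Nat.card G * (charDegree χ).factorization p ≤ ∑ g, f g + Nat.card G * e.factorization p := by
  classical
  induction K using WellFoundedLT.induction with
  | ind K ih =>
  intro hK e he hKe
  by_cases hK1 : K = ⊥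
  · subst hK1
    exact ⟨0, fun _ _ _ => Nat.zero_le _, by rw [hKe.eq_of_bot hχ.isCharacter]; simp⟩
  obtain ⟨L, -, ⟨hL, hLK⟩, hmax⟩ := Finite.exists_le_maximal
    (p := fun L : Subgroup G => L.Normal ∧ L < K) (a := ⊥) ⟨inferInstance, bot_lt_iff_ne_bot.2 hK1⟩
  have hch : ∀ U : Subgroup G, U.Normal → L ≤ U → U ≤ K → U = L ∨ U = K := fun U hU h1 h2 =>
    (h2.lt_or_eq).imp_left fun h => le_antisymm (hmax ⟨hU, h⟩ h1) h1
  obtain ⟨d, hd, hLd⟩ := hp.exists_ram hχ L
  obtain ⟨f, hf1, hf2⟩ := ih L hLK hL d hd hLd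
  let π := QuotientGroup.mk' L
  have hπ : Function.Surjective π := QuotientGroup.mk'_surjective L
  have hker : π.ker = L := QuotientGroup.ker_mk' L
  let N := K.map π
  haveI hN : N.Normal := hK.map π hπ
  have hri : ∀ X : Subgroup G, L.relIndex X = Nat.card (X.map π) := fun X => by
    rw [← relIndex_ker, hker]
  have hcN : Nat.card N = L.relIndex K := (hri K).symm
  have hmin : ∀ U : Subgroup (G ⧸ L), U.Normal → U ≤ N → U = ⊥ ∨ U = N := fun U hU h => by
    rcases hch (U.comap π) (hU.comap π) (hker.ge.trans (ker_le_comap π U))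
      ((comap_mono h).trans (comap_map_eq_self (hker.le.trans hLK.le)).le) with h | h
    · left; rw [← map_comap_eq_self_of_surjective hπ U, h, Subgroup.map_eq_bot_iff, hker]
    · right; rw [← map_comap_eq_self_of_surjective hπ U, h]
  have hN1 : N ≠ ⊥ := fun e => hLK.not_ge (((Subgroup.map_eq_bot_iff K).1 e).trans hker.le)
  obtain ⟨hc, q, hq, hNq⟩ := H1.elementary_of_minimal_normal inferInstance hN1 hmin
  have hab : ∀ a ∈ K, ∀ b ∈ K, a * b * a⁻¹ * b⁻¹ ∈ L := fun a ha b hb => by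
    refine hker.le (MonoidHom.mem_ker.2 ?_)
    simp only [map_mul, map_inv]
    rw [setLike_mul_comm (s := N) (mem_map_of_mem π ha) (mem_map_of_mem π hb)]
    group
  have h0 : ∀ A B : Subgroup G, A.relIndex B ≠ 0 := fun A B => index_ne_zero_of_finite
  have hle : ∀ g : G, ((centralizer {g}).relIndex L).factorization p ≤
      ((centralizer {g}).relIndex K).factorization p := fun g => by
    have h1 := factorization_relIndex_add (C := centralizer {g}) hLK.le p
    have h2 : L.relIndex (K ⊓ centralizer {g}) ∣ L.relIndex K := by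
      rw [hri, hri]
      exact card_dvd_of_le (map_mono inf_le_left)
    have h3 := (Nat.factorization_le_iff_dvd (h0 _ _) (h0 _ _)).2 h2 p
    omega
  have hgd := hp.going_down hχ hLK.le hch hab hLd hKe
  by_cases h1 : d.factorization p = e.factorization p
  · exact ⟨f, fun g m hm => (hf1 g m hm).trans (hle _), h1 ▸ hf2⟩
  have h2 : 2 * d.factorization p = (L.relIndex K).factorization p + 2 * e.factorization p := by
    have := congrArg (fun n : ℕ => n.factorization p) (hgd.resolve_left fun e => h1 (e ▸ rfl))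
    simpa [Nat.factorization_mul (h0 _ _) (pow_pos he 2).ne'] using this
  have hpd : p ∣ L.relIndex K := by
    by_contra h
    rw [Nat.factorization_eq_zero_of_not_dvd h] at h2
    omega
  obtain ⟨k, hk⟩ : ∃ k, Nat.card N = p ^ k := by
    haveI := Fact.mk hq
    obtain ⟨j, hj⟩ := IsPGroup.iff_card.1 (show IsPGroup q N from fun n =>
      ⟨1, Subtype.ext (by simpa using hNq n n.2)⟩)
    rw [← hcN, hj] at hpd
    rw [(Nat.prime_dvd_prime_iff_eq hpp.out hq).1 (hpp.out.dvd_of_dvd_pow hpd)]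
    exact ⟨j, hj⟩
  have hk' : (L.relIndex K).factorization p = k := by
    rw [← hcN, hk, hpp.out.factorization_pow, Finsupp.single_eq_same]
  have hnc : ¬ N ≤ center _ := fun h => by
    rw [← hcN, card_eq_prime_of_central N h hmin (hcN ▸ hpd), hpp.out.factorization_self] at h2
    omega
  haveI := Fintype.ofFinite (G ⧸ L)
  have h3 := prod_cent_sq_le (Group.isSolvable_of_surjective hπ) N hmin hk hnc
  have h4 : ∀ g : G ⧸ L, ∃ j, j ≤ k ∧ Nat.card (N ⊓ centralizer {g} : Subgroup _) = p ^ j :=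
    fun g => (Nat.dvd_prime_pow hpp.out).1 (hk ▸ card_dvd_of_le inf_le_left)
  choose j hjk hj using h4
  have h5 : 2 * ∑ g, j (π g) ≤ Nat.card G * k := by
    refine (Nat.pow_le_pow_iff_right hpp.out.one_lt).1 ?_
    calc p ^ (2 * ∑ g, j (π g)) = ∏ g, (p ^ j (π g)) ^ 2 := by
          rw [Finset.prod_pow, Finset.prod_pow_eq_pow_sum, ← pow_mul, mul_comm]
      _ = ∏ g : G ⧸ L, ((p ^ j g) ^ 2) ^ Nat.card L := by
          rw [prod_comp_hom π hπ fun g => (p ^ j g) ^ 2, hker]
      _ ≤ _ := by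
          rw [Finset.prod_pow, ← L.index_mul_card, mul_right_comm, pow_mul, mul_comm, pow_mul,
            ← hk]
          refine Nat.pow_le_pow_left ?_ _
          simpa only [hj, index] using h3
  refine ⟨fun g => f g + (k - j (π g)), fun g m hm => ?_, ?_⟩
  · have h6 := factorization_relIndex_add (C := centralizer {g * m}) hLK.le p
    have h7 : L.relIndex (K ⊓ centralizer {g * m}) ∣ p ^ j (π g) := by
      rw [← hj, hri]
      refine card_dvd_of_le ?_
      rintro _ ⟨x, ⟨hx1, hx2⟩, rfl⟩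
      refine ⟨⟨x, hx1, rfl⟩, mem_centralizer_singleton_iff.2 ?_⟩
      have h8 := MonoidHom.mem_ker.1 (hker.ge (hM L K hLK.le hch hpd m hm x hx1))
      simp only [map_mul, map_inv, mul_inv_eq_iff_eq_mul, one_mul] at h8
      have h9 := congrArg π (mem_centralizer_singleton_iff.1 hx2)
      simp only [map_mul] at h9
      rw [mul_assoc (π g), h8, ← mul_assoc, ← mul_assoc] at h9
      exact mul_right_cancel h9
    have h8 := (Nat.factorization_le_iff_dvd (h0 _ _) (pow_pos hpp.out.pos _).ne').2 h7 p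
    rw [hpp.out.factorization_pow, Finsupp.single_eq_same] at h8
    have := hf1 g m hm
    have := hjk (π g)
    dsimp only
    omega
  · have h6 : ∑ g, (k - j (π g)) + ∑ g, j (π g) = Nat.card G * k := by
      rw [← Finset.sum_add_distrib, Finset.sum_congr rfl fun g _ => Nat.sub_add_cancel (hjk (π g))]
      simp
    rw [Finset.sum_add_distrib]
    rw [hk'] at h2
    have h7 := congrArg (Nat.card G * ·) h2
    simp only [mul_add, mul_left_comm _ 2] at h7
    omega

theorem IsPrim.exists_le_class (hs : Group.IsSolvable G) {χ : G → ℂ} (hχ : IsIrrCharacter G χ)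
    (hp : IsPrim χ) (p : ℕ) [hpp : Fact p.Prime] (M : Subgroup G)
    (hM : ∀ (L K : Subgroup G) [L.Normal] [K.Normal], L ≤ K →
      (∀ U : Subgroup G, U.Normal → L ≤ U → U ≤ K → U = L ∨ U = K) → p ∣ L.relIndex K →
      ∀ m ∈ M, ∀ k ∈ K, m * k * m⁻¹ * k⁻¹ ∈ L) :
    ∃ g, ∀ m ∈ M, (charDegree χ).factorization p ≤ (centralizer {g * m}).index.factorization p := by
  obtain ⟨f, h1, h2⟩ := hp.exists_sum_bound hs hχ p M hM ⊤ inferInstance 1 one_pos (ram_top hχ)
  obtain ⟨g, -, hg⟩ := Finset.exists_le_of_sum_le (s := Finset.univ) Finset.univ_nonempty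
    (f := fun _ => (charDegree χ).factorization p) (g := f) (by simpa using h2)
  exact ⟨g, fun m hm => hg.trans (relIndex_top_right (centralizer {g * m}) ▸ h1 g m hm)⟩

theorem IsPrim.exists_le_class' (hs : Group.IsSolvable G) {χ : G → ℂ} (hχ : IsIrrCharacter G χ)
    (hp : IsPrim χ) (p : ℕ) [hpp : Fact p.Prime] :
    ∃ g : G, (charDegree χ).factorization p ≤ (centralizer {g}).index.factorization p := by
  obtain ⟨g, hg⟩ := hp.exists_le_class hs hχ p ⊥ fun L K _ _ _ _ _ m hm k _ => by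
    simp [mem_bot.1 hm]
  exact ⟨g * 1, hg 1 (one_mem _)⟩

theorem IsPrim.exists_le_class_fit (hs : Group.IsSolvable G) {χ : G → ℂ} (hχ : IsIrrCharacter G χ)
    (hp : IsPrim χ) (p : ℕ) [hpp : Fact p.Prime] (M : Subgroup G) [hM : M.Normal]
    (hMF : ∀ m ∈ M, ∃ j : ℕ, m ^ p ^ j ∈ fittingSubgroup G) :
    ∃ g, ∀ m ∈ M, (charDegree χ).factorization p ≤ (centralizer {g * m}).index.factorization p := by
  refine hp.exists_le_class hs hχ p M fun L K hL hK hLK hch hpd m hm k hk => ?_
  let π := QuotientGroup.mk' L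
  have hπ : Function.Surjective π := QuotientGroup.mk'_surjective L
  have hker : π.ker = L := QuotientGroup.ker_mk' L
  let N := K.map π
  haveI hN : N.Normal := hK.map π hπ
  have hcN : Nat.card N = L.relIndex K := by rw [← relIndex_ker, hker]
  have hmin : ∀ U : Subgroup (G ⧸ L), U.Normal → U ≤ N → U = ⊥ ∨ U = N := fun U hU h => by
    rcases hch (U.comap π) (hU.comap π) (hker.ge.trans (ker_le_comap π U))
      ((comap_mono h).trans (comap_map_eq_self (hker.le.trans hLK)).le) with h | h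
    · left; rw [← map_comap_eq_self_of_surjective hπ U, h, Subgroup.map_eq_bot_iff, hker]
    · right; rw [← map_comap_eq_self_of_surjective hπ U, h]
  have hN1 : N ≠ ⊥ := fun e => by
    rw [← hcN, e, card_bot, Nat.dvd_one] at hpd
    exact hpp.out.ne_one hpd
  obtain ⟨hc, q, hq, hNq⟩ := H1.elementary_of_minimal_normal inferInstance hN1 hmin
  obtain ⟨j, hj⟩ : ∃ k, Nat.card N = p ^ k := by
    haveI := Fact.mk hq
    obtain ⟨j, hj⟩ := IsPGroup.iff_card.1 (show IsPGroup q N from fun n =>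
      ⟨1, Subtype.ext (by simpa using hNq n n.2)⟩)
    rw [← hcN, hj] at hpd
    rw [(Nat.prime_dvd_prime_iff_eq hpp.out hq).1 (hpp.out.dvd_of_dvd_pow hpd)]
    exact ⟨j, hj⟩
  have h1 : N ≤ centralizer (fittingSubgroup (G ⧸ L) : Set (G ⧸ L)) := by
    obtain ⟨x, hx, hx1, h⟩ := H1.exists_central_mod (L := fittingSubgroup (G ⧸ L)) (C := N) (N := ⊥)
      inferInstance (H1.le_fittingSubgroup hN H1.isNilpotent_of_isMulCommutative)
      (by rw [normalizer_eq_top]; exact le_top) (fun e => hN1 (eq_bot_iff.2 e))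
    refine inf_eq_left.1 ((hmin _ inferInstance inf_le_left).resolve_left fun e => hx1 ?_)
    rw [← e]
    exact ⟨hx, fun g hg => (commutatorElement_eq_one_iff_mul_comm.1 (mem_bot.1 (h g hg))).symm⟩
  haveI := hM.map π hπ
  have h2 := le_centralizer_of_pow N hmin hj (M.map π) (by
    rintro _ ⟨m, hm, rfl⟩
    obtain ⟨i, hi⟩ := hMF m hm
    refine ⟨i, le_centralizer_iff.1 h1 ?_⟩
    rw [← map_pow]
    exact H1.map_fittingSubgroup_le hπ ⟨_, hi, rfl⟩) (mem_map_of_mem π hm) _ (mem_map_of_mem π hk)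
  refine hker.le (MonoidHom.mem_ker.2 ?_)
  simp only [map_mul, map_inv]
  rw [← h2]
  group

end Down

end Cfsg.Agent.H4
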